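import Mathlib
import Cfsg.Prelude.Def_G2

/-!
# The group `G₂(F)` of automorphisms of Zorn's vector-matrix algebra: basic interface (helper81)

`act g x` is the action of `g` on `F⁸`; `exists_of_fun` builds an element of `G₂(F)` from an
explicit linear bijection respecting the product.  The explicit maps `fS`, `fX`, `fA`, `fB` are
the polynomial formulas of the automorphisms used later.
-/

set_option autoImplicit false
set_option linter.unusedSectionVars false
set_option linter.unusedVariables false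

namespace Cfsg.Agent.Lib.Helper81.G2Base

open Cfsg Cfsg.Lie Matrix

variable {F : Type*} [Field F]

/-- The action of `G₂(F)` on `F⁸`. -/
def act (g : Lie.G2 F) (x : Fin 8 → F) : Fin 8 → F :=
  ((g : GL (Fin 8) F) : Matrix (Fin 8) (Fin 8) F) *ᵥ x

theorem act_one (x : Fin 8 → F) : act (1 : Lie.G2 F) x = x := by
  simp [act]

theorem act_mul (g h : Lie.G2 F) (x : Fin 8 → F) : act (g * h) x = act g (act h x) := by
  simp [act, Matrix.mulVec_mulVec]

theorem act_zornMul (g : Lie.G2 F) (x y : Fin 8 → F) :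
    act g (zornMul x y) = zornMul (act g x) (act g y) :=
  g.2 x y

theorem act_add (g : Lie.G2 F) (x y : Fin 8 → F) : act g (x + y) = act g x + act g y :=
  Matrix.mulVec_add _ _ _

theorem act_smul (g : Lie.G2 F) (c : F) (x : Fin 8 → F) : act g (c • x) = c • act g x :=
  Matrix.mulVec_smul _ _ _

theorem act_zero (g : Lie.G2 F) : act g (0 : Fin 8 → F) = 0 :=
  Matrix.mulVec_zero _

theorem act_inv_act (g : Lie.G2 F) (x : Fin 8 → F) : act g⁻¹ (act g x) = x := by
  rw [← act_mul, inv_mul_cancel, act_one]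

theorem act_act_inv (g : Lie.G2 F) (x : Fin 8 → F) : act g (act g⁻¹ x) = x := by
  rw [← act_mul, mul_inv_cancel, act_one]

theorem act_injective (g : Lie.G2 F) : Function.Injective (act g) := by
  intro x y h
  rw [← act_inv_act g x, h, act_inv_act]

/-- An element of `G₂(F)` is determined by its action. -/
theorem ext_act {g h : Lie.G2 F} (H : ∀ x, act g x = act h x) : g = h := by
  apply Subtype.ext
  apply Units.ext
  apply Matrix.toLin'.injective
  apply LinearMap.ext
  intro x
  exact H x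

/-- A linear map with a right inverse respecting Zorn's product is the action of an element of
`G₂(F)`. -/
theorem exists_of_fun (f f' : (Fin 8 → F) → (Fin 8 → F))
    (hadd : ∀ x y, f (x + y) = f x + f y) (hsmul : ∀ (c : F) x, f (c • x) = c • f x)
    (hinv : ∀ x, f (f' x) = x) (hmul : ∀ x y, f (zornMul x y) = zornMul (f x) (f y)) :
    ∃ g : Lie.G2 F, ∀ x, act g x = f x := by
  classical
  let L : (Fin 8 → F) →ₗ[F] (Fin 8 → F) :=
    { toFun := f, map_add' := hadd, map_smul' := hsmul }
  have hsurj : Function.Surjective L := fun x => ⟨f' x, hinv x⟩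
  have hinj : Function.Injective L := LinearMap.injective_iff_surjective.mpr hsurj
  let e : (Fin 8 → F) ≃ₗ[F] (Fin 8 → F) := LinearEquiv.ofBijective L ⟨hinj, hsurj⟩
  let M : Matrix (Fin 8) (Fin 8) F := LinearMap.toMatrix' L
  let M' : Matrix (Fin 8) (Fin 8) F := LinearMap.toMatrix' (e.symm : (Fin 8 → F) →ₗ[F] (Fin 8 → F))
  have h1 : M * M' = 1 := by
    rw [← LinearMap.toMatrix'_comp, ← LinearMap.toMatrix'_id]
    congr 1
    apply LinearMap.ext
    intro x
    exact e.apply_symm_apply x
  have h2 : M' * M = 1 := by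
    rw [← LinearMap.toMatrix'_comp, ← LinearMap.toMatrix'_id]
    congr 1
    apply LinearMap.ext
    intro x
    exact e.symm_apply_apply x
  let g : GL (Fin 8) F := ⟨M, M', h1, h2⟩
  have hg : ∀ x, M *ᵥ x = f x := by
    intro x
    have := LinearMap.toMatrix'_mulVec L x
    exact this
  refine ⟨⟨g, ?_⟩, ?_⟩
  · intro x y
    show M *ᵥ zornMul x y = zornMul (M *ᵥ x) (M *ᵥ y)
    rw [hg, hg, hg, hmul]
  · intro x
    exact hg x

/-- The identity of Zorn's algebra. -/
def one8 : Fin 8 → F := ![1, 0, 0, 0, 0, 0, 0, 1]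

/-- The idempotent `[[1, 0], [0, 0]]`. -/
def e0 : Fin 8 → F := ![1, 0, 0, 0, 0, 0, 0, 0]

/-- The swap automorphism `(α, a, b, β) ↦ (β, -b, -a, α)`. -/
def fS (x : Fin 8 → F) : Fin 8 → F := ![x 7, -x 4, -x 5, -x 6, -x 1, -x 2, -x 3, x 0]

/-- The root automorphism `(α, a, b, β) ↦ (α - u·b, a + (α - β) u - (u·b) u, b + u × a, β + u·b)`. -/
def fX (u : Fin 3 → F) (x : Fin 8 → F) : Fin 8 → F :=
  ![x 0 - (u 0 * x 4 + u 1 * x 5 + u 2 * x 6),
    x 1 + (x 0 - x 7) * u 0 - (u 0 * x 4 + u 1 * x 5 + u 2 * x 6) * u 0,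
    x 2 + (x 0 - x 7) * u 1 - (u 0 * x 4 + u 1 * x 5 + u 2 * x 6) * u 1,
    x 3 + (x 0 - x 7) * u 2 - (u 0 * x 4 + u 1 * x 5 + u 2 * x 6) * u 2,
    x 4 + (u 1 * x 3 - u 2 * x 2),
    x 5 + (u 2 * x 1 - u 0 * x 3),
    x 6 + (u 0 * x 2 - u 1 * x 1),
    x 7 + (u 0 * x 4 + u 1 * x 5 + u 2 * x 6)]

/-- `p m adj(p)` on the quaternion subalgebra `m = [[x 0, x 1], [x 4, x 7]]` and on the
complement `Y = [[x 2, x 6], [x 3, - x 5]]`, for `p = [[p1, p2], [p3, p4]]`. -/
def fA (p1 p2 p3 p4 : F) (x : Fin 8 → F) : Fin 8 → F :=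
  ![(p1 * x 0 + p2 * x 4) * p4 - (p1 * x 1 + p2 * x 7) * p3,
    -((p1 * x 0 + p2 * x 4) * p2) + (p1 * x 1 + p2 * x 7) * p1,
    (p1 * x 2 + p2 * x 3) * p4 - (p1 * x 6 - p2 * x 5) * p3,
    (p3 * x 2 + p4 * x 3) * p4 - (p3 * x 6 - p4 * x 5) * p3,
    (p3 * x 0 + p4 * x 4) * p4 - (p3 * x 1 + p4 * x 7) * p3,
    (p3 * x 2 + p4 * x 3) * p2 - (p3 * x 6 - p4 * x 5) * p1,
    -((p1 * x 2 + p2 * x 3) * p2) + (p1 * x 6 - p2 * x 5) * p1,
    -((p3 * x 0 + p4 * x 4) * p2) + (p3 * x 1 + p4 * x 7) * p1]

/-- `Y ↦ c Y` on the complement, identity on the quaternion subalgebra. -/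
def fB (c1 c2 c3 c4 : F) (x : Fin 8 → F) : Fin 8 → F :=
  ![x 0, x 1, c1 * x 2 + c2 * x 3, c3 * x 2 + c4 * x 3, x 4, c4 * x 5 - c3 * x 6,
    c1 * x 6 - c2 * x 5, x 7]

theorem zornMul_one8 (x : Fin 8 → F) : zornMul x one8 = x := by
  ext i
  fin_cases i <;> simp [one8, zornMul, dot3, cross3, zA, zB]

theorem one8_zornMul (x : Fin 8 → F) : zornMul one8 x = x := by
  ext i
  fin_cases i <;> simp [one8, zornMul, dot3, cross3, zA, zB]

/-- Automorphisms fix the identity. -/
theorem act_one8 (g : Lie.G2 F) : act g (one8 : Fin 8 → F) = one8 := by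
  have h1 : zornMul (act g one8) (act g (act g⁻¹ one8)) = act g (act g⁻¹ one8) := by
    rw [← act_zornMul, one8_zornMul]
  rw [act_act_inv, zornMul_one8] at h1
  exact h1

/-- The stabiliser of the idempotent `e0`. -/
def stab0 : Subgroup (Lie.G2 F) where
  carrier := {g | act g e0 = e0}
  mul_mem' := by
    intro g h hg hh
    show act (g * h) e0 = e0
    rw [act_mul, show act h e0 = e0 from hh, show act g e0 = e0 from hg]
  one_mem' := act_one e0
  inv_mem' := by
    intro g hg
    show act g⁻¹ e0 = e0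
    have h1 : act g⁻¹ (act g e0) = e0 := act_inv_act g e0
    rwa [show act g e0 = e0 from hg] at h1

theorem mem_stab0 (g : Lie.G2 F) : g ∈ stab0 ↔ act g e0 = e0 := Iff.rfl

/-- The block map `(α, a, b, β) ↦ (α, M a, N b, β)`. -/
def fL (M N : Matrix (Fin 3) (Fin 3) F) (x : Fin 8 → F) : Fin 8 → F :=
  ![x 0,
    M 0 0 * x 1 + M 0 1 * x 2 + M 0 2 * x 3,
    M 1 0 * x 1 + M 1 1 * x 2 + M 1 2 * x 3,
    M 2 0 * x 1 + M 2 1 * x 2 + M 2 2 * x 3,
    N 0 0 * x 4 + N 0 1 * x 5 + N 0 2 * x 6,
    N 1 0 * x 4 + N 1 1 * x 5 + N 1 2 * x 6,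
    N 2 0 * x 4 + N 2 1 * x 5 + N 2 2 * x 6,
    x 7]

/-- The idempotents other than `0` and `1`. -/
def idem : Set (Fin 8 → F) := {e | zornMul e e = e ∧ e ≠ 0 ∧ e ≠ one8}

theorem mem_idem_iff (e : Fin 8 → F) :
    e ∈ idem ↔ e 7 = 1 - e 0 ∧ e 0 * (1 - e 0) = e 1 * e 4 + e 2 * e 5 + e 3 * e 6 := by
  constructor
  · rintro ⟨h, h0, h1⟩
    have c0 := congrFun h 0
    have c1 := congrFun h 1
    have c2 := congrFun h 2
    have c3 := congrFun h 3
    have c4 := congrFun h 4
    have c5 := congrFun h 5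
    have c6 := congrFun h 6
    have c7 := congrFun h 7
    simp [zornMul, dot3, cross3, zA, zB] at c0 c1 c2 c3 c4 c5 c6 c7
    by_cases hs : e 0 + e 7 = 1
    · refine ⟨by linear_combination hs, ?_⟩
      linear_combination -c0
    · exfalso
      have hs' : e 0 + e 7 - 1 ≠ 0 := fun h' => hs (by linear_combination h')
      have z1 : e 1 = 0 := by
        have : (e 0 + e 7 - 1) * e 1 = 0 := by linear_combination c1
        exact (mul_eq_zero.1 this).resolve_left hs'
      have z2 : e 2 = 0 := by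
        have : (e 0 + e 7 - 1) * e 2 = 0 := by linear_combination c2
        exact (mul_eq_zero.1 this).resolve_left hs'
      have z3 : e 3 = 0 := by
        have : (e 0 + e 7 - 1) * e 3 = 0 := by linear_combination c3
        exact (mul_eq_zero.1 this).resolve_left hs'
      have z4 : e 4 = 0 := by
        have : (e 0 + e 7 - 1) * e 4 = 0 := by linear_combination c4
        exact (mul_eq_zero.1 this).resolve_left hs'
      have z5 : e 5 = 0 := by
        have : (e 0 + e 7 - 1) * e 5 = 0 := by linear_combination c5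
        exact (mul_eq_zero.1 this).resolve_left hs'
      have z6 : e 6 = 0 := by
        have : (e 0 + e 7 - 1) * e 6 = 0 := by linear_combination c6
        exact (mul_eq_zero.1 this).resolve_left hs'
      have a0 : e 0 * (e 0 - 1) = 0 := by
        rw [z1, z2, z3] at c0
        linear_combination c0
      have a7 : e 7 * (e 7 - 1) = 0 := by
        rw [z1, z2, z3] at c7
        linear_combination c7
      rcases mul_eq_zero.1 a0 with h00 | h01
      · rcases mul_eq_zero.1 a7 with h70 | h71
        · apply h0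
          ext i
          fin_cases i <;> simp [h00, z1, z2, z3, z4, z5, z6, h70]
        · apply hs
          rw [h00]
          linear_combination h71
      · rcases mul_eq_zero.1 a7 with h70 | h71
        · apply hs
          rw [h70]
          linear_combination h01
        · apply h1
          have h01' : e 0 = 1 := by linear_combination h01
          have h71' : e 7 = 1 := by linear_combination h71
          ext i
          fin_cases i <;> simp [one8, h01', z1, z2, z3, z4, z5, z6, h71']
  · rintro ⟨h7, hq⟩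
    refine ⟨?_, ?_, ?_⟩
    · ext i
      fin_cases i <;> simp [zornMul, dot3, cross3, zA, zB, h7]
      · linear_combination -hq
      · ring
      · ring
      · ring
      · ring
      · ring
      · ring
      · linear_combination -hq
    · intro h
      have h0 := congrFun h 0
      have h7' := congrFun h 7
      rw [h7, h0] at h7'
      simp at h7'
    · intro h
      have h0 := congrFun h 0
      have h7' := congrFun h 7
      rw [h7, h0] at h7'
      simp [one8] at h7'

end Cfsg.Agent.Lib.Helper81.G2Base
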