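import Mathlib
import Cfsg.Agent.Lib.Helper81.SqDer

/-!
# Kernels of homomorphisms to abelian groups: squares and commutators (helper81)

For `δ : T →* A` with `A` commutative, `SD δ` says that every square of an element of `ker δ` lies
in the derived subgroup of `ker δ`, and `JD δ` the weaker statement with `⁅ker δ, T⁆`.  The weak
property for `δ` gives the strong one for the induced homomorphism on `T ≀ C₂`, and the strong
property passes to direct products when kernel elements split through pairs of involutions.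
-/

set_option autoImplicit false

namespace Cfsg.Agent.Lib.Helper81.DeltaGrp

open Cfsg.Agent.Lib.Helper81.SqD RegularWreathProduct

open scoped commutatorElement

section Basic

variable {T A : Type*} [Group T] [CommGroup A]

/-- Squares of kernel elements lie in `⁅ker δ, T⁆`. -/
def JD (δ : T →* A) : Prop := ∀ u ∈ δ.ker, u ^ 2 ∈ ⁅δ.ker, (⊤ : Subgroup T)⁆

/-- Squares of kernel elements lie in the derived subgroup of the kernel. -/
def SD (δ : T →* A) : Prop := ∀ u ∈ δ.ker, u ^ 2 ∈ ⁅δ.ker, δ.ker⁆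

theorem SD.jd {δ : T →* A} (h : SD δ) : JD δ :=
  fun u hu => Subgroup.commutator_mono le_rfl le_top (h u hu)

/-- The elements of `H` whose square lies in `⁅H, H⁆`. -/
def sqSubOf (H : Subgroup T) : Subgroup T where
  carrier := {x | x ∈ H ∧ x ^ 2 ∈ ⁅H, H⁆}
  one_mem' := ⟨H.one_mem, by rw [one_pow]; exact Subgroup.one_mem _⟩
  mul_mem' := by
    rintro x y ⟨hx, hx2⟩ ⟨hy, hy2⟩
    refine ⟨H.mul_mem hx hy, ?_⟩
    have h1 : (x * y) ^ 2 = x ^ 2 * ⁅x⁻¹, y⁆ * y ^ 2 := by
      simp only [pow_two, commutatorElement_def]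
      group
    rw [h1]
    exact Subgroup.mul_mem _ (Subgroup.mul_mem _ hx2
      (Subgroup.commutator_mem_commutator (H.inv_mem hx) hy)) hy2
  inv_mem' := by
    rintro x ⟨hx, hx2⟩
    refine ⟨H.inv_mem hx, ?_⟩
    have h1 : (x⁻¹) ^ 2 = (x ^ 2)⁻¹ := by group
    rw [h1]
    exact Subgroup.inv_mem _ hx2

theorem mem_sqSubOf {H : Subgroup T} {x : T} : x ∈ sqSubOf H ↔ x ∈ H ∧ x ^ 2 ∈ ⁅H, H⁆ :=
  Iff.rfl

/-- Generators with squares in the derived subgroup. -/
theorem sqSub_of_gens (H : Subgroup T) (S : Set T) (hS : S ⊆ H) (hgen : H ≤ Subgroup.closure S)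
    (hsq : ∀ s ∈ S, s ^ 2 ∈ ⁅H, H⁆) : ∀ u ∈ H, u ^ 2 ∈ ⁅H, H⁆ := by
  intro u hu
  have h1 : Subgroup.closure S ≤ sqSubOf H := by
    rw [Subgroup.closure_le]
    intro s hs
    exact ⟨hS hs, hsq s hs⟩
  exact (h1 (hgen hu)).2

theorem SD_of_gens (δ : T →* A) (S : Set T) (hS : S ⊆ δ.ker)
    (hgen : δ.ker ≤ Subgroup.closure S) (hsq : ∀ s ∈ S, s ^ 2 ∈ ⁅δ.ker, δ.ker⁆) : SD δ :=
  sqSub_of_gens δ.ker S hS hgen hsq

theorem sqDer_of_sub (H : Subgroup T) (h : ∀ u ∈ H, u ^ 2 ∈ ⁅H, H⁆) : SqDer H := by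
  intro x
  have h1 := h x.1 x.2
  rw [← Subgroup.map_subtype_commutator] at h1
  obtain ⟨y, hy, hxy⟩ := h1
  have h2 : y = x ^ 2 := Subtype.ext hxy
  rw [← h2]
  exact hy

theorem sub_of_sqDer (H : Subgroup T) (h : SqDer H) : ∀ u ∈ H, u ^ 2 ∈ ⁅H, H⁆ := by
  intro u hu
  rw [← Subgroup.map_subtype_commutator]
  exact ⟨(⟨u, hu⟩ : H) ^ 2, h ⟨u, hu⟩, rfl⟩

theorem SD.sqDer {δ : T →* A} (h : SD δ) : SqDer δ.ker := sqDer_of_sub δ.ker h

end Basic

section Wreath

variable {T A : Type*} [Group T] [CommGroup A]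

/-- The product of the values of `δ` over the coordinates. -/
def wrDelta (δ : T →* A) (Q : Type*) [Group Q] [Fintype Q] : T ≀ᵣ Q →* A where
  toFun a := ∏ q, δ (a.left q)
  map_one' := by simp
  map_mul' a b := by
    rw [RegularWreathProduct.mul_left]
    simp only [Pi.mul_apply, map_mul, Finset.prod_mul_distrib]
    congr 1
    exact Fintype.prod_equiv (Equiv.mulLeft a.right⁻¹) _ _ (fun x => rfl)

theorem wrDelta_apply (δ : T →* A) (Q : Type*) [Group Q] [Fintype Q] (a : T ≀ᵣ Q) :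
    wrDelta δ Q a = ∏ q, δ (a.left q) := rfl

/-- The coordinate embeddings. -/
def coordHom (T : Type*) [Group T] {Q : Type*} [Group Q] [DecidableEq Q] (q : Q) : T →* T ≀ᵣ Q :=
  (baseHom T Q).comp (MonoidHom.mulSingle (fun _ : Q => T) q)

theorem coordHom_left {Q : Type*} [Group Q] [DecidableEq Q] (q : Q) (x : T) :
    (coordHom T q x).left = Pi.mulSingle q x := rfl

theorem coordHom_right {Q : Type*} [Group Q] [DecidableEq Q] (q : Q) (x : T) :
    (coordHom T q x).right = 1 := rfl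

theorem wrDelta_inl {Q : Type*} [Group Q] [Fintype Q] (δ : T →* A) (t : Q) :
    wrDelta δ Q (inl t : T ≀ᵣ Q) = 1 := by
  rw [wrDelta_apply]
  simp

variable {Q : Type*} [Group Q] [Fintype Q] [DecidableEq Q]

theorem wrDelta_coordHom (δ : T →* A) (q : Q) (x : T) : wrDelta δ Q (coordHom T q x) = δ x := by
  rw [wrDelta_apply, Fintype.prod_eq_single q]
  · rw [coordHom_left, Pi.mulSingle_eq_same]
  · intro q' hq'
    rw [coordHom_left, Pi.mulSingle_eq_of_ne hq', map_one]

omit [Fintype Q] in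
theorem inl_mul_coordHom (t q : Q) (x : T) :
    (inl t : T ≀ᵣ Q) * coordHom T q x = coordHom T (t * q) x * inl t := by
  apply RegularWreathProduct.ext
  · funext y
    rw [RegularWreathProduct.mul_left, RegularWreathProduct.mul_left]
    simp only [Pi.mul_apply, coordHom_left, coordHom_right, left_inl, right_inl, Pi.one_apply,
      one_mul, mul_one, Pi.mulSingle_apply]
    by_cases h : y = t * q
    · rw [if_pos h, if_pos (by rw [h, inv_mul_cancel_left])]
    · rw [if_neg h, if_neg (fun h' => h (by rw [← h', mul_inv_cancel_left]))]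
  · rw [RegularWreathProduct.mul_right, RegularWreathProduct.mul_right, coordHom_right,
      coordHom_right, right_inl, mul_one, one_mul]

omit [Fintype Q] in
theorem coordHom_commute {q q' : Q} (h : q ≠ q') (x y : T) :
    Commute (coordHom T q x) (coordHom T q' y) := by
  have h1 : Commute (Pi.mulSingle q x : Q → T) (Pi.mulSingle q' y) :=
    Pi.mulSingle_commute (f := fun _ : Q => T) h x y
  exact h1.map (baseHom T Q)

end Wreath

section WreathTwo

variable {T A : Type*} [Group T] [CommGroup A]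

local notation "C₂" => Multiplicative (ZMod 2)

theorem c2_cases : ∀ q : C₂, q = 1 ∨ q = Multiplicative.ofAdd 1 := by decide

theorem c2_ne : (Multiplicative.ofAdd 1 : C₂) ≠ 1 := by decide

theorem c2_sq : (Multiplicative.ofAdd 1 : C₂) * Multiplicative.ofAdd 1 = 1 := by decide

theorem wr_decomp (a : T ≀ᵣ C₂) :
    a = coordHom T (1 : C₂) (a.left 1) *
      coordHom T (Multiplicative.ofAdd 1 : C₂) (a.left (Multiplicative.ofAdd 1)) *
      inl a.right := by
  have h1 : a.left = Pi.mulSingle (1 : C₂) (a.left 1) *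
      Pi.mulSingle (Multiplicative.ofAdd 1 : C₂) (a.left (Multiplicative.ofAdd 1)) := by
    funext q
    rcases c2_cases q with rfl | rfl
    · rw [Pi.mul_apply, Pi.mulSingle_eq_same, Pi.mulSingle_eq_of_ne c2_ne.symm, mul_one]
    · rw [Pi.mul_apply, Pi.mulSingle_eq_same, Pi.mulSingle_eq_of_ne c2_ne, one_mul]
  have h2 : coordHom T (1 : C₂) (a.left 1) *
      coordHom T (Multiplicative.ofAdd 1 : C₂) (a.left (Multiplicative.ofAdd 1)) =
      baseHom T C₂ a.left := by
    rw [coordHom, coordHom, MonoidHom.comp_apply, MonoidHom.comp_apply, ← map_mul]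
    congr 1
    exact h1.symm
  rw [h2, baseHom_mul_inl]

theorem wrDelta_two (δ : T →* A) (a : T ≀ᵣ C₂) :
    wrDelta δ C₂ a = δ (a.left 1) * δ (a.left (Multiplicative.ofAdd 1)) := by
  conv_lhs => rw [wr_decomp a]
  rw [map_mul, map_mul, wrDelta_coordHom, wrDelta_coordHom, wrDelta_inl, mul_one]

/-- The weak property for `δ` gives the strong property on the wreath product with `C₂`. -/
theorem wrDelta_SD (δ : T →* A) (h : JD δ) : SD (wrDelta δ C₂) := by
  obtain ⟨τ, hτ⟩ : ∃ τ : C₂, τ = Multiplicative.ofAdd 1 := ⟨_, rfl⟩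
  have hτ1 : τ ≠ 1 := by rw [hτ]; exact c2_ne
  have hττ : τ * τ = 1 := by rw [hτ]; exact c2_sq
  have hcases : ∀ q : C₂, q = 1 ∨ q = τ := by rw [hτ]; exact c2_cases
  -- the three kinds of generators
  have hg1 : ∀ (q : C₂) (u : T), u ∈ δ.ker → coordHom T q u ∈ (wrDelta δ C₂).ker := by
    intro q u hu
    rw [MonoidHom.mem_ker, wrDelta_coordHom]
    exact hu
  have hg2 : ∀ x : T, coordHom T (1 : C₂) x * coordHom T τ x⁻¹ ∈ (wrDelta δ C₂).ker := by
    intro x
    rw [MonoidHom.mem_ker, map_mul, wrDelta_coordHom, wrDelta_coordHom, ← map_mul,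
      mul_inv_cancel, map_one]
  have hg3 : ∀ t : C₂, (inl t : T ≀ᵣ C₂) ∈ (wrDelta δ C₂).ker := by
    intro t
    rw [MonoidHom.mem_ker, wrDelta_inl]
  apply SD_of_gens (wrDelta δ C₂)
    ({a | ∃ (q : C₂) (u : T), u ∈ δ.ker ∧ a = coordHom T q u} ∪
      {a | ∃ x : T, a = coordHom T (1 : C₂) x * coordHom T τ x⁻¹} ∪ {inl τ})
  · rintro a ((⟨q, u, hu, rfl⟩ | ⟨x, rfl⟩) | rfl)
    · exact hg1 q u hu
    · exact hg2 x
    · exact hg3 τ
  · intro a ha
    have hdec := wr_decomp a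
    rw [← hτ] at hdec
    have hval : δ (a.left 1) * δ (a.left τ) = 1 := by
      have h1 := wrDelta_two δ a
      rw [← hτ] at h1
      rw [← h1]
      exact ha
    have h3 : coordHom T τ (a.left τ) =
        coordHom T τ (a.left 1)⁻¹ * coordHom T τ (a.left 1 * a.left τ) := by
      rw [← map_mul, inv_mul_cancel_left]
    rw [hdec, h3, ← mul_assoc]
    refine Subgroup.mul_mem _ (Subgroup.mul_mem _ ?_ ?_) ?_
    · exact Subgroup.subset_closure (Or.inl (Or.inr ⟨a.left 1, rfl⟩))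
    · refine Subgroup.subset_closure (Or.inl (Or.inl ⟨τ, _, ?_, rfl⟩))
      rw [MonoidHom.mem_ker, map_mul]
      exact hval
    · rcases hcases a.right with h1 | h1
      · rw [h1, map_one]
        exact Subgroup.one_mem _
      · rw [h1]
        exact Subgroup.subset_closure (Or.inr rfl)
  · rintro a ((⟨q, u, hu, rfl⟩ | ⟨x, rfl⟩) | rfl)
    · rw [← map_pow]
      have h1 : ⁅δ.ker, (⊤ : Subgroup T)⁆ ≤
          (⁅(wrDelta δ C₂).ker, (wrDelta δ C₂).ker⁆).comap (coordHom T q) := by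
        rw [Subgroup.commutator_le]
        intro g₁ hg₁ g₂ _
        rw [Subgroup.mem_comap, map_commutatorElement]
        obtain ⟨q', hq'⟩ : ∃ q' : C₂, q ≠ q' := by
          rcases hcases q with rfl | rfl
          · exact ⟨τ, hτ1.symm⟩
          · exact ⟨1, hτ1⟩
        have hc : Commute (coordHom T q g₁) (coordHom T q' g₂⁻¹) := coordHom_commute hq' _ _
        have h2 : ⁅coordHom T q g₁, coordHom T q g₂⁆ =
            ⁅coordHom T q g₁, coordHom T q g₂ * coordHom T q' g₂⁻¹⁆ := by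
          rw [commutatorElement_def, commutatorElement_def, mul_inv_rev]
          have h3 : coordHom T q g₁ * (coordHom T q g₂ * coordHom T q' g₂⁻¹) *
              (coordHom T q g₁)⁻¹ * ((coordHom T q' g₂⁻¹)⁻¹ * (coordHom T q g₂)⁻¹) =
              coordHom T q g₁ * coordHom T q g₂ *
              (coordHom T q' g₂⁻¹ * (coordHom T q g₁)⁻¹ * (coordHom T q' g₂⁻¹)⁻¹) *
              (coordHom T q g₂)⁻¹ := by group
          rw [h3, hc.symm.inv_right.eq]
          group
        rw [h2]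
        refine Subgroup.commutator_mem_commutator (hg1 q g₁ hg₁) ?_
        rw [MonoidHom.mem_ker, map_mul, wrDelta_coordHom, wrDelta_coordHom, ← map_mul,
          mul_inv_cancel, map_one]
      exact h1 (h u hu)
    · obtain ⟨b, hb⟩ : ∃ b : T ≀ᵣ C₂, b = coordHom T (1 : C₂) x * coordHom T τ x⁻¹ := ⟨_, rfl⟩
      rw [← hb]
      have hbinv : b⁻¹ = coordHom T τ x * coordHom T (1 : C₂) x⁻¹ := by
        rw [hb, mul_inv_rev, ← map_inv, ← map_inv, inv_inv]
      have h1 : (inl τ : T ≀ᵣ C₂) * b⁻¹ = b * inl τ := by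
        rw [hbinv, ← mul_assoc, inl_mul_coordHom, mul_assoc, inl_mul_coordHom, hττ, mul_one,
          ← mul_assoc, hb]
      have h2 : b ^ 2 = ⁅b, (inl τ : T ≀ᵣ C₂)⁆ := by
        rw [commutatorElement_def, mul_assoc b, h1, pow_two]
        group
      rw [h2]
      exact Subgroup.commutator_mem_commutator (by rw [hb]; exact hg2 x) (hg3 τ)
    · have h1 : (inl τ : T ≀ᵣ C₂) ^ 2 = 1 := by
        rw [← map_pow, pow_two, hττ, map_one]
      rw [h1]
      exact Subgroup.one_mem _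

end WreathTwo

section Prod

variable {T₁ T₂ A : Type*} [Group T₁] [Group T₂] [CommGroup A]

/-- The strong property for a direct product, when kernel elements split through pairs of
involutions. -/
theorem coprod_SD (δ₁ : T₁ →* A) (δ₂ : T₂ →* A) (h₁ : SD δ₁) (h₂ : SD δ₂)
    (hinv : ∀ (x : T₁) (y : T₂), δ₁ x * δ₂ y = 1 →
      ∃ (x₀ : T₁) (y₀ : T₂), x₀ ^ 2 = 1 ∧ y₀ ^ 2 = 1 ∧ δ₁ x₀ = δ₁ x ∧ δ₂ y₀ = δ₂ y) :
    SD (δ₁.coprod δ₂) := by
  have hin1 : δ₁.ker.map (MonoidHom.inl T₁ T₂) ≤ (δ₁.coprod δ₂).ker := by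
    rintro _ ⟨u, hu, rfl⟩
    rw [MonoidHom.mem_ker, MonoidHom.coprod_apply]
    simp only [MonoidHom.inl_apply, map_one, mul_one]
    exact hu
  have hin2 : δ₂.ker.map (MonoidHom.inr T₁ T₂) ≤ (δ₁.coprod δ₂).ker := by
    rintro _ ⟨u, hu, rfl⟩
    rw [MonoidHom.mem_ker, MonoidHom.coprod_apply]
    simp only [MonoidHom.inr_apply, map_one, one_mul]
    exact hu
  apply SD_of_gens (δ₁.coprod δ₂)
    ({a | ∃ u ∈ δ₁.ker, a = MonoidHom.inl T₁ T₂ u} ∪ {a | ∃ u ∈ δ₂.ker, a = MonoidHom.inr T₁ T₂ u} ∪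
      {a | a ^ 2 = 1 ∧ a ∈ (δ₁.coprod δ₂).ker})
  · rintro a ((⟨u, hu, rfl⟩ | ⟨u, hu, rfl⟩) | ⟨_, ha⟩)
    · exact hin1 (Subgroup.mem_map_of_mem _ hu)
    · exact hin2 (Subgroup.mem_map_of_mem _ hu)
    · exact ha
  · rintro ⟨x, y⟩ hxy
    have hxy' : δ₁ x * δ₂ y = 1 := hxy
    obtain ⟨x₀, y₀, hx₀, hy₀, hδ₁, hδ₂⟩ := hinv x y hxy'
    have h1 : ((x, y) : T₁ × T₂) = (x₀, y₀) * MonoidHom.inl T₁ T₂ (x₀⁻¹ * x) *
        MonoidHom.inr T₁ T₂ (y₀⁻¹ * y) := by
      simp
    rw [h1]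
    refine Subgroup.mul_mem _ (Subgroup.mul_mem _ ?_ ?_) ?_
    · refine Subgroup.subset_closure (Or.inr ⟨?_, ?_⟩)
      · rw [Prod.pow_mk, hx₀, hy₀]
        rfl
      · rw [MonoidHom.mem_ker, MonoidHom.coprod_apply]
        show δ₁ x₀ * δ₂ y₀ = 1
        rw [hδ₁, hδ₂, hxy']
    · refine Subgroup.subset_closure (Or.inl (Or.inl ⟨_, ?_, rfl⟩))
      rw [MonoidHom.mem_ker, map_mul, map_inv, hδ₁, inv_mul_cancel]
    · refine Subgroup.subset_closure (Or.inl (Or.inr ⟨_, ?_, rfl⟩))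
      rw [MonoidHom.mem_ker, map_mul, map_inv, hδ₂, inv_mul_cancel]
  · rintro a ((⟨u, hu, rfl⟩ | ⟨u, hu, rfl⟩) | ⟨ha, _⟩)
    · rw [← map_pow]
      have h3 : (⁅δ₁.ker, δ₁.ker⁆).map (MonoidHom.inl T₁ T₂) ≤
          ⁅(δ₁.coprod δ₂).ker, (δ₁.coprod δ₂).ker⁆ := by
        rw [Subgroup.map_commutator]
        exact Subgroup.commutator_mono hin1 hin1
      exact h3 (Subgroup.mem_map_of_mem _ (h₁ u hu))
    · rw [← map_pow]
      have h3 : (⁅δ₂.ker, δ₂.ker⁆).map (MonoidHom.inr T₁ T₂) ≤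
          ⁅(δ₁.coprod δ₂).ker, (δ₁.coprod δ₂).ker⁆ := by
        rw [Subgroup.map_commutator]
        exact Subgroup.commutator_mono hin2 hin2
      exact h3 (Subgroup.mem_map_of_mem _ (h₂ u hu))
    · rw [ha]
      exact Subgroup.one_mem _

end Prod

section Hom

variable {S T A : Type*} [Group S] [Group T] [CommGroup A]

/-- The strong property from a group with all squares in its derived subgroup mapping onto the
kernel. -/
theorem SD_of_hom (δ : T →* A) (ψ : S →* T) (h1 : ∀ s, δ (ψ s) = 1)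
    (h2 : ∀ u ∈ δ.ker, ∃ s, ψ s = u) (hS : SqDer S) : SD δ := by
  intro u hu
  obtain ⟨s, rfl⟩ := h2 u hu
  rw [← map_pow]
  have h3 : (commutator S).map ψ ≤ ⁅δ.ker, δ.ker⁆ := by
    rw [commutator_def, Subgroup.map_commutator]
    apply Subgroup.commutator_mono
    · rintro _ ⟨s, -, rfl⟩
      exact h1 s
    · rintro _ ⟨s, -, rfl⟩
      exact h1 s
  exact h3 (Subgroup.mem_map_of_mem ψ (hS s))

/-- If the values of `δ` are `1` and `ε`, with `ε` attained on an involution, the strong property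
gives all squares in the derived subgroup. -/
theorem sqDer_of_extra (δ : T →* A) (ε : A) (hsd : SD δ) (hval : ∀ x, δ x = 1 ∨ δ x = ε)
    (g : T) (hg2 : g ^ 2 = 1) (hg : δ g = ε) : SqDer T := by
  apply sqDer_of_closure ((δ.ker : Set T) ∪ {g})
  · rw [eq_top_iff]
    intro x _
    rcases hval x with h | h
    · exact Subgroup.subset_closure (Or.inl h)
    · have h1 : x = g * (g⁻¹ * x) := by group
      rw [h1]
      refine Subgroup.mul_mem _ (Subgroup.subset_closure (Or.inr rfl))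
        (Subgroup.subset_closure (Or.inl ?_))
      show δ (g⁻¹ * x) = 1
      rw [map_mul, map_inv, hg, h, inv_mul_cancel]
  · rintro s (hs | hs)
    · have h1 := hsd s hs
      rw [commutator_def]
      exact Subgroup.commutator_mono le_top le_top h1
    · rw [Set.mem_singleton_iff.mp hs, hg2]
      exact Subgroup.one_mem _

end Hom

end Cfsg.Agent.Lib.Helper81.DeltaGrp
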