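import Mathlib
import Cfsg.Agent.Lib.Helper74.Wreath
import Cfsg.Agent.Lib.Helper65.DetWrB
import Cfsg.Agent.Lib.Helper65.DetWrS
import Cfsg.Agent.Lib.Helper81.DeltaGrp
import Cfsg.Agent.Lib.Helper81.SpSyl

/-!
# Sylow `2`-subgroups of general linear groups in odd characteristic, abstractly (helper81)

`GLData F c m V T ρ`: the finite `2`-group `T` acts faithfully through `ρ` on the space `V` of
dimension `2 * m`, its order is divisible by `2 ^ (m * c + v₂(m!))`, and every square of an
element of determinant one is a product of commutators of elements of determinant one.  The data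
propagate through wreath products with a group of order two and (with the extra data `GLExtra`:
determinants `± 1`, an involution of determinant `-1`) through direct products.
-/

set_option autoImplicit false

namespace Cfsg.Agent.Lib.Helper81.SlSyl

open Cfsg.Agent.Lib.Helper74.Wreath Cfsg.Agent.Lib.Helper81.SqD Cfsg.Agent.Lib.Helper81.DeltaGrp
  Cfsg.Agent.Lib.Helper81.SpSyl Cfsg.Agent.Lib.Helper65.DetWr RegularWreathProduct

universe u

section DetU

variable {F : Type*} [Field F] {T V : Type*} [Group T] [AddCommGroup V] [Module F V]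

/-- The determinant of a representation, as a homomorphism to the units of the field. -/
noncomputable def detU (ρ : Representation F T V) : T →* Fˣ :=
  (Units.map (LinearMap.det : Module.End F V →* F)).comp (MonoidHom.toHomUnits ρ)

theorem detU_val (ρ : Representation F T V) (x : T) :
    ((detU ρ x : Fˣ) : F) = LinearMap.det (ρ x) := rfl

theorem detU_eq_one_iff (ρ : Representation F T V) (x : T) :
    detU ρ x = 1 ↔ LinearMap.det (ρ x) = 1 := by
  rw [← detU_val, Units.val_eq_one]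

/-- The determinant of the wreath-product representation. -/
theorem detU_wrRep [FiniteDimensional F V] (h2 : (2 : F) ≠ 0)
    (heven : Even (Module.finrank F V)) (ρ : Representation F T V) :
    detU (wrRep (Q := Multiplicative (ZMod 2)) ρ) = wrDelta (detU ρ) (Multiplicative (ZMod 2)) := by
  refine MonoidHom.ext fun a => Units.ext ?_
  rw [detU_val, wrDelta_apply, Units.coe_prod]
  have h1 : wrRep ρ a = wrRep ρ (⟨a.left, 1⟩ : T ≀ᵣ Multiplicative (ZMod 2)) *
      wrRep ρ (inl a.right) := by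
    rw [← map_mul]
    congr 1
    exact (baseHom_mul_inl a).symm
  rw [h1, map_mul, det_wrRep_base, det_wrRep_inl h2 heven, mul_one]
  rfl

/-- The product of two representations of two groups. -/
def prodRep {T₁ T₂ V₁ V₂ : Type*} [Group T₁] [Group T₂] [AddCommGroup V₁] [Module F V₁]
    [AddCommGroup V₂] [Module F V₂] (ρ₁ : Representation F T₁ V₁) (ρ₂ : Representation F T₂ V₂) :
    Representation F (T₁ × T₂) (V₁ × V₂) where
  toFun g := LinearMap.prodMap (ρ₁ g.1) (ρ₂ g.2)
  map_one' := by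
    show LinearMap.prodMap (ρ₁ 1) (ρ₂ 1) = 1
    rw [map_one, map_one]
    exact LinearMap.prodMap_one
  map_mul' := by
    intro x y
    show LinearMap.prodMap (ρ₁ (x.1 * y.1)) (ρ₂ (x.2 * y.2)) = _
    rw [map_mul, map_mul]
    refine LinearMap.ext fun v => ?_
    simp [Module.End.mul_apply]

theorem prodRep_apply {T₁ T₂ V₁ V₂ : Type*} [Group T₁] [Group T₂] [AddCommGroup V₁] [Module F V₁]
    [AddCommGroup V₂] [Module F V₂] (ρ₁ : Representation F T₁ V₁) (ρ₂ : Representation F T₂ V₂)
    (g : T₁ × T₂) : prodRep ρ₁ ρ₂ g = LinearMap.prodMap (ρ₁ g.1) (ρ₂ g.2) := rfl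

theorem prodRep_injective {T₁ T₂ V₁ V₂ : Type*} [Group T₁] [Group T₂] [AddCommGroup V₁]
    [Module F V₁] [AddCommGroup V₂] [Module F V₂] (ρ₁ : Representation F T₁ V₁)
    (ρ₂ : Representation F T₂ V₂) (h₁ : Function.Injective ρ₁) (h₂ : Function.Injective ρ₂) :
    Function.Injective (prodRep ρ₁ ρ₂) := by
  intro x y hxy
  refine Prod.ext (h₁ ?_) (h₂ ?_)
  · refine LinearMap.ext fun w => ?_
    exact congrArg (fun f : Module.End F (V₁ × V₂) => (f (w, 0)).1) hxy
  · refine LinearMap.ext fun w => ?_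
    exact congrArg (fun f : Module.End F (V₁ × V₂) => (f (0, w)).2) hxy

theorem detU_prodRep {T₁ T₂ V₁ V₂ : Type*} [Group T₁] [Group T₂] [AddCommGroup V₁] [Module F V₁]
    [AddCommGroup V₂] [Module F V₂] [FiniteDimensional F V₁] [FiniteDimensional F V₂]
    (ρ₁ : Representation F T₁ V₁) (ρ₂ : Representation F T₂ V₂) :
    detU (prodRep ρ₁ ρ₂) = (detU ρ₁).coprod (detU ρ₂) := by
  refine MonoidHom.ext fun g => Units.ext ?_
  rw [detU_val, prodRep_apply, LinearMap.det_prodMap, MonoidHom.coprod_apply, Units.val_mul,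
    detU_val, detU_val]

end DetU

section Data

/-- The data of a finite `2`-group acting faithfully in dimension `2 * m`. -/
def GLData (F : Type u) [Field F] (c m : ℕ) (V : Type u) [AddCommGroup V] [Module F V]
    (T : Type u) [Group T] (ρ : Representation F T V) : Prop :=
  Module.finrank F V = 2 * m ∧ IsPGroup 2 T ∧
    2 ^ (m * c + padicValNat 2 m.factorial) ∣ Nat.card T ∧ Function.Injective ρ ∧ SD (detU ρ)

/-- The extra data: determinants `± 1`, and an involution of determinant `-1`. -/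
def GLExtra (F : Type u) [Field F] (V : Type u) [AddCommGroup V] [Module F V]
    (T : Type u) [Group T] (ρ : Representation F T V) : Prop :=
  (∀ x, detU ρ x = 1 ∨ detU ρ x = -1) ∧ ∃ g : T, g ^ 2 = 1 ∧ detU ρ g = -1

variable {F : Type u} [Field F] {c m : ℕ} {V : Type u} [AddCommGroup V] [Module F V]
  [FiniteDimensional F V] {T : Type u} [Group T] [Finite T] {ρ : Representation F T V}

theorem GLData.step (h : GLData F c m V T ρ) (h2 : (2 : F) ≠ 0) (hm : 1 ≤ m)
    (hν : padicValNat 2 (2 * m).factorial ≤ 2 * padicValNat 2 m.factorial + 1) :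
    GLData F c (2 * m) (Multiplicative (ZMod 2) → V) (T ≀ᵣ Multiplicative (ZMod 2))
      (wrRep ρ) := by
  have hfact : Fact (Nat.Prime 2) := ⟨Nat.prime_two⟩
  obtain ⟨hV, hT, hdvd, hinj, hsd⟩ := h
  have hntV : Nontrivial V := by
    apply Module.nontrivial_of_finrank_pos (R := F)
    rw [hV]
    omega
  have hcQ : Nat.card (Multiplicative (ZMod 2)) = 2 := by
    rw [Nat.card_eq_fintype_card, Fintype.card_multiplicative, ZMod.card]
  have hc : Nat.card (T ≀ᵣ Multiplicative (ZMod 2)) = Nat.card T ^ 2 * 2 := by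
    rw [RegularWreathProduct.card, hcQ]
  refine ⟨?_, ?_, ?_, wrRep_injective ρ hinj, ?_⟩
  · rw [Module.finrank_pi_fintype]
    simp only [Finset.sum_const, Finset.card_univ, smul_eq_mul, Fintype.card_multiplicative,
      ZMod.card, hV]
  · obtain ⟨a, ha⟩ := IsPGroup.iff_card.1 hT
    have hc' : Nat.card (T ≀ᵣ Multiplicative (ZMod 2)) = 2 ^ (a * 2 + 1) := by
      rw [hc, ha, ← pow_mul, pow_succ]
    exact IsPGroup.of_card hc'
  · rw [hc]
    have h1 : (2 ^ (m * c + padicValNat 2 m.factorial)) ^ 2 * 2 ∣ Nat.card T ^ 2 * 2 :=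
      mul_dvd_mul (pow_dvd_pow_of_dvd hdvd 2) (dvd_refl 2)
    refine dvd_trans ?_ h1
    rw [← pow_mul, ← pow_succ]
    apply pow_dvd_pow
    have h3 : 2 * m * c = m * c * 2 := by ring
    rw [h3]
    omega
  · rw [detU_wrRep h2 ⟨m, by rw [hV]; ring⟩ ρ]
    exact wrDelta_SD (detU ρ) hsd.jd

omit [Finite T] in
theorem GLExtra.step (h : GLData F c m V T ρ) (he : GLExtra F V T ρ) (h2 : (2 : F) ≠ 0) :
    GLExtra F (Multiplicative (ZMod 2) → V) (T ≀ᵣ Multiplicative (ZMod 2)) (wrRep ρ) := by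
  classical
  obtain ⟨hV, -, -, -, -⟩ := h
  obtain ⟨hval, g, hg2, hg⟩ := he
  have hdet := detU_wrRep h2 ⟨m, by rw [hV]; ring⟩ ρ
  refine ⟨fun a => ?_, coordHom T (1 : Multiplicative (ZMod 2)) g, ?_, ?_⟩
  · rw [hdet, wrDelta_two]
    rcases hval (a.left 1) with h1 | h1 <;>
      rcases hval (a.left (Multiplicative.ofAdd 1)) with h3 | h3 <;> rw [h1, h3] <;> simp
  · rw [← map_pow, hg2, map_one]
  · rw [hdet, wrDelta_coordHom, hg]

end Data

section Prod

variable {F : Type u} [Field F] {c a b : ℕ} {V₁ V₂ : Type u} [AddCommGroup V₁] [Module F V₁]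
  [FiniteDimensional F V₁] [AddCommGroup V₂] [Module F V₂] [FiniteDimensional F V₂]
  {T₁ T₂ : Type u} [Group T₁] [Finite T₁] [Group T₂] [Finite T₂]
  {ρ₁ : Representation F T₁ V₁} {ρ₂ : Representation F T₂ V₂}

theorem GLData.prod (h₁ : GLData F c a V₁ T₁ ρ₁) (h₂ : GLData F c b V₂ T₂ ρ₂)
    (e₁ : GLExtra F V₁ T₁ ρ₁) (e₂ : GLExtra F V₂ T₂ ρ₂)
    (hν : padicValNat 2 (a + b).factorial ≤
      padicValNat 2 a.factorial + padicValNat 2 b.factorial) :
    GLData F c (a + b) (V₁ × V₂) (T₁ × T₂) (prodRep ρ₁ ρ₂) ∧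
      GLExtra F (V₁ × V₂) (T₁ × T₂) (prodRep ρ₁ ρ₂) := by
  have hfact : Fact (Nat.Prime 2) := ⟨Nat.prime_two⟩
  obtain ⟨hV₁, hT₁, hdvd₁, hinj₁, hsd₁⟩ := h₁
  obtain ⟨hV₂, hT₂, hdvd₂, hinj₂, hsd₂⟩ := h₂
  obtain ⟨hval₁, g₁, hg₁2, hg₁⟩ := e₁
  obtain ⟨hval₂, g₂, hg₂2, hg₂⟩ := e₂
  obtain ⟨j₁, hj₁⟩ := IsPGroup.iff_card.1 hT₁
  obtain ⟨j₂, hj₂⟩ := IsPGroup.iff_card.1 hT₂
  have hdet := detU_prodRep ρ₁ ρ₂
  refine ⟨⟨?_, ?_, ?_, prodRep_injective ρ₁ ρ₂ hinj₁ hinj₂, ?_⟩, fun x => ?_, (g₁, 1), ?_, ?_⟩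
  · rw [Module.finrank_prod, hV₁, hV₂]
    ring
  · have hc : Nat.card (T₁ × T₂) = 2 ^ (j₁ + j₂) := by
      rw [Nat.card_prod, hj₁, hj₂, pow_add]
    exact IsPGroup.of_card hc
  · rw [Nat.card_prod]
    refine dvd_trans ?_ (mul_dvd_mul hdvd₁ hdvd₂)
    rw [← pow_add]
    apply pow_dvd_pow
    have h3 : (a + b) * c = a * c + b * c := by ring
    rw [h3]
    omega
  · rw [hdet]
    apply coprod_SD (detU ρ₁) (detU ρ₂) hsd₁ hsd₂
    intro x y hxy
    rcases hval₁ x with h1 | h1
    · refine ⟨1, 1, one_pow 2, one_pow 2, ?_, ?_⟩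
      · rw [map_one, h1]
      · rw [h1, one_mul] at hxy
        rw [map_one, hxy]
    · refine ⟨g₁, g₂, hg₁2, hg₂2, ?_, ?_⟩
      · rw [hg₁, h1]
      · rcases hval₂ y with h3 | h3
        · rw [h1, h3, mul_one] at hxy
          rw [hg₂, h3, hxy]
        · rw [hg₂, h3]
  · rw [hdet, MonoidHom.coprod_apply]
    rcases hval₁ x.1 with h1 | h1 <;> rcases hval₂ x.2 with h3 | h3 <;> rw [h1, h3] <;> simp
  · rw [Prod.pow_mk, hg₁2, one_pow]
    rfl
  · rw [hdet, MonoidHom.coprod_apply, hg₁, map_one, mul_one]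

end Prod

section Has

/-- Some finite `2`-group with the data `GLData` in dimension `2 * m`. -/
def HasGL (F : Type u) [Field F] (c m : ℕ) : Prop :=
  ∃ (V : Type u) (_ : AddCommGroup V) (_ : Module F V) (_ : FiniteDimensional F V)
    (T : Type u) (_ : Group T) (_ : Finite T) (ρ : Representation F T V), GLData F c m V T ρ

/-- Some finite `2`-group with the data `GLData` and `GLExtra` in dimension `2 * m`. -/
def HasGLF (F : Type u) [Field F] (c m : ℕ) : Prop :=
  ∃ (V : Type u) (_ : AddCommGroup V) (_ : Module F V) (_ : FiniteDimensional F V)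
    (T : Type u) (_ : Group T) (_ : Finite T) (ρ : Representation F T V),
    GLData F c m V T ρ ∧ GLExtra F V T ρ

variable {F : Type u} [Field F] {c : ℕ}

theorem HasGLF.hasGL {m : ℕ} (h : HasGLF F c m) : HasGL F c m := by
  obtain ⟨V, _, _, _, T, _, _, ρ, hd, -⟩ := h
  exact ⟨V, inferInstance, inferInstance, inferInstance, T, inferInstance, inferInstance, ρ, hd⟩

/-- Powers of two, by wreath products alone. -/
theorem hasGL_pow (h1 : HasGL F c 1) (h2 : (2 : F) ≠ 0) : ∀ j : ℕ, HasGL F c (2 ^ j) := by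
  intro j
  induction j with
  | zero => rw [pow_zero]; exact h1
  | succ j ih =>
    obtain ⟨V, _, _, _, T, _, _, ρ, hd⟩ := ih
    have hj1 : 1 ≤ 2 ^ j := Nat.one_le_two_pow
    have hstep := hd.step h2 hj1 (by
      rw [mul_comm 2, ← pow_succ, val_two_pow_factorial, val_two_pow_factorial, pow_succ]
      omega)
    rw [pow_succ, mul_comm]
    exact ⟨_, inferInstance, inferInstance, inferInstance, _, inferInstance, inferInstance, _,
      hstep⟩

/-- Every degree, by wreath products and direct products. -/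
theorem hasGLF_all (h1 : HasGLF F c 1) (h2 : (2 : F) ≠ 0) : ∀ n, 1 ≤ n → HasGLF F c n := by
  intro n
  induction n using Nat.strong_induction_on with
  | _ n ih =>
    intro hn
    rcases Nat.lt_or_ge n 2 with hlt2 | hge2
    · have h3 : n = 1 := by omega
      rw [h3]
      exact h1
    · obtain ⟨k, hk⟩ : ∃ k, k = Nat.log 2 n := ⟨_, rfl⟩
      have hlo : 2 ^ k ≤ n := by
        rw [hk]
        exact Nat.pow_log_le_self 2 (by omega)
      have hhi : n < 2 ^ (k + 1) := by
        rw [hk]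
        exact Nat.lt_pow_succ_log_self (by norm_num) n
      have hk1 : 1 ≤ k := by
        by_contra hcon
        have h3 : k = 0 := by omega
        rw [h3] at hhi
        norm_num at hhi
        omega
      rcases Nat.eq_or_lt_of_le hlo with heq | hlt
      · obtain ⟨j, rfl⟩ : ∃ j, k = j + 1 := ⟨k - 1, by omega⟩
        have hm : 2 * 2 ^ j = n := by
          rw [← heq, pow_succ]
          ring
        have hj1 : 1 ≤ 2 ^ j := Nat.one_le_two_pow
        rw [← hm]
        obtain ⟨V, _, _, _, T, _, _, ρ, hd, he⟩ := ih (2 ^ j) (by omega) hj1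
        have hstep := hd.step h2 hj1 (by
          rw [mul_comm 2, ← pow_succ, val_two_pow_factorial, val_two_pow_factorial, pow_succ]
          omega)
        exact ⟨_, inferInstance, inferInstance, inferInstance, _, inferInstance, inferInstance,
          _, hstep, GLExtra.step hd he h2⟩
      · obtain ⟨r, hr⟩ : ∃ r, n = 2 ^ k + r := ⟨n - 2 ^ k, by omega⟩
        have hr0 : 0 < r := by omega
        have hrk : r < 2 ^ k := by
          rw [pow_succ] at hhi
          omega
        have hk0 : 1 ≤ 2 ^ k := Nat.one_le_two_pow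
        rw [hr]
        obtain ⟨V₁, _, _, _, T₁, _, _, ρ₁, hd₁, he₁⟩ := ih (2 ^ k) (by omega) hk0
        obtain ⟨V₂, _, _, _, T₂, _, _, ρ₂, hd₂, he₂⟩ := ih r (by omega) (by omega)
        have hprod := hd₁.prod hd₂ he₁ he₂ (by rw [val_factorial_add_two_pow k r hrk])
        exact ⟨_, inferInstance, inferInstance, inferInstance, _, inferInstance, inferInstance,
          _, hprod.1, hprod.2⟩

end Has

end Cfsg.Agent.Lib.Helper81.SlSyl
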