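import Mathlib
import Cfsg.Agent.Lib.Helper74.SympBase
import Cfsg.Agent.Lib.Helper81.Sl2Base
import Cfsg.Agent.Lib.Helper81.SlSylA
import Cfsg.Agent.Lib.Helper65.DetWrV
import Cfsg.Agent.Lib.Helper7.SL2Sylow

/-!
# The Sylow `2`-subgroups of `SL₂(q)` and `GL₂(q)`, `q` odd, as base cases (helper81)
-/

set_option autoImplicit false

namespace Cfsg.Agent.Lib.Helper81.SlSyl

open Cfsg.Agent.Lib.Helper74.Wreath Cfsg.Agent.Lib.Helper74.Symp
  Cfsg.Agent.Lib.Helper74.SympBase Cfsg.Agent.Lib.Helper81.SqD Cfsg.Agent.Lib.Helper81.SpSyl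
  Cfsg.Agent.Lib.Helper81.Sl2Base Cfsg.Agent.Lib.Helper81.DeltaGrp

open Matrix

open scoped commutatorElement

universe u

/-- The subgroup `⟨w, s⟩` of `SL₂(F)`: a `2`-group of order at least `2 ^ (a + 1)` with all
squares in its derived subgroup. -/
theorem sl2_pair_group {F : Type u} [Field F] [Fintype F] (h2 : (2 : F) ≠ 0) {a : ℕ} (ha : 2 ≤ a)
    (s w : SpecialLinearGroup (Fin 2) F) (hs : orderOf s = 2 ^ a) (hsws : s * w * s = w)
    (hw2 : (w : Matrix (Fin 2) (Fin 2) F) * (w : Matrix (Fin 2) (Fin 2) F) = -1) :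
    ∃ T : Subgroup (SpecialLinearGroup (Fin 2) F), IsPGroup 2 T ∧ 2 ^ (a + 1) ∣ Nat.card T ∧
      SqDer T := by
  classical
  have hfact : Fact (Nat.Prime 2) := ⟨Nat.prime_two⟩
  have ht2 : s ^ 2 ^ (a - 1) * s ^ 2 ^ (a - 1) = 1 := by
    rw [← pow_add, ← two_mul, ← pow_succ', Nat.sub_add_cancel (by omega), ← hs,
      pow_orderOf_eq_one]
  have ht1 : s ^ 2 ^ (a - 1) ≠ 1 := by
    apply pow_ne_one_of_lt_orderOf (by positivity)
    rw [hs]
    exact Nat.pow_lt_pow_right (by norm_num) (by omega)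
  have htm := sl2_involution h2 _ ht2 ht1
  have hww : w * w = s ^ 2 ^ (a - 1) := by
    apply Subtype.ext
    rw [htm]
    exact hw2
  have hconj : w * s * w⁻¹ = s⁻¹ := by
    have h1 : w * s = s⁻¹ * w := by
      rw [eq_inv_mul_iff_mul_eq, ← mul_assoc, hsws]
    rw [h1]
    group
  have hconj' : w⁻¹ * s * w = s⁻¹ := by
    have h1 : s = w⁻¹ * s⁻¹ * w := by
      rw [← hconj]
      group
    have h3 : s⁻¹ = (w⁻¹ * s⁻¹ * w)⁻¹ := by rw [← h1]
    rw [h3]
    group
  have hnorm : Subgroup.zpowers w ≤ Subgroup.normalizer (Subgroup.zpowers s) := by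
    rw [Subgroup.zpowers_le, Subgroup.mem_normalizer_iff]
    intro x
    constructor
    · intro hx
      obtain ⟨m, rfl⟩ := Subgroup.mem_zpowers_iff.1 hx
      have h1 : w * s ^ m * w⁻¹ = (s ^ m)⁻¹ := by
        rw [← conj_zpow, hconj, _root_.inv_zpow]
      rw [h1]
      exact (Subgroup.zpowers s).inv_mem (Subgroup.zpow_mem_zpowers s m)
    · intro hx
      obtain ⟨m, hm⟩ := Subgroup.mem_zpowers_iff.1 hx
      have h1 : x = w⁻¹ * s ^ m * w⁻¹⁻¹ := by
        rw [hm]
        group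
      have h3 : w⁻¹ * s ^ m * w⁻¹⁻¹ = (s ^ m)⁻¹ := by
        rw [← conj_zpow, inv_inv, hconj', _root_.inv_zpow]
      rw [h1, h3]
      exact (Subgroup.zpowers s).inv_mem (Subgroup.zpow_mem_zpowers s m)
  have hs2a : s ^ 2 ^ a = 1 := by
    rw [← hs]
    exact pow_orderOf_eq_one s
  have hw4 : w ^ 2 ^ 2 = 1 := by
    have h1 : w ^ 2 ^ 2 = (w * w) * (w * w) := by
      norm_num [pow_succ, mul_assoc]
    rw [h1, hww, ht2]
  obtain ⟨T, hTdef⟩ : ∃ T : Subgroup (SpecialLinearGroup (Fin 2) F),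
      T = Subgroup.closure {w, s} := ⟨_, rfl⟩
  have hTsup : T = Subgroup.zpowers w ⊔ Subgroup.zpowers s := by
    rw [hTdef, Subgroup.zpowers_eq_closure, Subgroup.zpowers_eq_closure,
      ← Subgroup.closure_union]
    rfl
  have hT : IsPGroup 2 T := by
    rw [hTsup]
    exact IsPGroup.to_sup_of_normal_right' (isPGroup_zpowers_of_pow_eq_one w 2 2 hw4)
      (isPGroup_zpowers_of_pow_eq_one s 2 a hs2a) hnorm
  have hsT : s ∈ T := by
    rw [hTdef]
    exact Subgroup.subset_closure (by simp)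
  have hwT : w ∈ T := by
    rw [hTdef]
    exact Subgroup.subset_closure (by simp)
  have hS2 : (⟨s, hsT⟩ : T) ^ 2 ∈ commutator T := by
    have h1 : (⟨s, hsT⟩ : T) ^ 2 = (⁅(⟨w, hwT⟩ : T), ⟨s, hsT⟩⁆)⁻¹ := by
      apply Subtype.ext
      show s ^ 2 = (w * s * w⁻¹ * s⁻¹)⁻¹
      rw [hconj]
      group
    rw [h1, commutator_def]
    exact Subgroup.inv_mem _
      (Subgroup.commutator_mem_commutator (Subgroup.mem_top _) (Subgroup.mem_top _))
  have hW2 : (⟨w, hwT⟩ : T) ^ 2 ∈ commutator T := by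
    have h1 : (⟨w, hwT⟩ : T) ^ 2 = ((⟨s, hsT⟩ : T) ^ 2) ^ 2 ^ (a - 2) := by
      apply Subtype.ext
      show w ^ 2 = (s ^ 2) ^ 2 ^ (a - 2)
      have h3 : a - 2 + 1 = a - 1 := by omega
      rw [pow_two, hww, ← pow_mul, ← pow_succ', h3]
    rw [h1]
    exact Subgroup.pow_mem _ hS2 _
  have hdvd : 2 ^ (1 * (a + 1) + padicValNat 2 (Nat.factorial 1)) ∣ Nat.card T := by
    obtain ⟨j, hj⟩ := IsPGroup.iff_card.1 hT
    have hle : Subgroup.zpowers s ≤ T := by
      rw [Subgroup.zpowers_le]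
      exact hsT
    have hcs : Nat.card (Subgroup.zpowers s) = 2 ^ a := by
      rw [Nat.card_zpowers, hs]
    have h1 : 2 ^ a ∣ 2 ^ j := by
      rw [← hcs, ← hj]
      exact Subgroup.card_dvd_of_le hle
    have h3 : a ≤ j := (Nat.pow_dvd_pow_iff_le_right (by norm_num)).1 h1
    have h4 : a ≠ j := by
      intro heq
      have h5 : Subgroup.zpowers s = T :=
        Subgroup.eq_of_le_of_card_ge hle (by rw [hcs, hj, heq])
      have h6 : w ∈ Subgroup.zpowers s := by
        rw [h5]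
        exact hwT
      obtain ⟨m, hm⟩ := Subgroup.mem_zpowers_iff.1 h6
      have h7 : w * s = s * w := by
        have h := zpow_mul_comm s m 1
        rw [zpow_one, hm] at h
        exact h
      have h8 : s = s⁻¹ := by
        rw [← hconj, h7]
        group
      have h9 : s ^ 2 = 1 := by
        rw [pow_two]
        nth_rewrite 1 [h8]
        exact inv_mul_cancel s
      have h10 := orderOf_dvd_of_pow_eq_one h9
      rw [hs] at h10
      have h11 := Nat.le_of_dvd (by norm_num) h10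
      have h12 : 2 ^ 2 ≤ 2 ^ a := Nat.pow_le_pow_right (by norm_num) ha
      omega
    rw [hj]
    apply pow_dvd_pow
    simp
    omega
  have hsq : SqDer T := by
    subst hTdef
    apply sqDer_of_closure _ Subgroup.closure_closure_coe_preimage
    rintro ⟨x, hx⟩ hxs
    rcases hxs with h | h
    · have h1 : (⟨x, hx⟩ : Subgroup.closure ({w, s} : Set (SpecialLinearGroup (Fin 2) F))) =
          ⟨w, hwT⟩ := Subtype.ext h
      rw [h1]
      exact hW2
    · have h1 : (⟨x, hx⟩ : Subgroup.closure ({w, s} : Set (SpecialLinearGroup (Fin 2) F))) =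
          ⟨s, hsT⟩ := Subtype.ext h
      rw [h1]
      exact hS2
  refine ⟨T, hT, ?_, hsq⟩
  have h := hdvd
  simp only [one_mul, Nat.factorial_one, padicValNat_one_right, add_zero] at h
  exact h

/-- A `2`-subgroup of `SL₂(F)` of order at least `(q² - 1)₂` with all squares in its derived
subgroup. -/
theorem sl2_sylow_sqDer {F : Type u} [Field F] [Fintype F] (hodd : Odd (Fintype.card F)) :
    ∃ T : Subgroup (SpecialLinearGroup (Fin 2) F), IsPGroup 2 T ∧
      2 ^ padicValNat 2 (Fintype.card F ^ 2 - 1) ∣ Nat.card T ∧ SqDer T := by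
  classical
  have hfact : Fact (Nat.Prime 2) := ⟨Nat.prime_two⟩
  obtain ⟨ℓ, hℓ⟩ := CharP.exists F
  obtain ⟨r, hprime, hcard⟩ := FiniteField.card F ℓ
  have h2 : (2 : F) ≠ 0 := by
    intro h0
    have h1 : ((2 : ℕ) : F) = 0 := by exact_mod_cast h0
    have h3 : ℓ ∣ 2 := (CharP.cast_eq_zero_iff F ℓ 2).1 h1
    have h4 : ℓ = 2 := (Nat.prime_dvd_prime_iff_eq hprime Nat.prime_two).1 h3
    rw [hcard, h4] at hodd
    exact (Nat.not_even_iff_odd.2 hodd) (Nat.even_pow.2 ⟨even_two, r.ne_zero⟩)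
  obtain ⟨q, hq⟩ : ∃ q, q = Fintype.card F := ⟨_, rfl⟩
  have hq1 : 1 < q := by
    rw [hq]
    exact Fintype.one_lt_card
  rw [← hq] at hodd ⊢
  obtain ⟨t, ht⟩ := hodd
  have hc : padicValNat 2 (q ^ 2 - 1) = padicValNat 2 (q + 1) + padicValNat 2 (q - 1) := by
    have h := padicValNat.pow_two_sub_pow (x := q) (y := 1) hq1 ⟨t, by omega⟩
      (by rintro ⟨u, hu⟩; omega) (n := 2) (by norm_num) (by decide)
    rw [one_pow, padicValNat_self] at h
    omega
  rcases Nat.even_or_odd t with hte | hto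
  · -- `q ≡ 1 mod 4`
    obtain ⟨u, hu⟩ := hte
    have hq4 : q % 4 = 1 := by omega
    have h5 : padicValNat 2 (q + 1) = 1 := val_two_of_mod_four (by omega)
    have h6 : 2 ≤ padicValNat 2 (q - 1) :=
      (padicValNat_dvd_iff_le (by omega)).1 ⟨u, by omega⟩
    have h7 : 2 ^ padicValNat 2 (q - 1) ∣ Fintype.card F - 1 := by
      rw [← hq]
      exact pow_padicValNat_dvd
    obtain ⟨s, w, hs, hsws, hw2⟩ := exists_pair_split h7
    have h8 := sl2_pair_group h2 h6 s w hs hsws hw2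
    rw [hc, h5, add_comm]
    exact h8
  · -- `q ≡ 3 mod 4`
    obtain ⟨u, hu⟩ := hto
    have hq4 : q % 4 = 3 := by omega
    have h5 : padicValNat 2 (q - 1) = 1 := val_two_of_mod_four (by omega)
    have h6 : 2 ≤ padicValNat 2 (q + 1) :=
      (padicValNat_dvd_iff_le (by omega)).1 ⟨u + 1, by omega⟩
    have h7 : 2 ^ padicValNat 2 (q + 1) ∣ Fintype.card F + 1 := by
      rw [← hq]
      exact pow_padicValNat_dvd
    obtain ⟨s, w, hs, hsws, hw2⟩ := exists_pair_nonsplit (by rw [← hq]; exact hq4) h7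
    have h8 := sl2_pair_group h2 h6 s w hs hsws hw2
    rw [hc, h5]
    exact h8

section NatRep

variable {F : Type u} [Field F]

/-- The natural representation of a subgroup of `GL₂(F)`. -/
def natRep (P : Subgroup (GL (Fin 2) F)) : Representation F P (Fin 2 → F) where
  toFun g := Matrix.toLin' ((g : GL (Fin 2) F) : Matrix (Fin 2) (Fin 2) F)
  map_one' := by
    show Matrix.toLin' (1 : Matrix (Fin 2) (Fin 2) F) = 1
    rw [Matrix.toLin'_one]
    rfl
  map_mul' := by
    intro x y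
    show Matrix.toLin' ((x : GL (Fin 2) F).1 * (y : GL (Fin 2) F).1) = _
    rw [Matrix.toLin'_mul]
    rfl

theorem natRep_injective (P : Subgroup (GL (Fin 2) F)) : Function.Injective (natRep P) := by
  intro x y hxy
  have h1 : Matrix.toLin' (x.1.1) = Matrix.toLin' (y.1.1) := hxy
  exact Subtype.ext (Units.ext (Matrix.toLin'.injective h1))

theorem detU_natRep (P : Subgroup (GL (Fin 2) F)) (g : P) :
    detU (natRep P) g = Matrix.GeneralLinearGroup.det (g : GL (Fin 2) F) := by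
  apply Units.ext
  rw [detU_val, Matrix.GeneralLinearGroup.val_det_apply]
  exact LinearMap.det_toLin' _

end NatRep

section GL2

variable {F : Type u} [Field F] [Fintype F]

theorem val_card_gl_field (hodd : Odd (Fintype.card F)) (N : ℕ) :
    (Nat.card (GL (Fin N) F)).factorization 2 =
      (N - N / 2) * padicValNat 2 (Fintype.card F - 1) +
        (N / 2) * padicValNat 2 (Fintype.card F ^ 2 - 1) + padicValNat 2 (N / 2).factorial := by
  rw [Nat.factorization_def _ Nat.prime_two, Matrix.card_GL_field]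
  exact Cfsg.Agent.Lib.Helper65.DetWr.val_card_gl Fintype.one_lt_card hodd N

theorem val_card_sl_field (hodd : Odd (Fintype.card F)) (N : ℕ) (hN : 0 < N) :
    (Nat.card (SpecialLinearGroup (Fin N) F)).factorization 2 +
        padicValNat 2 (Fintype.card F - 1) =
      (N - N / 2) * padicValNat 2 (Fintype.card F - 1) +
        (N / 2) * padicValNat 2 (Fintype.card F ^ 2 - 1) + padicValNat 2 (N / 2).factorial := by
  classical
  have hfact : Fact (Nat.Prime 2) := ⟨Nat.prime_two⟩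
  have hq1 : 1 < Fintype.card F := Fintype.one_lt_card
  have hGL := Cfsg.Agent.Lib.Helper7.card_GL_eq_mul_card_SL (F := F) N hN
  rw [Nat.card_units, Nat.card_eq_fintype_card (α := F)] at hGL
  rw [← val_card_gl_field hodd N, hGL, Nat.factorization_def _ Nat.prime_two,
    Nat.factorization_def _ Nat.prime_two, padicValNat.mul (by omega) Nat.card_pos.ne']
  ring

/-- A Sylow `2`-subgroup of `GL₂(F)` with its data. -/
theorem gl2_data (hodd : Odd (Fintype.card F)) :
    ∃ P : Sylow 2 (GL (Fin 2) F),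
      GLData F (padicValNat 2 (Fintype.card F - 1) + padicValNat 2 (Fintype.card F ^ 2 - 1)) 1
        (Fin 2 → F) (P : Subgroup (GL (Fin 2) F)) (natRep (P : Subgroup (GL (Fin 2) F))) := by
  classical
  have hfact : Fact (Nat.Prime 2) := ⟨Nat.prime_two⟩
  obtain ⟨S, hS, hSdvd, hSsq⟩ := sl2_sylow_sqDer hodd
  obtain ⟨ι, hι⟩ : ∃ ι : SpecialLinearGroup (Fin 2) F →* GL (Fin 2) F,
      ι = SpecialLinearGroup.toGL := ⟨_, rfl⟩
  have hιinj : Function.Injective ι := by
    rw [hι]
    exact SpecialLinearGroup.toGL_injective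
  have hιval : ∀ x, ((ι x : GL (Fin 2) F) : Matrix (Fin 2) (Fin 2) F) = x.1 := by
    intro x
    rw [hι]
    rfl
  obtain ⟨P, hP⟩ := IsPGroup.exists_le_sylow (hS.map ι)
  have hK : IsPGroup 2 ((P : Subgroup (GL (Fin 2) F)).comap ι) :=
    P.isPGroup'.comap_of_injective ι hιinj
  have hSK : S ≤ (P : Subgroup (GL (Fin 2) F)).comap ι :=
    fun x hx => hP (Subgroup.mem_map_of_mem ι hx)
  have hvsl := val_card_sl_field hodd 2 (by norm_num)
  have hvsl' : (Nat.card (SpecialLinearGroup (Fin 2) F)).factorization 2 =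
      padicValNat 2 (Fintype.card F ^ 2 - 1) := by
    have e1 : 2 - 2 / 2 = 1 := by norm_num
    have e2 : 2 / 2 = 1 := by norm_num
    have e3 : padicValNat 2 (Nat.factorial 1) = 0 := by simp
    rw [e1, e2, e3, one_mul, one_mul, add_zero] at hvsl
    omega
  obtain ⟨j, hj⟩ := IsPGroup.iff_card.1 hS
  obtain ⟨k, hk⟩ := IsPGroup.iff_card.1 hK
  have h1 : padicValNat 2 (Fintype.card F ^ 2 - 1) ≤ j := by
    rw [hj] at hSdvd
    exact (Nat.pow_dvd_pow_iff_le_right (by norm_num)).1 hSdvd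
  have h2 : k ≤ (Nat.card (SpecialLinearGroup (Fin 2) F)).factorization 2 := by
    have h3 := Subgroup.card_subgroup_dvd_card ((P : Subgroup (GL (Fin 2) F)).comap ι)
    rw [hk] at h3
    exact (Nat.Prime.pow_dvd_iff_le_factorization Nat.prime_two Nat.card_pos.ne').1 h3
  have hSeq : S = (P : Subgroup (GL (Fin 2) F)).comap ι :=
    Subgroup.eq_of_le_of_card_ge hSK (by
      rw [hj, hk]
      exact Nat.pow_le_pow_right (by norm_num) (by omega))
  refine ⟨P, ?_, P.isPGroup', ?_, natRep_injective _, ?_⟩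
  · rw [Module.finrank_fin_fun]
  · rw [Sylow.card_eq_multiplicity, val_card_gl_field hodd 2]
    apply pow_dvd_pow
    have e1 : 2 - 2 / 2 = 1 := by norm_num
    have e2 : 2 / 2 = 1 := by norm_num
    rw [e1, e2]
    omega
  · obtain ⟨ψ, hψ⟩ : ∃ ψ : S →* (P : Subgroup (GL (Fin 2) F)),
        ∀ s : S, ((ψ s : (P : Subgroup (GL (Fin 2) F))) : GL (Fin 2) F) = ι s :=
      ⟨(ι.comp S.subtype).codRestrict (P : Subgroup (GL (Fin 2) F))
        (fun s => hP (Subgroup.mem_map_of_mem ι s.2)), fun s => rfl⟩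
    apply SD_of_hom _ ψ _ _ hSsq
    · intro s
      rw [detU_natRep]
      apply Units.ext
      rw [Matrix.GeneralLinearGroup.val_det_apply, hψ, hιval]
      exact s.1.2
    · intro u hu
      rw [MonoidHom.mem_ker, detU_natRep] at hu
      have hdet : ((u : GL (Fin 2) F) : Matrix (Fin 2) (Fin 2) F).det = 1 := by
        rw [← Matrix.GeneralLinearGroup.val_det_apply, hu]
        rfl
      have h3 : ι ⟨((u : GL (Fin 2) F) : Matrix (Fin 2) (Fin 2) F), hdet⟩ = (u : GL (Fin 2) F) :=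
        Units.ext (hιval _)
      have h4 : (⟨((u : GL (Fin 2) F) : Matrix (Fin 2) (Fin 2) F), hdet⟩ :
          SpecialLinearGroup (Fin 2) F) ∈ S := by
        rw [hSeq]
        show ι _ ∈ (P : Subgroup (GL (Fin 2) F))
        rw [h3]
        exact u.2
      refine ⟨⟨_, h4⟩, Subtype.ext ?_⟩
      rw [hψ]
      exact h3

/-- For `q ≡ 3 mod 4`, every Sylow `2`-subgroup of `GL₂(F)` has determinants `± 1` and contains
an involution of determinant `-1`. -/
theorem gl2_extra (h4 : 4 ∣ Fintype.card F + 1) (P : Sylow 2 (GL (Fin 2) F)) :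
    GLExtra F (Fin 2 → F) (P : Subgroup (GL (Fin 2) F))
      (natRep (P : Subgroup (GL (Fin 2) F))) := by
  classical
  have hfact : Fact (Nat.Prime 2) := ⟨Nat.prime_two⟩
  constructor
  · intro x
    obtain ⟨d, hd⟩ : ∃ d : Fˣ, d = detU (natRep (P : Subgroup (GL (Fin 2) F))) x := ⟨_, rfl⟩
    rw [← hd]
    obtain ⟨k, hk⟩ := P.isPGroup' x
    have h1 : (d ^ 2) ^ 2 ^ k = 1 := by
      rw [← pow_mul, mul_comm, pow_mul, hd, ← map_pow, hk, map_one, one_pow]
    obtain ⟨t, ht⟩ := h4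
    have hq1 : 1 < Fintype.card F := Fintype.one_lt_card
    have h2 : (d ^ 2) ^ (2 * t - 1) = 1 := by
      have h3 : d ^ (Fintype.card F - 1) = 1 := by
        rw [← Fintype.card_units]
        exact pow_card_eq_one
      have h5 : Fintype.card F - 1 = 2 * (2 * t - 1) := by omega
      rw [← pow_mul, ← h5, h3]
    have hcop : Nat.Coprime (2 ^ k) (2 * t - 1) := by
      apply Nat.Coprime.pow_left
      rw [Nat.coprime_two_left]
      exact ⟨t - 1, by omega⟩
    have h6 : orderOf (d ^ 2) ∣ 1 := by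
      rw [← hcop.gcd_eq_one]
      exact Nat.dvd_gcd (orderOf_dvd_of_pow_eq_one h1) (orderOf_dvd_of_pow_eq_one h2)
    have h7 : d ^ 2 = 1 := orderOf_eq_one_iff.1 (Nat.dvd_one.1 h6)
    have h8 : (d : F) ^ 2 = 1 := by
      rw [← Units.val_pow_eq_pow_val, h7, Units.val_one]
    rcases sq_eq_one_iff.1 h8 with h9 | h9
    · exact Or.inl (Units.ext h9)
    · exact Or.inr (Units.ext (by rw [h9]; simp))
  · obtain ⟨g₀, hg₀⟩ : ∃ g₀ : GL (Fin 2) F,
        (g₀ : Matrix (Fin 2) (Fin 2) F) = !![1, 0; 0, -1] :=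
      ⟨⟨!![1, 0; 0, -1], !![1, 0; 0, -1], by
        ext i j
        fin_cases i <;> fin_cases j <;> simp [Matrix.mul_apply, Fin.sum_univ_two], by
        ext i j
        fin_cases i <;> fin_cases j <;> simp [Matrix.mul_apply, Fin.sum_univ_two]⟩, rfl⟩
    have hg₀2 : g₀ ^ 2 = 1 := by
      apply Units.ext
      rw [Units.val_pow_eq_pow_val, hg₀, pow_two]
      ext i j
      fin_cases i <;> fin_cases j <;> simp [Matrix.mul_apply, Fin.sum_univ_two]
    have hg₀det : Matrix.GeneralLinearGroup.det g₀ = -1 := by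
      apply Units.ext
      rw [Matrix.GeneralLinearGroup.val_det_apply, hg₀, Matrix.det_fin_two_of]
      simp
    have hz : IsPGroup 2 (Subgroup.zpowers g₀) :=
      isPGroup_zpowers_of_pow_eq_one g₀ 2 1 (by rw [pow_one]; exact hg₀2)
    obtain ⟨P', hP'⟩ := hz.exists_le_sylow
    obtain ⟨h, hh⟩ := MulAction.exists_smul_eq (GL (Fin 2) F) P' P
    have hmem : h * g₀ * h⁻¹ ∈ (P : Subgroup (GL (Fin 2) F)) := by
      rw [← hh, Sylow.coe_subgroup_smul]
      have h1 := Subgroup.smul_mem_pointwise_smul g₀ (MulAut.conj h) (P' : Subgroup (GL (Fin 2) F))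
        (hP' (Subgroup.mem_zpowers g₀))
      rw [MulAut.smul_def, MulAut.conj_apply] at h1
      exact h1
    refine ⟨⟨h * g₀ * h⁻¹, hmem⟩, ?_, ?_⟩
    · apply Subtype.ext
      show (h * g₀ * h⁻¹) ^ 2 = 1
      rw [conj_pow, hg₀2, mul_one, mul_inv_cancel]
    · rw [detU_natRep]
      show Matrix.GeneralLinearGroup.det (h * g₀ * h⁻¹) = -1
      rw [map_mul, map_mul, map_inv, hg₀det, mul_comm, inv_mul_cancel_left]

end GL2

end Cfsg.Agent.Lib.Helper81.SlSyl
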