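import Mathlib
import Cfsg.Agent.Lib.Helper51.Gram
import Cfsg.Agent.Lib.Helper51.SpinIndex

/-!
# Orthogonal sums of quadratic forms on coordinate spaces (helper81)

`osum Q₁ Q₂` is the orthogonal sum of two quadratic forms, on `ι₁ ⊕ ι₂ → F`; `blk Q₁ Q₂` embeds
the product of the two isometry groups block-diagonally; `swapIso Q` exchanges the two summands of
`osum Q Q`; `uf c` is the form `c * x ^ 2` in one variable.
-/

set_option autoImplicit false
set_option linter.unusedSectionVars false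

namespace Cfsg.Agent.Lib.Helper81.OSum

open Cfsg Cfsg.Agent.Lib.Helper51

section defs

variable {ι₁ ι₂ : Type} [Fintype ι₁] [DecidableEq ι₁] [Fintype ι₂] [DecidableEq ι₂]
variable {F : Type*} [Field F]

/-- The orthogonal sum of two quadratic forms. -/
noncomputable def osum (Q₁ : QuadraticForm F (ι₁ → F)) (Q₂ : QuadraticForm F (ι₂ → F)) :
    QuadraticForm F (ι₁ ⊕ ι₂ → F) :=
  Q₁.comp (LinearMap.funLeft F F Sum.inl) + Q₂.comp (LinearMap.funLeft F F Sum.inr)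

theorem osum_apply (Q₁ : QuadraticForm F (ι₁ → F)) (Q₂ : QuadraticForm F (ι₂ → F))
    (x : ι₁ ⊕ ι₂ → F) :
    osum Q₁ Q₂ x = Q₁ (fun i => x (Sum.inl i)) + Q₂ (fun i => x (Sum.inr i)) := rfl

theorem diag_mulVec_inl (A : Matrix ι₁ ι₁ F) (B : Matrix ι₂ ι₂ F) (x : ι₁ ⊕ ι₂ → F) :
    (fun i => (Matrix.fromBlocks A 0 0 B).mulVec x (Sum.inl i))
      = A.mulVec (fun i => x (Sum.inl i)) := by
  funext i
  rw [Matrix.fromBlocks_mulVec]
  simp only [Sum.elim_inl, Matrix.zero_mulVec, add_zero]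
  rfl

theorem diag_mulVec_inr (A : Matrix ι₁ ι₁ F) (B : Matrix ι₂ ι₂ F) (x : ι₁ ⊕ ι₂ → F) :
    (fun i => (Matrix.fromBlocks A 0 0 B).mulVec x (Sum.inr i))
      = B.mulVec (fun i => x (Sum.inr i)) := by
  funext i
  rw [Matrix.fromBlocks_mulVec]
  simp only [Sum.elim_inr, Matrix.zero_mulVec, zero_add]
  rfl

/-- Block-diagonal embedding of general linear groups. -/
def blkGL : Matrix.GeneralLinearGroup ι₁ F × Matrix.GeneralLinearGroup ι₂ F →*
    Matrix.GeneralLinearGroup (ι₁ ⊕ ι₂) F where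
  toFun g :=
    ⟨Matrix.fromBlocks (g.1 : Matrix ι₁ ι₁ F) 0 0 (g.2 : Matrix ι₂ ι₂ F),
      Matrix.fromBlocks ((g.1⁻¹ : Matrix.GeneralLinearGroup ι₁ F) : Matrix ι₁ ι₁ F) 0 0
        ((g.2⁻¹ : Matrix.GeneralLinearGroup ι₂ F) : Matrix ι₂ ι₂ F),
      by
        rw [Matrix.fromBlocks_multiply]
        simp only [Matrix.mul_zero, Matrix.zero_mul, add_zero, zero_add]
        rw [← Units.val_mul, ← Units.val_mul, mul_inv_cancel, mul_inv_cancel]
        exact Matrix.fromBlocks_one,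
      by
        rw [Matrix.fromBlocks_multiply]
        simp only [Matrix.mul_zero, Matrix.zero_mul, add_zero, zero_add]
        rw [← Units.val_mul, ← Units.val_mul, inv_mul_cancel, inv_mul_cancel]
        exact Matrix.fromBlocks_one⟩
  map_one' := Units.ext Matrix.fromBlocks_one
  map_mul' x y := by
    apply Units.ext
    show Matrix.fromBlocks ((x.1 * y.1 : Matrix.GeneralLinearGroup ι₁ F) : Matrix ι₁ ι₁ F) 0 0
        ((x.2 * y.2 : Matrix.GeneralLinearGroup ι₂ F) : Matrix ι₂ ι₂ F)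
      = Matrix.fromBlocks (x.1 : Matrix ι₁ ι₁ F) 0 0 (x.2 : Matrix ι₂ ι₂ F)
        * Matrix.fromBlocks (y.1 : Matrix ι₁ ι₁ F) 0 0 (y.2 : Matrix ι₂ ι₂ F)
    rw [Matrix.fromBlocks_multiply]
    simp only [Matrix.mul_zero, Matrix.zero_mul, add_zero, zero_add]
    rfl

theorem coe_blkGL (g : Matrix.GeneralLinearGroup ι₁ F × Matrix.GeneralLinearGroup ι₂ F) :
    ((blkGL g : Matrix.GeneralLinearGroup (ι₁ ⊕ ι₂) F) : Matrix (ι₁ ⊕ ι₂) (ι₁ ⊕ ι₂) F)
      = Matrix.fromBlocks (g.1 : Matrix ι₁ ι₁ F) 0 0 (g.2 : Matrix ι₂ ι₂ F) := rfl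

theorem blkGL_mem (Q₁ : QuadraticForm F (ι₁ → F)) (Q₂ : QuadraticForm F (ι₂ → F))
    (g : isometryGroup F ⇑Q₁ × isometryGroup F ⇑Q₂) :
    blkGL ((g.1 : Matrix.GeneralLinearGroup ι₁ F), (g.2 : Matrix.GeneralLinearGroup ι₂ F))
      ∈ isometryGroup F ⇑(osum Q₁ Q₂) := by
  rw [mem_isometryGroup_iff]
  intro x
  rw [osum_apply, osum_apply, coe_blkGL, diag_mulVec_inl, diag_mulVec_inr]
  show Q₁ (((g.1 : Matrix.GeneralLinearGroup ι₁ F) : Matrix ι₁ ι₁ F).mulVec _)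
    + Q₂ (((g.2 : Matrix.GeneralLinearGroup ι₂ F) : Matrix ι₂ ι₂ F).mulVec _) = _
  rw [isometry_apply, isometry_apply]

/-- Block-diagonal embedding of the product of two isometry groups into the isometry group of
the orthogonal sum. -/
def blk (Q₁ : QuadraticForm F (ι₁ → F)) (Q₂ : QuadraticForm F (ι₂ → F)) :
    isometryGroup F ⇑Q₁ × isometryGroup F ⇑Q₂ →* isometryGroup F ⇑(osum Q₁ Q₂) where
  toFun g :=
    ⟨blkGL ((g.1 : Matrix.GeneralLinearGroup ι₁ F), (g.2 : Matrix.GeneralLinearGroup ι₂ F)),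
      blkGL_mem Q₁ Q₂ g⟩
  map_one' := Subtype.ext (map_one blkGL)
  map_mul' x y := Subtype.ext (map_mul blkGL
    ((x.1 : Matrix.GeneralLinearGroup ι₁ F), (x.2 : Matrix.GeneralLinearGroup ι₂ F))
    ((y.1 : Matrix.GeneralLinearGroup ι₁ F), (y.2 : Matrix.GeneralLinearGroup ι₂ F)))

theorem coe_blk (Q₁ : QuadraticForm F (ι₁ → F)) (Q₂ : QuadraticForm F (ι₂ → F))
    (g : isometryGroup F ⇑Q₁ × isometryGroup F ⇑Q₂) :
    (((blk Q₁ Q₂ g : isometryGroup F ⇑(osum Q₁ Q₂)) : Matrix.GeneralLinearGroup (ι₁ ⊕ ι₂) F) :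
        Matrix (ι₁ ⊕ ι₂) (ι₁ ⊕ ι₂) F)
      = Matrix.fromBlocks (((g.1 : isometryGroup F ⇑Q₁) : Matrix.GeneralLinearGroup ι₁ F) :
          Matrix ι₁ ι₁ F) 0 0
        (((g.2 : isometryGroup F ⇑Q₂) : Matrix.GeneralLinearGroup ι₂ F) : Matrix ι₂ ι₂ F) := rfl

theorem blk_injective (Q₁ : QuadraticForm F (ι₁ → F)) (Q₂ : QuadraticForm F (ι₂ → F)) :
    Function.Injective (blk Q₁ Q₂) := by
  intro x y hxy
  have h := congrArg (fun g : isometryGroup F ⇑(osum Q₁ Q₂) =>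
    ((g : Matrix.GeneralLinearGroup (ι₁ ⊕ ι₂) F) : Matrix (ι₁ ⊕ ι₂) (ι₁ ⊕ ι₂) F)) hxy
  simp only [coe_blk] at h
  obtain ⟨h1, -, -, h2⟩ := Matrix.fromBlocks_inj.1 h
  exact Prod.ext (isometry_ext Q₁ h1) (isometry_ext Q₂ h2)

end defs

section swap

variable {ι : Type} [Fintype ι] [DecidableEq ι] {F : Type*} [Field F]

/-- The matrix exchanging the two summands of `ι ⊕ ι`. -/
def swapM (ι : Type) [Fintype ι] [DecidableEq ι] (F : Type*) [Field F] :
    Matrix (ι ⊕ ι) (ι ⊕ ι) F :=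
  Matrix.fromBlocks (0 : Matrix ι ι F) (1 : Matrix ι ι F) (1 : Matrix ι ι F) (0 : Matrix ι ι F)

theorem swap_mul_swap : swapM ι F * swapM ι F = 1 := by
  unfold swapM
  rw [Matrix.fromBlocks_multiply]
  simp only [Matrix.mul_zero, Matrix.zero_mul, add_zero, zero_add, Matrix.mul_one]
  exact Matrix.fromBlocks_one

/-- The invertible matrix exchanging the two summands of `ι ⊕ ι`. -/
def swapGL (ι : Type) [Fintype ι] [DecidableEq ι] (F : Type*) [Field F] :
    Matrix.GeneralLinearGroup (ι ⊕ ι) F :=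
  ⟨swapM ι F, swapM ι F, swap_mul_swap, swap_mul_swap⟩

theorem coe_swapGL :
    ((swapGL ι F : Matrix.GeneralLinearGroup (ι ⊕ ι) F) : Matrix (ι ⊕ ι) (ι ⊕ ι) F)
      = swapM ι F := rfl

theorem swap_mulVec_inl (x : ι ⊕ ι → F) :
    (fun i => (swapM ι F).mulVec x (Sum.inl i)) = fun i => x (Sum.inr i) := by
  funext i
  unfold swapM
  rw [Matrix.fromBlocks_mulVec]
  simp only [Sum.elim_inl, Matrix.zero_mulVec, zero_add, Matrix.one_mulVec]
  rfl

theorem swap_mulVec_inr (x : ι ⊕ ι → F) :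
    (fun i => (swapM ι F).mulVec x (Sum.inr i)) = fun i => x (Sum.inl i) := by
  funext i
  unfold swapM
  rw [Matrix.fromBlocks_mulVec]
  simp only [Sum.elim_inr, Matrix.zero_mulVec, add_zero, Matrix.one_mulVec]
  rfl

/-- The isometry of `osum Q Q` exchanging the two summands. -/
def swapIso (Q : QuadraticForm F (ι → F)) : isometryGroup F ⇑(osum Q Q) :=
  ⟨swapGL ι F, by
    rw [mem_isometryGroup_iff]
    intro x
    rw [osum_apply, osum_apply, coe_swapGL, swap_mulVec_inl, swap_mulVec_inr, add_comm]⟩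

theorem coe_swapIso (Q : QuadraticForm F (ι → F)) :
    (((swapIso Q : isometryGroup F ⇑(osum Q Q)) : Matrix.GeneralLinearGroup (ι ⊕ ι) F) :
        Matrix (ι ⊕ ι) (ι ⊕ ι) F) = swapM ι F := rfl

theorem swapIso_mul_self (Q : QuadraticForm F (ι → F)) : swapIso Q * swapIso Q = 1 := by
  apply isometry_ext
  exact swap_mul_swap

theorem swapIso_inv (Q : QuadraticForm F (ι → F)) : (swapIso Q)⁻¹ = swapIso Q :=
  inv_eq_of_mul_eq_one_left (swapIso_mul_self Q)

theorem swapIso_mul_blk (Q : QuadraticForm F (ι → F)) (g₁ g₂ : isometryGroup F ⇑Q) :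
    swapIso Q * blk Q Q (g₁, g₂) = blk Q Q (g₂, g₁) * swapIso Q := by
  apply isometry_ext
  rw [coe_mul', coe_mul', coe_swapIso, coe_blk, coe_blk]
  unfold swapM
  rw [Matrix.fromBlocks_multiply, Matrix.fromBlocks_multiply]
  simp only [Matrix.mul_zero, Matrix.zero_mul, add_zero, zero_add, Matrix.mul_one,
    Matrix.one_mul]

end swap

section unit

variable {F : Type*} [Field F]

/-- The form `c * x ^ 2` in one variable. -/
noncomputable def uf (c : F) : QuadraticForm F (Unit → F) :=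
  c • QuadraticMap.proj () ()

theorem uf_apply (c : F) (x : Unit → F) : uf c x = c * (x () * x ()) := rfl

end unit

end Cfsg.Agent.Lib.Helper81.OSum
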