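import Mathlib

/-!
# Project AQ (S3911): abelian subgroups of equal order conjugate, passing to `G ⧸ M`, `M` of odd order

Definitions.  `Star G`: any two abelian subgroups of `G` of the same order are conjugate.
-/

set_option autoImplicit false

namespace Cfsg.Agent.Lib.Helper81.AQ

variable {G : Type*} [Group G]

/-- Any two abelian subgroups of the same order are conjugate. -/
def Star (G : Type*) [Group G] : Prop :=
  ∀ A B : Subgroup G, IsMulCommutative ↥A → IsMulCommutative ↥B → Nat.card ↥A = Nat.card ↥B →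
    ∃ g : G, B = A.map (MulAut.conj g).toMonoidHom

/-- `L / M` is abelian: all commutators of elements of `L` lie in `M`. -/
def AbMod (L M : Subgroup G) : Prop := ∀ x ∈ L, ∀ y ∈ L, x * y * x⁻¹ * y⁻¹ ∈ M

/-- `g` normalises `Z`. -/
def Nrm (Z : Subgroup G) (g : G) : Prop := ∀ z : G, z ∈ Z ↔ g * z * g⁻¹ ∈ Z

/-- `Z` is commutative (elementwise form). -/
def Comm (Z : Subgroup G) : Prop := ∀ z ∈ Z, ∀ z' ∈ Z, z * z' = z' * z

/-- Conclusion of the step for the prime `p`: a commutative Sylow `p`-subgroup `Z` of `L` inside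
`L'` such that `C_{L'}(Z)` still covers `L` modulo `M`. -/
def StepC (M L L' : Subgroup G) (p : ℕ) : Prop :=
  ∃ Z : Subgroup G, Z ≤ L' ∧ Nat.card Z = p ^ (Nat.card L).factorization p ∧ Comm Z ∧
    (L' ⊓ Subgroup.centralizer (Z : Set G)) ⊔ M = L

/-- `Ls` has a central subgroup which is a Sylow `p`-subgroup of `L`. -/
def Good (L Ls : Subgroup G) (p : ℕ) : Prop :=
  ∃ Z : Subgroup G, Z ≤ Ls ∧ (∀ z ∈ Z, ∀ l ∈ Ls, z * l = l * z) ∧
    Nat.card Z = p ^ (Nat.card L).factorization p

/-- The order of `A` is the `π(d)`-part of the order of `L`. -/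
def FactC (A L : Subgroup G) (d : ℕ) : Prop :=
  ∀ q : ℕ, q.Prime → (Nat.card A).factorization q = if q ∣ d then (Nat.card L).factorization q else 0

/-- `L` (with `M ≤ L`, `L / M` abelian of order `d`) has an abelian Hall `π(d)`-subgroup `A`
with `A M = L`. -/
def LiftC (M L : Subgroup G) : Prop :=
  ∃ A : Subgroup G, IsMulCommutative ↥A ∧ A ≤ L ∧ A ⊔ M = L ∧ FactC A L (M.relIndex L)

/-- The facts about the preimage of an abelian subgroup `A` of `G ⧸ M`. -/
def ComapC (M : Subgroup G) [M.Normal] (A : Subgroup (G ⧸ M)) : Prop :=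
  M ≤ A.comap (QuotientGroup.mk' M) ∧ AbMod (A.comap (QuotientGroup.mk' M)) M ∧
    M.relIndex (A.comap (QuotientGroup.mk' M)) = Nat.card A ∧
    Nat.card (A.comap (QuotientGroup.mk' M)) = Nat.card M * Nat.card A

end Cfsg.Agent.Lib.Helper81.AQ
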