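import Mathlib
import Cfsg.Agent.Lib.Helper80.Major
import Cfsg.Agent.Lib.Helper81.BrPairs

/-!
# Transport of block parts under conjugation of Brauer pairs (helper81, for helper33's S4698)

* `blockPart_image_irrMap`: block parts are transported along group isomorphisms;
* `blockPart_conjPair`: the block part with respect to a conjugate Brauer pair.
-/

set_option autoImplicit false
set_option linter.style.haveILetI false

namespace Cfsg.Agent.Lib.BF

open Cfsg Cfsg.Agent.Lib.Helper81
open scoped ComplexConjugate

/-- Block parts are transported along group isomorphisms. -/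
theorem blockPart_image_irrMap {K K' : Type*} [Group K] [Group K'] [Finite K] [Finite K']
    (φ : K ≃* K') (b : Set (IrrCharacter K)) (F' : K' → ℂ) (k : K) :
    blockPart (irrMap φ '' b) F' (φ k) = blockPart b (fun c => F' (φ c)) k := by
  classical
  letI : Fintype K := Fintype.ofFinite K
  letI : Fintype K' := Fintype.ofFinite K'
  show ∑ᶠ χ ∈ irrMap φ '' b, @classInner K' _ (Fintype.ofFinite K') F' (χ : K' → ℂ) *
      (χ : K' → ℂ) (φ k) =
    ∑ᶠ χ ∈ b, @classInner K _ (Fintype.ofFinite K) (fun c => F' (φ c)) (χ : K → ℂ) *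
      (χ : K → ℂ) k
  rw [finsum_mem_image (fun x _ y _ h => irrMap_injective φ h)]
  refine finsum_mem_congr rfl fun ξ _ => ?_
  rw [irrMap_apply_apply]
  congr 1
  unfold classInner
  have hcard : Nat.card K' = Nat.card K := Nat.card_congr φ.symm.toEquiv
  rw [hcard]
  congr 1
  rw [← Equiv.sum_comp φ.toEquiv]
  refine Finset.sum_congr rfl fun c _ => ?_
  show F' (φ c) * conj ((irrMap φ ξ : K' → ℂ) (φ c)) = F' (φ c) * conj ((ξ : K → ℂ) c)
  rw [irrMap_apply_apply]

/-- The block part with respect to a conjugate block of a centralizer. -/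
theorem blockPart_conjBlock {G : Type*} [Group G] [Finite G] (g : G) (Q : Subgroup G)
    (f : Set (IrrCharacter (Subgroup.centralizer (Q : Set G)))) (F : G → ℂ)
    (hF : IsClassFunction G F) (x : G) (s : Subgroup.centralizer (Q : Set G)) :
    blockPart (conjBlock Q g f)
        (fun c : Subgroup.centralizer
          ((Q.map (MulAut.conj g).toMonoidHom : Subgroup G) : Set G) =>
            F (g * x * g⁻¹ * (c : G))) (conjCent Q g s) =
      blockPart f (fun c : Subgroup.centralizer (Q : Set G) => F (x * (c : G))) s := by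
  rw [conjBlock_eq_image, blockPart_image_irrMap]
  congr 1
  funext c
  show F (g * x * g⁻¹ * ((conjCent Q g c : Subgroup.centralizer
      ((Q.map (MulAut.conj g).toMonoidHom : Subgroup G) : Set G)) : G)) = F (x * (c : G))
  rw [conjCent_apply]
  have e : g * x * g⁻¹ * (g * (c : G) * g⁻¹) = g * (x * (c : G)) * g⁻¹ := by group
  rw [e]
  exact hF (x * (c : G)) g

/-- The block part with respect to a conjugate Brauer pair. -/
theorem blockPart_conjPair {G : Type*} [Group G] [Finite G] (g : G) (a a' : BrauerPairIdx G)
    (h : Cfsg.Agent.Lib.Helper81.conjPair g a = a') (F : G → ℂ) (hF : IsClassFunction G F)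
    (x : G) (s : Subgroup.centralizer (a.1 : Set G)) (s' : Subgroup.centralizer (a'.1 : Set G))
    (hs : (s' : G) = g * (s : G) * g⁻¹) :
    blockPart a'.2 (fun c : Subgroup.centralizer (a'.1 : Set G) =>
        F (g * x * g⁻¹ * (c : G))) s' =
      blockPart a.2 (fun c : Subgroup.centralizer (a.1 : Set G) => F (x * (c : G))) s := by
  subst h
  obtain ⟨Q, f⟩ := a
  have hs' : s' = conjCent Q g s := Subtype.ext (by rw [hs]; rfl)
  rw [hs']
  exact blockPart_conjBlock g Q f F hF x s

end Cfsg.Agent.Lib.BF
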