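import Mathlib
import Cfsg.Agent.Lib.Helper81.AQDefs
import Cfsg.Agent.Lib.Helper19.AQCYCA
import Cfsg.Agent.Lib.Helper85.AQCYCBb
import Cfsg.Agent.Lib.Helper21.AQCYCC
import Cfsg.Agent.Lib.Helper28.AQSYL
import Cfsg.Agent.Lib.Helper34.AQCARD0b
import Cfsg.Agent.Lib.Helper9.AQCARD1
import Cfsg.Agent.Lib.Helper34.AQNC0
import Cfsg.Agent.Lib.Helper74.AQNC1b
import Cfsg.Agent.Lib.Helper42.AQFRAT
import Cfsg.Agent.Lib.Helper89.AQSTEPG
import Cfsg.Agent.Lib.Helper13.AQIND
import Cfsg.Agent.Lib.Helper93.AQASMAB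
import Cfsg.Agent.Lib.Helper14.AQASMFACTb
import Cfsg.Agent.Lib.Helper72.AQSUP
import Cfsg.Agent.Lib.Helper57.AQQUOT1
import Cfsg.Agent.Lib.Helper56.AQQUOT2

/-!
# Project AQ (S3911): assembly
-/

set_option autoImplicit false

namespace Cfsg.Agent.Lib.Helper81.AQ

variable {G : Type*} [Group G]

theorem card_mul_relIndex' [Finite G] (M L : Subgroup G) (hML : M ≤ L) :
    Nat.card M * M.relIndex L = Nat.card L := by
  have h := Subgroup.relIndex_mul_relIndex (⊥ : Subgroup G) M L bot_le hML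
  rw [Subgroup.relIndex_bot_left, Subgroup.relIndex_bot_left] at h
  exact h

-- glue STEPALL (the step for every prime, from the leaves)
theorem step_all [Finite G] (hB : Star G) (M : Subgroup G) [M.Normal] (hM : Odd (Nat.card M))
    (L : Subgroup G) (hML : M ≤ L) (hab : AbMod L M) :
    ∀ L' : Subgroup G, L' ≤ L → L' ⊔ M = L → ∀ p : ℕ, p.Prime → p ∣ M.relIndex L →
      StepC M L L' p := by
  intro L' hL' hsup p hp hpd
  haveI : Fact p.Prime := ⟨hp⟩
  have hsyl := exists_sylow_in L' p
  have hfr : ∀ Z : Subgroup G, Z ≤ L' → Nat.card Z = p ^ (Nat.card L').factorization p →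
      ∀ l ∈ L', ∃ n ∈ L', ∃ m ∈ M, Nrm Z n ∧ l = n * m :=
    fun Z hZ hcard l hl => frattini M L L' Z hab hL' hZ p hcard l hl
  by_cases hpM : p ∣ Nat.card M
  · have hp2 : p ≠ 2 := by
      rintro rfl
      exact (Nat.not_even_iff_odd.mpr hM) (even_iff_two_dvd.mpr hpM)
    have hpI : p ∣ M.index := dvd_trans hpd (Subgroup.relIndex_dvd_index_of_le hML)
    obtain ⟨x, hx⟩ := exists_order_sq hB M p hpM hpI
    have hcyc : ∀ Q : Subgroup G, IsPGroup p Q → IsCyclic Q := fun Q hQ =>
      pgroup_cyclic p hp2 (fun Q' hQ' hc => abelian_cyclic hB p x hx Q' hQ' hc) Q hQ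
    have hval := val_eq_of_cyclic M L L' hML hab hL' hsup p hpd hcyc
    refine step_glue M L L' hML hL' hsup p hsyl hval ?_ hfr
    intro Z hZ hcard g hg hn
    have hZp : IsPGroup p Z := IsPGroup.of_card hcard
    have hZM : ¬ Z ≤ M := by
      intro hle
      have h1 : Nat.card Z ∣ Nat.card M := Subgroup.card_dvd_of_le hle
      rw [hcard, hval] at h1
      have h2 := card_mul_relIndex' M L hML
      have hMne : Nat.card M ≠ 0 := Nat.card_pos.ne'
      have hLne : Nat.card L ≠ 0 := Nat.card_pos.ne'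
      have hdne : M.relIndex L ≠ 0 := by
        intro h0; rw [h0, mul_zero] at h2; exact hLne h2.symm
      have h3 : (Nat.card L).factorization p ≤ (Nat.card M).factorization p :=
        (hp.pow_dvd_iff_le_factorization hMne).mp h1
      have h4 : (Nat.card L).factorization p =
          (Nat.card M).factorization p + (M.relIndex L).factorization p := by
        rw [← h2, Nat.factorization_mul hMne hdne]; rfl
      have h5 : 1 ≤ (M.relIndex L).factorization p :=
        (hp.dvd_iff_one_le_factorization hdne).mp hpd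
      omega
    exact central_of_cyclic M L L' Z hab hL' hZ p (hcyc Z hZp) hcard hZM g hg hn
  · have hval := val_eq_of_not_dvd M L L' hML hL' hsup p hpM
    refine step_glue M L L' hML hL' hsup p hsyl hval ?_ hfr
    intro Z hZ hcard g hg hn
    exact central_of_not_dvd M L L' Z hab hL' hZ p (IsPGroup.of_card hcard) hpM g hg hn

-- glue LIFT
theorem lift_of_step [Finite G] (M L : Subgroup G) (hML : M ≤ L)
    (hstep : ∀ L' : Subgroup G, L' ≤ L → L' ⊔ M = L → ∀ p : ℕ, p.Prime → p ∣ M.relIndex L →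
      StepC M L L' p) : LiftC M L := by
  classical
  have h2 := card_mul_relIndex' M L hML
  have hLne : Nat.card L ≠ 0 := Nat.card_pos.ne'
  have hd0 : M.relIndex L ≠ 0 := by
    intro h0; rw [h0, mul_zero] at h2; exact hLne h2.symm
  obtain ⟨Ls, hLs, hsup, hgood⟩ := ind_primes M L hML hstep (M.relIndex L).primeFactors
    (fun p hp => ⟨Nat.prime_of_mem_primeFactors hp, Nat.dvd_of_mem_primeFactors hp⟩)
  simp only [Good] at hgood
  choose! Z hZ using hgood
  have hab := asm_abelian Ls (M.relIndex L).primeFactors Z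
    (fun p hp => ⟨(hZ p hp).1, (hZ p hp).2.1⟩)
  have hF : FactC (⨆ p ∈ (M.relIndex L).primeFactors, Z p) L (M.relIndex L) := by
    intro q hq
    have h := asm_fact L (M.relIndex L).primeFactors
      (fun p hp => Nat.prime_of_mem_primeFactors hp) Z (fun p hp => ((hZ p hp).1).trans hLs)
      (fun p hp => (hZ p hp).2.2) hab.1 q hq
    rw [h]
    have hiff : q ∈ (M.relIndex L).primeFactors ↔ q ∣ M.relIndex L := by
      rw [Nat.mem_primeFactors]; exact ⟨fun h => h.2.1, fun h => ⟨hq, h, hd0⟩⟩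
    simp only [hiff]
  exact ⟨⨆ p ∈ (M.relIndex L).primeFactors, Z p, hab.1, hab.2.trans hLs,
    sup_eq_of_fact M _ L hML (hab.2.trans hLs) hF, hF⟩

/-- S3911 in `Star` form. -/
theorem main [Finite G] (hB : Star G) (M : Subgroup G) [M.Normal] (hM : Odd (Nat.card M)) :
    ∀ A B : Subgroup (G ⧸ M), IsMulCommutative ↥A → IsMulCommutative ↥B →
      Nat.card ↥A = Nat.card ↥B → ∃ g : G ⧸ M, B = A.map (MulAut.conj g).toMonoidHom :=
  final_of_lift hB M
    (fun L hML hab => lift_of_step M L hML (step_all hB M hM L hML hab))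
    (fun A hA => comap_facts M A hA)

end Cfsg.Agent.Lib.Helper81.AQ
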