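import Cfsg.Agent.Lib.Helper41.BG11Kit
import Cfsg.Agent.Lib.Helper31.PGrp
import Cfsg.Agent.S1453
import Cfsg.Agent.S0126

/-!
# B&G Section 11, piece BG11-BSAN (helper81, for helper41): in a group of odd order and of
`p`-rank at least 3, the centralizer in a `p`-subgroup of a maximal elementary abelian subgroup
of order `p ^ 2` is commutative (narrow `p`-groups, S1453).
-/

set_option autoImplicit false

open Cfsg Cfsg.Agent.Lib.Helper32 Cfsg.Agent.Lib.Helper32.BG10 Cfsg.Agent.Lib.Helper3.BG12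
open Cfsg.Agent.Lib.Helper41.BG11

namespace Cfsg.Agent.Lib.Helper81.BG11

universe u

private theorem bsan_aux {R : Type*} [Group R] [Finite R] (p : ℕ) [Fact p.Prime] (hp2 : p ≠ 2)
    (hR : IsPGroup p R) (hr : ¬ PRankLE p 2 R) (E : Subgroup R) (hE : IsElementaryAbelian p E)
    (hE2 : Nat.card E = p ^ 2)
    (hEmax : ∀ B : Subgroup R, IsElementaryAbelian p B → E ≤ B → B = E) :
    ∀ x ∈ Subgroup.centralizer (E : Set R), ∀ y ∈ Subgroup.centralizer (E : Set R),
      x * y = y * x := by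
  classical
  have hpp : p.Prime := Fact.out
  obtain ⟨hET, hZc, -, hTchar, hTidx⟩ := Cfsg.Agent.S1453.result p hp2 hR hr E hE hE2 hEmax
  obtain ⟨W, hW⟩ : ∃ W : Subgroup R, W = Subgroup.closure
      {x : R | x ∈ Subgroup.upperCentralSeries R 2 ∧ x ^ p = 1} := ⟨_, rfl⟩
  rw [← hW] at hET hTchar hTidx
  obtain ⟨T, hT⟩ : ∃ T : Subgroup R, T = Subgroup.centralizer (W : Set R) := ⟨_, rfl⟩
  rw [← hT] at hET hTchar hTidx
  obtain ⟨Z, hZ⟩ : ∃ Z : Subgroup R, Z = Subgroup.closure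
      {x : R | x ∈ Subgroup.center R ∧ x ^ p = 1} := ⟨_, rfl⟩
  rw [← hZ] at hZc
  have hEc := Cfsg.Agent.Lib.Helper31.isMulComm_iff.mp hE.1
  have hΩ : ∀ x ∈ Subgroup.centralizer (E : Set R), x ^ p = 1 → x ∈ E := by
    intro x hx hxp
    have hB : IsElementaryAbelian p (E ⊔ Subgroup.zpowers x) := by
      refine Cfsg.Agent.Lib.Helper31.elemAb_sup hE
        (Cfsg.Agent.Lib.Helper31.elemAb_zpowers hxp) ?_
      intro a ha b hb
      obtain ⟨i, rfl⟩ := hb
      have h1 : a * x = x * a := (Subgroup.mem_centralizer_iff.mp hx) a ha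
      exact (Commute.zpow_right (show Commute a x from h1) i).eq
    have h2 := hEmax _ hB le_sup_left
    rw [← h2]
    exact Subgroup.mem_sup_right (Subgroup.mem_zpowers x)
  have hZE : Z ≤ E := by
    rw [hZ, Subgroup.closure_le]
    rintro x ⟨hxc, hxp⟩
    refine hΩ x ?_ hxp
    rw [Subgroup.mem_centralizer_iff]
    intro a _
    exact (Subgroup.mem_center_iff.mp hxc a)
  have hZT : Z ≤ T := by
    rw [hZ, Subgroup.closure_le]
    rintro x ⟨hxc, hxp⟩
    rw [hT]
    show x ∈ Subgroup.centralizer (W : Set R)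
    rw [Subgroup.mem_centralizer_iff]
    intro a _
    exact (Subgroup.mem_center_iff.mp hxc a)
  have hETZ : E ⊓ T = Z := by
    symm
    refine Subgroup.eq_of_le_of_card_ge (le_inf hZE hZT) ?_
    rw [hZc]
    have hd : Nat.card ↥(E ⊓ T) ∣ p ^ 2 := hE2 ▸ Subgroup.card_dvd_of_le inf_le_left
    obtain ⟨k, hk, hkc⟩ := (Nat.dvd_prime_pow hpp).mp hd
    interval_cases k
    · rw [hkc, pow_zero]; exact hpp.one_lt.le
    · rw [hkc, pow_one]
    · exfalso
      apply hET
      have h3 : E ⊓ T = E := Subgroup.eq_of_le_of_card_ge inf_le_left (by rw [hE2, hkc])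
      rw [← h3]; exact inf_le_right
  obtain ⟨a, haE, haT⟩ := SetLike.not_le_iff_exists.mp hET
  haveI hTn : T.Normal := by
    haveI := hTchar
    infer_instance
  have hdecomp : ∀ x : R, ∃ i : ℕ, ∃ t ∈ T, x = a ^ i * t := by
    intro x
    have hcard : Nat.card (R ⧸ T) = p := hTidx
    have ha1 : (QuotientGroup.mk a : R ⧸ T) ≠ 1 := by
      intro h; exact haT ((QuotientGroup.eq_one_iff a).mp h)
    have hzp : Subgroup.zpowers (QuotientGroup.mk a : R ⧸ T) = ⊤ :=
      zpowers_eq_top_of_prime_card hcard ha1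
    have hx : (QuotientGroup.mk x : R ⧸ T) ∈ Subgroup.zpowers (QuotientGroup.mk a : R ⧸ T) := by
      rw [hzp]; trivial
    rw [← mem_powers_iff_mem_zpowers] at hx
    obtain ⟨i, hi⟩ := hx
    refine ⟨i, (a ^ i)⁻¹ * x, ?_, by group⟩
    rw [← QuotientGroup.eq_one_iff ((a ^ i)⁻¹ * x)]
    rw [QuotientGroup.mk_mul, QuotientGroup.mk_inv, QuotientGroup.mk_pow, ← hi]
    exact inv_mul_cancel _
  have hDcyc : IsCyclic ↥(T ⊓ Subgroup.centralizer (E : Set R)) := by
    by_contra hnc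
    obtain ⟨B, -, hBe, hBc⟩ := Cfsg.Agent.S0126.result hp2 (hR.to_subgroup _) hnc
    have hBZ : B.map (Subgroup.subtype _) ≤ Z := by
      rintro _ ⟨b, hb, rfl⟩
      have hbp : (b : R) ^ p = 1 := by
        have h4 := hBe.2 b hb
        have h5 := congrArg Subtype.val h4
        simpa using h5
      have hbE : (b : R) ∈ E := hΩ _ b.2.2 hbp
      rw [← hETZ]; exact ⟨hbE, b.2.1⟩
    have hcard : Nat.card ↥(B.map (Subgroup.subtype _)) = p ^ 2 := by
      rw [← Nat.card_congr (B.equivMapOfInjective _ (Subgroup.subtype_injective _)).toEquiv, hBc]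
    have h6 := Subgroup.card_le_of_le hBZ
    rw [hcard, hZc] at h6
    nlinarith [hpp.one_lt]
  intro x hx y hy
  obtain ⟨i, t, ht, rfl⟩ := hdecomp x
  obtain ⟨j, s, hs, rfl⟩ := hdecomp y
  have haC : a ∈ Subgroup.centralizer (E : Set R) := by
    rw [Subgroup.mem_centralizer_iff]; intro b hb; exact hEc b hb a haE
  have htC : t ∈ Subgroup.centralizer (E : Set R) := by
    have h7 : t = (a ^ i)⁻¹ * (a ^ i * t) := by group
    rw [h7]; exact Subgroup.mul_mem _ (Subgroup.inv_mem _ (Subgroup.pow_mem _ haC i)) hx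
  have hsC : s ∈ Subgroup.centralizer (E : Set R) := by
    have h7 : s = (a ^ j)⁻¹ * (a ^ j * s) := by group
    rw [h7]; exact Subgroup.mul_mem _ (Subgroup.inv_mem _ (Subgroup.pow_mem _ haC j)) hy
  have hts : t * s = s * t := by
    obtain ⟨g, hg⟩ := hDcyc.exists_generator
    obtain ⟨m, hm⟩ := hg ⟨t, ht, htC⟩
    obtain ⟨n, hn⟩ := hg ⟨s, hs, hsC⟩
    have h1 : (⟨t, ht, htC⟩ : ↥(T ⊓ Subgroup.centralizer (E : Set R))) * ⟨s, hs, hsC⟩
        = ⟨s, hs, hsC⟩ * ⟨t, ht, htC⟩ := by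
      rw [← hm, ← hn]
      simp only
      rw [← zpow_add, ← zpow_add, add_comm]
    exact congrArg Subtype.val h1
  have hat : Commute a t := (Subgroup.mem_centralizer_iff.mp htC) a haE
  have has : Commute a s := (Subgroup.mem_centralizer_iff.mp hsC) a haE
  have h1 : Commute (a ^ i) s := has.pow_left i
  have h2 : Commute t (a ^ j) := (hat.pow_left j).symm
  have h3 : Commute (a ^ i) (a ^ j) := (Commute.refl a).pow_pow i j
  calc a ^ i * t * (a ^ j * s) = a ^ i * (t * a ^ j) * s := by simp only [mul_assoc]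
    _ = a ^ i * (a ^ j * t) * s := by rw [h2.eq]
    _ = (a ^ i * a ^ j) * (t * s) := by simp only [mul_assoc]
    _ = (a ^ j * a ^ i) * (s * t) := by rw [h3.eq, hts]
    _ = a ^ j * (a ^ i * s) * t := by simp only [mul_assoc]
    _ = a ^ j * (s * a ^ i) * t := by rw [h1.eq]
    _ = a ^ j * s * (a ^ i * t) := by simp only [mul_assoc]

variable {G : Type u} [Group G] [Finite G]

theorem bsan (hodd : Odd (Nat.card G)) (p : ℕ) (A P : Subgroup G) (hp : p.Prime)
    (hr : ¬ PRankLE p 2 G) (hmax : MaxEA p A) (hAc : Nat.card A = p ^ 2) (hP : IsPGroup p P)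
    (hAP : A ≤ P) : IsMulCommutative ↥(P ⊓ Subgroup.centralizer (A : Set G)) := by
  classical
  haveI : Fact p.Prime := ⟨hp⟩
  have hp2 : p ≠ 2 := by
    rintro rfl
    have h1 : Nat.card A ∣ Nat.card G := Subgroup.card_subgroup_dvd_card A
    rw [hAc] at h1
    have h2 : 2 ∣ Nat.card G := dvd_trans (dvd_pow_self 2 two_ne_zero) h1
    exact (Nat.not_even_iff_odd.mpr hodd) (even_iff_two_dvd.mpr h2)
  obtain ⟨S, hPS⟩ := hP.exists_le_sylow
  have hAS : A ≤ (S : Subgroup G) := hAP.trans hPS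
  have hS : (S : Subgroup G) ∈ sylSet p (⊤ : Subgroup G) :=
    ⟨le_top, by rw [S.card_eq_multiplicity, Subgroup.card_top]⟩
  have hrS : ¬ PRankLE p 2 ↥(S : Subgroup G) := by
    intro h
    have h1 := prankLE_of_sylSet hS 2 h
    apply hr
    intro B hBc hBe
    by_contra hlt
    push Not at hlt
    exact not_prankLE_of_le (le_top : B ≤ ⊤) (Cfsg.Agent.Lib.Helper31.isMulComm_iff.mp hBc)
      hBe hlt h1
  obtain ⟨E, hEdef⟩ : ∃ E : Subgroup ↥(S : Subgroup G), E = A.subgroupOf (S : Subgroup G) :=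
    ⟨_, rfl⟩
  have hEe : IsElementaryAbelian p E := by
    refine ⟨Cfsg.Agent.Lib.Helper31.isMulComm_iff.mpr ?_, ?_⟩
    · intro a ha b hb
      rw [hEdef, Subgroup.mem_subgroupOf] at ha hb
      exact Subtype.ext (Cfsg.Agent.Lib.Helper31.isMulComm_iff.mp hmax.1.1 _ ha _ hb)
    · intro a ha
      rw [hEdef, Subgroup.mem_subgroupOf] at ha
      exact Subtype.ext (by simpa using hmax.1.2 _ ha)
  have hEc : Nat.card E = p ^ 2 := by
    rw [hEdef, Nat.card_congr (Subgroup.subgroupOfEquivOfLe hAS).toEquiv, hAc]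
  have hEmax : ∀ B : Subgroup ↥(S : Subgroup G), IsElementaryAbelian p B → E ≤ B → B = E := by
    intro B hB hEB
    have hB' : IsElementaryAbelian p (B.map (S : Subgroup G).subtype) := by
      refine ⟨Cfsg.Agent.Lib.Helper31.isMulComm_iff.mpr ?_, ?_⟩
      · rintro _ ⟨a, ha, rfl⟩ _ ⟨b, hb, rfl⟩
        exact congrArg Subtype.val (Cfsg.Agent.Lib.Helper31.isMulComm_iff.mp hB.1 a ha b hb)
      · rintro _ ⟨a, ha, rfl⟩
        have h4 := hB.2 a ha
        have h5 := congrArg Subtype.val h4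
        simpa using h5
    have hAB : A ≤ B.map (S : Subgroup G).subtype := by
      intro a ha
      exact ⟨⟨a, hAS ha⟩, hEB (by rw [hEdef, Subgroup.mem_subgroupOf]; exact ha), rfl⟩
    have h := hmax.2 _ hB' hAB
    ext b
    constructor
    · intro hb
      rw [hEdef, Subgroup.mem_subgroupOf, ← h]
      exact ⟨b, hb, rfl⟩
    · intro hb; exact hEB hb
  have hSp : IsPGroup p ↥(S : Subgroup G) := S.isPGroup'
  have key := bsan_aux p hp2 hSp hrS E hEe hEc hEmax
  refine Cfsg.Agent.Lib.Helper31.isMulComm_iff.mpr ?_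
  intro x hx y hy
  have hxS : x ∈ (S : Subgroup G) := hPS hx.1
  have hyS : y ∈ (S : Subgroup G) := hPS hy.1
  have hcent : ∀ z (hz : z ∈ (S : Subgroup G)), z ∈ Subgroup.centralizer (A : Set G) →
      (⟨z, hz⟩ : ↥(S : Subgroup G)) ∈ Subgroup.centralizer (E : Set ↥(S : Subgroup G)) := by
    intro z hz hzc
    rw [Subgroup.mem_centralizer_iff]
    intro e he
    rw [SetLike.mem_coe, hEdef, Subgroup.mem_subgroupOf] at he
    exact Subtype.ext ((Subgroup.mem_centralizer_iff.mp hzc) _ he)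
  exact congrArg Subtype.val (key _ (hcent x hxS hx.2) _ (hcent y hyS hy.2))

end Cfsg.Agent.Lib.Helper81.BG11
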