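import Mathlib
import Cfsg.Agent.Lib.Helper10.BT0

/-!
# S4700 piece BT-L4 `fix_sub` (helper81, for helper10)
-/

set_option autoImplicit false

namespace Cfsg.Agent.Lib.Helper10.BT

/-- BT-L4 -/
theorem fix_sub {G : Type*} [Group G] [Finite G] (p : ℕ) [Fact p.Prime] (e n : ℕ)
    (he : e ∣ p - 1) (he2 : 2 ≤ e)
    (hP : ∀ P₁ : Sylow p G, Nat.card P₁ = p)
    (hC : ∀ P₁ : Sylow p G,
      Subgroup.centralizer ((P₁ : Subgroup G) : Set G) = (P₁ : Subgroup G))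
    (hN : ∀ P₁ : Sylow p G,
      Nat.card (Subgroup.normalizer ((P₁ : Subgroup G) : Set G)) = e * p)
    (hT : ∀ P₁ P₂ : Sylow p G, P₁ ≠ P₂ →
      Nat.card ↥(Subgroup.normalizer ((P₁ : Subgroup G) : Set G) ⊓
        Subgroup.normalizer ((P₂ : Subgroup G) : Set G)) = e)
    (hF : ∀ (P₁ : Sylow p G) (y : G),
      y ∈ Subgroup.normalizer ((P₁ : Subgroup G) : Set G) → y ∉ (P₁ : Subgroup G) →
      Nat.card {P' : Sylow p G // y ∈ Subgroup.normalizer ((P' : Subgroup G) : Set G)} = n + 1)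
    (P₁ P₂ : Sylow p G) (h12 : P₁ ≠ P₂) :
    Nat.card {P' : Sylow p G // Subgroup.normalizer ((P₁ : Subgroup G) : Set G) ⊓
      Subgroup.normalizer ((P₂ : Subgroup G) : Set G) ≤
        Subgroup.normalizer ((P' : Subgroup G) : Set G)} = n + 1 := by
  classical
  have hpp : p.Prime := Fact.out
  have hep : Nat.Coprime e p := by
    have h1 : 0 < p - 1 := by have := hpp.two_le; omega
    have h2 : e ≤ p - 1 := Nat.le_of_dvd h1 he
    refine (Nat.coprime_comm.mp ((Nat.Prime.coprime_iff_not_dvd hpp).mpr ?_))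
    intro h3
    have := Nat.le_of_dvd (by omega) h3
    omega
  have hP1 := hP P₁
  obtain ⟨g₀, hg₀P, hg₀⟩ : ∃ g₀ ∈ (P₁ : Subgroup G),
      ∀ x ∈ (P₁ : Subgroup G), x ∈ Subgroup.zpowers g₀ := by
    haveI : IsCyclic ↥(P₁ : Subgroup G) := isCyclic_of_prime_card hP1
    obtain ⟨g, hg⟩ := IsCyclic.exists_generator (α := ↥(P₁ : Subgroup G))
    refine ⟨g.1, g.2, fun x hx => ?_⟩
    obtain ⟨k, hk⟩ := hg ⟨x, hx⟩
    exact ⟨k, by simpa using congrArg Subtype.val hk⟩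
  have hB : ∀ s ∈ Subgroup.normalizer ((P₁ : Subgroup G) : Set G),
      ∀ y ∈ Subgroup.normalizer ((P₁ : Subgroup G) : Set G),
      (y * s)⁻¹ * (s * y) ∈ (P₁ : Subgroup G) := by
    intro s hs y hy
    obtain ⟨a, ha⟩ := hg₀ _ ((Subgroup.mem_normalizer_iff.mp hs g₀).mp hg₀P)
    obtain ⟨b, hb⟩ := hg₀ _ ((Subgroup.mem_normalizer_iff.mp hy g₀).mp hg₀P)
    simp only at ha hb
    have h1 : (s * y) * g₀ * (s * y)⁻¹ = g₀ ^ (a * b) := by
      have e1 : (s * y) * g₀ * (s * y)⁻¹ = s * (y * g₀ * y⁻¹) * s⁻¹ := by group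
      rw [e1, ← hb, ← conj_zpow, ← ha, ← zpow_mul]
    have h2 : (y * s) * g₀ * (y * s)⁻¹ = g₀ ^ (a * b) := by
      have e1 : (y * s) * g₀ * (y * s)⁻¹ = y * (s * g₀ * s⁻¹) * y⁻¹ := by group
      rw [e1, ← ha, ← conj_zpow, ← hb, ← zpow_mul, mul_comm]
    have h3 : ((y * s)⁻¹ * (s * y)) * g₀ * ((y * s)⁻¹ * (s * y))⁻¹ = g₀ := by
      have e1 : ((y * s)⁻¹ * (s * y)) * g₀ * ((y * s)⁻¹ * (s * y))⁻¹
          = (y * s)⁻¹ * ((s * y) * g₀ * (s * y)⁻¹) * (y * s) := by group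
      rw [e1, h1, ← h2]; group
    have h4 : Commute ((y * s)⁻¹ * (s * y)) g₀ := mul_inv_eq_iff_eq_mul.mp h3
    rw [← hC P₁, Subgroup.mem_centralizer_iff]
    intro x hx
    obtain ⟨k, rfl⟩ := hg₀ x hx
    exact ((Commute.zpow_right h4 k).eq).symm
  obtain ⟨T, hTdef⟩ : ∃ T : Subgroup G, T = Subgroup.normalizer ((P₁ : Subgroup G) : Set G) ⊓
      Subgroup.normalizer ((P₂ : Subgroup G) : Set G) := ⟨_, rfl⟩
  rw [← hTdef]
  have hTc : Nat.card T = e := by rw [hTdef]; exact hT P₁ P₂ h12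
  have hTN : T ≤ Subgroup.normalizer ((P₁ : Subgroup G) : Set G) := by
    rw [hTdef]; exact inf_le_left
  have hinf : ∀ T₀ : Subgroup G, Nat.card T₀ = e → ∀ x ∈ T₀, x ∈ (P₁ : Subgroup G) → x = 1 := by
    intro T₀ hT₀ x hx hxP
    have h1 : orderOf x ∣ e := by
      rw [← hT₀]; exact Subgroup.orderOf_dvd_natCard T₀ hx
    have h2 : orderOf x ∣ p := by
      rw [← hP1]; exact Subgroup.orderOf_dvd_natCard _ hxP
    have h3 : orderOf x ∣ Nat.gcd e p := Nat.dvd_gcd h1 h2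
    rw [hep.gcd_eq_one] at h3
    exact orderOf_eq_one_iff.mp (Nat.dvd_one.mp h3)
  obtain ⟨y, hyT, hy1⟩ : ∃ y ∈ T, y ≠ 1 := by
    by_contra hcon
    push Not at hcon
    have h0 : T = ⊥ := (Subgroup.eq_bot_iff_forall T).mpr hcon
    rw [h0, Subgroup.card_bot] at hTc
    omega
  have hyN : y ∈ Subgroup.normalizer ((P₁ : Subgroup G) : Set G) := hTN hyT
  have hyP : y ∉ (P₁ : Subgroup G) := fun h => hy1 (hinf T hTc y hyT h)
  obtain ⟨C, hCdef⟩ : ∃ C : Subgroup G, C = Subgroup.normalizer ((P₁ : Subgroup G) : Set G) ⊓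
      Subgroup.centralizer ({y} : Set G) := ⟨_, rfl⟩
  have hCP : ∀ u ∈ C, u ∈ (P₁ : Subgroup G) → u = 1 := by
    intro u huC huP
    by_contra hu1
    apply hyP
    rw [← hC P₁, Subgroup.mem_centralizer_iff]
    intro x hx
    have hz : Subgroup.zpowers u = (P₁ : Subgroup G) := by
      refine Subgroup.eq_of_le_of_card_ge (by rw [Subgroup.zpowers_le]; exact huP) ?_
      rw [hP1, Nat.card_zpowers]
      have h1 : orderOf u ∣ p := by rw [← hP1]; exact Subgroup.orderOf_dvd_natCard _ huP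
      rcases (Nat.dvd_prime hpp).mp h1 with h2 | h2
      · exact absurd (orderOf_eq_one_iff.mp h2) hu1
      · rw [h2]
    rw [← hz] at hx
    obtain ⟨k, rfl⟩ := hx
    rw [hCdef] at huC
    have h5 : y * u = u * y := (Subgroup.mem_centralizer_iff.mp huC.2) y rfl
    exact ((Commute.zpow_left (show Commute u y from h5.symm) k).eq)
  have hCcard : Nat.card C ≤ e := by
    have hCle : C ≤ Subgroup.normalizer ((P₁ : Subgroup G) : Set G) := by
      rw [hCdef]; exact inf_le_left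
    let φ : ↥C × ↥(P₁ : Subgroup G) → ↥(Subgroup.normalizer ((P₁ : Subgroup G) : Set G)) :=
      fun q => ⟨q.1.1 * q.2.1, Subgroup.mul_mem _ (hCle q.1.2) (Subgroup.le_normalizer q.2.2)⟩
    have hφ : Function.Injective φ := by
      rintro ⟨c, u⟩ ⟨c', u'⟩ h
      have h1 : c.1 * u.1 = c'.1 * u'.1 := congrArg Subtype.val h
      have h2 : c'.1⁻¹ * c.1 = u'.1 * u.1⁻¹ := by
        calc c'.1⁻¹ * c.1 = c'.1⁻¹ * (c.1 * u.1) * u.1⁻¹ := by group
          _ = c'.1⁻¹ * (c'.1 * u'.1) * u.1⁻¹ := by rw [h1]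
          _ = u'.1 * u.1⁻¹ := by group
      have h3 : c'.1⁻¹ * c.1 = 1 := hCP _ (C.mul_mem (C.inv_mem c'.2) c.2)
        (by rw [h2]; exact Subgroup.mul_mem _ u'.2 (Subgroup.inv_mem _ u.2))
      have h4 : c'.1 = c.1 := inv_mul_eq_one.mp h3
      have h5 : u.1 = u'.1 := by rw [← h4] at h1; exact mul_left_cancel h1
      exact Prod.ext (Subtype.ext h4.symm) (Subtype.ext h5)
    have h6 := Nat.card_le_card_of_injective φ hφ
    rw [Nat.card_prod, hP1, hN P₁] at h6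
    exact Nat.le_of_mul_le_mul_right h6 hpp.pos
  have key : ∀ T₀ : Subgroup G, T₀ ≤ Subgroup.normalizer ((P₁ : Subgroup G) : Set G) →
      Nat.card T₀ = e → y ∈ T₀ → T₀ = C := by
    intro T₀ hT₀N hT₀c hyT₀
    refine Subgroup.eq_of_le_of_card_ge ?_ (by rw [hT₀c]; exact hCcard)
    intro s hs
    rw [hCdef, Subgroup.mem_inf]
    refine ⟨hT₀N hs, ?_⟩
    rw [Subgroup.mem_centralizer_iff]
    intro h hh
    rw [Set.mem_singleton_iff] at hh
    rw [hh]
    have h1 := hB s (hT₀N hs) y (hT₀N hyT₀)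
    have h2 : (y * s)⁻¹ * (s * y) ∈ T₀ :=
      T₀.mul_mem (T₀.inv_mem (T₀.mul_mem hyT₀ hs)) (T₀.mul_mem hs hyT₀)
    have h3 := hinf T₀ hT₀c _ h2 h1
    exact (inv_mul_eq_one.mp h3)
  have hTC : T = C := key T hTN hTc hyT
  rw [← hF P₁ y hyN hyP]
  refine Nat.card_congr (Equiv.subtypeEquivRight ?_)
  intro P'
  constructor
  · intro h; exact h hyT
  · intro hyP'
    by_cases hP' : P' = P₁
    · rw [hP']; exact hTN
    · have hT' := key (Subgroup.normalizer ((P₁ : Subgroup G) : Set G) ⊓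
        Subgroup.normalizer ((P' : Subgroup G) : Set G)) inf_le_left
        (hT P₁ P' (Ne.symm hP')) ⟨hyN, hyP'⟩
      rw [hTC, ← hT']
      exact inf_le_right

end Cfsg.Agent.Lib.Helper10.BT
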