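import Mathlib
import Cfsg.Agent.Lib.Helper10.BT0

/-!
# S4700 piece BT-L5 `line_count` (helper81, for helper10)
-/

set_option autoImplicit false

namespace Cfsg.Agent.Lib.Helper10.BT

/-- BT-L5 -/
theorem line_count {G : Type*} [Group G] [Finite G] (p : ℕ) [Fact p.Prime] (e n : ℕ)
    (hn : 1 ≤ n) (hS : Nat.card (Sylow p G) = 1 + n * p)
    (hT : ∀ P₁ P₂ : Sylow p G, P₁ ≠ P₂ →
      Nat.card ↥(Subgroup.normalizer ((P₁ : Subgroup G) : Set G) ⊓
        Subgroup.normalizer ((P₂ : Subgroup G) : Set G)) = e)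
    (hF : ∀ P₁ P₂ : Sylow p G, P₁ ≠ P₂ →
      Nat.card {P' : Sylow p G // Subgroup.normalizer ((P₁ : Subgroup G) : Set G) ⊓
        Subgroup.normalizer ((P₂ : Subgroup G) : Set G) ≤
          Subgroup.normalizer ((P' : Subgroup G) : Set G)} = n + 1) :
    (n + 1) ∣ (1 + n * p) * p := by
  classical
  haveI : Fintype (Sylow p G) := Fintype.ofFinite _
  obtain ⟨f, hf⟩ : ∃ f : Sylow p G × Sylow p G → Subgroup G, ∀ q, f q =
      Subgroup.normalizer ((q.1 : Subgroup G) : Set G) ⊓
        Subgroup.normalizer ((q.2 : Subgroup G) : Set G) := ⟨_, fun _ => rfl⟩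
  obtain ⟨D, hDdef⟩ : ∃ D : Finset (Sylow p G × Sylow p G),
      D = (Finset.univ : Finset (Sylow p G)).offDiag := ⟨_, rfl⟩
  have hD : D.card = (1 + n * p) * (1 + n * p) - (1 + n * p) := by
    rw [hDdef, Finset.offDiag_card, Finset.card_univ, ← Nat.card_eq_fintype_card, hS]
  have hfib : ∀ T ∈ D.image f,
      (D.filter (fun q => f q = T)).card = (n + 1) * (n + 1) - (n + 1) := by
    intro T hTm
    obtain ⟨⟨P₁, P₂⟩, hq, rfl⟩ := Finset.mem_image.mp hTm
    have h12 : P₁ ≠ P₂ := by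
      rw [hDdef, Finset.mem_offDiag] at hq
      exact hq.2.2
    obtain ⟨F, hFdef⟩ : ∃ F : Finset (Sylow p G), F = Finset.univ.filter
        (fun P' : Sylow p G =>
          f (P₁, P₂) ≤ Subgroup.normalizer ((P' : Subgroup G) : Set G)) := ⟨_, rfl⟩
    have hFc : F.card = n + 1 := by
      rw [← hF P₁ P₂ h12, Nat.card_eq_fintype_card, Fintype.card_subtype, hFdef, hf]
    have heq : D.filter (fun q => f q = f (P₁, P₂)) = F.offDiag := by
      ext ⟨Q₁, Q₂⟩
      simp only [Finset.mem_filter, Finset.mem_offDiag, hDdef, hFdef, Finset.mem_univ, true_and]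
      constructor
      · rintro ⟨hne, hfe⟩
        refine ⟨?_, ?_, hne⟩
        · rw [← hfe, hf]; exact inf_le_left
        · rw [← hfe, hf]; exact inf_le_right
      · rintro ⟨h1, h2, hne⟩
        refine ⟨hne, ?_⟩
        symm
        rw [hf (Q₁, Q₂)]
        refine Subgroup.eq_of_le_of_card_ge (le_inf h1 h2) ?_
        rw [hT Q₁ Q₂ hne, hf, hT P₁ P₂ h12]
    rw [heq, Finset.offDiag_card, hFc]
  have hcount : D.card = (D.image f).card * ((n + 1) * (n + 1) - (n + 1)) := by
    rw [Finset.card_eq_sum_card_fiberwise (f := f) (t := D.image f)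
      (fun x hx => Finset.mem_image_of_mem f hx)]
    rw [Finset.sum_congr rfl hfib, Finset.sum_const, smul_eq_mul]
  rw [hD] at hcount
  have h1 : (1 + n * p) * (1 + n * p) - (1 + n * p) = (1 + n * p) * p * n := by
    have h0 : (1 + n * p) * (1 + n * p) = (1 + n * p) * p * n + (1 + n * p) := by ring
    omega
  have h2 : (n + 1) * (n + 1) - (n + 1) = (n + 1) * n := by
    have h0 : (n + 1) * (n + 1) = (n + 1) * n + (n + 1) := by ring
    omega
  rw [h1, h2] at hcount
  have h3 : (1 + n * p) * p = (D.image f).card * (n + 1) := by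
    have hn0 : 0 < n := hn
    apply Nat.eq_of_mul_eq_mul_right hn0
    rw [hcount]; ring
  exact ⟨(D.image f).card, by rw [h3]; ring⟩

end Cfsg.Agent.Lib.Helper10.BT
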