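import Mathlib
import Cfsg.Agent.Lib.Helper81.BU0
import Cfsg.Agent.S4501
import Cfsg.Agent.S0253

set_option autoImplicit false

namespace Cfsg.Agent.Lib.Helper81.BU

universe u

/-- BU-OF3.  A simple non-cyclic group of order `3 s q^b` is `PSL(2,5)` or `PSL(2,7)`:
`Cfsg.Agent.S4501.result` (second part, `p := s`, `a := 1`) gives `G ≃* A_5` or
`G ≃* PSL(2, ZMod 7)`; `Cfsg.Agent.S0253.result` (with `F = ZMod 5`) turns `A_5` into
`PSL(2, ZMod 5)`.  (`G` is non-abelian: a commutative simple group is cyclic.) -/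
theorem of_three {G : Type u} [Group G] [Finite G] [IsSimpleGroup G] (hG : ¬ IsCyclic G)
    (s q b : ℕ) (hs : s.Prime) (hq : q.Prime) (hsq : s ≠ q)
    (hcard : Nat.card G = 3 * s * q ^ b) : Concl G := by
  classical
  have hna : ∃ x y : G, x * y ≠ y * x := by
    by_contra hc
    push Not at hc
    apply hG
    letI : CommGroup G := { ‹Group G› with mul_comm := hc }
    exact IsSimpleGroup.isCyclic
  have h := (Cfsg.Agent.S4501.result hna s q 1 b hs hq hsq (by norm_num)).2
    (by rw [hcard, pow_one])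
  rcases h with h | h
  · obtain ⟨f⟩ := h
    left
    haveI : Fact (Nat.Prime 5) := ⟨by norm_num⟩
    obtain ⟨g⟩ := Cfsg.Agent.S0253.result (F := ZMod 5) (ZMod.card 5)
    exact ⟨ZMod 5, inferInstance, inferInstance, ZMod.card 5, ⟨f.trans g.symm⟩⟩
  · obtain ⟨f⟩ := h
    right
    haveI : Fact (Nat.Prime 7) := ⟨by norm_num⟩
    exact ⟨ZMod 7, inferInstance, inferInstance, ZMod.card 7, ⟨f⟩⟩

end Cfsg.Agent.Lib.Helper81.BU
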