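import Mathlib
import Cfsg.Prelude.Def_Blocks
import Cfsg.Prelude.Def_BrauerPairs
import Cfsg.Prelude.Def_BlockFusion
import Cfsg.Agent.Lib.Helper81.BrNil2

/-!
# Centric Brauer pairs and the block of `Q C_G(Q)` (helper81)

* `brauerPairOf_of_coeff`: a block whose idempotent is that of `f` has `(Q, f)` as Brauer pair;
* `le_of_centric`: for `(Q, f) ≤ (P, e)` with `Q` centric in the fusion system, every Brauer pair
  of the block of `L = Q C_G(Q)` with the idempotent of `f` lives on a subgroup of `Q`;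
* `isNilpotentBlock_of_centric`: that block of `Q C_G(Q)` is nilpotent.
-/

set_option autoImplicit false
set_option linter.style.haveILetI false

namespace Cfsg.Agent.Lib.Helper81

open Cfsg Cfsg.Agent.Lib.Helper4 Cfsg.Agent.Lib.Helper21 Cfsg.Agent.Lib.Helper22
open scoped ComplexConjugate

section Ctr

variable {G : Type*} [Group G] [Fintype G] {p : ℕ} {M : Ideal AlgInt}

/-- A block of `G` whose idempotent is that of the block `f` of `C_G(Q)` has `(Q, f)` as a
Brauer pair. -/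
theorem brauerPairOf_of_coeff (hM : IsPModular p M) (Q : Subgroup G) (hQ : IsPGroup p Q)
    (f : Set (IrrCharacter (Subgroup.centralizer (Q : Set G)))) (hf : IsPBlock M f)
    (F₀ : Set (IrrCharacter G)) (hF₀ : IsPBlock M F₀)
    (hc : ∀ g, blockCoeff F₀ g = subgroupBlockCoeff (Subgroup.centralizer (Q : Set G)) f g) :
    IsBrauerPairOf p M F₀ Q f := by
  classical
  letI : Fintype (Subgroup.centralizer (Q : Set G)) := Fintype.ofFinite _
  refine ⟨⟨hQ, hf⟩, hF₀, fun ξ hξ => ?_⟩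
  have e0 : blockCoeff F₀ = subgroupBlockCoeff (Subgroup.centralizer (Q : Set G)) f := funext hc
  have e1 : brauerOmega Q (blockCoeff F₀) (ξ : Subgroup.centralizer (Q : Set G) → ℂ) = 1 := by
    rw [e0, brauerOmega_eq_omega_resTo, resTo_subgroupBlockCoeff, omega_blockCoeff]
    simp [hξ]
  rw [e1, sub_self]
  exact locIdeal_zero hM

omit [Fintype G] in
/-- `p`-regular elements of `Q C_G(Q)` centralize `Q`. -/
theorem mem_centralizer_of_reg_sup (Q : Subgroup G) (hQ : IsPGroup p Q) [Fact p.Prime] (x : G)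
    (hx : x ∈ Q ⊔ Subgroup.centralizer (Q : Set G)) (hreg : IsPRegular p x) :
    x ∈ Subgroup.centralizer (Q : Set G) := by
  have hp : p.Prime := Fact.out
  obtain ⟨q, hq, c, hc, rfl⟩ := mem_sup_centralizer Q x hx
  obtain ⟨k, hk⟩ := hQ ⟨q, hq⟩
  have hk' : q ^ (p ^ k) = 1 := by
    have h1 := congrArg (Subtype.val : Q → G) hk
    simpa using h1
  have hcomm : Commute q c := (Subgroup.mem_centralizer_iff.mp hc q hq)
  have h1 : (q * c) ^ (p ^ k) ∈ Subgroup.centralizer (Q : Set G) := by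
    rw [hcomm.mul_pow, hk', one_mul]
    exact Subgroup.pow_mem _ hc _
  have h2 : (q * c) ^ orderOf (q * c) ∈ Subgroup.centralizer (Q : Set G) := by
    rw [pow_orderOf_eq_one]
    exact Subgroup.one_mem _
  have hcop : Nat.Coprime (p ^ k) (orderOf (q * c)) :=
    Nat.Coprime.pow_left k ((Nat.Prime.coprime_iff_not_dvd hp).mpr hreg)
  exact mem_of_pow_mem_of_coprime _ _ _ _ hcop h1 h2

/-- For `(Q, f) ≤ (P, e)` with `Q` centric: every Brauer pair of the block `F'` of
`L = Q C_G(Q)` with the idempotent of `f` has its subgroup inside `Q`. -/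
theorem le_of_centric (hM : IsPModular p M) [Fact p.Prime] (B : Set (IrrCharacter G))
    (P : Subgroup G) (e : Set (IrrCharacter (Subgroup.centralizer (P : Set G))))
    (hmax : IsMaximalBrauerPair p M B P e) (F : FusionSystem P)
    (hF : IsBlockFusionSystemOn p M B P e F) (Q : Subgroup G)
    (f : Set (IrrCharacter (Subgroup.centralizer (Q : Set G)))) (hQP : Q ≤ P)
    (hf : IsPBlock M f) (hle : SubpairLE p M Q f P e) (hcen : F.IsCentric Q)
    (hLstab : ∀ t ∈ Q ⊔ Subgroup.centralizer (Q : Set G),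
      StabilizesBlock (Subgroup.centralizer (Q : Set G)) f t)
    (F' : Set (IrrCharacter ↥(Q ⊔ Subgroup.centralizer (Q : Set G)))) (hF' : IsPBlock M F')
    (hF'c : ∀ t : ↥(Q ⊔ Subgroup.centralizer (Q : Set G)), blockCoeff F' t =
      subgroupBlockCoeff (Subgroup.centralizer (Q : Set G)) f (t : G))
    (D : Subgroup ↥(Q ⊔ Subgroup.centralizer (Q : Set G)))
    (u : Set (IrrCharacter (Subgroup.centralizer
      (D : Set ↥(Q ⊔ Subgroup.centralizer (Q : Set G))))))
    (hDu : IsBrauerPairOf p M F' D u) :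
    D ≤ Q.subgroupOf (Q ⊔ Subgroup.centralizer (Q : Set G)) := by
  classical
  letI : Fintype ↥(Q ⊔ Subgroup.centralizer (Q : Set G)) := Fintype.ofFinite _
  have hPe := hmax.1.1
  have hB := hmax.1.2.1
  have hQ : IsPGroup p Q := hPe.1.to_le hQP
  have hQL : Q ≤ Q ⊔ Subgroup.centralizer (Q : Set G) := le_sup_left
  have hCL : Subgroup.centralizer (Q : Set G) ≤ Q ⊔ Subgroup.centralizer (Q : Set G) :=
    le_sup_right
  have hLN : Q ⊔ Subgroup.centralizer (Q : Set G) ≤ Subgroup.normalizer (Q : Set G) :=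
    sup_le Subgroup.le_normalizer (Subgroup.centralizer_le_normalizer _)
  have hQf : IsBrauerPairOf p M B Q f :=
    (brauerPairOf_iff_of_subpairLE hM Q P f e hle B hB).mp hmax.1
  obtain ⟨D₁, u₁, hmax₁, hle₁⟩ := exists_maximal_above F' D u hDu
  have hDD₁ : D ≤ D₁ := reflTransGen_le _ _ hle₁
  haveI hnorm : (Q.subgroupOf (Q ⊔ Subgroup.centralizer (Q : Set G))).Normal :=
    Subgroup.normal_subgroupOf_of_le_normalizer hLN
  have hQD₁ : Q.subgroupOf (Q ⊔ Subgroup.centralizer (Q : Set G)) ≤ D₁ :=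
    normal_le_defectGroup hM (Q.subgroupOf (Q ⊔ Subgroup.centralizer (Q : Set G)))
      hQ.comap_subtype F' hF' D₁
      (isDefectGroup_of_maximal hM F' D₁ u₁ hmax₁)
  have hμ : HCent Q (Q ⊔ Subgroup.centralizer (Q : Set G)) D₁ := hCent_of_le hQL hQD₁
  obtain ⟨s, hs⟩ : ∃ s : BrauerPairIdx G, s = upPair Q _ hCL ⟨D₁, u₁⟩ hμ := ⟨_, rfl⟩
  have has : NormalSubpairRel p M ⟨Q, f⟩ s := by
    rw [hs]
    exact normalSubpairRel_upPair Q f hQ hf _ hCL hLN hLstab F' hF'c ⟨D₁, u₁⟩ hμ hmax₁.1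
  have hsB : IsBrauerPairOf p M B s.1 s.2 :=
    (brauerPairOf_iff_of_normalSubpair hM Q _ f _ has B hB).mpr hQf
  obtain ⟨y, hy⟩ := exists_conj_subpairLE_maximal hM B P s.1 e s.2 hmax hsB
  have hy' : Relation.ReflTransGen (NormalSubpairRel p M) (conjPair y s) ⟨P, e⟩ := hy
  have hyQ : Relation.ReflTransGen (NormalSubpairRel p M) (conjPair y ⟨Q, f⟩) ⟨P, e⟩ :=
    (reflTransGen_conjPair y _ _ (Relation.ReflTransGen.single has)).trans hy'
  have hQyP : Q.map (MulAut.conj y).toMonoidHom ≤ P := reflTransGen_le _ _ hyQ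
  have hconj : F.IsConj Q (Q.map (MulAut.conj y).toMonoidHom) :=
    (blockFusion_isConj_iff hF Q _).mpr ⟨hQP, y, rfl, hQyP, f, hle, hyQ⟩
  have hcl := hcen.2 _ hconj
  have hsP : s.1.map (MulAut.conj y).toMonoidHom ≤ P := reflTransGen_le _ _ hy'
  intro d hd
  rw [Subgroup.mem_subgroupOf]
  have hd₁ : d ∈ D₁ := hDD₁ hd
  have hds : (d : G) ∈ s.1 := by
    rw [hs]
    exact (le_sup_right : D₁.map (Q ⊔ Subgroup.centralizer (Q : Set G)).subtype ≤ _)
      ⟨d, hd₁, rfl⟩
  have hdP : y * (d : G) * y⁻¹ ∈ P := hsP ⟨(d : G), hds, rfl⟩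
  obtain ⟨q, hq, c, hc, hdqc⟩ := mem_sup_centralizer Q (d : G) d.2
  have hqP : y * q * y⁻¹ ∈ P := hQyP ⟨q, hq, rfl⟩
  have hcP : y * c * y⁻¹ ∈ P := by
    have h1 := P.mul_mem (P.inv_mem hqP) hdP
    have e1 : (y * q * y⁻¹)⁻¹ * (y * (d : G) * y⁻¹) = y * c * y⁻¹ := by
      rw [hdqc]
      group
    rwa [e1] at h1
  have hcC : y * c * y⁻¹ ∈ Subgroup.centralizer
      ((Q.map (MulAut.conj y).toMonoidHom : Subgroup G) : Set G) := by
    rw [mem_centralizer_conj_map_iff]
    have e1 : y⁻¹ * (y * c * y⁻¹) * y = c := by group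
    rw [e1]
    exact hc
  have hcQ : y * c * y⁻¹ ∈ Q.map (MulAut.conj y).toMonoidHom := hcl ⟨hcP, hcC⟩
  rw [mem_conj_map_iff] at hcQ
  have e2 : y⁻¹ * (y * c * y⁻¹) * y = c := by group
  rw [e2] at hcQ
  rw [hdqc]
  exact Q.mul_mem hq hcQ

/-- The block of `Q C_G(Q)` with the idempotent of a centric pair `(Q, f)` is nilpotent. -/
theorem isNilpotentBlock_of_centric (hM : IsPModular p M) [Fact p.Prime]
    (B : Set (IrrCharacter G))
    (P : Subgroup G) (e : Set (IrrCharacter (Subgroup.centralizer (P : Set G))))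
    (hmax : IsMaximalBrauerPair p M B P e) (F : FusionSystem P)
    (hF : IsBlockFusionSystemOn p M B P e F) (Q : Subgroup G)
    (f : Set (IrrCharacter (Subgroup.centralizer (Q : Set G)))) (hQP : Q ≤ P)
    (hf : IsPBlock M f) (hle : SubpairLE p M Q f P e) (hcen : F.IsCentric Q)
    (hLstab : ∀ t ∈ Q ⊔ Subgroup.centralizer (Q : Set G),
      StabilizesBlock (Subgroup.centralizer (Q : Set G)) f t)
    (F' : Set (IrrCharacter ↥(Q ⊔ Subgroup.centralizer (Q : Set G)))) (hF' : IsPBlock M F')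
    (hF'c : ∀ t : ↥(Q ⊔ Subgroup.centralizer (Q : Set G)), blockCoeff F' t =
      subgroupBlockCoeff (Subgroup.centralizer (Q : Set G)) f (t : G)) :
    IsNilpotentBlock p M F' := by
  refine ⟨hF', fun D u hDu x _ _ hreg => ?_⟩
  have hDQ := le_of_centric hM B P e hmax F hF Q f hQP hf hle hcen hLstab F' hF' hF'c D u hDu
  have hQ : IsPGroup p Q := hmax.1.1.1.to_le hQP
  have hreg' : IsPRegular p (x : G) := by
    unfold IsPRegular at hreg ⊢
    rwa [Subgroup.orderOf_coe]
  have hxC := mem_centralizer_of_reg_sup Q hQ (x : G) x.2 hreg'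
  rw [Subgroup.mem_centralizer_iff]
  intro d hd
  apply Subtype.ext
  exact Subgroup.mem_centralizer_iff.mp hxC (d : G) (Subgroup.mem_subgroupOf.mp (hDQ hd))

end Ctr

end Cfsg.Agent.Lib.Helper81
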