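import Mathlib
import Cfsg.Prelude.Def_Blocks
import Cfsg.Prelude.Def_BrauerPairs
import Cfsg.Prelude.Def_BlockFusion
import Cfsg.Agent.Lib.Helper81.BrCtr

/-!
# The fusion system of a block (helper81)

`blockFus`: the fusion system on `P` attached to a maximal Brauer pair `(P, e)`; its maps on
`Q ≤ P` are the conjugations by `g` with `^g(Q, f) ≤ (P, e)`, where `(Q, f) ≤ (P, e)`.
-/

set_option autoImplicit false
set_option linter.style.haveILetI false

namespace Cfsg.Agent.Lib.Helper81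

open Cfsg Cfsg.Agent.Lib.Helper4 Cfsg.Agent.Lib.Helper21 Cfsg.Agent.Lib.Helper22
open scoped ComplexConjugate

section Sat1

variable {G : Type*} [Group G] [Fintype G] {p : ℕ} {M : Ideal AlgInt}

/-- Below a pair, the order is determined by the subgroups. -/
theorem le_of_le_of_fst_le (hM : IsPModular p M) [Fact p.Prime] (a b m : BrauerPairIdx G)
    (hm : IsBrauerPair p M m.1 m.2)
    (ha : Relation.ReflTransGen (NormalSubpairRel p M) a m)
    (hb : Relation.ReflTransGen (NormalSubpairRel p M) b m) (hab : a.1 ≤ b.1) :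
    Relation.ReflTransGen (NormalSubpairRel p M) a b := by
  obtain ⟨g, h1, h2⟩ := exists_between hM a m ha hm b.1 hab (reflTransGen_le _ _ hb)
  have h3 : g = b.2 := subpairLE_unique hM m.1 b.1 m.2 g b.2 hm
    (isPBlock_of_reflTransGen _ _ h2 hm.2) h2 (isPBlock_of_reflTransGen _ _ hb hm.2) hb
  rw [h3] at h1
  exact h1

/-- Below a pair, a pair is determined by its subgroup. -/
theorem eq_of_le_of_fst_eq (hM : IsPModular p M) [Fact p.Prime] (a b m : BrauerPairIdx G)
    (hm : IsBrauerPair p M m.1 m.2)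
    (ha : Relation.ReflTransGen (NormalSubpairRel p M) a m)
    (hb : Relation.ReflTransGen (NormalSubpairRel p M) b m) (hab : a.1 = b.1) : a = b :=
  reflTransGen_eq_of_fst_eq hM a b (le_of_le_of_fst_le hM a b m hm ha hb hab.le) hab

/-- The maps of the fusion system of a block with source `Q`. -/
def blockHom (p : ℕ) (M : Ideal AlgInt) (P : Subgroup G)
    (e : Set (IrrCharacter (Subgroup.centralizer (P : Set G)))) (Q : Subgroup G) :
    Set (Q →* G) :=
  {φ | Q ≤ P ∧ ∃ g : G, (∀ u : Q, φ u = g * (u : G) * g⁻¹) ∧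
    Q.map (MulAut.conj g).toMonoidHom ≤ P ∧
    ∃ f : Set (IrrCharacter (Subgroup.centralizer (Q : Set G))),
      SubpairLE p M Q f P e ∧
        SubpairLE p M (Q.map (MulAut.conj g).toMonoidHom) (conjBlock Q g f) P e}

omit [Fintype G] in
/-- Inverses of maps, stated for a subgroup equal to the image. -/
theorem blockHom_inv_aux (P : Subgroup G)
    (e : Set (IrrCharacter (Subgroup.centralizer (P : Set G)))) (Q : Subgroup G) (hQP : Q ≤ P)
    (g : G) (f : Set (IrrCharacter (Subgroup.centralizer (Q : Set G))))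
    (hle : SubpairLE p M Q f P e)
    (hle' : SubpairLE p M (Q.map (MulAut.conj g).toMonoidHom) (conjBlock Q g f) P e) :
    ∀ R : Subgroup G, R = Q.map (MulAut.conj g).toMonoidHom →
      conjHom R g⁻¹ ∈ blockHom p M P e R := by
  rintro R rfl
  refine ⟨reflTransGen_le _ _ hle', g⁻¹, fun u => rfl, ?_, conjBlock Q g f, hle', ?_⟩
  · have h1 : (Q.map (MulAut.conj g).toMonoidHom).map (MulAut.conj g⁻¹).toMonoidHom = Q :=
      congrArg Sigma.fst (conjPair_inv_conjPair g (⟨Q, f⟩ : BrauerPairIdx G))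
    rw [h1]
    exact hQP
  · show Relation.ReflTransGen (NormalSubpairRel p M)
      (conjPair g⁻¹ (conjPair g (⟨Q, f⟩ : BrauerPairIdx G))) ⟨P, e⟩
    rw [conjPair_inv_conjPair]
    exact hle

/-- **The fusion system of a block** on a maximal Brauer pair `(P, e)`. -/
def blockFus (hM : IsPModular p M) [Fact p.Prime] (B : Set (IrrCharacter G)) (P : Subgroup G)
    (e : Set (IrrCharacter (Subgroup.centralizer (P : Set G))))
    (hmax : IsMaximalBrauerPair p M B P e) : FusionSystem P where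
  Hom Q := blockHom p M P e Q
  le_of_mem := by
    rintro Q φ ⟨hQP, g, hg, hgP, -⟩
    refine ⟨hQP, fun x => ?_⟩
    rw [hg x]
    exact hgP ⟨(x : G), x.2, rfl⟩
  injective_of_mem := by
    rintro Q φ ⟨-, g, hg, -⟩ a b hab
    have h : g * (a : G) * g⁻¹ = g * (b : G) * g⁻¹ := ((hg a).symm.trans hab).trans (hg b)
    exact Subtype.ext (mul_left_cancel (mul_right_cancel h))
  conj_mem := by
    intro Q g hQP hg
    obtain ⟨f, hf, hle⟩ := exists_subpairLE hM P Q e hmax.1.1 hQP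
    refine ⟨hQP, g, fun u => rfl, ?_, f, hle, ?_⟩
    · rintro _ ⟨q, hq, rfl⟩
      exact P.mul_mem (P.mul_mem hg (hQP hq)) (P.inv_mem hg)
    · have h1 := reflTransGen_conjPair g _ _ hle
      rw [conjPair_eq_self_of_mem P e g hg] at h1
      exact h1
  comp_mem := by
    rintro Q₁ Q₂ φ ψ ⟨hQ₁P, g₁, hg₁, hg₁P, f₁, hle₁, hle₁'⟩ ⟨hQ₂P, g₂, hg₂, hg₂P, f₂, hle₂, hle₂'⟩ h
    have hPe := hmax.1.1
    have hsub : Q₁.map (MulAut.conj g₁).toMonoidHom ≤ Q₂ := by
      rintro _ ⟨q, hq, rfl⟩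
      have h1 := h ⟨q, hq⟩
      rw [hg₁] at h1
      exact h1
    have h1 : Relation.ReflTransGen (NormalSubpairRel p M)
        (conjPair g₁ (⟨Q₁, f₁⟩ : BrauerPairIdx G)) ⟨Q₂, f₂⟩ :=
      le_of_le_of_fst_le hM _ _ ⟨P, e⟩ hPe hle₁' hle₂ hsub
    have h2 : Relation.ReflTransGen (NormalSubpairRel p M)
        (conjPair (g₂ * g₁) (⟨Q₁, f₁⟩ : BrauerPairIdx G)) ⟨P, e⟩ := by
      have h3 := (reflTransGen_conjPair g₂ _ _ h1).trans hle₂'
      rwa [conjPair_mul] at h3
    refine ⟨hQ₁P, g₂ * g₁, fun u => ?_, reflTransGen_le _ _ h2, f₁, hle₁, h2⟩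
    show ψ (φ.codRestrict Q₂ h u) = g₂ * g₁ * (u : G) * (g₂ * g₁)⁻¹
    rw [hg₂]
    show g₂ * φ u * g₂⁻¹ = _
    rw [hg₁, mul_inv_rev]
    simp only [mul_assoc]
  inv_mem := by
    rintro Q φ ⟨hQP, g, hg, hgP, f, hle, hle'⟩
    have hr : φ.range = Q.map (MulAut.conj g).toMonoidHom := range_eq_conj_map Q g φ hg
    refine ⟨conjHom φ.range g⁻¹, blockHom_inv_aux P e Q hQP g f hle hle' _ hr, fun x => ?_⟩
    show g⁻¹ * φ x * g⁻¹⁻¹ = x
    rw [hg, inv_inv]
    simp only [mul_assoc, inv_mul_cancel, mul_one, inv_mul_cancel_left]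

theorem blockFus_isBlockFusionSystemOn (hM : IsPModular p M) [Fact p.Prime]
    (B : Set (IrrCharacter G)) (P : Subgroup G)
    (e : Set (IrrCharacter (Subgroup.centralizer (P : Set G))))
    (hmax : IsMaximalBrauerPair p M B P e) :
    IsBlockFusionSystemOn p M B P e (blockFus hM B P e hmax) :=
  ⟨hmax, fun _ _ => Iff.rfl⟩

end Sat1

end Cfsg.Agent.Lib.Helper81
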