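import Mathlib
import Cfsg.Prelude.Def_Blocks
import Cfsg.Prelude.Def_BrauerPairs
import Cfsg.Prelude.Def_BlockRank
import Cfsg.Agent.Lib.Helper81.BrAN
import Cfsg.Agent.Lib.Helper81.BrAb
import Cfsg.Agent.Lib.Helper81.BrSat1
import Cfsg.Agent.Lib.Helper81.BrMaj

/-!
# Subpairs centralized by the maximal pair (helper81)

Versions of `maximal_down_of_abelian` and of helper33's `fusion_of_abelian` in which the
commutativity of `P` is replaced by `P ≤ C_G(Q)` (e.g. `Q ≤ Z(P)`):

* `maximal_down_of_le_centralizer`: `(Q, f) ≤ (D, e)` maximal, `D ≤ C_G(Q)`: `D` carries a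
  maximal pair of `f` in `C_G(Q)`;
* `blockDefect_eq_of_le_centralizer`: then `f` has the same defect as `B`, and induces `B`;
* `fusion_of_le_centralizer`: `(Q, f), (Q', f') ≤ (P, e)` maximal with `P ≤ C_G(Q)`,
  `P ≤ C_G(Q')` and `x (Q, f) = (Q', f')`: then `x = c y` with `y` fixing `(P, e)` and
  `c ∈ C_G(Q')`.
-/

set_option autoImplicit false
set_option linter.style.haveILetI false

namespace Cfsg.Agent.Lib.Helper81

open Cfsg Cfsg.Agent.Lib.Helper4 Cfsg.Agent.Lib.Helper21 Cfsg.Agent.Lib.Helper22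
open scoped ComplexConjugate

section Cen

variable {G : Type*} [Group G] [Fintype G] {p : ℕ} {M : Ideal AlgInt}

/-- For `(Q, f) ≤ (D, e)` with `(D, e)` maximal and `D ≤ C_G(Q)`, the subgroup `D` of
`C_G(Q)` carries a maximal Brauer pair of `f`. -/
theorem maximal_down_of_le_centralizer (hM : IsPModular p M) [Fact p.Prime]
    (B : Set (IrrCharacter G)) (D : Subgroup G)
    (e : Set (IrrCharacter (Subgroup.centralizer (D : Set G))))
    (hmax : IsMaximalBrauerPair p M B D e)
    (Q : Subgroup G) (f : Set (IrrCharacter (Subgroup.centralizer (Q : Set G))))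
    (hle : SubpairLE p M Q f D e) (hDQ : D ≤ Subgroup.centralizer (Q : Set G)) :
    ∃ u : Set (IrrCharacter (Subgroup.centralizer
        ((D.subgroupOf (Subgroup.centralizer (Q : Set G)) :
          Subgroup (Subgroup.centralizer (Q : Set G))) :
          Set (Subgroup.centralizer (Q : Set G))))),
      IsMaximalBrauerPair p M f (D.subgroupOf (Subgroup.centralizer (Q : Set G))) u := by
  classical
  have hQD : Q ≤ D := reflTransGen_le _ _ hle
  have hQH : Q ≤ Subgroup.centralizer (Q : Set G) := hQD.trans hDQ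
  have hHN : Subgroup.centralizer (Q : Set G) ≤ Subgroup.normalizer (Q : Set G) :=
    Subgroup.centralizer_le_normalizer _
  have hfB : IsPBlock M f := isPBlock_of_reflTransGen _ _ hle hmax.1.1.2
  have hHstab : ∀ h ∈ Subgroup.centralizer (Q : Set G),
      StabilizesBlock (Subgroup.centralizer (Q : Set G)) f h :=
    fun h hh => stabilizesBlock_of_mem _ f hh
  have hns : NormalSubpairRel p M ⟨Q, f⟩ ⟨D, e⟩ :=
    normalSubpairRel_of_reflTransGen hM ⟨Q, f⟩ ⟨D, e⟩ hle hmax.1.1 (hDQ.trans hHN)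
  obtain ⟨a, ha, hQa, hb⟩ := exists_eq_upPair Q (Subgroup.centralizer (Q : Set G)) le_rfl hQH
    ⟨D, e⟩ hQD hDQ
  have hβ : ∀ h : Subgroup.centralizer (Q : Set G), blockCoeff f h =
      subgroupBlockCoeff (Subgroup.centralizer (Q : Set G)) f (h : G) :=
    fun h => (subgroupBlockCoeff_mem _ _ h.2).symm
  have hns' : NormalSubpairRel p M ⟨Q, f⟩
      (upPair Q (Subgroup.centralizer (Q : Set G)) le_rfl a ha) := by
    rw [← hb]
    exact hns
  have hpair : IsBrauerPairOf p M f a.1 a.2 :=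
    brauerPairOf_of_normalSubpairRel_upPair Q f _ le_rfl f hfB hβ a ha hns'
  have hQf : IsBrauerPairOf p M B Q f :=
    (brauerPairOf_iff_of_subpairLE hM Q D f e hle B hmax.1.2.1).mp hmax.1
  have hmaxup : IsMaximalBrauerPair p M B
      (upPair Q (Subgroup.centralizer (Q : Set G)) le_rfl a ha).1
      (upPair Q (Subgroup.centralizer (Q : Set G)) le_rfl a ha).2 := by
    rw [← hb]
    exact hmax
  have hmax' : IsMaximalBrauerPair p M f a.1 a.2 :=
    isMaximal_down hM Q f _ le_rfl hQH hHN hHstab f hβ B hQf a ha hQa hpair hmaxup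
  have hfst : D = Q ⊔ a.1.map (Subgroup.centralizer (Q : Set G)).subtype :=
    congrArg Sigma.fst hb
  obtain ⟨D', u⟩ := a
  have hD' : D' = D.subgroupOf (Subgroup.centralizer (Q : Set G)) := by
    ext x
    rw [Subgroup.mem_subgroupOf]
    constructor
    · intro hx
      rw [hfst]
      exact Subgroup.mem_sup_right ⟨x, hx, rfl⟩
    · intro hx
      have h1 : Q ⊔ D'.map (Subgroup.centralizer (Q : Set G)).subtype =
          D'.map (Subgroup.centralizer (Q : Set G)).subtype := by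
        apply sup_eq_right.mpr
        intro q hq
        exact ⟨⟨q, hQH hq⟩, hQa (Subgroup.mem_subgroupOf.mpr hq), rfl⟩
      rw [hfst, h1] at hx
      obtain ⟨y, hy, hyx⟩ := hx
      have h2 : y = x := Subtype.ext hyx
      rwa [← h2]
  subst hD'
  exact ⟨u, hmax'⟩


/-- For `(Q, f) ≤ (D, e)` with `(D, e)` a maximal `B`-pair and `D ≤ C_G(Q)`: `f` induces `B`
and has the same defect as `B`. -/
theorem blockDefect_eq_of_le_centralizer (hM : IsPModular p M) [Fact p.Prime]
    (B : Set (IrrCharacter G)) (D : Subgroup G)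
    (e : Set (IrrCharacter (Subgroup.centralizer (D : Set G))))
    (hmax : IsMaximalBrauerPair p M B D e)
    (Q : Subgroup G) (f : Set (IrrCharacter (Subgroup.centralizer (Q : Set G))))
    (hle : SubpairLE p M Q f D e) (hDQ : D ≤ Subgroup.centralizer (Q : Set G)) :
    IsInducedBlock M (Subgroup.centralizer (Q : Set G)) f B ∧
      blockDefect p f = blockDefect p B := by
  classical
  have hp : p.Prime := Fact.out
  have hB := hmax.1.2.1
  have hQD : Q ≤ D := reflTransGen_le _ _ hle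
  have hQf : IsBrauerPairOf p M B Q f :=
    (brauerPairOf_iff_of_subpairLE hM Q D f e hle B hB).mp hmax.1
  have hind : IsInducedBlock M (Subgroup.centralizer (Q : Set G)) f B :=
    (isBrauerPairOf_iff_isInducedBlock hM Q (hmax.1.1.1.to_le hQD) f B).mp hQf
  refine ⟨hind, ?_⟩
  obtain ⟨w, hw⟩ := maximal_down_of_le_centralizer hM B D e hmax Q f hle hDQ
  letI : Fintype (Subgroup.centralizer (Q : Set G)) := Fintype.ofFinite _
  have hDf := isDefectGroup_of_maximal hM f _ w hw
  have hD := isDefectGroup_of_maximal hM B D e hmax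
  have h1 := Cfsg.Agent.S0908.result p M hM f hind.1 _ hDf
  have h2 := Cfsg.Agent.S0908.result p M hM B hB D hD
  rw [card_subgroupOf_of_le hDQ, h2] at h1
  exact (Nat.pow_right_injective hp.two_le h1).symm

/-- Two-pair fusion: if `(Q, f)` and `(Q', f')` lie below the maximal `B`-pair `(P, e)`,
`P` centralizes `Q` and `Q'`, and `x` conjugates `(Q, f)` to `(Q', f')`, then `x = c * y` with
`y` fixing `(P, e)` and `c ∈ C_G(Q')`. -/
theorem fusion_of_le_centralizer (hM : IsPModular p M) [Fact p.Prime]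
    (B : Set (IrrCharacter G)) (P : Subgroup G)
    (e : Set (IrrCharacter (Subgroup.centralizer (P : Set G))))
    (hmax : IsMaximalBrauerPair p M B P e)
    (Q : Subgroup G) (f : Set (IrrCharacter (Subgroup.centralizer (Q : Set G))))
    (hle : SubpairLE p M Q f P e) (hPCQ : P ≤ Subgroup.centralizer (Q : Set G))
    (Q' : Subgroup G) (f' : Set (IrrCharacter (Subgroup.centralizer (Q' : Set G))))
    (hf' : IsPBlock M f') (hle' : SubpairLE p M Q' f' P e)
    (hPC : P ≤ Subgroup.centralizer (Q' : Set G)) (x : G)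
    (hx : conjPair x (⟨Q, f⟩ : BrauerPairIdx G) = ⟨Q', f'⟩) :
    ∃ y : G, conjPair y (⟨P, e⟩ : BrauerPairIdx G) = ⟨P, e⟩ ∧
      ∃ c ∈ Subgroup.centralizer (Q' : Set G), x = c * y := by
  classical
  letI : Fintype (Subgroup.centralizer (Q' : Set G)) := Fintype.ofFinite _
  have hPe := hmax.1.1
  have hB := hmax.1.2.1
  have hQP : Q ≤ P := reflTransGen_le _ _ hle
  have hQ'P : Q' ≤ P := reflTransGen_le _ _ hle'
  have hQC : Q' ≤ Subgroup.centralizer (Q' : Set G) := hQ'P.trans hPC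
  have hHN : Subgroup.centralizer (Q' : Set G) ≤ Subgroup.normalizer (Q' : Set G) :=
    Subgroup.centralizer_le_normalizer _
  have hHstab : ∀ h ∈ Subgroup.centralizer (Q' : Set G),
      StabilizesBlock (Subgroup.centralizer (Q' : Set G)) f' h :=
    fun h hh => stabilizesBlock_of_mem _ f' hh
  have hβ : ∀ h : Subgroup.centralizer (Q' : Set G), blockCoeff f' h =
      subgroupBlockCoeff (Subgroup.centralizer (Q' : Set G)) f' (h : G) :=
    fun h => (subgroupBlockCoeff_mem _ f' h.2).symm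
  have h1 : NormalSubpairRel p M ⟨Q', f'⟩ ⟨P, e⟩ :=
    normalSubpairRel_of_reflTransGen hM ⟨Q', f'⟩ ⟨P, e⟩ hle' hPe (hPC.trans hHN)
  have h1Q : NormalSubpairRel p M ⟨Q, f⟩ ⟨P, e⟩ :=
    normalSubpairRel_of_reflTransGen hM ⟨Q, f⟩ ⟨P, e⟩ hle hPe
      (hPCQ.trans (Subgroup.centralizer_le_normalizer _))
  have hQf : IsBrauerPairOf p M B Q' f' :=
    (brauerPairOf_iff_of_normalSubpair hM Q' P f' e h1 B hB).mp hmax.1
  have h2 : NormalSubpairRel p M ⟨Q', f'⟩ (conjPair x ⟨P, e⟩) := by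
    have h := normalSubpairRel_conjPair x _ _ h1Q
    rwa [hx] at h
  have hmax2 := isMaximal_conjPair hM B ⟨P, e⟩ hmax x
  have hQ'eq : Q.map (MulAut.conj x).toMonoidHom = Q' := congrArg Sigma.fst hx
  have hbC : (conjPair x (⟨P, e⟩ : BrauerPairIdx G)).1 ≤ Subgroup.centralizer (Q' : Set G) := by
    rintro _ ⟨y, hy, rfl⟩
    rw [Subgroup.mem_centralizer_iff]
    intro q hq
    rw [← hQ'eq] at hq
    obtain ⟨q₀, hq₀, rfl⟩ := hq
    have h3 := Subgroup.mem_centralizer_iff.mp (hPCQ hy) q₀ hq₀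
    show (x * q₀ * x⁻¹) * (x * y * x⁻¹) = x * y * x⁻¹ * (x * q₀ * x⁻¹)
    calc (x * q₀ * x⁻¹) * (x * y * x⁻¹) = x * (q₀ * y) * x⁻¹ := by group
      _ = x * (y * q₀) * x⁻¹ := by rw [h3]
      _ = x * y * x⁻¹ * (x * q₀ * x⁻¹) := by group
  obtain ⟨b, hb⟩ : ∃ b : BrauerPairIdx G, b = conjPair x ⟨P, e⟩ := ⟨_, rfl⟩
  rw [← hb] at h2 hmax2 hbC
  have hQb : Q' ≤ b.1 := h2.2.2.1
  obtain ⟨α, hα, hQα, hαe⟩ := exists_eq_upPair Q' _ le_rfl hQC ⟨P, e⟩ hQ'P hPC
  obtain ⟨γ, hγ, hQγ, hγe⟩ := exists_eq_upPair Q' _ le_rfl hQC b hQb hbC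
  have hα_pair : IsBrauerPairOf p M f' α.1 α.2 :=
    brauerPairOf_of_normalSubpairRel_upPair Q' f' _ le_rfl f' hf' hβ α hα
      (by rw [← hαe]; exact h1)
  have hγ_pair : IsBrauerPairOf p M f' γ.1 γ.2 :=
    brauerPairOf_of_normalSubpairRel_upPair Q' f' _ le_rfl f' hf' hβ γ hγ
      (by rw [← hγe]; exact h2)
  have hα_max : IsMaximalBrauerPair p M f' α.1 α.2 :=
    isMaximal_down hM Q' f' _ le_rfl hQC hHN hHstab f' hβ B hQf α hα hQα hα_pair
      (by rw [← hαe]; exact hmax)
  have hγ_max : IsMaximalBrauerPair p M f' γ.1 γ.2 :=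
    isMaximal_down hM Q' f' _ le_rfl hQC hHN hHstab f' hβ B hQf γ hγ hQγ hγ_pair
      (by rw [← hγe]; exact hmax2)
  obtain ⟨h, hh⟩ := exists_conjPair_eq_of_maximal hM f' α γ hα_max hγ_max
  have h5 : conjPair (h : G) b = ⟨P, e⟩ := by
    rw [hγe, conjPair_upPair Q' _ le_rfl hHN γ hγ h (hCent_conj hHN hγ h), hαe]
    exact upPair_congr Q' _ le_rfl hh _ _
  rw [hb, conjPair_mul] at h5
  refine ⟨(h : G) * x, h5, (h : G)⁻¹, inv_mem h.2, by group⟩


end Cen

end Cfsg.Agent.Lib.Helper81
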