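import Mathlib
import Cfsg.Prelude.Def_Blocks
import Cfsg.Prelude.Def_BrauerPairs
import Cfsg.Prelude.Def_BlockRank
import Cfsg.Agent.Lib.Helper81.BrAN
import Cfsg.Agent.Lib.Helper81.BrAb
import Cfsg.Agent.Lib.Helper81.BrNil

/-!
# Cyclic defect groups: elementary facts (helper81)

* `mul_comm_of_isCyclic`: a cyclic subgroup is commutative;
* `mem_of_pow_card_eq_one`: in a finite cyclic group `P`, a subgroup `Q` contains every
  element of `P` killed by `|Q|`;
* `normalizer_le_of_le_cyclic`: `N_G(P) ≤ N_G(Q)` for `Q ≤ P` cyclic;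
* `centralizes_cyclic_of_coprime`: a `p`-regular element normalizing a cyclic `p`-group `P`
  and centralizing a nontrivial subgroup of `P` centralizes `P`;
* `stab_cent_of_cyclic`: for a maximal pair `(P, c)` with `P` cyclic, every element of
  `N_G(P, c)` centralizing a nontrivial subgroup of `P` centralizes `P`.
-/

set_option autoImplicit false
set_option linter.style.haveILetI false

namespace Cfsg.Agent.Lib.Helper81

open Cfsg Cfsg.Agent.Lib.Helper4 Cfsg.Agent.Lib.Helper21 Cfsg.Agent.Lib.Helper22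
open scoped ComplexConjugate

section Cyc

variable {G : Type*} [Group G]

theorem mul_comm_of_isCyclic (P : Subgroup G) (h : IsCyclic P) :
    ∀ x ∈ P, ∀ y ∈ P, x * y = y * x := by
  intro x hx y hy
  obtain ⟨g, hg⟩ := h.exists_generator
  obtain ⟨i, hi⟩ := Subgroup.mem_zpowers_iff.mp (hg ⟨x, hx⟩)
  obtain ⟨j, hj⟩ := Subgroup.mem_zpowers_iff.mp (hg ⟨y, hy⟩)
  have h1 : (⟨x, hx⟩ : P) * ⟨y, hy⟩ = ⟨y, hy⟩ * ⟨x, hx⟩ := by
    rw [← hi, ← hj, ← zpow_add, ← zpow_add, add_comm]
  exact congrArg Subtype.val h1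

theorem pow_card_eq_one_of_mem [Finite G] (Q : Subgroup G) {q : G} (hq : q ∈ Q) :
    q ^ Nat.card Q = 1 := by
  have h2 : (⟨q, hq⟩ : Q) ^ Nat.card Q = 1 := pow_card_eq_one'
  exact congrArg Subtype.val h2

theorem mem_of_pow_card_eq_one [Finite G] (P : Subgroup G) (hcyc : IsCyclic P)
    (Q : Subgroup G) (hQP : Q ≤ P) (r : G) (hr : r ∈ P) (hrn : r ^ Nat.card Q = 1) :
    r ∈ Q := by
  classical
  letI : Fintype P := Fintype.ofFinite _
  haveI := hcyc
  have hn0 : 0 < Nat.card Q := Nat.card_pos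
  have h1 := IsCyclic.card_pow_eq_one_le (α := P) hn0
  obtain ⟨S, hS⟩ : ∃ S : Finset P, S = Finset.univ.filter (fun a : P => a ^ Nat.card Q = 1) :=
    ⟨_, rfl⟩
  obtain ⟨I, hI⟩ : ∃ I : Finset P, I = Finset.univ.filter (fun a : P => (a : G) ∈ Q) :=
    ⟨_, rfl⟩
  rw [← hS] at h1
  have hIS : I ⊆ S := by
    intro a ha
    rw [hI, Finset.mem_filter] at ha
    rw [hS, Finset.mem_filter]
    refine ⟨Finset.mem_univ _, ?_⟩
    apply Subtype.ext
    exact pow_card_eq_one_of_mem Q ha.2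
  have hIcard : I.card = Nat.card Q := by
    rw [← card_subgroupOf_of_le hQP, hI, Nat.card_eq_fintype_card, Fintype.card_subtype]
    rfl
  have hIeq : I = S := Finset.eq_of_subset_of_card_le hIS (by rw [hIcard]; exact h1)
  have hrS : (⟨r, hr⟩ : P) ∈ S := by
    rw [hS, Finset.mem_filter]
    refine ⟨Finset.mem_univ _, ?_⟩
    apply Subtype.ext
    simpa using hrn
  rw [← hIeq, hI, Finset.mem_filter] at hrS
  exact hrS.2

theorem normalizer_le_of_le_cyclic [Finite G] (P : Subgroup G) (hcyc : IsCyclic P)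
    (Q : Subgroup G) (hQP : Q ≤ P) {g : G} (hg : g ∈ Subgroup.normalizer (P : Set G)) :
    g ∈ Subgroup.normalizer (Q : Set G) := by
  have key : ∀ x : G, x ∈ Subgroup.normalizer (P : Set G) → ∀ q ∈ Q, x * q * x⁻¹ ∈ Q := by
    intro x hx q hq
    refine mem_of_pow_card_eq_one P hcyc Q hQP _
      ((Subgroup.mem_normalizer_iff.mp hx q).mp (hQP hq)) ?_
    rw [conj_pow, pow_card_eq_one_of_mem Q hq, mul_one, mul_inv_cancel]
  rw [Subgroup.mem_normalizer_iff]
  intro h
  constructor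
  · exact key g hg h
  · intro hh
    have h1 := key g⁻¹ (Subgroup.inv_mem _ hg) _ hh
    have e : g⁻¹ * (g * h * g⁻¹) * g⁻¹⁻¹ = h := by group
    rwa [e] at h1

theorem mem_of_pow_prime_eq_one [Finite G] (p : ℕ) [Fact p.Prime] (P : Subgroup G)
    (hcyc : IsCyclic P) (Q : Subgroup G) (hQ : IsPGroup p Q) (hQP : Q ≤ P) (hQ1 : Q ≠ ⊥)
    (r : G) (hr : r ∈ P) (hrp : r ^ p = 1) : r ∈ Q := by
  have hp : p.Prime := Fact.out
  haveI : Nontrivial Q := (Subgroup.nontrivial_iff_ne_bot Q).mpr hQ1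
  obtain ⟨n, hn⟩ := IsPGroup.iff_card.mp hQ
  have hn0 : n ≠ 0 := by
    rintro rfl
    rw [pow_zero] at hn
    have := Finite.one_lt_card (α := Q)
    omega
  have hdvd : p ∣ Nat.card Q := by
    rw [hn]
    exact dvd_pow_self p hn0
  obtain ⟨q, hq⟩ := exists_prime_orderOf_dvd_card' p hdvd
  have hq' : orderOf (q : G) = p := by rw [Subgroup.orderOf_coe, hq]
  have hzQ : Subgroup.zpowers (q : G) ≤ Q := (Subgroup.zpowers_le).mpr q.2
  refine hzQ (mem_of_pow_card_eq_one P hcyc _ (hzQ.trans hQP) r hr ?_)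
  rw [Nat.card_zpowers, hq', hrp]

theorem centralizes_cyclic_of_coprime [Finite G] (p : ℕ) [Fact p.Prime] (P : Subgroup G)
    (hP : IsPGroup p P) (hcyc : IsCyclic P) (Q : Subgroup G) (hQP : Q ≤ P) (hQ1 : Q ≠ ⊥)
    (g : G) (hreg : IsPRegular p g) (hgN : g ∈ Subgroup.normalizer (P : Set G))
    (hgQ : g ∈ Subgroup.centralizer (Q : Set G)) :
    g ∈ Subgroup.centralizer (P : Set G) := by
  have hp : p.Prime := Fact.out
  have hab := mul_comm_of_isCyclic P hcyc
  have hQ : IsPGroup p Q := hP.to_le hQP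
  have key : ∀ k : ℕ, ∀ y ∈ P, y ^ p ^ k = 1 → g * y * g⁻¹ = y := by
    intro k
    induction k with
    | zero =>
      intro y _ hy
      rw [pow_zero, pow_one] at hy
      rw [hy]
      group
    | succ k ih =>
      intro y hy hyk
      have h1 : g * y ^ p * g⁻¹ = y ^ p := by
        refine ih (y ^ p) (Subgroup.pow_mem _ hy p) ?_
        rw [← pow_mul, ← pow_succ']
        exact hyk
      have hz : g * y * g⁻¹ ∈ P := (Subgroup.mem_normalizer_iff.mp hgN y).mp hy
      have hrP : y⁻¹ * (g * y * g⁻¹) ∈ P := Subgroup.mul_mem _ (Subgroup.inv_mem _ hy) hz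
      have hcomm : Commute y⁻¹ (g * y * g⁻¹) := hab _ (Subgroup.inv_mem _ hy) _ hz
      have hrp : (y⁻¹ * (g * y * g⁻¹)) ^ p = 1 := by
        rw [hcomm.mul_pow, conj_pow, h1, inv_pow, inv_mul_cancel]
      have hrQ := mem_of_pow_prime_eq_one p P hcyc Q hQ hQP hQ1 _ hrP hrp
      have hgr : g * (y⁻¹ * (g * y * g⁻¹)) = (y⁻¹ * (g * y * g⁻¹)) * g :=
        (Subgroup.mem_centralizer_iff.mp hgQ _ hrQ).symm
      have hpow : ∀ n : ℕ, g ^ n * y * (g ^ n)⁻¹ = y * (y⁻¹ * (g * y * g⁻¹)) ^ n := by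
        intro n
        induction n with
        | zero => simp
        | succ n ihn =>
          have hc : Commute g (y⁻¹ * (g * y * g⁻¹)) := hgr
          have e1 : g ^ (n + 1) * y * (g ^ (n + 1))⁻¹ = g * (g ^ n * y * (g ^ n)⁻¹) * g⁻¹ := by
            rw [pow_succ']
            group
          have e2 : g * (y⁻¹ * (g * y * g⁻¹)) ^ n * g⁻¹ = (y⁻¹ * (g * y * g⁻¹)) ^ n := by
            rw [(hc.pow_right n).eq, mul_assoc, mul_inv_cancel, mul_one]
          rw [e1, ihn, pow_succ']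
          calc g * (y * (y⁻¹ * (g * y * g⁻¹)) ^ n) * g⁻¹
              = (g * y * g⁻¹) * (g * (y⁻¹ * (g * y * g⁻¹)) ^ n * g⁻¹) := by group
            _ = (g * y * g⁻¹) * (y⁻¹ * (g * y * g⁻¹)) ^ n := by rw [e2]
            _ = y * (y⁻¹ * (g * y * g⁻¹) * (y⁻¹ * (g * y * g⁻¹)) ^ n) := by
                rw [mul_assoc y⁻¹, mul_inv_cancel_left]
      have h2 := hpow (orderOf g)
      rw [pow_orderOf_eq_one, one_mul, inv_one, mul_one] at h2
      have h3 : (y⁻¹ * (g * y * g⁻¹)) ^ orderOf g = 1 := by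
        have := congrArg (fun t => y⁻¹ * t) h2
        simpa using this.symm
      have hcop : Nat.Coprime p (orderOf g) := (Nat.Prime.coprime_iff_not_dvd hp).mpr hreg
      have h4 : y⁻¹ * (g * y * g⁻¹) ∈ (⊥ : Subgroup G) :=
        mem_of_pow_mem_of_coprime ⊥ _ p (orderOf g) hcop
          (Subgroup.mem_bot.mpr hrp) (Subgroup.mem_bot.mpr h3)
      rw [Subgroup.mem_bot] at h4
      have := congrArg (fun t => y * t) h4
      simpa using this
  rw [Subgroup.mem_centralizer_iff]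
  intro y hy
  obtain ⟨k, hk⟩ := (IsPGroup.iff_orderOf.mp hP) ⟨y, hy⟩
  have h1 : y ^ p ^ k = 1 := by
    rw [← hk, ← Subgroup.orderOf_coe]
    exact pow_orderOf_eq_one y
  have h2 := key k y hy h1
  calc y * g = (g * y * g⁻¹) * g := by rw [h2]
    _ = g * y := by group

end Cyc

section Blk

variable {G : Type*} [Group G] [Fintype G] {p : ℕ} {M : Ideal AlgInt}

/-- For a maximal pair `(P, c)` with `P` cyclic, every element of `N_G(P, c)` centralizing a
nontrivial subgroup of `P` centralizes `P`. -/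
theorem stab_cent_of_cyclic (hM : IsPModular p M) [Fact p.Prime]
    (B : Set (IrrCharacter G)) (P : Subgroup G)
    (c : Set (IrrCharacter (Subgroup.centralizer (P : Set G))))
    (hmax : IsMaximalBrauerPair p M B P c) (hcyc : IsCyclic P)
    (Q : Subgroup G) (hQP : Q ≤ P) (hQ1 : Q ≠ ⊥) (g : G)
    (hgN : g ∈ Subgroup.normalizer (P : Set G))
    (hgs : StabilizesBlock (Subgroup.centralizer (P : Set G)) c g)
    (hgQ : g ∈ Subgroup.centralizer (Q : Set G)) :
    g ∈ Subgroup.centralizer (P : Set G) := by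
  classical
  have hP : IsPGroup p P := hmax.1.1.1
  have hab := mul_comm_of_isCyclic P hcyc
  have hT := mem_stabSubgroup P c
  have hgT : g ∈ stabSubgroup P c := (hT g).mpr ⟨hgN, hgs⟩
  obtain ⟨a, b, hcop, hreg, k, hk⟩ := exists_coprime_pow p g
  have haT : g ^ a ∈ stabSubgroup P c := Subgroup.pow_mem _ hgT a
  have hbT : g ^ b ∈ stabSubgroup P c := Subgroup.pow_mem _ hgT b
  have h1 : g ^ a ∈ Subgroup.centralizer (P : Set G) :=
    centralizes_cyclic_of_coprime p P hP hcyc Q hQP hQ1 (g ^ a) hreg ((hT _).mp haT).1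
      (Subgroup.pow_mem _ hgQ a)
  have hzT : Subgroup.zpowers (g ^ b) ≤ stabSubgroup P c := (Subgroup.zpowers_le).mpr hbT
  have hS : IsPGroup p (Subgroup.zpowers (g ^ b)) := by
    apply IsPGroup.of_card (n := k)
    rw [Nat.card_zpowers, hk]
  have hle := pSubgroup_stab_le_of_maximal hM B P c hmax (Subgroup.zpowers (g ^ b)) hS
    (fun y hy => ((hT y).mp (hzT hy)).1) (fun y hy => ((hT y).mp (hzT hy)).2)
  have hPC : P ≤ Subgroup.centralizer (P : Set G) := fun x hx =>
    Subgroup.mem_centralizer_iff.mpr (fun y hy => hab y hy x hx)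
  have h2 : g ^ b ∈ Subgroup.centralizer (P : Set G) :=
    (sup_le hPC le_rfl) (hle (Subgroup.mem_zpowers _))
  exact mem_of_pow_mem_of_coprime _ g a b hcop h1 h2

end Blk

end Cfsg.Agent.Lib.Helper81
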