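import Mathlib
import Cfsg.Agent.Lib.Helper81.G2Base

/-!
# Explicit automorphisms of Zorn's algebra (helper81)

The swap, the root automorphisms `X u`, and the two homomorphisms `A : GL₂(F) → G₂(F)`
(conjugation on the quaternion subalgebra and on its complement) and `B : SL₂(F) → G₂(F)` (left
multiplication on the complement), with their relations.
-/

set_option autoImplicit false
set_option linter.unusedSectionVars false
set_option linter.unusedVariables false

namespace Cfsg.Agent.Lib.Helper81.G2Aut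

open Cfsg Cfsg.Lie Matrix Cfsg.Agent.Lib.Helper81.G2Base

variable {F : Type*} [Field F]

section Swap

theorem fS_mul (x y : Fin 8 → F) : fS (zornMul x y) = zornMul (fS x) (fS y) := by
  ext i
  fin_cases i <;>
    simp [fS, zornMul, dot3, cross3, zA, zB] <;> ring

theorem exists_S : ∃ g : Lie.G2 F, ∀ x, act g x = fS x := by
  refine exists_of_fun fS fS ?_ ?_ ?_ fS_mul
  · intro x y
    ext i
    fin_cases i <;> simp [fS] <;> ring
  · intro c x
    ext i
    fin_cases i <;> simp [fS]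
  · intro x
    ext i
    fin_cases i <;> simp [fS]

end Swap

section Root

set_option maxHeartbeats 1000000 in
theorem fX_mul (u : Fin 3 → F) (x y : Fin 8 → F) :
    fX u (zornMul x y) = zornMul (fX u x) (fX u y) := by
  ext i
  fin_cases i <;>
    simp [fX, zornMul, dot3, cross3, zA, zB] <;> ring

theorem exists_X (u : Fin 3 → F) : ∃ g : Lie.G2 F, ∀ x, act g x = fX u x := by
  refine exists_of_fun (fX u) (fX (-u)) ?_ ?_ ?_ (fX_mul u)
  · intro x y
    ext i
    fin_cases i <;> simp [fX] <;> ring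
  · intro c x
    ext i
    fin_cases i <;> simp [fX] <;> ring
  · intro x
    ext i
    fin_cases i <;> simp [fX] <;> ring

end Root

section Conj

theorem zornMul_smul_smul (c c' : F) (x y : Fin 8 → F) :
    zornMul (c • x) (c' • y) = (c * c') • zornMul x y := by
  ext i
  fin_cases i <;> simp [zornMul, dot3, cross3, zA, zB] <;> ring

set_option maxHeartbeats 4000000 in
theorem fA_mul (p1 p2 p3 p4 : F) (x y : Fin 8 → F) :
    zornMul (fA p1 p2 p3 p4 x) (fA p1 p2 p3 p4 y) =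
      (p1 * p4 - p2 * p3) • fA p1 p2 p3 p4 (zornMul x y) := by
  ext i
  fin_cases i <;>
    simp [fA, zornMul, dot3, cross3, zA, zB] <;> ring

theorem fA_add (p1 p2 p3 p4 : F) (x y : Fin 8 → F) :
    fA p1 p2 p3 p4 (x + y) = fA p1 p2 p3 p4 x + fA p1 p2 p3 p4 y := by
  ext i
  fin_cases i <;> simp [fA] <;> ring

theorem fA_smul (p1 p2 p3 p4 c : F) (x : Fin 8 → F) :
    fA p1 p2 p3 p4 (c • x) = c • fA p1 p2 p3 p4 x := by
  ext i
  fin_cases i <;> simp [fA] <;> ring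

theorem fA_comp (p1 p2 p3 p4 q1 q2 q3 q4 : F) (x : Fin 8 → F) :
    fA p1 p2 p3 p4 (fA q1 q2 q3 q4 x) =
      fA (p1 * q1 + p2 * q3) (p1 * q2 + p2 * q4) (p3 * q1 + p4 * q3) (p3 * q2 + p4 * q4) x := by
  ext i
  fin_cases i <;> simp [fA] <;> ring

theorem fA_scalar (l : F) (x : Fin 8 → F) : fA l 0 0 l x = (l * l) • x := by
  ext i
  fin_cases i <;> simp [fA] <;> ring

/-- The action of `A p`. -/
def aFun (p : Matrix (Fin 2) (Fin 2) F) (x : Fin 8 → F) : Fin 8 → F :=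
  (p 0 0 * p 1 1 - p 0 1 * p 1 0)⁻¹ • fA (p 0 0) (p 0 1) (p 1 0) (p 1 1) x

theorem det_ne_zero_of_GL (p : GL (Fin 2) F) :
    (p : Matrix (Fin 2) (Fin 2) F) 0 0 * (p : Matrix (Fin 2) (Fin 2) F) 1 1 -
      (p : Matrix (Fin 2) (Fin 2) F) 0 1 * (p : Matrix (Fin 2) (Fin 2) F) 1 0 ≠ 0 := by
  have h := (Matrix.isUnit_iff_isUnit_det (p : Matrix (Fin 2) (Fin 2) F)).1 p.isUnit
  rw [Matrix.det_fin_two] at h
  exact h.ne_zero

theorem aFun_mul (p q : Matrix (Fin 2) (Fin 2) F)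
    (hp : p 0 0 * p 1 1 - p 0 1 * p 1 0 ≠ 0) (hq : q 0 0 * q 1 1 - q 0 1 * q 1 0 ≠ 0)
    (x : Fin 8 → F) : aFun (p * q) x = aFun p (aFun q x) := by
  unfold aFun
  rw [fA_smul, fA_comp, smul_smul]
  simp only [Matrix.mul_apply, Fin.sum_univ_two]
  congr 1
  have h : (p 0 0 * q 0 0 + p 0 1 * q 1 0) * (p 1 0 * q 0 1 + p 1 1 * q 1 1) -
      (p 0 0 * q 0 1 + p 0 1 * q 1 1) * (p 1 0 * q 0 0 + p 1 1 * q 1 0) =
      (p 0 0 * p 1 1 - p 0 1 * p 1 0) * (q 0 0 * q 1 1 - q 0 1 * q 1 0) := by ring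
  rw [h, mul_inv]

theorem exists_A_elem (p : GL (Fin 2) F) :
    ∃ g : Lie.G2 F, ∀ x, act g x = aFun (p : Matrix (Fin 2) (Fin 2) F) x := by
  have hd := det_ne_zero_of_GL p
  obtain ⟨p1, hp1⟩ : ∃ p1 : F, p1 = (p : Matrix (Fin 2) (Fin 2) F) 0 0 := ⟨_, rfl⟩
  obtain ⟨p2, hp2⟩ : ∃ p2 : F, p2 = (p : Matrix (Fin 2) (Fin 2) F) 0 1 := ⟨_, rfl⟩
  obtain ⟨p3, hp3⟩ : ∃ p3 : F, p3 = (p : Matrix (Fin 2) (Fin 2) F) 1 0 := ⟨_, rfl⟩
  obtain ⟨p4, hp4⟩ : ∃ p4 : F, p4 = (p : Matrix (Fin 2) (Fin 2) F) 1 1 := ⟨_, rfl⟩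
  rw [← hp1, ← hp2, ← hp3, ← hp4] at hd
  have hfun : ∀ x, aFun (p : Matrix (Fin 2) (Fin 2) F) x =
      (p1 * p4 - p2 * p3)⁻¹ • fA p1 p2 p3 p4 x := by
    intro x
    unfold aFun
    rw [← hp1, ← hp2, ← hp3, ← hp4]
  refine exists_of_fun (aFun (p : Matrix (Fin 2) (Fin 2) F))
    (fun x => (p1 * p4 - p2 * p3)⁻¹ • fA p4 (-p2) (-p3) p1 x) ?_ ?_ ?_ ?_
  · intro x y
    rw [hfun, hfun, hfun, fA_add, smul_add]
  · intro c x
    rw [hfun, hfun, fA_smul, smul_comm]
  · intro x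
    rw [hfun, fA_smul, fA_comp, smul_smul]
    have h1 : p1 * p4 + p2 * -p3 = p1 * p4 - p2 * p3 := by ring
    have h2 : p1 * -p2 + p2 * p1 = 0 := by ring
    have h3 : p3 * p4 + p4 * -p3 = 0 := by ring
    have h4 : p3 * -p2 + p4 * p1 = p1 * p4 - p2 * p3 := by ring
    rw [h1, h2, h3, h4, fA_scalar, smul_smul]
    have h5 : (p1 * p4 - p2 * p3)⁻¹ * (p1 * p4 - p2 * p3)⁻¹ *
        ((p1 * p4 - p2 * p3) * (p1 * p4 - p2 * p3)) = 1 := by
      field_simp
    rw [h5, one_smul]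
  · intro x y
    rw [hfun, hfun, hfun, zornMul_smul_smul, fA_mul, smul_smul]
    congr 1
    field_simp

theorem aFun_one (x : Fin 8 → F) : aFun (1 : Matrix (Fin 2) (Fin 2) F) x = x := by
  unfold aFun
  simp only [Matrix.one_apply_eq, Matrix.one_apply_ne, ne_eq, Fin.isValue, zero_ne_one,
    one_ne_zero, not_false_eq_true, mul_one, mul_zero, sub_zero, inv_one, one_smul]
  rw [fA_scalar]
  simp

/-- The homomorphism `A : GL₂(F) → G₂(F)`. -/
theorem exists_A : ∃ A : GL (Fin 2) F →* Lie.G2 F,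
    ∀ (p : GL (Fin 2) F) (x : Fin 8 → F), act (A p) x = aFun (p : Matrix (Fin 2) (Fin 2) F) x := by
  classical
  refine ⟨{ toFun := fun p => Classical.choose (exists_A_elem p), map_one' := ?_, map_mul' := ?_ },
    fun p x => Classical.choose_spec (exists_A_elem p) x⟩
  · apply ext_act
    intro x
    rw [Classical.choose_spec (exists_A_elem (1 : GL (Fin 2) F)) x, act_one]
    exact aFun_one x
  · intro p q
    apply ext_act
    intro x
    rw [Classical.choose_spec (exists_A_elem (p * q)) x, act_mul,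
      Classical.choose_spec (exists_A_elem q) x, Classical.choose_spec (exists_A_elem p)]
    exact aFun_mul _ _ (det_ne_zero_of_GL p) (det_ne_zero_of_GL q) x

end Conj

section Left

theorem fB_mul (c1 c2 c3 c4 : F) (h : c1 * c4 - c2 * c3 = 1) (x y : Fin 8 → F) :
    fB c1 c2 c3 c4 (zornMul x y) = zornMul (fB c1 c2 c3 c4 x) (fB c1 c2 c3 c4 y) := by
  ext i
  fin_cases i
  · simp [fB, zornMul, dot3, cross3, zA, zB]
    linear_combination (-(x 2 * y 5 + x 3 * y 6)) * h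
  · simp [fB, zornMul, dot3, cross3, zA, zB]
    linear_combination (-(x 5 * y 6 - x 6 * y 5)) * h
  · simp [fB, zornMul, dot3, cross3, zA, zB]
    ring
  · simp [fB, zornMul, dot3, cross3, zA, zB]
    ring
  · simp [fB, zornMul, dot3, cross3, zA, zB]
    linear_combination (-(x 2 * y 3 - x 3 * y 2)) * h
  · simp [fB, zornMul, dot3, cross3, zA, zB]
    ring
  · simp [fB, zornMul, dot3, cross3, zA, zB]
    ring
  · simp [fB, zornMul, dot3, cross3, zA, zB]
    linear_combination (-(x 5 * y 2 + x 6 * y 3)) * h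

theorem fB_add (c1 c2 c3 c4 : F) (x y : Fin 8 → F) :
    fB c1 c2 c3 c4 (x + y) = fB c1 c2 c3 c4 x + fB c1 c2 c3 c4 y := by
  ext i
  fin_cases i <;> simp [fB] <;> ring

theorem fB_smul (c1 c2 c3 c4 c : F) (x : Fin 8 → F) :
    fB c1 c2 c3 c4 (c • x) = c • fB c1 c2 c3 c4 x := by
  ext i
  fin_cases i <;> simp [fB] <;> ring

theorem fB_comp (c1 c2 c3 c4 d1 d2 d3 d4 : F) (x : Fin 8 → F) :
    fB c1 c2 c3 c4 (fB d1 d2 d3 d4 x) =
      fB (c1 * d1 + c2 * d3) (c1 * d2 + c2 * d4) (c3 * d1 + c4 * d3) (c3 * d2 + c4 * d4) x := by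
  ext i
  fin_cases i <;> simp [fB] <;> ring

theorem fB_one (x : Fin 8 → F) : fB 1 0 0 1 x = x := by
  ext i
  fin_cases i <;> simp [fB]

/-- The action of `B c`. -/
def bFun (c : Matrix (Fin 2) (Fin 2) F) (x : Fin 8 → F) : Fin 8 → F :=
  fB (c 0 0) (c 0 1) (c 1 0) (c 1 1) x

theorem det_SL (c : SpecialLinearGroup (Fin 2) F) :
    (c : Matrix (Fin 2) (Fin 2) F) 0 0 * (c : Matrix (Fin 2) (Fin 2) F) 1 1 -
      (c : Matrix (Fin 2) (Fin 2) F) 0 1 * (c : Matrix (Fin 2) (Fin 2) F) 1 0 = 1 := by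
  have h := c.2
  rw [Matrix.det_fin_two] at h
  exact h

theorem bFun_mul (c d : Matrix (Fin 2) (Fin 2) F) (x : Fin 8 → F) :
    bFun (c * d) x = bFun c (bFun d x) := by
  unfold bFun
  rw [fB_comp]
  simp only [Matrix.mul_apply, Fin.sum_univ_two]

theorem bFun_one (x : Fin 8 → F) : bFun (1 : Matrix (Fin 2) (Fin 2) F) x = x := by
  unfold bFun
  simp only [Matrix.one_apply_eq, Matrix.one_apply_ne, ne_eq, Fin.isValue, zero_ne_one,
    one_ne_zero, not_false_eq_true]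
  exact fB_one x

theorem exists_B_elem (c : SpecialLinearGroup (Fin 2) F) :
    ∃ g : Lie.G2 F, ∀ x, act g x = bFun (c : Matrix (Fin 2) (Fin 2) F) x := by
  have hd := det_SL c
  refine exists_of_fun (bFun (c : Matrix (Fin 2) (Fin 2) F))
    (bFun ((c⁻¹ : SpecialLinearGroup (Fin 2) F) : Matrix (Fin 2) (Fin 2) F)) ?_ ?_ ?_ ?_
  · intro x y
    exact fB_add _ _ _ _ x y
  · intro a x
    exact fB_smul _ _ _ _ a x
  · intro x
    rw [← bFun_mul]
    have h1 : (c : Matrix (Fin 2) (Fin 2) F) *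
        ((c⁻¹ : SpecialLinearGroup (Fin 2) F) : Matrix (Fin 2) (Fin 2) F) = 1 := by
      have h2 := congrArg (fun m : SpecialLinearGroup (Fin 2) F => (m : Matrix (Fin 2) (Fin 2) F))
        (mul_inv_cancel c)
      exact h2
    rw [h1]
    exact bFun_one x
  · intro x y
    exact fB_mul _ _ _ _ hd x y

/-- The homomorphism `B : SL₂(F) → G₂(F)`. -/
theorem exists_B : ∃ B : SpecialLinearGroup (Fin 2) F →* Lie.G2 F,
    ∀ (c : SpecialLinearGroup (Fin 2) F) (x : Fin 8 → F),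
      act (B c) x = bFun (c : Matrix (Fin 2) (Fin 2) F) x := by
  classical
  refine ⟨{ toFun := fun c => Classical.choose (exists_B_elem c), map_one' := ?_, map_mul' := ?_ },
    fun c x => Classical.choose_spec (exists_B_elem c) x⟩
  · apply ext_act
    intro x
    rw [Classical.choose_spec (exists_B_elem (1 : SpecialLinearGroup (Fin 2) F)) x, act_one]
    exact bFun_one x
  · intro c d
    apply ext_act
    intro x
    rw [Classical.choose_spec (exists_B_elem (c * d)) x, act_mul,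
      Classical.choose_spec (exists_B_elem d) x, Classical.choose_spec (exists_B_elem c)]
    exact bFun_mul _ _ x

end Left

end Cfsg.Agent.Lib.Helper81.G2Aut
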