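import Mathlib
import Cfsg.Agent.Lib.Helper81.SlSylB

/-!
# Sylow `2`-subgroups of `SL_N(q)`, `q` odd: squares lie in the derived subgroup (helper81)

Transfer from the abstract data of `SlSylA` to every Sylow `2`-subgroup of the special linear
group: even degree through the kernel of the determinant, odd degree by adding a line on which
the group acts through the inverse determinant.
-/

set_option autoImplicit false

namespace Cfsg.Agent.Lib.Helper81.SlSyl

open Cfsg.Agent.Lib.Helper81.SqD Cfsg.Agent.Lib.Helper81.SpSyl Cfsg.Agent.Lib.Helper81.DeltaGrp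

open Matrix

universe u

section Transfer

variable {F : Type u} [Field F] [Fintype F]

theorem two_ne_zero_of_odd_card (hodd : Odd (Fintype.card F)) : (2 : F) ≠ 0 := by
  obtain ⟨ℓ, hℓ⟩ := CharP.exists F
  obtain ⟨r, hprime, hcard⟩ := FiniteField.card F ℓ
  intro h0
  have h1 : ((2 : ℕ) : F) = 0 := by exact_mod_cast h0
  have h3 : ℓ ∣ 2 := (CharP.cast_eq_zero_iff F ℓ 2).1 h1
  have h4 : ℓ = 2 := (Nat.prime_dvd_prime_iff_eq hprime Nat.prime_two).1 h3
  rw [hcard, h4] at hodd
  exact (Nat.not_even_iff_odd.2 hodd) (Nat.even_pow.2 ⟨even_two, r.ne_zero⟩)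

/-- A finite `2`-group of full order acting faithfully with determinant one in dimension `N`
transfers `SqDer` to every Sylow `2`-subgroup of `SL_N(F)`. -/
theorem sylow_of_rep {N : ℕ} {V : Type*} [AddCommGroup V] [Module F V] [FiniteDimensional F V]
    {T : Type*} [Group T] [Finite T] (ρ : Representation F T V)
    (hV : Module.finrank F V = N) (hinj : Function.Injective ρ)
    (hdet : ∀ x, LinearMap.det (ρ x) = 1) (hT : IsPGroup 2 T)
    (hdvd : 2 ^ (Nat.card (SpecialLinearGroup (Fin N) F)).factorization 2 ∣ Nat.card T)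
    (hsq : SqDer T) (P : Sylow 2 (SpecialLinearGroup (Fin N) F)) : SqDer P := by
  classical
  obtain ⟨b⟩ : Nonempty (Module.Basis (Fin N) F V) := ⟨Module.finBasisOfFinrankEq F V hV⟩
  have hμdet : ∀ x, (LinearMap.toMatrix b b (ρ x)).det = 1 := fun x => by
    rw [LinearMap.det_toMatrix, hdet]
  let φ : T →* SpecialLinearGroup (Fin N) F :=
    { toFun := fun x => ⟨LinearMap.toMatrix b b (ρ x), hμdet x⟩
      map_one' := by
        apply Subtype.ext
        show LinearMap.toMatrix b b (ρ 1) = 1
        rw [map_one]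
        exact LinearMap.toMatrix_one b
      map_mul' := by
        intro x y
        apply Subtype.ext
        show LinearMap.toMatrix b b (ρ (x * y)) =
          LinearMap.toMatrix b b (ρ x) * LinearMap.toMatrix b b (ρ y)
        rw [map_mul]
        exact LinearMap.toMatrix_mul b _ _ }
  have hφ : Function.Injective φ := by
    intro x y hxy
    have h1 : LinearMap.toMatrix b b (ρ x) = LinearMap.toMatrix b b (ρ y) :=
      congrArg Subtype.val hxy
    exact hinj ((LinearMap.toMatrix b b).injective h1)
  exact sqDer_sylow_of_hom φ hφ hT hdvd hsq P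

/-- Even degree. -/
theorem sl_even {c m : ℕ} (hodd : Odd (Fintype.card F)) (hm : 1 ≤ m)
    (hc : c = padicValNat 2 (Fintype.card F - 1) + padicValNat 2 (Fintype.card F ^ 2 - 1))
    (h : HasGL F c m) (P : Sylow 2 (SpecialLinearGroup (Fin (2 * m)) F)) : SqDer P := by
  classical
  have hfact : Fact (Nat.Prime 2) := ⟨Nat.prime_two⟩
  have hq1 : 1 < Fintype.card F := Fintype.one_lt_card
  obtain ⟨V, _, _, _, T, _, _, ρ, hV, hT, hdvd, hinj, hsd⟩ := h
  obtain ⟨U, hU⟩ : ∃ U : Subgroup T, U = (detU ρ).ker := ⟨_, rfl⟩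
  have hUp : IsPGroup 2 U := hT.to_subgroup U
  have hUsq : SqDer U := by
    rw [hU]
    exact hsd.sqDer
  refine sylow_of_rep (ρ.comp U.subtype) hV ?_ ?_ hUp ?_ hUsq P
  · intro x y hxy
    exact Subtype.ext (hinj hxy)
  · intro x
    have hx : (x : T) ∈ (detU ρ).ker := by
      rw [← hU]
      exact x.2
    exact (detU_eq_one_iff ρ x).1 hx
  · obtain ⟨j, hj⟩ := IsPGroup.iff_card.1 hT
    obtain ⟨k, hk⟩ := IsPGroup.iff_card.1 hUp
    have hidx : Nat.card U * Nat.card (detU ρ).range = Nat.card T := by
      rw [← Subgroup.index_ker, hU, Subgroup.card_mul_index]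
    have hr1 : Nat.card (detU ρ).range ∣ Fintype.card F - 1 := by
      have h1 := Subgroup.card_subgroup_dvd_card (detU ρ).range
      rwa [Nat.card_units, Nat.card_eq_fintype_card (α := F)] at h1
    have hr2 : Nat.card (detU ρ).range ∣ 2 ^ j := by
      rw [← hj]
      exact Subgroup.card_range_dvd _
    obtain ⟨r, -, hr⟩ := (Nat.dvd_prime_pow Nat.prime_two).1 hr2
    have hr3 : r ≤ padicValNat 2 (Fintype.card F - 1) := by
      rw [hr] at hr1
      exact (padicValNat_dvd_iff_le (by omega)).1 hr1
    rw [hk, hr, ← pow_add] at hidx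
    rw [← hidx] at hdvd
    have h5 := (Nat.pow_dvd_pow_iff_le_right (by norm_num)).1 hdvd
    have hv := val_card_sl_field hodd (2 * m) (by omega)
    have e1 : 2 * m / 2 = m := Nat.mul_div_cancel_left m (by norm_num)
    have e2 : 2 * m - m = m := by omega
    rw [e1, e2] at hv
    rw [hc, Nat.mul_add] at h5
    rw [hk]
    apply pow_dvd_pow
    omega

/-- Odd degree. -/
theorem sl_odd {c m : ℕ} (hodd : Odd (Fintype.card F))
    (hc : c = padicValNat 2 (Fintype.card F - 1) + padicValNat 2 (Fintype.card F ^ 2 - 1))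
    (h : HasGLF F c m) (P : Sylow 2 (SpecialLinearGroup (Fin (2 * m + 1)) F)) : SqDer P := by
  classical
  have hfact : Fact (Nat.Prime 2) := ⟨Nat.prime_two⟩
  obtain ⟨V, _, _, _, T, _, _, ρ, ⟨hV, hT, hdvd, hinj, hsd⟩, hval, g, hg2, hg⟩ := h
  have hsq : SqDer T := sqDer_of_extra (detU ρ) (-1) hsd hval g hg2 hg
  let χ : Representation F T F :=
    { toFun := fun x => (((detU ρ x)⁻¹ : Fˣ) : F) • (LinearMap.id : F →ₗ[F] F)
      map_one' := by
        rw [map_one, inv_one, Units.val_one, one_smul]
        rfl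
      map_mul' := by
        intro x y
        refine LinearMap.ext fun v => ?_
        rw [map_mul, mul_inv, Units.val_mul]
        simp only [LinearMap.smul_apply, LinearMap.id_coe, id_eq, Module.End.mul_apply,
          smul_eq_mul]
        ring }
  have hχ : ∀ x, LinearMap.det (χ x) = (((detU ρ x)⁻¹ : Fˣ) : F) := by
    intro x
    show LinearMap.det ((((detU ρ x)⁻¹ : Fˣ) : F) • (LinearMap.id : F →ₗ[F] F)) = _
    rw [LinearMap.det_smul, Module.finrank_self, pow_one, LinearMap.det_id, mul_one]
  refine sylow_of_rep ((prodRep ρ χ).comp (MonoidHom.prod (MonoidHom.id T) (MonoidHom.id T)))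
    ?_ ?_ ?_ hT ?_ hsq P
  · rw [Module.finrank_prod, Module.finrank_self, hV]
  · intro x y hxy
    apply hinj
    refine LinearMap.ext fun w => ?_
    exact congrArg (fun f : Module.End F (V × F) => (f (w, 0)).1) hxy
  · intro x
    show LinearMap.det (LinearMap.prodMap (ρ x) (χ x)) = 1
    rw [LinearMap.det_prodMap, hχ, ← detU_val, ← Units.val_mul, mul_inv_cancel, Units.val_one]
  · have hv := val_card_sl_field hodd (2 * m + 1) (by omega)
    have e1 : (2 * m + 1) / 2 = m := by omega
    have e2 : 2 * m + 1 - m = m + 1 := by omega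
    rw [e1, e2, Nat.add_mul, one_mul] at hv
    have e3 : (Nat.card (SpecialLinearGroup (Fin (2 * m + 1)) F)).factorization 2 =
        m * c + padicValNat 2 m.factorial := by
      rw [hc, Nat.mul_add]
      omega
    rw [e3]
    exact hdvd

end Transfer

end Cfsg.Agent.Lib.Helper81.SlSyl
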