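import Mathlib
import Cfsg.Agent.Lib.Helper81.G2Base
import Cfsg.Agent.Lib.Helper81.SqDer
import Cfsg.Agent.Lib.Helper81.SlSylB
import Cfsg.Agent.Lib.Helper81.SlSylC
import Cfsg.Agent.Lib.Helper13.G2TRANS
import Cfsg.Agent.Lib.Helper86.G2STAB1
import Cfsg.Agent.Lib.Helper88.G2ARITH
import Cfsg.Agent.Lib.Helper23.G2KABS
import Cfsg.Agent.Lib.Helper19.G2KTBAR
import Cfsg.Agent.Lib.Helper29.G2CNT
import Cfsg.Agent.Lib.Helper30.G2STAB2
import Cfsg.Agent.Lib.Helper1.G2T1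
import Cfsg.Agent.Lib.Helper30.G2T2
import Cfsg.Agent.Lib.Helper46.G2TASM

/-!
# S4632: the job-board pieces, restated in one namespace (helper81)

Proved by helper13 (TRANS), helper86 (STAB1), helper88 (ARITH), helper23 (KABS), helper19 (KTBAR),
helper29 (CNT), helper30 (STAB2, T2), helper1 (T1), helper46 (TASM).
-/

set_option autoImplicit false

namespace Cfsg.Agent.Lib.Helper81.G2Pieces

open Cfsg Cfsg.Lie Matrix Cfsg.Agent.Lib.Helper81.G2Base Cfsg.Agent.Lib.Helper81.SqD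

universe u

theorem card_idem {F : Type u} [Field F] [Fintype F] :
    Nat.card (idem (F := F)) = Fintype.card F ^ 3 * (Fintype.card F ^ 3 + 1) :=
  Cfsg.Agent.Lib.Helper29.G2.card_idem

theorem trans_idem {F : Type u} [Field F]
    (hS : ∃ g : Lie.G2 F, ∀ x, act g x = fS x)
    (hX : ∀ u : Fin 3 → F, ∃ g : Lie.G2 F, ∀ x, act g x = fX u x) :
    ∀ e ∈ idem (F := F), ∃ g : Lie.G2 F, act g e0 = e :=
  Cfsg.Agent.Lib.Helper13.G2.trans_idem hS hX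

theorem stab_struct {F : Type u} [Field F] (g : Lie.G2 F) (hg : act g e0 = e0) :
    ∃ M N : Matrix (Fin 3) (Fin 3) F, (∀ x, act g x = fL M N x) ∧ Mᵀ * N = 1 ∧ M.det = 1 :=
  Cfsg.Agent.Lib.Helper86.G2.stab_struct g hg

theorem card_stab_dvd {F : Type u} [Field F] [Fintype F]
    (H : ∀ g : Lie.G2 F, act g e0 = e0 →
      ∃ M N : Matrix (Fin 3) (Fin 3) F, (∀ x, act g x = fL M N x) ∧ Mᵀ * N = 1 ∧ M.det = 1) :
    Nat.card (stab0 (F := F)) ∣ Nat.card (SpecialLinearGroup (Fin 3) F) :=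
  Cfsg.Agent.Lib.Helper30.G2.card_stab_dvd H

theorem arith_g2 {F : Type u} [Field F] [Fintype F] (hodd : Odd (Fintype.card F)) :
    padicValNat 2 (Fintype.card F ^ 3 * (Fintype.card F ^ 3 + 1) *
        Nat.card (SpecialLinearGroup (Fin 3) F)) =
      2 * padicValNat 2 (Fintype.card F ^ 2 - 1) :=
  Cfsg.Agent.Lib.Helper88.G2.arith_g2 hodd

theorem exists_T_p0 {F : Type u} [Field F] [Fintype F] (hodd : Odd (Fintype.card F)) :
    ∃ (T : Subgroup (SpecialLinearGroup (Fin 2) F)) (p : GL (Fin 2) F),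
      IsPGroup 2 T ∧ 2 ^ padicValNat 2 (Fintype.card F ^ 2 - 1) ∣ Nat.card T ∧ SqDer T ∧
      (∃ μ : F, (p : Matrix (Fin 2) (Fin 2) F) * (p : Matrix (Fin 2) (Fin 2) F) = μ • 1) ∧
      (∀ t ∈ T, ∃ t' ∈ T, (p : Matrix (Fin 2) (Fin 2) F) * (t : Matrix (Fin 2) (Fin 2) F) =
        (t' : Matrix (Fin 2) (Fin 2) F) * (p : Matrix (Fin 2) (Fin 2) F)) ∧
      (∀ t ∈ T, ∀ μ : F, (p : Matrix (Fin 2) (Fin 2) F) ≠
        μ • (t : Matrix (Fin 2) (Fin 2) F)) :=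
  Cfsg.Agent.Lib.Helper46.G2.exists_T_p0 hodd
    (fun ha s w hs hsws hw2 =>
      Cfsg.Agent.Lib.Helper1.G2.pair_struct
        (Cfsg.Agent.Lib.Helper81.SlSyl.two_ne_zero_of_odd_card hodd) ha s w hs hsws hw2)
    (fun ha s w hs hsws hw2 =>
      Cfsg.Agent.Lib.Helper30.G2.pair_p0
        (Cfsg.Agent.Lib.Helper81.SlSyl.two_ne_zero_of_odd_card hodd) ha s w hs hsws hw2)

theorem sq_ext {G : Type*} [Group G] [Finite G] (T : Subgroup G) (hT : IsPGroup 2 T)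
    (hsq : SqDer T) (x : G) (hx2 : x ^ 2 = 1) (hxT : x ∉ T)
    (hnorm : ∀ t ∈ T, x * t * x⁻¹ ∈ T) :
    ∃ K : Subgroup G, IsPGroup 2 K ∧ 2 * Nat.card T ∣ Nat.card K ∧ SqDer K :=
  Cfsg.Agent.Lib.Helper23.G2.sq_ext T hT hsq x hx2 hxT hnorm

theorem k_tbar {G S : Type*} [Group G] [Finite G] [Group S] (T : Subgroup S) [Finite T]
    (hT : IsPGroup 2 T) {c : ℕ} (hc1 : 1 ≤ c) (hc : 2 ^ c ∣ Nat.card T) (hsq : SqDer T)
    (ψ : S × S →* G)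
    (hker : ∀ k₁ k₂ : S × S, ψ k₁ = 1 → ψ k₂ = 1 → k₁ ≠ 1 → k₂ ≠ 1 → k₁ = k₂) :
    IsPGroup 2 ((T.prod T).map ψ) ∧ 2 ^ (2 * c - 1) ∣ Nat.card ((T.prod T).map ψ) ∧
      SqDer ((T.prod T).map ψ) :=
  Cfsg.Agent.Lib.Helper19.G2.k_tbar T hT hc1 hc hsq ψ hker

end Cfsg.Agent.Lib.Helper81.G2Pieces
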