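import Mathlib
import Cfsg.Agent.Lib.Helper81.G2Aut

/-!
# Relations between the homomorphisms `A` and `B` (helper81)
-/

set_option autoImplicit false
set_option linter.unusedSectionVars false
set_option linter.unusedVariables false

namespace Cfsg.Agent.Lib.Helper81.G2Rel

open Cfsg Cfsg.Lie Matrix Cfsg.Agent.Lib.Helper81.G2Base Cfsg.Agent.Lib.Helper81.G2Aut

variable {F : Type*} [Field F]

theorem fA_fB (p1 p2 p3 p4 c1 c2 c3 c4 d1 d2 d3 d4 : F)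
    (h11 : p1 * c1 + p2 * c3 = d1 * p1 + d2 * p3) (h12 : p1 * c2 + p2 * c4 = d1 * p2 + d2 * p4)
    (h21 : p3 * c1 + p4 * c3 = d3 * p1 + d4 * p3) (h22 : p3 * c2 + p4 * c4 = d3 * p2 + d4 * p4)
    (x : Fin 8 → F) :
    fA p1 p2 p3 p4 (fB c1 c2 c3 c4 x) = fB d1 d2 d3 d4 (fA p1 p2 p3 p4 x) := by
  ext i
  fin_cases i
  · simp [fA, fB]
  · simp [fA, fB]
  · simp [fA, fB]
    linear_combination (x 2 * p4 - x 6 * p3) * h11 + (x 3 * p4 + x 5 * p3) * h12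
  · simp [fA, fB]
    linear_combination (x 2 * p4 - x 6 * p3) * h21 + (x 3 * p4 + x 5 * p3) * h22
  · simp [fA, fB]
  · simp [fA, fB]
    linear_combination (-(-(x 2 * p2) + x 6 * p1)) * h21 + (-(-(x 3 * p2) - x 5 * p1)) * h22
  · simp [fA, fB]
    linear_combination (-(x 2 * p2) + x 6 * p1) * h11 + (-(x 3 * p2) - x 5 * p1) * h12
  · simp [fA, fB]

/-- `A p * B c = B c' * A p` when `p c = c' p`. -/
theorem rel_AB (A : GL (Fin 2) F →* Lie.G2 F) (B : SpecialLinearGroup (Fin 2) F →* Lie.G2 F)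
    (hA : ∀ (p : GL (Fin 2) F) (x : Fin 8 → F),
      act (A p) x = aFun (p : Matrix (Fin 2) (Fin 2) F) x)
    (hB : ∀ (c : SpecialLinearGroup (Fin 2) F) (x : Fin 8 → F),
      act (B c) x = bFun (c : Matrix (Fin 2) (Fin 2) F) x)
    (p : GL (Fin 2) F) (c c' : SpecialLinearGroup (Fin 2) F)
    (h : (p : Matrix (Fin 2) (Fin 2) F) * (c : Matrix (Fin 2) (Fin 2) F) =
      (c' : Matrix (Fin 2) (Fin 2) F) * (p : Matrix (Fin 2) (Fin 2) F)) :
    A p * B c = B c' * A p := by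
  apply ext_act
  intro x
  rw [act_mul, act_mul, hA, hB, hA, hB]
  unfold aFun bFun
  rw [fB_smul]
  congr 1
  have h11 := congrFun (congrFun h 0) 0
  have h12 := congrFun (congrFun h 0) 1
  have h21 := congrFun (congrFun h 1) 0
  have h22 := congrFun (congrFun h 1) 1
  simp only [Matrix.mul_apply, Fin.sum_univ_two] at h11 h12 h21 h22
  exact fA_fB _ _ _ _ _ _ _ _ _ _ _ _ h11 h12 h21 h22 x

/-- Scalar matrices act trivially. -/
theorem A_scalar (A : GL (Fin 2) F →* Lie.G2 F)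
    (hA : ∀ (p : GL (Fin 2) F) (x : Fin 8 → F),
      act (A p) x = aFun (p : Matrix (Fin 2) (Fin 2) F) x)
    (p : GL (Fin 2) F) (l : F) (h : (p : Matrix (Fin 2) (Fin 2) F) = l • 1) : A p = 1 := by
  apply ext_act
  intro x
  rw [hA, act_one]
  have hd := det_ne_zero_of_GL p
  unfold aFun
  rw [h] at hd ⊢
  simp only [Matrix.smul_apply, Matrix.one_apply_eq, Matrix.one_apply_ne, ne_eq, Fin.isValue,
    zero_ne_one, one_ne_zero, not_false_eq_true, smul_eq_mul, mul_one, mul_zero, sub_zero]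
    at hd ⊢
  rw [fA_scalar, smul_smul, inv_mul_cancel₀ hd, one_smul]

/-- If `A p = B c` then `p` is scalar and `c = 1`. -/
theorem A_eq_B (A : GL (Fin 2) F →* Lie.G2 F) (B : SpecialLinearGroup (Fin 2) F →* Lie.G2 F)
    (hA : ∀ (p : GL (Fin 2) F) (x : Fin 8 → F),
      act (A p) x = aFun (p : Matrix (Fin 2) (Fin 2) F) x)
    (hB : ∀ (c : SpecialLinearGroup (Fin 2) F) (x : Fin 8 → F),
      act (B c) x = bFun (c : Matrix (Fin 2) (Fin 2) F) x)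
    (p : GL (Fin 2) F) (c : SpecialLinearGroup (Fin 2) F) (h : A p = B c) :
    (∃ l : F, (p : Matrix (Fin 2) (Fin 2) F) = l • 1) ∧ c = 1 := by
  have hd := det_ne_zero_of_GL p
  have key : ∀ x : Fin 8 → F, aFun (p : Matrix (Fin 2) (Fin 2) F) x =
      bFun (c : Matrix (Fin 2) (Fin 2) F) x := by
    intro x
    rw [← hA, ← hB, h]
  obtain ⟨p1, hp1⟩ : ∃ p1 : F, p1 = (p : Matrix (Fin 2) (Fin 2) F) 0 0 := ⟨_, rfl⟩
  obtain ⟨p2, hp2⟩ : ∃ p2 : F, p2 = (p : Matrix (Fin 2) (Fin 2) F) 0 1 := ⟨_, rfl⟩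
  obtain ⟨p3, hp3⟩ : ∃ p3 : F, p3 = (p : Matrix (Fin 2) (Fin 2) F) 1 0 := ⟨_, rfl⟩
  obtain ⟨p4, hp4⟩ : ∃ p4 : F, p4 = (p : Matrix (Fin 2) (Fin 2) F) 1 1 := ⟨_, rfl⟩
  obtain ⟨c1, hc1⟩ : ∃ c1 : F, c1 = (c : Matrix (Fin 2) (Fin 2) F) 0 0 := ⟨_, rfl⟩
  obtain ⟨c2, hc2⟩ : ∃ c2 : F, c2 = (c : Matrix (Fin 2) (Fin 2) F) 0 1 := ⟨_, rfl⟩
  obtain ⟨c3, hc3⟩ : ∃ c3 : F, c3 = (c : Matrix (Fin 2) (Fin 2) F) 1 0 := ⟨_, rfl⟩
  obtain ⟨c4, hc4⟩ : ∃ c4 : F, c4 = (c : Matrix (Fin 2) (Fin 2) F) 1 1 := ⟨_, rfl⟩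
  rw [← hp1, ← hp2, ← hp3, ← hp4] at hd
  have key' : ∀ x : Fin 8 → F, fA p1 p2 p3 p4 x = (p1 * p4 - p2 * p3) • fB c1 c2 c3 c4 x := by
    intro x
    have h1 := key x
    unfold aFun bFun at h1
    rw [← hp1, ← hp2, ← hp3, ← hp4, ← hc1, ← hc2, ← hc3, ← hc4] at h1
    rw [← h1, smul_smul, mul_inv_cancel₀ hd, one_smul]
  -- evaluate at basis vectors
  have e1 := key' ![0, 1, 0, 0, 0, 0, 0, 0]
  have e4 := key' ![0, 0, 0, 0, 1, 0, 0, 0]
  have e2 := key' ![0, 0, 1, 0, 0, 0, 0, 0]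
  have e3 := key' ![0, 0, 0, 1, 0, 0, 0, 0]
  have a1 := congrFun e1 4
  have a2 := congrFun e4 1
  have a3 := congrFun e1 1
  have a4 := congrFun e4 4
  have b1 := congrFun e2 2
  have b2 := congrFun e2 3
  have b3 := congrFun e3 2
  have b4 := congrFun e3 3
  simp [fA, fB] at a1 a2 a3 a4 b1 b2 b3 b4
  rw [a1, a2] at hd a3 a4 b1 b2 b3 b4
  simp only [mul_zero, sub_zero, zero_mul] at hd a3 a4 b1 b2 b3 b4
  have hp1n : p1 ≠ 0 := fun h0 => hd (by rw [h0, zero_mul])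
  have hp4n : p4 ≠ 0 := fun h0 => hd (by rw [h0, mul_zero])
  have h14 : p1 = p4 := mul_left_cancel₀ hp1n a3
  have hc1' : c1 = 1 := by
    have : (p1 * p4) * c1 = (p1 * p4) * 1 := by rw [mul_one]; exact b1.symm
    exact mul_left_cancel₀ hd this
  have hc3' : c3 = 0 := by
    rcases mul_eq_zero.1 b2.symm with h0 | h0
    · exact absurd h0 hd
    · exact h0
  have hc2' : c2 = 0 := by
    rcases mul_eq_zero.1 b3.symm with h0 | h0
    · exact absurd h0 hd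
    · exact h0
  have hc4' : c4 = 1 := by
    have : (p1 * p4) * c4 = (p1 * p4) * 1 := by rw [mul_one, ← b4, a4]
    exact mul_left_cancel₀ hd this
  constructor
  · refine ⟨p1, ?_⟩
    ext i j
    fin_cases i <;> fin_cases j
    · simp [← hp1]
    · simp [← hp2, a2]
    · simp [← hp3, a1]
    · simp [← hp4, h14]
  · apply Subtype.ext
    ext i j
    fin_cases i <;> fin_cases j
    · simpa [← hc1] using hc1'
    · simpa [← hc2] using hc2'
    · simpa [← hc3] using hc3'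
    · simpa [← hc4] using hc4'

end Cfsg.Agent.Lib.Helper81.G2Rel
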