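import Mathlib
import Cfsg.Agent.Lib.Helper81.G2Rel
import Cfsg.Agent.Lib.Helper81.G2Pieces

/-!
# A `2`-subgroup of `G₂(F)` of full order with all squares in its derived subgroup (helper81)
-/

set_option autoImplicit false
set_option linter.unusedSectionVars false
set_option linter.unusedVariables false

namespace Cfsg.Agent.Lib.Helper81.G2K

open Cfsg Cfsg.Lie Matrix Cfsg.Agent.Lib.Helper81.G2Base Cfsg.Agent.Lib.Helper81.G2Aut
open Cfsg.Agent.Lib.Helper81.G2Rel Cfsg.Agent.Lib.Helper81.G2Pieces Cfsg.Agent.Lib.Helper81.SqD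

universe u

variable {F : Type u} [Field F] [Fintype F]

theorem one_le_val (hodd : Odd (Fintype.card F)) :
    1 ≤ padicValNat 2 (Fintype.card F ^ 2 - 1) := by
  have hfact : Fact (Nat.Prime 2) := ⟨Nat.prime_two⟩
  have hq : 1 < Fintype.card F := Fintype.one_lt_card
  obtain ⟨t, ht⟩ := hodd
  have h1 : Fintype.card F ^ 2 - 1 = 2 * (2 * t * t + 2 * t) := by
    rw [ht]
    have h2 : (2 * t + 1) ^ 2 = 2 * (2 * t * t + 2 * t) + 1 := by ring
    rw [h2, Nat.add_sub_cancel]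
  apply one_le_padicValNat_of_dvd
  · rw [h1]
    have : 0 < t := by omega
    positivity
  · rw [h1]
    exact dvd_mul_right _ _

theorem exists_K (hodd : Odd (Fintype.card F)) :
    ∃ K : Subgroup (Lie.G2 F), IsPGroup 2 K ∧
      2 ^ (2 * padicValNat 2 (Fintype.card F ^ 2 - 1)) ∣ Nat.card K ∧ SqDer K := by
  classical
  obtain ⟨A, hA⟩ := exists_A (F := F)
  obtain ⟨B, hB⟩ := exists_B (F := F)
  obtain ⟨T, p, hT, hcard, hsq, ⟨μ, hμ⟩, hstab, hnp⟩ := exists_T_p0 hodd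
  obtain ⟨ι, hι⟩ : ∃ ι : SpecialLinearGroup (Fin 2) F →* GL (Fin 2) F,
      ι = SpecialLinearGroup.toGL := ⟨_, rfl⟩
  have hιval : ∀ s : SpecialLinearGroup (Fin 2) F,
      ((ι s : GL (Fin 2) F) : Matrix (Fin 2) (Fin 2) F) = (s : Matrix (Fin 2) (Fin 2) F) := by
    intro s
    rw [hι]
    rfl
  have hcoe_mul : ∀ s t : SpecialLinearGroup (Fin 2) F,
      ((s * t : SpecialLinearGroup (Fin 2) F) : Matrix (Fin 2) (Fin 2) F) =
        (s : Matrix (Fin 2) (Fin 2) F) * (t : Matrix (Fin 2) (Fin 2) F) := fun s t => rfl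
  have hrel := rel_AB A B hA hB
  have hAB := A_eq_B A B hA hB
  -- the homomorphism on `SL₂ × SL₂`
  obtain ⟨ψ, hψ⟩ : ∃ ψ : SpecialLinearGroup (Fin 2) F × SpecialLinearGroup (Fin 2) F →* Lie.G2 F,
      ∀ k, ψ k = B (k.2 * k.1⁻¹) * A (ι k.1) := by
    refine ⟨{ toFun := fun k => B (k.2 * k.1⁻¹) * A (ι k.1), map_one' := ?_, map_mul' := ?_ },
      fun k => rfl⟩
    · simp
    · rintro ⟨k1, k2⟩ ⟨l1, l2⟩
      show B (k2 * l2 * (k1 * l1)⁻¹) * A (ι (k1 * l1)) =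
        B (k2 * k1⁻¹) * A (ι k1) * (B (l2 * l1⁻¹) * A (ι l1))
      have h1 : A (ι k1) * B (l2 * l1⁻¹) = B (k1 * (l2 * l1⁻¹) * k1⁻¹) * A (ι k1) := by
        apply hrel
        rw [hιval]
        have h0 : k1 * (l2 * l1⁻¹) = (k1 * (l2 * l1⁻¹) * k1⁻¹) * k1 := by group
        exact congrArg (fun m : SpecialLinearGroup (Fin 2) F => (m : Matrix (Fin 2) (Fin 2) F)) h0
      have e1 : B (k2 * l2 * (k1 * l1)⁻¹) = B (k2 * k1⁻¹) * B (k1 * (l2 * l1⁻¹) * k1⁻¹) := by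
        rw [← map_mul]
        congr 1
        group
      have e2 : A (ι (k1 * l1)) = A (ι k1) * A (ι l1) := by rw [map_mul, map_mul]
      rw [e1, e2]
      calc B (k2 * k1⁻¹) * B (k1 * (l2 * l1⁻¹) * k1⁻¹) * (A (ι k1) * A (ι l1))
          = B (k2 * k1⁻¹) * (B (k1 * (l2 * l1⁻¹) * k1⁻¹) * A (ι k1)) * A (ι l1) := by group
        _ = B (k2 * k1⁻¹) * (A (ι k1) * B (l2 * l1⁻¹)) * A (ι l1) := by rw [h1]
        _ = B (k2 * k1⁻¹) * A (ι k1) * (B (l2 * l1⁻¹) * A (ι l1)) := by group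
  -- the kernel
  have hkerψ : ∀ k, ψ k = 1 → k = 1 ∨
      ((k.1 : Matrix (Fin 2) (Fin 2) F) = -1 ∧ k.2 = k.1) := by
    rintro ⟨k1, k2⟩ hk
    rw [hψ] at hk
    have h1 : A (ι k1) = B ((k2 * k1⁻¹)⁻¹) := by
      rw [map_inv]
      exact eq_inv_of_mul_eq_one_right hk
    obtain ⟨⟨l, hl⟩, h2⟩ := hAB _ _ h1
    have h3 : k2 = k1 := by
      have h4 : k2 * k1⁻¹ = 1 := inv_eq_one.1 h2
      exact mul_inv_eq_one.1 h4
    rw [hιval] at hl
    have hdet : l * l = 1 := by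
      have h5 := k1.2
      rw [hl, Matrix.det_smul, Matrix.det_one] at h5
      simpa [pow_two] using h5
    have hl' : l = 1 ∨ l = -1 := mul_self_eq_one_iff.1 hdet
    rcases hl' with h6 | h6
    · left
      have h7 : k1 = 1 := by
        apply Subtype.ext
        rw [hl, h6, one_smul]
        rfl
      rw [h3, h7]
      rfl
    · right
      refine ⟨?_, h3⟩
      show (k1 : Matrix (Fin 2) (Fin 2) F) = -1
      rw [hl, h6]
      simp
  have hker : ∀ k₁ k₂ : SpecialLinearGroup (Fin 2) F × SpecialLinearGroup (Fin 2) F,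
      ψ k₁ = 1 → ψ k₂ = 1 → k₁ ≠ 1 → k₂ ≠ 1 → k₁ = k₂ := by
    intro k₁ k₂ h1 h2 n1 n2
    rcases hkerψ k₁ h1 with h3 | ⟨h3, h3'⟩
    · exact absurd h3 n1
    rcases hkerψ k₂ h2 with h4 | ⟨h4, h4'⟩
    · exact absurd h4 n2
    have h5 : k₁.1 = k₂.1 := Subtype.ext (by rw [h3, h4])
    exact Prod.ext h5 (by rw [h3', h4', h5])
  have hc1 := one_le_val hodd
  obtain ⟨hTb, hTbcard, hTbsq⟩ := k_tbar T hT hc1 hcard hsq ψ hker
  -- the involution
  have hx2 : (A p) ^ 2 = 1 := by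
    rw [pow_two, ← map_mul]
    exact A_scalar A hA (p * p) μ hμ
  have hxT : A p ∉ (T.prod T).map ψ := by
    rintro ⟨⟨t1, t2⟩, ⟨ht1, ht2⟩, hk⟩
    rw [hψ] at hk
    have h1 : A (p * (ι t1)⁻¹) = B (t2 * t1⁻¹) := by
      rw [map_mul, map_inv, ← hk]
      group
    obtain ⟨⟨l, hl⟩, -⟩ := hAB _ _ h1
    have h2 : (p : Matrix (Fin 2) (Fin 2) F) = l • (t1 : Matrix (Fin 2) (Fin 2) F) := by
      have h3 : p = (p * (ι t1)⁻¹) * ι t1 := by group
      have h4 : (p : Matrix (Fin 2) (Fin 2) F) =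
          ((p * (ι t1)⁻¹ : GL (Fin 2) F) : Matrix (Fin 2) (Fin 2) F) *
            ((ι t1 : GL (Fin 2) F) : Matrix (Fin 2) (Fin 2) F) := by
        nth_rewrite 1 [h3]
        rfl
      rw [h4, hl, hιval, Matrix.smul_mul, Matrix.one_mul]
    exact hnp t1 ht1 l h2
  have hnorm : ∀ g ∈ (T.prod T).map ψ, A p * g * (A p)⁻¹ ∈ (T.prod T).map ψ := by
    rintro g ⟨⟨t1, t2⟩, ⟨ht1, ht2⟩, rfl⟩
    have ht1' : t1 ∈ T := ht1
    have ht2' : t2 ∈ T := ht2
    have hc : t2 * t1⁻¹ ∈ T := T.mul_mem ht2' (T.inv_mem ht1')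
    obtain ⟨c', hc', hc'eq⟩ := hstab _ hc
    obtain ⟨u, hu, hueq⟩ := hstab _ ht1'
    have h1 : A p * B (t2 * t1⁻¹) = B c' * A p := hrel p _ _ hc'eq
    have h2 : A p * A (ι t1) = A (ι u) * A p := by
      rw [← map_mul, ← map_mul]
      congr 1
      apply Units.ext
      show (p : Matrix (Fin 2) (Fin 2) F) * ((ι t1 : GL (Fin 2) F) : Matrix (Fin 2) (Fin 2) F) =
        ((ι u : GL (Fin 2) F) : Matrix (Fin 2) (Fin 2) F) * (p : Matrix (Fin 2) (Fin 2) F)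
      rw [hιval, hιval]
      exact hueq
    refine ⟨(u, c' * u), ⟨hu, T.mul_mem hc' hu⟩, ?_⟩
    rw [hψ, hψ]
    show B (c' * u * u⁻¹) * A (ι u) = A p * (B (t2 * t1⁻¹) * A (ι t1)) * (A p)⁻¹
    rw [mul_inv_cancel_right, ← mul_assoc, h1, mul_assoc (B c'), h2]
    group
  obtain ⟨K, hK, hKcard, hKsq⟩ := sq_ext _ hTb hTbsq (A p) hx2 hxT hnorm
  refine ⟨K, hK, ?_, hKsq⟩
  have h1 : 2 ^ (2 * padicValNat 2 (Fintype.card F ^ 2 - 1)) =
      2 * 2 ^ (2 * padicValNat 2 (Fintype.card F ^ 2 - 1) - 1) := by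
    rw [← pow_succ']
    congr 1
    omega
  rw [h1]
  exact dvd_trans (Nat.mul_dvd_mul_left 2 hTbcard) hKcard

end Cfsg.Agent.Lib.Helper81.G2K
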