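import Mathlib
import Cfsg.Agent.Lib.Helper81.G2Aut
import Cfsg.Agent.Lib.Helper81.G2Pieces

/-!
# The `2`-part of the order of `G₂(F)` (helper81)

`G₂(F)` is transitive on the idempotents `≠ 0, 1` of Zorn's algebra, and the stabiliser of one of
them embeds in `SL₃(F)`.
-/

set_option autoImplicit false
set_option linter.unusedSectionVars false
set_option linter.unusedVariables false

namespace Cfsg.Agent.Lib.Helper81.G2Ord

open Cfsg Cfsg.Lie Matrix Cfsg.Agent.Lib.Helper81.G2Base Cfsg.Agent.Lib.Helper81.G2Aut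
open Cfsg.Agent.Lib.Helper81.G2Pieces

universe u

variable {F : Type u} [Field F] [Fintype F]

theorem e0_mem_idem : (e0 : Fin 8 → F) ∈ idem := by
  rw [mem_idem_iff]
  simp [e0]

theorem act_mem_idem (g : Lie.G2 F) {e : Fin 8 → F} (he : e ∈ idem) : act g e ∈ idem := by
  obtain ⟨h1, h2, h3⟩ := he
  refine ⟨?_, ?_, ?_⟩
  · rw [← act_zornMul, h1]
  · intro h
    apply h2
    apply act_injective g
    rw [h, act_zero]
  · intro h
    apply h3
    apply act_injective g
    rw [h, act_one8]

/-- `|G₂(F)| = |stabiliser| * |idempotents|`. -/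
theorem card_eq : Nat.card (Lie.G2 F) =
    Nat.card (stab0 (F := F)) * Nat.card (idem (F := F)) := by
  classical
  have hsmul : ∀ (g : Lie.G2 F) (x : Fin 8 → F), g • x = act g x := fun g x => rfl
  have horb : MulAction.orbit (Lie.G2 F) (e0 : Fin 8 → F) = idem := by
    ext e
    constructor
    · rintro ⟨g, rfl⟩
      exact act_mem_idem g e0_mem_idem
    · intro he
      obtain ⟨g, hg⟩ := trans_idem exists_S exists_X e he
      exact ⟨g, hg⟩
  have hstab : MulAction.stabilizer (Lie.G2 F) (e0 : Fin 8 → F) = stab0 := by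
    ext g
    rw [MulAction.mem_stabilizer_iff, mem_stab0, hsmul]
  have h1 := Subgroup.card_mul_index (MulAction.stabilizer (Lie.G2 F) (e0 : Fin 8 → F))
  rw [MulAction.index_stabilizer, horb, hstab] at h1
  rw [← h1]
  rfl

theorem val_card_le (hodd : Odd (Fintype.card F)) :
    (Nat.card (Lie.G2 F)).factorization 2 ≤ 2 * padicValNat 2 (Fintype.card F ^ 2 - 1) := by
  have hfact : Fact (Nat.Prime 2) := ⟨Nat.prime_two⟩
  have h1 := card_eq (F := F)
  have h2 := card_stab_dvd (F := F) (fun g hg => stab_struct g hg)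
  have h3 := card_idem (F := F)
  have h4 := arith_g2 hodd
  have hq : 0 < Fintype.card F := Fintype.card_pos
  have hdvd : Nat.card (Lie.G2 F) ∣ Fintype.card F ^ 3 * (Fintype.card F ^ 3 + 1) *
      Nat.card (SpecialLinearGroup (Fin 3) F) := by
    rw [h1, h3, mul_comm]
    exact Nat.mul_dvd_mul_left _ h2
  have hne : Fintype.card F ^ 3 * (Fintype.card F ^ 3 + 1) *
      Nat.card (SpecialLinearGroup (Fin 3) F) ≠ 0 := by
    have : 0 < Nat.card (SpecialLinearGroup (Fin 3) F) := Nat.card_pos
    positivity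
  rw [← h4, Nat.factorization_def _ Nat.prime_two]
  exact (padicValNat_dvd_iff_le hne).1 (dvd_trans pow_padicValNat_dvd hdvd)
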