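import Mathlib
import Cfsg.Agent.Lib.Helper81.BrAN
import Cfsg.Agent.Lib.Helper81.BrAb
import Cfsg.Agent.Lib.Helper81.BrNil
import Cfsg.Agent.Lib.Helper81.BrStab
import Cfsg.Agent.Lib.Helper81.BrFus2

/-!
# Blocks with a commutative maximal pair: inertial criteria (helper81)

* `stab_pelem_cent`: for a maximal pair `(P, e)` with `P` commutative, the `p`-elements of
  `N_G(P, e)` centralize `P`;
* `nil_of_abelian_stab`: if moreover the `p`-regular elements of `N_G(P, e)` centralize `P`, the
  block is nilpotent;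
* `card_le_rank_add_one`: if `N_G(P, e)` is transitive on `P \ 1` and the stabilizer of one
  nontrivial element centralizes `P`, then `k(B) ≤ l(B) + 1`.
-/

set_option autoImplicit false
set_option linter.style.haveILetI false

namespace Cfsg.Agent.Lib.Helper81

open Cfsg Cfsg.Agent.Lib.Helper4 Cfsg.Agent.Lib.Helper21 Cfsg.Agent.Lib.Helper22

section NilCount

universe u

variable {G : Type u} [Group G] [Fintype G] {p : ℕ} {M : Ideal AlgInt}

omit [Fintype G] in
theorem castBlock_castBlock_symm {K K' : Subgroup G} (h : K = K') (b : Set (IrrCharacter K')) :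
    castBlock h (castBlock h.symm b) = b := by
  subst h
  rw [castBlock_rfl, castBlock_rfl]

/-- For a maximal pair `(P, e)` with `P` commutative, the `p`-elements of `N_G(P, e)` centralize
`P`. -/
theorem stab_pelem_cent (hM : IsPModular p M) [Fact p.Prime] (B : Set (IrrCharacter G))
    (P : Subgroup G) (e : Set (IrrCharacter (Subgroup.centralizer (P : Set G))))
    (hmax : IsMaximalBrauerPair p M B P e) (hab : ∀ x ∈ P, ∀ y ∈ P, x * y = y * x) (y : G)
    (hy : y ∈ stabSubgroup P e) (hyp : ∃ k : ℕ, orderOf y = p ^ k) :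
    y ∈ Subgroup.centralizer (P : Set G) := by
  obtain ⟨k, hk⟩ := hyp
  have hS : IsPGroup p (Subgroup.zpowers y) :=
    IsPGroup.of_card (n := k) (by rw [Nat.card_zpowers, hk])
  have hT := mem_stabSubgroup P e
  have hzT : Subgroup.zpowers y ≤ stabSubgroup P e := (Subgroup.zpowers_le).mpr hy
  have hle := pSubgroup_stab_le_of_maximal hM B P e hmax (Subgroup.zpowers y) hS
    (fun z hz => ((hT z).mp (hzT hz)).1) (fun z hz => ((hT z).mp (hzT hz)).2)
  have hPC : P ≤ Subgroup.centralizer (P : Set G) := fun x hx =>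
    Subgroup.mem_centralizer_iff.mpr (fun q hq => hab q hq x hx)
  have h1 : P ⊔ Subgroup.centralizer (P : Set G) = Subgroup.centralizer (P : Set G) :=
    sup_eq_right.mpr hPC
  rw [h1] at hle
  exact hle (Subgroup.mem_zpowers y)

/-- A block with a commutative maximal pair `(P, e)` such that the `p`-regular elements of
`N_G(P, e)` centralize `P` is nilpotent. -/
theorem nil_of_abelian_stab (hM : IsPModular p M) [Fact p.Prime] (B : Set (IrrCharacter G))
    (P : Subgroup G) (e : Set (IrrCharacter (Subgroup.centralizer (P : Set G))))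
    (hmax : IsMaximalBrauerPair p M B P e) (hab : ∀ x ∈ P, ∀ y ∈ P, x * y = y * x)
    (h : ∀ x ∈ stabSubgroup P e, IsPRegular p x → x ∈ Subgroup.centralizer (P : Set G)) :
    IsNilpotentBlock p M B := by
  have hT := mem_stabSubgroup P e
  have hstabC : ∀ y ∈ stabSubgroup P e, y ∈ Subgroup.centralizer (P : Set G) := by
    intro y hy
    obtain ⟨a, b, hab', hreg, hk⟩ := exists_coprime_pow p y
    exact mem_of_pow_mem_of_coprime _ y a b hab' (h _ (Subgroup.pow_mem _ hy a) hreg)
      (stab_pelem_cent hM B P e hmax hab _ (Subgroup.pow_mem _ hy b) hk)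
  refine isNilpotentBlock_of_le hM B P e hmax (fun Q f hle x hxN hxs _ => ?_)
  have hf : IsPBlock M f := isPBlock_of_subpairLE hle hmax.1.1.2
  obtain ⟨y, hy, c, hc, rfl⟩ := stab_factor_of_abelian hM B P e hmax hab Q f hf hle x hxN hxs
  have hyT : y ∈ stabSubgroup P e := (hT y).mpr ((conjPair_eq_self_iff P e y).mp hy)
  have hQP : Q ≤ P := reflTransGen_le _ _ hle
  have hyQ : y ∈ Subgroup.centralizer (Q : Set G) :=
    Subgroup.centralizer_le (SetLike.coe_subset_coe.mpr hQP) (hstabC y hyT)
  exact Subgroup.mul_mem _ hyQ hc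

/-- **Counting**: if `N_G(P, e)` is transitive on the nontrivial elements of the commutative
subgroup `P` of a maximal pair and the stabilizer of one of them centralizes `P`, the block has
at most `l(B) + 1` irreducible characters. -/
theorem card_le_rank_add_one (hM : IsPModular p M) [Fact p.Prime] (B : Set (IrrCharacter G))
    (P : Subgroup G) (e : Set (IrrCharacter (Subgroup.centralizer (P : Set G))))
    (hmax : IsMaximalBrauerPair p M B P e) (hab : ∀ x ∈ P, ∀ y ∈ P, x * y = y * x)
    (u₁ : G) (hu₁ : u₁ ∈ P)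
    (htrans : ∀ u ∈ P, u ≠ 1 → ∃ n ∈ stabSubgroup P e, n * u * n⁻¹ = u₁)
    (hH : ∀ g ∈ stabSubgroup P e, g * u₁ * g⁻¹ = u₁ → g ∈ Subgroup.centralizer (P : Set G)) :
    Nat.card B ≤ blockRank p B + 1 := by
  classical
  have hB : IsPBlock M B := hmax.1.2.1
  have hPe : IsBrauerPair p M P e := hmax.1.1
  have hT := mem_stabSubgroup P e
  obtain ⟨Q₁, hQ₁⟩ : ∃ Q₁ : Subgroup G, Q₁ = Subgroup.zpowers u₁ := ⟨_, rfl⟩
  have hQ₁P : Q₁ ≤ P := by
    rw [hQ₁]
    exact (Subgroup.zpowers_le).mpr hu₁
  have hPQ₁ : P ≤ Subgroup.centralizer (Q₁ : Set G) := fun x hx =>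
    Subgroup.mem_centralizer_iff.mpr (fun q hq => hab q (hQ₁P hq) x hx)
  obtain ⟨f₁, hf₁⟩ := exists_isInducedBlockIn hM Q₁ P hPe.1 hPQ₁ hQ₁P e hPe.2
  have hle : Subgroup.centralizer (P : Set G) ≤ Subgroup.centralizer (Q₁ : Set G) :=
    Subgroup.centralizer_le (SetLike.coe_subset_coe.mpr hQ₁P)
  have hf₁B : IsPBlock M f₁ := hf₁.2.1
  have hns : IsNormalSubpair p M Q₁ f₁ P e :=
    ⟨⟨hPe.1.to_le hQ₁P, hf₁B⟩, hPe, hQ₁P, hPQ₁.trans (Subgroup.centralizer_le_normalizer _),
      fun x hx => stabilizesBlock_of_mem _ f₁ (hPQ₁ hx),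
      fun ξ hξ => brauerOmega_of_isInducedBlockIn hM Q₁ P hle e f₁ hf₁ ξ hξ⟩
  have hle₁ : SubpairLE p M Q₁ f₁ P e := Relation.ReflTransGen.single hns
  have hnil₁ : IsNilpotentBlock p M f₁ := by
    refine (nilpotent_iff_of_abelian hM B P e hmax hab Q₁ hQ₁P f₁ hf₁).mpr
      (fun g hgN hgs hgQ => ?_)
    refine hH g ((hT g).mpr ⟨hgN, hgs⟩) ?_
    have h1 := Subgroup.mem_centralizer_iff.mp hgQ u₁ (by
      rw [hQ₁]
      exact Subgroup.mem_zpowers u₁)
    rw [← h1]
    group
  obtain ⟨w, hmaxf⟩ := maximal_down_of_abelian hM B P e hmax hab Q₁ f₁ hle₁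
  letI : Fintype (Subgroup.centralizer (Q₁ : Set G)) := Fintype.ofFinite _
  have hrank₁ : blockRank p f₁ = 1 :=
    rank_one_of_nilpotent_abelian_aux p M hM _ (Subgroup.centralizer (Q₁ : Set G)) rfl f₁ _ w
      hmaxf hnil₁ (fun x hx y hy => Subtype.ext
        (hab _ (Subgroup.mem_subgroupOf.mp hx) _ (Subgroup.mem_subgroupOf.mp hy)))
  have huniq : ∀ a : BrauerPairIdx G, a.1 = Q₁ →
      Relation.ReflTransGen (NormalSubpairRel p M) a ⟨P, e⟩ → IsPBlock M a.2 →
      a = ⟨Q₁, f₁⟩ := by
    rintro ⟨Q, f⟩ hQ hle' hf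
    have hQ' : Q = Q₁ := hQ
    subst hQ'
    have h1 := subpairLE_unique hM P Q e f f₁ hPe hf hle' hf₁B hle₁
    rw [h1]
  have hkey : ∀ (x : G), x ≠ 1 →
      ∀ (f : Set (IrrCharacter (Subgroup.centralizer ((Subgroup.zpowers x : Subgroup G) : Set G)))),
      IsBrauerPairOf p M B (Subgroup.zpowers x) f →
      ∃ g : G, g * x * g⁻¹ = u₁ ∧
        conjPair g (⟨Subgroup.zpowers x, f⟩ : BrauerPairIdx G) = ⟨Q₁, f₁⟩ := by
    intro x hx1 f hf
    obtain ⟨g₀, hg₀⟩ := exists_conj_subpairLE_maximal hM B P (Subgroup.zpowers x) e f hmax hf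
    have hg₀' : Relation.ReflTransGen (NormalSubpairRel p M)
        (conjPair g₀ (⟨Subgroup.zpowers x, f⟩ : BrauerPairIdx G)) ⟨P, e⟩ := hg₀
    have huP : g₀ * x * g₀⁻¹ ∈ P := by
      have h1 := reflTransGen_le _ _ hg₀'
      exact h1 ⟨x, Subgroup.mem_zpowers x, rfl⟩
    have hu1 : g₀ * x * g₀⁻¹ ≠ 1 := by
      intro h
      apply hx1
      have h3 : x = g₀⁻¹ * (g₀ * x * g₀⁻¹) * g₀ := by group
      rw [h3, h]
      group
    obtain ⟨n, hn, hnu⟩ := htrans _ huP hu1
    have hnfix : conjPair n (⟨P, e⟩ : BrauerPairIdx G) = ⟨P, e⟩ :=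
      (conjPair_eq_self_iff P e n).mpr ((hT n).mp hn)
    have h2 : Relation.ReflTransGen (NormalSubpairRel p M)
        (conjPair (n * g₀) (⟨Subgroup.zpowers x, f⟩ : BrauerPairIdx G)) ⟨P, e⟩ := by
      have h3 := reflTransGen_conjPair n _ _ hg₀'
      rwa [conjPair_mul, hnfix] at h3
    have hgx : n * g₀ * x * (n * g₀)⁻¹ = u₁ := by
      rw [← hnu]
      group
    refine ⟨n * g₀, hgx, ?_⟩
    have hfst : (conjPair (n * g₀) (⟨Subgroup.zpowers x, f⟩ : BrauerPairIdx G)).1 = Q₁ := by
      rw [conjPair_fst, hQ₁, MonoidHom.map_zpowers]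
      exact congrArg Subgroup.zpowers hgx
    exact huniq _ hfst h2 (isPBlock_of_reflTransGen _ _ h2 hPe.2)
  obtain ⟨X, hX, hXrep⟩ := exists_pClassReps G p
  have hcount := Cfsg.Agent.S4511.result p M hM B hB X hX hXrep
  rw [hcount]
  have hDp : ∀ u ∈ P, ∃ k : ℕ, orderOf u = p ^ k := by
    intro u hu
    obtain ⟨k, hk⟩ := (IsPGroup.iff_orderOf.mp hPe.1) ⟨u, hu⟩
    exact ⟨k, by rw [← hk, Subgroup.orderOf_mk]⟩
  have h1X : (1 : G) ∈ X := by
    obtain ⟨x, ⟨hx, hc⟩, -⟩ := hXrep 1 ⟨0, by simp⟩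
    have h2 : x = 1 := by
      obtain ⟨c, hc'⟩ := isConj_iff.mp hc
      rw [← hc']
      group
    rw [← h2]
    exact hx
  -- the term of the identity
  have hS1 : (∑ᶠ b ∈ {b : Set (IrrCharacter (Subgroup.centralizer ({(1 : G)} : Set G))) |
      IsInducedBlock M (Subgroup.centralizer ({(1 : G)} : Set G)) b B}, blockRank p b) ≤
      blockRank p B := by
    have hc : Subgroup.centralizer (((⊥ : Subgroup G) : Subgroup G) : Set G) =
        Subgroup.centralizer ({(1 : G)} : Set G) :=
      centralizer_eq_of_eq_zpowers (Subgroup.zpowers_one_eq_bot).symm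
    have hpair0 := brauerPairOf_bot hM B hB
    have hbelow : ∀ f : Set (IrrCharacter (Subgroup.centralizer
        (((⊥ : Subgroup G) : Subgroup G) : Set G))),
        IsBrauerPairOf p M B (⊥ : Subgroup G) f → SubpairLE p M ⊥ f P e := by
      intro f hf
      obtain ⟨g, hg⟩ := exists_conj_subpairLE_maximal hM B P ⊥ e f hmax hf
      have hfix : conjPair g (⟨⊥, f⟩ : BrauerPairIdx G) = ⟨⊥, f⟩ := by
        rw [conjPair_eq_self_iff]
        have hgc : g ∈ Subgroup.centralizer (((⊥ : Subgroup G) : Subgroup G) : Set G) := by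
          rw [Subgroup.mem_centralizer_iff]
          intro h hh
          have h1 : h = 1 := Subgroup.mem_bot.mp hh
          rw [h1, one_mul, mul_one]
        exact ⟨Subgroup.centralizer_le_normalizer _ hgc, stabilizesBlock_of_mem _ f hgc⟩
      have hg' : Relation.ReflTransGen (NormalSubpairRel p M)
          (conjPair g (⟨⊥, f⟩ : BrauerPairIdx G)) ⟨P, e⟩ := hg
      rwa [hfix] at hg'
    have hsub : {b : Set (IrrCharacter (Subgroup.centralizer ({(1 : G)} : Set G))) |
        IsInducedBlock M (Subgroup.centralizer ({(1 : G)} : Set G)) b B} ⊆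
        {castBlock hc (irrMap (centBotEquiv G) '' B)} := by
      intro b hb
      rw [Set.mem_singleton_iff]
      have hb' : IsInducedBlock M _ (castBlock hc.symm b) B := by
        rw [← isInducedBlock_castBlock hc, castBlock_castBlock_symm]
        exact hb
      have hpair : IsBrauerPairOf p M B ⊥ (castBlock hc.symm b) :=
        (isBrauerPairOf_iff_isInducedBlock hM _ IsPGroup.of_bot _ B).mpr hb'
      have h1 := subpairLE_unique hM P ⊥ e _ _ hPe hpair.1.2 (hbelow _ hpair) hpair0.1.2
        (hbelow _ hpair0)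
      rw [← castBlock_castBlock_symm hc b, h1]
    have hrk : blockRank p (castBlock hc (irrMap (centBotEquiv G) '' B)) = blockRank p B := by
      rw [blockRank_castBlock, blockRank_image_irrMap]
    rcases Set.subset_singleton_iff_eq.mp hsub with h0 | h0
    · rw [h0, finsum_mem_empty]
      exact Nat.zero_le _
    · rw [h0, finsum_mem_singleton, hrk]
  -- the other terms
  have hSx : ∀ x ∈ X, x ≠ 1 →
      (∑ᶠ b ∈ {b : Set (IrrCharacter (Subgroup.centralizer ({x} : Set G))) |
        IsInducedBlock M (Subgroup.centralizer ({x} : Set G)) b B}, blockRank p b) ≤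
        if IsConj u₁ x then 1 else 0 := by
    intro x hxX hx1
    obtain ⟨kx, hkx⟩ := hX x hxX
    have hQx : IsPGroup p (Subgroup.zpowers x) :=
      IsPGroup.of_card (n := kx) (by rw [Nat.card_zpowers, hkx])
    have hc : Subgroup.centralizer ((Subgroup.zpowers x : Subgroup G) : Set G) =
        Subgroup.centralizer ({x} : Set G) := centralizer_eq_of_eq_zpowers rfl
    have hfacts : ∀ b : Set (IrrCharacter (Subgroup.centralizer ({x} : Set G))),
        IsInducedBlock M (Subgroup.centralizer ({x} : Set G)) b B →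
        ∃ g : G, g * x * g⁻¹ = u₁ ∧
          conjPair g (⟨Subgroup.zpowers x, castBlock hc.symm b⟩ : BrauerPairIdx G) =
            ⟨Q₁, f₁⟩ := by
      intro b hb
      have hb' : IsInducedBlock M _ (castBlock hc.symm b) B := by
        rw [← isInducedBlock_castBlock hc, castBlock_castBlock_symm]
        exact hb
      exact hkey x hx1 _ ((isBrauerPairOf_iff_isInducedBlock hM _ hQx _ B).mpr hb')
    have hrk : ∀ b : Set (IrrCharacter (Subgroup.centralizer ({x} : Set G))),
        IsInducedBlock M (Subgroup.centralizer ({x} : Set G)) b B → blockRank p b = 1 := by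
      intro b hb
      obtain ⟨g, -, hg⟩ := hfacts b hb
      have h1 : blockRank p
          (conjPair g (⟨Subgroup.zpowers x, castBlock hc.symm b⟩ : BrauerPairIdx G)).2 =
          blockRank p f₁ := by
        rw [hg]
      rw [← hrank₁, ← h1]
      show blockRank p b = blockRank p (conjBlock (Subgroup.zpowers x) g (castBlock hc.symm b))
      rw [conjBlock_eq_image, blockRank_image_irrMap, blockRank_castBlock]
    have hss : Set.Subsingleton {b : Set (IrrCharacter (Subgroup.centralizer ({x} : Set G))) |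
        IsInducedBlock M (Subgroup.centralizer ({x} : Set G)) b B} := by
      intro b hb b' hb'
      obtain ⟨g, hgx, hg⟩ := hfacts b hb
      obtain ⟨g', hgx', hg'⟩ := hfacts b' hb'
      have h1 : conjPair (g'⁻¹ * g)
          (⟨Subgroup.zpowers x, castBlock hc.symm b⟩ : BrauerPairIdx G) =
          ⟨Subgroup.zpowers x, castBlock hc.symm b'⟩ := by
        rw [← conjPair_mul, hg, ← hg', conjPair_inv_conjPair]
      have hcx : g'⁻¹ * g ∈ Subgroup.centralizer ((Subgroup.zpowers x : Subgroup G) : Set G) := by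
        rw [hc, Subgroup.mem_centralizer_iff]
        intro y hy
        rw [Set.mem_singleton_iff] at hy
        subst hy
        have h3 : g * y * g⁻¹ = g' * y * g'⁻¹ := hgx.trans hgx'.symm
        calc y * (g'⁻¹ * g) = g'⁻¹ * (g' * y * g'⁻¹) * g := by group
          _ = g'⁻¹ * (g * y * g⁻¹) * g := by rw [h3]
          _ = g'⁻¹ * g * y := by group
      have h2 : conjPair (g'⁻¹ * g)
          (⟨Subgroup.zpowers x, castBlock hc.symm b⟩ : BrauerPairIdx G) =
          ⟨Subgroup.zpowers x, castBlock hc.symm b⟩ := by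
        rw [conjPair_eq_self_iff]
        exact ⟨Subgroup.centralizer_le_normalizer _ hcx, stabilizesBlock_of_mem _ _ hcx⟩
      rw [h2] at h1
      have h3 : castBlock hc.symm b = castBlock hc.symm b' :=
        eq_of_heq (Sigma.mk.inj_iff.mp h1).2
      exact castBlock_injective hc.symm h3
    by_cases hconj : IsConj u₁ x
    · rw [if_pos hconj]
      rcases hss.eq_empty_or_singleton with h0 | ⟨b, hb⟩
      · rw [h0, finsum_mem_empty]
        exact Nat.zero_le _
      · rw [hb, finsum_mem_singleton]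
        have hbmem : b ∈ {b : Set (IrrCharacter (Subgroup.centralizer ({x} : Set G))) |
            IsInducedBlock M (Subgroup.centralizer ({x} : Set G)) b B} := by
          rw [hb]
          exact Set.mem_singleton b
        exact (hrk b hbmem).le
    · rw [if_neg hconj]
      have h0 : {b : Set (IrrCharacter (Subgroup.centralizer ({x} : Set G))) |
          IsInducedBlock M (Subgroup.centralizer ({x} : Set G)) b B} = ∅ := by
        rw [Set.eq_empty_iff_forall_notMem]
        intro b hb
        obtain ⟨g, hgx, -⟩ := hfacts b hb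
        exact hconj (isConj_iff.mpr ⟨g⁻¹, by rw [← hgx]; group⟩)
      rw [h0, finsum_mem_empty]
  rw [← Finset.add_sum_erase X _ h1X]
  have hrest : (∑ x ∈ X.erase 1,
      ∑ᶠ b ∈ {b : Set (IrrCharacter (Subgroup.centralizer ({x} : Set G))) |
        IsInducedBlock M (Subgroup.centralizer ({x} : Set G)) b B}, blockRank p b) ≤ 1 := by
    refine le_trans (Finset.sum_le_sum (fun x hx =>
      hSx x (Finset.mem_of_mem_erase hx) (Finset.ne_of_mem_erase hx))) ?_
    rw [← Finset.card_filter, Finset.card_le_one]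
    intro a ha b hb
    rw [Finset.mem_filter] at ha hb
    exact (hXrep u₁ (hDp u₁ hu₁)).unique ⟨Finset.mem_of_mem_erase ha.1, ha.2⟩
      ⟨Finset.mem_of_mem_erase hb.1, hb.2⟩
  omega

end NilCount

end Cfsg.Agent.Lib.Helper81
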