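import Mathlib
import Cfsg.Agent.Lib.Helper81.NilCount
import Cfsg.Agent.Lib.Helper81.BrCyc

/-!
# Blocks of rank one with as many characters as defect-group elements, `|D| ≤ 4` (helper81)

`nil_small`: a block `B` with defect group `D`, `|D| ≤ 4`, `l(B) = 1` and `k(B) = |D|` is
nilpotent.  The group theory: a `p`-regular element of `N_G(P, e)` acting nontrivially on a
group `P` of order at most `4` generates a group acting transitively on `P \ 1`, and then
Brauer's count gives `k(B) ≤ l(B) + 1 = 2 < |D|`.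
-/

set_option autoImplicit false
set_option linter.style.haveILetI false

namespace Cfsg.Agent.Lib.Helper81

open Cfsg Cfsg.Agent.Lib.Helper4 Cfsg.Agent.Lib.Helper21 Cfsg.Agent.Lib.Helper22

section SmallGroup

variable {G : Type*} [Group G]

/-- An element of odd order whose square lies in a subgroup lies in the subgroup. -/
theorem mem_of_sq_mem_of_odd (S : Subgroup G) (y : G) (hy : y ^ 2 ∈ S)
    (hodd : Odd (orderOf y)) : y ∈ S := by
  obtain ⟨r, hr⟩ := hodd
  have h1 : y = (y ^ 2) ^ (r + 1) := by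
    rw [← pow_mul]
    have h2 : 2 * (r + 1) = orderOf y + 1 := by omega
    rw [h2, pow_succ, pow_orderOf_eq_one, one_mul]
  rw [h1]
  exact S.pow_mem hy _

/-- Distinct elements of a finite subgroup. -/
theorem length_le_card_of_nodup (P : Subgroup G) [Finite P] (l : List G) (hl : l.Nodup)
    (hmem : ∀ x ∈ l, x ∈ P) : l.length ≤ Nat.card P := by
  classical
  letI : Fintype P := Fintype.ofFinite P
  have h1 : (l.pmap (fun x hx => (⟨x, hx⟩ : P)) hmem).Nodup :=
    hl.pmap (fun a _ b _ hab => congrArg Subtype.val hab)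
  have h2 := h1.length_le_card
  rw [List.length_pmap] at h2
  rw [Nat.card_eq_fintype_card]
  exact h2

theorem mem_four (P : Subgroup G) [Finite P] (h4 : Nat.card P ≤ 4) (a b c d z : G)
    (ha : a ∈ P) (hb : b ∈ P) (hc : c ∈ P) (hd : d ∈ P) (hz : z ∈ P)
    (hab : a ≠ b) (hac : a ≠ c) (had : a ≠ d) (hbc : b ≠ c) (hbd : b ≠ d) (hcd : c ≠ d) :
    z = a ∨ z = b ∨ z = c ∨ z = d := by
  by_contra hcon
  push Not at hcon
  obtain ⟨h1, h2, h3, h5⟩ := hcon
  have h6 := length_le_card_of_nodup P [a, b, c, d, z] (by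
    simp only [List.nodup_cons, List.mem_cons, List.not_mem_nil, or_false, not_or,
      List.nodup_nil, and_true, not_false_eq_true]
    exact ⟨⟨hab, hac, had, Ne.symm h1⟩, ⟨hbc, hbd, Ne.symm h2⟩, ⟨hcd, Ne.symm h3⟩, Ne.symm h5⟩)
    (by
      intro x hx
      simp only [List.mem_cons, List.not_mem_nil, or_false] at hx
      rcases hx with rfl | rfl | rfl | rfl | rfl <;> assumption)
  simp only [List.length_cons, List.length_nil] at h6
  omega

theorem conj_eq_of_pow {g u : G} (h : g * u * g⁻¹ = u) (a : ℕ) : g ^ a * u * (g ^ a)⁻¹ = u := by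
  have hc : Commute g u := by
    have h1 : g * u = u * g := by
      calc g * u = g * u * g⁻¹ * g := by group
        _ = u * g := by rw [h]
    exact h1
  have h2 : g ^ a * u = u * g ^ a := (hc.pow_left a).eq
  rw [h2]
  group

/-- An element of `N` fixing a nontrivial element of `P`, `|P| ≤ 4`: its square centralizes
`P`, and the element itself when `|P| ≤ 3`. -/
theorem sq_cent_of_fix (P N : Subgroup G) [Finite P]
    (hN : ∀ n ∈ N, ∀ u ∈ P, n * u * n⁻¹ ∈ P) (h4 : Nat.card P ≤ 4) (n : G) (hn : n ∈ N)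
    (u : G) (hu : u ∈ P) (hu1 : u ≠ 1) (hfix : n * u * n⁻¹ = u) :
    n ^ 2 ∈ Subgroup.centralizer (P : Set G) ∧
      (Nat.card P ≤ 3 → n ∈ Subgroup.centralizer (P : Set G)) := by
  have hinj : ∀ a b : G, n * a * n⁻¹ = n * b * n⁻¹ → a = b := by
    intro a b h
    have h1 : a = n⁻¹ * (n * a * n⁻¹) * n := by group
    rw [h1, h]
    group
  have hone : ∀ a : G, n * a * n⁻¹ = 1 → a = 1 := by
    intro a h
    apply hinj
    rw [h]
    group
  -- the action on an element different from `1` and `u`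
  have hv : ∀ v ∈ P, (n * v * n⁻¹ = v ∨ (4 ≤ Nat.card P ∧ n * (n * v * n⁻¹) * n⁻¹ = v)) := by
    intro v hvP
    by_cases hv1 : v = 1
    · left
      rw [hv1]
      group
    by_cases hvu : v = u
    · left
      rw [hvu]
      exact hfix
    by_cases hvv : n * v * n⁻¹ = v
    · exact Or.inl hvv
    right
    have h1P : n * v * n⁻¹ ∈ P := hN n hn v hvP
    have h11 : n * v * n⁻¹ ≠ 1 := fun h => hv1 (hone v h)
    have h1u : n * v * n⁻¹ ≠ u := fun h => hvu (hinj v u (h.trans hfix.symm))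
    have hcard : 4 ≤ Nat.card P := by
      have h6 := length_le_card_of_nodup P [1, u, v, n * v * n⁻¹] (by
        simp only [List.nodup_cons, List.mem_cons, List.not_mem_nil, or_false, not_or,
          List.nodup_nil, and_true, not_false_eq_true]
        exact ⟨⟨Ne.symm hu1, Ne.symm hv1, Ne.symm h11⟩, ⟨Ne.symm hvu, Ne.symm h1u⟩,
          Ne.symm hvv⟩)
        (by
          intro x hx
          simp only [List.mem_cons, List.not_mem_nil, or_false] at hx
          rcases hx with rfl | rfl | rfl | rfl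
          · exact P.one_mem
          · exact hu
          · exact hvP
          · exact h1P)
      simpa using h6
    refine ⟨hcard, ?_⟩
    have h2P : n * (n * v * n⁻¹) * n⁻¹ ∈ P := hN n hn _ h1P
    have h21 : n * (n * v * n⁻¹) * n⁻¹ ≠ 1 := fun h => h11 (hone _ h)
    have h2u : n * (n * v * n⁻¹) * n⁻¹ ≠ u := fun h => h1u (hinj _ u (h.trans hfix.symm))
    have h2v : n * (n * v * n⁻¹) * n⁻¹ ≠ n * v * n⁻¹ := fun h => hvv (hinj _ v h)
    rcases mem_four P h4 1 u (n * v * n⁻¹) v _ P.one_mem hu h1P hvP h2P (Ne.symm hu1)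
      (Ne.symm h11) (Ne.symm hv1) (Ne.symm h1u) (Ne.symm hvu) hvv with h | h | h | h
    · exact absurd h h21
    · exact absurd h h2u
    · exact absurd h h2v
    · exact h
  constructor
  · rw [Subgroup.mem_centralizer_iff]
    intro v hvP
    have h1 : n ^ 2 * v * (n ^ 2)⁻¹ = v := by
      have e1 : n ^ 2 * v * (n ^ 2)⁻¹ = n * (n * v * n⁻¹) * n⁻¹ := by
        rw [pow_two]
        group
      rw [e1]
      rcases hv v hvP with h | ⟨-, h⟩
      · rw [h, h]
      · exact h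
    have h2 : v * n ^ 2 = n ^ 2 * v * (n ^ 2)⁻¹ * n ^ 2 := by rw [h1]
    rw [h2]
    group
  · intro h3
    rw [Subgroup.mem_centralizer_iff]
    intro v hvP
    rcases hv v hvP with h | ⟨h, -⟩
    · have h2 : v * n = n * v * n⁻¹ * n := by rw [h]
      rw [h2]
      group
    · omega

/-- A `p`-regular element of `N` acting nontrivially on `P`, `|P| ≤ 4`, where the `p`-elements
of `N` centralize the `p`-group `P`: then `N` is transitive on `P \ 1`, point stabilizers
centralize `P`, and `|P| ≥ 3`. -/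
theorem small_action [Finite G] (p : ℕ) [Fact p.Prime] (P N : Subgroup G)
    (hN : ∀ n ∈ N, ∀ u ∈ P, n * u * n⁻¹ ∈ P) (h4 : Nat.card P ≤ 4) (hPp : IsPGroup p P)
    (hpN : ∀ y ∈ N, (∃ k : ℕ, orderOf y = p ^ k) → y ∈ Subgroup.centralizer (P : Set G))
    (x₀ : G) (hx₀ : x₀ ∈ N) (hreg : IsPRegular p x₀)
    (hcon : x₀ ∉ Subgroup.centralizer (P : Set G)) :
    ∃ u₁ ∈ P, (∀ u ∈ P, u ≠ 1 → ∃ n ∈ N, n * u * n⁻¹ = u₁) ∧
      (∀ g ∈ N, g * u₁ * g⁻¹ = u₁ → g ∈ Subgroup.centralizer (P : Set G)) ∧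
      3 ≤ Nat.card P := by
  have hp : p.Prime := Fact.out
  -- `p = 2` when `|P| = 4`
  have hp2 : ¬ Nat.card P ≤ 3 → p = 2 := by
    intro h3
    have hc4 : Nat.card P = 4 := by omega
    obtain ⟨k, hk⟩ := IsPGroup.iff_card.1 hPp
    rw [hc4] at hk
    have hk0 : k ≠ 0 := by
      rintro rfl
      norm_num at hk
    have h1 : p ∣ 2 ^ 2 := by
      have h2 : p ∣ p ^ k := dvd_pow_self p hk0
      rw [← hk] at h2
      exact h2
    exact (Nat.prime_dvd_prime_iff_eq hp Nat.prime_two).1 (hp.dvd_of_dvd_pow h1)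
  -- regular elements with a fixed point centralize
  have hA : ∀ g ∈ N, (∃ u ∈ P, u ≠ 1 ∧ g * u * g⁻¹ = u) → IsPRegular p g →
      g ∈ Subgroup.centralizer (P : Set G) := by
    rintro g hg ⟨u, hu, hu1, hfix⟩ hgreg
    obtain ⟨hsq, hle3⟩ := sq_cent_of_fix P N hN h4 g hg u hu hu1 hfix
    by_cases h3 : Nat.card P ≤ 3
    · exact hle3 h3
    · have hp2' := hp2 h3
      apply mem_of_sq_mem_of_odd _ g hsq
      unfold IsPRegular at hgreg
      rw [hp2'] at hgreg
      exact Nat.not_even_iff_odd.1 (fun h => hgreg (even_iff_two_dvd.1 h))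
  have hH : ∀ g ∈ N, (∃ u ∈ P, u ≠ 1 ∧ g * u * g⁻¹ = u) →
      g ∈ Subgroup.centralizer (P : Set G) := by
    rintro g hg ⟨u, hu, hu1, hfix⟩
    obtain ⟨a, b, hab, hra, hkb⟩ := exists_coprime_pow p g
    exact mem_of_pow_mem_of_coprime _ g a b hab
      (hA _ (N.pow_mem hg a) ⟨u, hu, hu1, conj_eq_of_pow hfix a⟩ hra)
      (hpN _ (N.pow_mem hg b) hkb)
  have hnofix : ∀ u ∈ P, u ≠ 1 → x₀ * u * x₀⁻¹ ≠ u := fun u hu hu1 hfix =>
    hcon (hA x₀ hx₀ ⟨u, hu, hu1, hfix⟩ hreg)
  have hinj : ∀ a b : G, x₀ * a * x₀⁻¹ = x₀ * b * x₀⁻¹ → a = b := by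
    intro a b h
    have h1 : a = x₀⁻¹ * (x₀ * a * x₀⁻¹) * x₀ := by group
    rw [h1, h]
    group
  have hone : ∀ a : G, x₀ * a * x₀⁻¹ = 1 → a = 1 := by
    intro a h
    apply hinj
    rw [h]
    group
  obtain ⟨u₁, hu₁, hu₁1⟩ : ∃ u₁ ∈ P, u₁ ≠ 1 := by
    by_contra hno
    push Not at hno
    apply hcon
    rw [Subgroup.mem_centralizer_iff]
    intro v hv
    rw [hno v hv, one_mul, mul_one]
  have hs1P : x₀ * u₁ * x₀⁻¹ ∈ P := hN x₀ hx₀ u₁ hu₁
  refine ⟨u₁, hu₁, ?_, fun g hg hfix => hH g hg ⟨u₁, hu₁, hu₁1, hfix⟩, ?_⟩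
  · intro u hu hu1
    by_cases h1 : u = u₁
    · exact ⟨1, N.one_mem, by rw [h1]; group⟩
    by_cases h2 : x₀ * u * x₀⁻¹ = u₁
    · exact ⟨x₀, hx₀, h2⟩
    have hsP : x₀ * u * x₀⁻¹ ∈ P := hN x₀ hx₀ u hu
    have hs1 : x₀ * u * x₀⁻¹ ≠ 1 := fun h => hu1 (hone u h)
    have hsu : x₀ * u * x₀⁻¹ ≠ u := hnofix u hu hu1
    have hssP : x₀ * (x₀ * u * x₀⁻¹) * x₀⁻¹ ∈ P := hN x₀ hx₀ _ hsP
    have hss1 : x₀ * (x₀ * u * x₀⁻¹) * x₀⁻¹ ≠ 1 := fun h => hs1 (hone _ h)
    have hsss : x₀ * (x₀ * u * x₀⁻¹) * x₀⁻¹ ≠ x₀ * u * x₀⁻¹ := hnofix _ hsP hs1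
    rcases mem_four P h4 1 u (x₀ * u * x₀⁻¹) u₁ _ P.one_mem hu hsP hu₁ hssP (Ne.symm hu1)
      (Ne.symm hs1) (Ne.symm hu₁1) (Ne.symm hsu) h1 h2 with h | h | h | h
    · exact absurd h hss1
    · -- `σ² u = u`: look at `σ u₁`
      exfalso
      have ht1 : x₀ * u₁ * x₀⁻¹ ≠ 1 := fun h' => hu₁1 (hone u₁ h')
      have htt : x₀ * u₁ * x₀⁻¹ ≠ u₁ := hnofix u₁ hu₁ hu₁1
      rcases mem_four P h4 1 u (x₀ * u * x₀⁻¹) u₁ _ P.one_mem hu hsP hu₁ hs1P (Ne.symm hu1)
        (Ne.symm hs1) (Ne.symm hu₁1) (Ne.symm hsu) h1 h2 with h' | h' | h' | h'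
      · exact ht1 h'
      · rw [← h] at h'
        exact h2 (hinj _ _ h').symm
      · exact h1 (hinj _ _ h').symm
      · exact htt h'
    · exact absurd h hsss
    · refine ⟨x₀ * x₀, N.mul_mem hx₀ hx₀, ?_⟩
      rw [← h]
      group
  · have ht1 : x₀ * u₁ * x₀⁻¹ ≠ 1 := fun h' => hu₁1 (hone u₁ h')
    have htt : x₀ * u₁ * x₀⁻¹ ≠ u₁ := hnofix u₁ hu₁ hu₁1
    have h6 := length_le_card_of_nodup P [1, u₁, x₀ * u₁ * x₀⁻¹] (by
      simp only [List.nodup_cons, List.mem_cons, List.not_mem_nil, or_false, not_or,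
        List.nodup_nil, and_true, not_false_eq_true]
      exact ⟨⟨Ne.symm hu₁1, Ne.symm ht1⟩, Ne.symm htt⟩)
      (by
        intro x hx
        simp only [List.mem_cons, List.not_mem_nil, or_false] at hx
        rcases hx with rfl | rfl | rfl
        · exact P.one_mem
        · exact hu₁
        · exact hs1P)
    simpa using h6

/-- Groups of order at most four are commutative. -/
theorem comm_of_card_le_four [Finite G] (D : Subgroup G) (h4 : Nat.card D ≤ 4) :
    ∀ x ∈ D, ∀ y ∈ D, x * y = y * x := by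
  have hpos : 0 < Nat.card D := Nat.card_pos
  have hcases : Nat.card D = 1 ∨ Nat.card D = 2 ∨ Nat.card D = 3 ∨ Nat.card D = 4 := by omega
  rcases hcases with h | h | h | h
  · intro x hx y hy
    have hss : Subsingleton D := (Nat.card_eq_one_iff_unique.mp h).1
    have h1 : (⟨x, hx⟩ : D) = ⟨y, hy⟩ := Subsingleton.elim _ _
    have h2 : x = y := congrArg Subtype.val h1
    rw [h2]
  · have hfact : Fact (Nat.Prime 2) := ⟨Nat.prime_two⟩
    exact mul_comm_of_isCyclic D (isCyclic_of_prime_card h)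
  · have hfact : Fact (Nat.Prime 3) := ⟨Nat.prime_three⟩
    exact mul_comm_of_isCyclic D (isCyclic_of_prime_card h)
  · have hfact : Fact (Nat.Prime 2) := ⟨Nat.prime_two⟩
    intro x hx y hy
    have hc := IsPGroup.isMulCommutative_of_card_eq_prime_sq (p := 2) (G := D) (by
      rw [h]
      norm_num)
    exact congrArg Subtype.val (hc.is_comm.comm ⟨x, hx⟩ ⟨y, hy⟩)

end SmallGroup

/-- **Small blocks of rank one**: a block with defect group `D` of order at most `4`, with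
`l(B) = 1` and `k(B) = |D|`, is nilpotent. -/
theorem nil_small {G : Type*} [Group G] [Finite G] (p : ℕ) [Fact p.Prime] (M : Ideal AlgInt)
    (hM : IsPModular p M) (B : Set (IrrCharacter G)) (hB : IsPBlock M B) (D : Subgroup G)
    (hD : IsDefectGroup p M B D) (hl : blockRank p B = 1) (hk : Nat.card B = Nat.card D)
    (h4 : Nat.card D ≤ 4) : IsNilpotentBlock p M B := by
  classical
  letI : Fintype G := Fintype.ofFinite G
  have hDab := comm_of_card_le_four D h4
  obtain ⟨P, e, hmax, hab, hcard⟩ := exists_maximal_abelian hM B hB D hD hDab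
  have hT := mem_stabSubgroup P e
  apply nil_of_abelian_stab hM B P e hmax hab
  intro x₀ hx₀ hreg
  by_contra hcon
  obtain ⟨u₁, hu₁, htrans, hH, h3⟩ := small_action p P (stabSubgroup P e)
    (fun n hn u hu => (Subgroup.mem_normalizer_iff.mp ((hT n).mp hn).1 u).mp hu)
    (by rw [hcard]; exact h4) hmax.1.1.1
    (fun y hy hyp => stab_pelem_cent hM B P e hmax hab y hy hyp) x₀ hx₀ hreg hcon
  have h5 := card_le_rank_add_one hM B P e hmax hab u₁ hu₁ htrans hH
  rw [hk, ← hcard, hl] at h5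
  omega

end Cfsg.Agent.Lib.Helper81
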