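import Mathlib
import Cfsg.Agent.Lib.Helper81.OSum
import Cfsg.Agent.Lib.Helper81.DeltaGrp
import Cfsg.Agent.Lib.Helper51.DicksonTwo
import Cfsg.Agent.Lib.Helper52.OmegaGeom
import Cfsg.Agent.Lib.Helper29.OmOG
import Cfsg.Agent.Lib.Helper29.OmBS
import Cfsg.Agent.Lib.Helper30.OmegaSW
import Cfsg.Agent.Lib.Helper30.OmegaSYLS
import Cfsg.Agent.Lib.Helper1.OmegaWR
import Cfsg.Agent.Lib.Helper18.OmegaTR
import Cfsg.Agent.Lib.Helper34.OmegaGT
import Cfsg.Agent.Lib.Helper87.OStdE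
import Cfsg.Agent.Lib.Helper87.OStdO
import Cfsg.Agent.Lib.Helper35.OmegaISOPCore
import Cfsg.Agent.Lib.Helper16.OmISOOStd
import Cfsg.Agent.Lib.Helper12.OPlane
import Cfsg.Agent.Lib.Helper12.ODets
import Cfsg.Agent.Lib.Helper68.OmegaArith
import Cfsg.Agent.Lib.Helper13.OIsoM
import Cfsg.Agent.Lib.Helper74.OmegaDORD2

/-!
# The pieces of the orthogonal Sylow project, collected (helper81)

Each statement was proved by another seat on the job board (pieces OG, BS: helper29; SW, SYLS: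
helper30; WR: helper1; TR: helper18; GT: helper34; STDE, STDO: helper87; ISOP: helper35;
ISOM: helper13; ISOO: helper16; DORD: helper74; DSTR, DETS: helper12; ARITH: helper68); this file
restates them under one namespace.
-/

set_option autoImplicit false
set_option linter.unusedSectionVars false

namespace Cfsg.Agent.Lib.Helper81.OPieces

open Cfsg Cfsg.Agent.Lib.Helper51 Cfsg.Agent.Lib.Helper81.OSum
open Cfsg.Agent.Lib.Helper81.DeltaGrp RegularWreathProduct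

universe u

/-! ## Piece OG: Gram matrix and non-degeneracy of orthogonal sums and of one-variable forms -/
section OG

variable {ι₁ ι₂ : Type} [Fintype ι₁] [DecidableEq ι₁] [Fintype ι₂] [DecidableEq ι₂]
variable {F : Type*} [Field F]

theorem gram_osum (Q₁ : QuadraticForm F (ι₁ → F)) (Q₂ : QuadraticForm F (ι₂ → F)) :
    gram (osum Q₁ Q₂) = Matrix.fromBlocks (gram Q₁) 0 0 (gram Q₂) :=
  Cfsg.Agent.Lib.Helper29.OmOG.gram_osum Q₁ Q₂

theorem det_gram_osum (Q₁ : QuadraticForm F (ι₁ → F)) (Q₂ : QuadraticForm F (ι₂ → F)) :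
    (gram (osum Q₁ Q₂)).det = (gram Q₁).det * (gram Q₂).det :=
  Cfsg.Agent.Lib.Helper29.OmOG.det_gram_osum Q₁ Q₂

theorem osum_nondeg (Q₁ : QuadraticForm F (ι₁ → F)) (Q₂ : QuadraticForm F (ι₂ → F))
    (h₁ : (QuadraticMap.polarBilin Q₁).Nondegenerate)
    (h₂ : (QuadraticMap.polarBilin Q₂).Nondegenerate) :
    (QuadraticMap.polarBilin (osum Q₁ Q₂)).Nondegenerate :=
  Cfsg.Agent.Lib.Helper29.OmOG.osum_nondeg Q₁ Q₂ h₁ h₂

theorem det_gram_uf (c : F) : (gram (uf c)).det = 2 * c :=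
  Cfsg.Agent.Lib.Helper29.OmOG.det_gram_uf c

theorem uf_nondeg (h2 : (2 : F) ≠ 0) (c : F) (hc : c ≠ 0) :
    (QuadraticMap.polarBilin (uf c)).Nondegenerate :=
  Cfsg.Agent.Lib.Helper29.OmOG.uf_nondeg h2 c hc

end OG

/-! ## Piece BS: the spinor pair of a block-diagonal isometry -/
section BS

variable {ι₁ ι₂ : Type} [Fintype ι₁] [DecidableEq ι₁] [Fintype ι₂] [DecidableEq ι₂]
variable {F : Type*} [Field F] [Fintype F]

theorem spinPair_blk (h2 : (2 : F) ≠ 0) (δ₀ : F) (hδ : ¬ IsSquare δ₀)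
    (Q₁ : QuadraticForm F (ι₁ → F)) (Q₂ : QuadraticForm F (ι₂ → F))
    (hQ₁ : (QuadraticMap.polarBilin Q₁).Nondegenerate)
    (hQ₂ : (QuadraticMap.polarBilin Q₂).Nondegenerate)
    (g₁ : isometryGroup F ⇑Q₁) (g₂ : isometryGroup F ⇑Q₂) :
    spinPair (osum Q₁ Q₂) δ₀ (blk Q₁ Q₂ (g₁, g₂)) = spinPair Q₁ δ₀ g₁ * spinPair Q₂ δ₀ g₂ :=
  Cfsg.Agent.Lib.Helper29.OmBS.spinPair_blk h2 δ₀ hδ Q₁ Q₂ hQ₁ hQ₂ g₁ g₂

end BS

/-! ## Piece SW: the swap of a doubled form is a commutator -/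
section SW

variable {κ : Type} [Fintype κ] [DecidableEq κ] {F : Type*} [Field F] [Fintype F]

theorem spinPair_swap_double (δ₀ : F) (Q : QuadraticForm F (κ → F)) :
    spinPair (osum (osum Q Q) (osum Q Q)) δ₀ (swapIso (osum Q Q)) = 1 :=
  Cfsg.Agent.Lib.Helper30.OmegaSW.spinPair_swap_double δ₀ Q

end SW

/-! ## Piece WR: the wreath product with `C₂` acts on the doubled form -/
section WR

variable {ι : Type} [Fintype ι] [DecidableEq ι] {F : Type*} [Field F] [Fintype F]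

theorem wr_step [Nonempty ι] (δ₀ : F) (Q : QuadraticForm F (ι → F)) {T : Type*} [Group T]
    (ρ : T →* isometryGroup F ⇑Q) (hinj : Function.Injective ρ)
    (hblk : ∀ g₁ g₂ : isometryGroup F ⇑Q,
      spinPair (osum Q Q) δ₀ (blk Q Q (g₁, g₂)) = spinPair Q δ₀ g₁ * spinPair Q δ₀ g₂)
    (hswap : spinPair (osum Q Q) δ₀ (swapIso Q) = 1) :
    ∃ ρ' : T ≀ᵣ Multiplicative (ZMod 2) →* isometryGroup F ⇑(osum Q Q),
      Function.Injective ρ' ∧
      ∀ a, spinPair (osum Q Q) δ₀ (ρ' a)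
        = wrDelta ((spinPair Q δ₀).comp ρ) (Multiplicative (ZMod 2)) a :=
  Cfsg.Agent.Lib.Helper1.OmegaWR.wr_step δ₀ Q ρ hinj hblk hswap

theorem wr_hom [Nonempty ι] (Q : QuadraticForm F (ι → F)) {T : Type*} [Group T]
    (ρ : T →* isometryGroup F ⇑Q) (hinj : Function.Injective ρ) :
    ∃ ρ' : T ≀ᵣ Multiplicative (ZMod 2) →* isometryGroup F ⇑(osum Q Q),
      Function.Injective ρ' := by
  refine ⟨Cfsg.Agent.Lib.Helper1.OmegaWR.wrHom Q ρ, ?_⟩
  rw [injective_iff_map_eq_one]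
  intro a ha
  rw [Cfsg.Agent.Lib.Helper1.OmegaWR.wrHom_apply] at ha
  rcases c2_cases a.right with h | h
  · rw [h, Cfsg.Agent.Lib.Helper1.OmegaWR.swapHom_one, mul_one] at ha
    have h1 : blk Q Q (ρ (a.left 1), ρ (a.left (Multiplicative.ofAdd 1))) = blk Q Q (1, 1) := by
      rw [ha]
      exact (map_one (blk Q Q)).symm
    have h2 := blk_injective Q Q h1
    have h3 : a.left 1 = 1 := hinj ((Prod.ext_iff.1 h2).1.trans (map_one ρ).symm)
    have h4 : a.left (Multiplicative.ofAdd 1) = 1 :=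
      hinj ((Prod.ext_iff.1 h2).2.trans (map_one ρ).symm)
    apply RegularWreathProduct.ext
    · funext q
      rcases c2_cases q with rfl | rfl
      · rw [h3]; rfl
      · rw [h4]; rfl
    · rw [h]; rfl
  · rw [h, Cfsg.Agent.Lib.Helper1.OmegaWR.swapHom_tau] at ha
    exact absurd ha (Cfsg.Agent.Lib.Helper1.OmegaWR.blk_mul_swap_ne_one Q _)

end WR

/-! ## Piece TR: isometric forms have isomorphic isometry groups -/
section TR

variable {ι₁ ι₂ : Type} [Fintype ι₁] [DecidableEq ι₁] [Fintype ι₂] [DecidableEq ι₂]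
variable {F : Type*} [Field F]

theorem iso_transport (Q₁ : (ι₁ → F) → F) (Q₂ : (ι₂ → F) → F)
    (L : (ι₁ → F) ≃ₗ[F] (ι₂ → F)) (hL : ∀ v, Q₂ (L v) = Q₁ v) :
    Nonempty (isometryGroup F Q₁ ≃* isometryGroup F Q₂) :=
  Cfsg.Agent.Lib.Helper18.OmegaTR.iso_transport Q₁ Q₂ L hL

end TR

/-! ## Piece GT: the Gram determinant changes by a square under an isometry -/
section GT

variable {ι₁ ι₂ : Type} [Fintype ι₁] [DecidableEq ι₁] [Fintype ι₂] [DecidableEq ι₂]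
variable {F : Type*} [Field F]

theorem gram_det_transport (Q₁ : QuadraticForm F (ι₁ → F)) (Q₂ : QuadraticForm F (ι₂ → F))
    (L : (ι₁ → F) ≃ₗ[F] (ι₂ → F)) (hL : ∀ v, Q₂ (L v) = Q₁ v) :
    ∃ c : F, c ≠ 0 ∧ (gram Q₁).det = c ^ 2 * (gram Q₂).det :=
  Cfsg.Agent.Lib.Helper34.OmegaGT.gram_det_transport Q₁ Q₂ L hL

end GT

/-! ## Pieces STDE, STDO: the standard bases of S2616 / S2618 as isometries of coordinate spaces -/
section STD

variable {ι : Type} [Fintype ι] [DecidableEq ι] {F : Type*} [Field F] [Fintype F]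

theorem std_even (h2 : (2 : F) ≠ 0) (W : QuadraticForm F (ι → F))
    (hW : (QuadraticMap.polarBilin W).Nondegenerate) (m : ℕ) (hm : 1 ≤ m)
    (hc : Fintype.card ι = 2 * m) :
    (∃ L : (ι → F) ≃ₗ[F] (Fin m ⊕ Fin m → F), ∀ v, quadFormPlus m F (L v) = W v) ∨
    (∃ (L : (ι → F) ≃ₗ[F] ((Fin (m - 1) ⊕ Fin (m - 1)) ⊕ Fin 2 → F)) (ζ : F),
      (∀ t : F, t ^ 2 + t + ζ ≠ 0) ∧ ∀ v, quadFormMinus (m - 1) F 1 ζ (L v) = W v) :=
  Cfsg.Agent.Lib.Helper87.OStdE.std_even h2 W hW m hm hc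

theorem std_odd (h2 : (2 : F) ≠ 0) (W : QuadraticForm F (ι → F))
    (hW : (QuadraticMap.polarBilin W).Nondegenerate) (m : ℕ)
    (hc : Fintype.card ι = 2 * m + 1) :
    ∃ (L : (ι → F) ≃ₗ[F] (Unit ⊕ (Fin m ⊕ Fin m) → F)) (c : F), c ≠ 0 ∧
      ∀ v, W v = c * (L v (Sum.inl ())) ^ 2
        + ∑ i : Fin m, L v (Sum.inr (Sum.inl i)) * L v (Sum.inr (Sum.inr i)) :=
  Cfsg.Agent.Lib.Helper87.OStdO.std_odd h2 W hW m hc

end STD

/-! ## Pieces ISOP, ISOM, ISOO: a form with the right dimension and discriminant is isometric to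
the standard form -/
section ISO

variable {ι : Type} [Fintype ι] [DecidableEq ι] {F : Type*} [Field F] [Fintype F]

theorem iso_plus (h2 : (2 : F) ≠ 0) (W : QuadraticForm F (ι → F))
    (hW : (QuadraticMap.polarBilin W).Nondegenerate) (m : ℕ) (hm : 1 ≤ m)
    (hc : Fintype.card ι = 2 * m) (hd : IsSquare ((-1) ^ m * (gram W).det)) :
    ∃ L : (ι → F) ≃ₗ[F] (Fin m ⊕ Fin m → F), ∀ v, quadFormPlus m F (L v) = W v :=
  Cfsg.Agent.Lib.Helper35.OmegaISOP.iso_plus_of h2 W hW m hm hc hd (std_even h2 W hW m hm hc)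
    (fun Q₂ L hL => gram_det_transport W Q₂ L hL)

theorem iso_minus (h2 : (2 : F) ≠ 0) (W : QuadraticForm F (ι → F))
    (hW : (QuadraticMap.polarBilin W).Nondegenerate) (n : ℕ) (a b : F)
    (hab : ∀ z₁ z₂ : F, z₁ ^ 2 + a * z₁ * z₂ + b * z₂ ^ 2 = 0 → z₁ = 0 ∧ z₂ = 0)
    (hc : Fintype.card ι = 2 * n + 2)
    (hd : IsSquare ((-1) ^ n * (4 * b - a ^ 2) * (gram W).det)) :
    ∃ L : (ι → F) ≃ₗ[F] ((Fin n ⊕ Fin n) ⊕ Fin 2 → F),
      ∀ v, quadFormMinus n F a b (L v) = W v :=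
  Cfsg.Agent.Lib.Helper13.OIsoM.iso_minus h2 W hW n a b hab hc hd

theorem iso_odd (h2 : (2 : F) ≠ 0) (W : QuadraticForm F (ι → F))
    (hW : (QuadraticMap.polarBilin W).Nondegenerate) (m : ℕ)
    (hc : Fintype.card ι = 2 * m + 1) (hd : IsSquare (2 * (-1) ^ m * (gram W).det)) :
    ∃ L : (ι → F) ≃ₗ[F] (Unit ⊕ (Fin m ⊕ Fin m) → F), ∀ v, quadFormOdd m F (L v) = W v :=
  Cfsg.Agent.Lib.Helper16.OmISOO.iso_odd_of_std h2 W hW m hc hd (std_odd h2 W hW m hc)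

end ISO

/-! ## Piece DORD: the `2`-part of the order of the isometry group of `x² + y²` -/
section DORD

variable {F : Type*} [Field F] [Fintype F]

theorem plane_card (h2 : (2 : F) ≠ 0)
    (hE : (QuadraticMap.polarBilin (osum (uf (1 : F)) (uf (1 : F)))).Nondegenerate)
    (h8 : 8 ∣ Nat.card (isometryGroup F ⇑(osum (uf (1 : F)) (uf (1 : F))))) :
    2 ^ padicValNat 2 (Fintype.card F ^ 2 - 1)
      ∣ Nat.card (isometryGroup F ⇑(osum (uf (1 : F)) (uf (1 : F)))) :=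
  Cfsg.Agent.Lib.Helper74.OmegaDORD.plane_card h2 hE h8

end DORD

/-! ## Piece DSTR: isometries of `x² + y²` and of `c x²` as matrices -/
section DSTR

variable {F : Type*} [Field F]

theorem plane_det (h2 : (2 : F) ≠ 0) (g : isometryGroup F ⇑(osum (uf (1 : F)) (uf (1 : F)))) :
    ((g : Matrix.GeneralLinearGroup (Unit ⊕ Unit) F) : Matrix (Unit ⊕ Unit) (Unit ⊕ Unit) F).det
        = 1 ∨
    ((g : Matrix.GeneralLinearGroup (Unit ⊕ Unit) F) : Matrix (Unit ⊕ Unit) (Unit ⊕ Unit) F).det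
        = -1 :=
  Cfsg.Agent.Lib.Helper12.OPlane.plane_det h2 g

theorem plane_refl_sq (h2 : (2 : F) ≠ 0)
    (g : isometryGroup F ⇑(osum (uf (1 : F)) (uf (1 : F))))
    (hg : ((g : Matrix.GeneralLinearGroup (Unit ⊕ Unit) F) :
      Matrix (Unit ⊕ Unit) (Unit ⊕ Unit) F).det = -1) : g * g = 1 :=
  Cfsg.Agent.Lib.Helper12.OPlane.plane_refl_sq h2 g hg

theorem plane_rot_refl (h2 : (2 : F) ≠ 0)
    (u s : isometryGroup F ⇑(osum (uf (1 : F)) (uf (1 : F))))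
    (hu : ((u : Matrix.GeneralLinearGroup (Unit ⊕ Unit) F) :
      Matrix (Unit ⊕ Unit) (Unit ⊕ Unit) F).det = 1)
    (hs : ((s : Matrix.GeneralLinearGroup (Unit ⊕ Unit) F) :
      Matrix (Unit ⊕ Unit) (Unit ⊕ Unit) F).det = -1) : u * s * u = s :=
  Cfsg.Agent.Lib.Helper12.OPlane.plane_rot_refl h2 u s hu hs

theorem unit_sq (c : F) (hc : c ≠ 0) (g : isometryGroup F ⇑(uf c)) : g * g = 1 :=
  Cfsg.Agent.Lib.Helper12.OPlane.unit_sq c hc g

theorem unit_exists_ne_one (h2 : (2 : F) ≠ 0) (c : F) : ∃ g : isometryGroup F ⇑(uf c), g ≠ 1 :=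
  Cfsg.Agent.Lib.Helper12.OPlane.unit_exists_ne_one h2 c

end DSTR

/-! ## Piece DETS: the determinant is read off from the spinor pair -/
section DETS

variable {ι : Type} [Fintype ι] [DecidableEq ι] {F : Type*} [Field F] [Fintype F]

theorem det_of_spinPair_one (h2 : (2 : F) ≠ 0) (δ₀ : F) (hδ : ¬ IsSquare δ₀)
    (Q : QuadraticForm F (ι → F)) (hQ : (QuadraticMap.polarBilin Q).Nondegenerate)
    (g : isometryGroup F ⇑Q) (hg : spinPair Q δ₀ g = 1) :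
    ((g : Matrix.GeneralLinearGroup ι F) : Matrix ι ι F).det = 1 :=
  Cfsg.Agent.Lib.Helper12.ODets.det_of_spinPair_one h2 δ₀ hδ Q hQ g hg

theorem det_of_spinPair_refl (h2 : (2 : F) ≠ 0) (δ₀ : F) (hδ : ¬ IsSquare δ₀)
    (Q : QuadraticForm F (ι → F)) (hQ : (QuadraticMap.polarBilin Q).Nondegenerate)
    (g : isometryGroup F ⇑Q)
    (hg : spinPair Q δ₀ g = (-1, 1) ∨ spinPair Q δ₀ g = (1, -1)) :
    ((g : Matrix.GeneralLinearGroup ι F) : Matrix ι ι F).det = -1 :=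
  Cfsg.Agent.Lib.Helper12.ODets.det_of_spinPair_refl h2 δ₀ hδ Q hQ g hg

end DETS

/-! ## Piece SYLS: a Sylow `2`-subgroup surjects onto every `2`-power quotient -/
section SYLS

theorem sylow_surj {G : Type*} [Group G] [Finite G] (P : Sylow 2 G) (δ : G →* ℤˣ × ℤˣ)
    (g : G) : ∃ p ∈ (P : Subgroup G), δ p = δ g :=
  Cfsg.Agent.Lib.Helper30.OmegaSYLS.sylow_surj P δ g

end SYLS

/-! ## Piece ARITH: `2`-adic valuations of the order formulas of the orthogonal groups -/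
section ARITH

theorem val_odd {q : ℕ} (hq1 : 1 < q) (hodd : Odd q) (m : ℕ) :
    padicValNat 2 (2 * q ^ (m ^ 2) * ∏ i ∈ Finset.range m, (q ^ (2 * (i + 1)) - 1))
      = m * padicValNat 2 (q ^ 2 - 1) + padicValNat 2 m.factorial + 1 :=
  Cfsg.Agent.Lib.Helper68.OmegaArith.val_odd hq1 hodd m

theorem val_plus_A {q : ℕ} (hq1 : 1 < q) (hodd : Odd q) (m : ℕ) (hm : 1 ≤ m)
    (h : Even m ∨ q % 4 = 1) :
    padicValNat 2 (2 * q ^ (m * (m - 1)) * (q ^ m - 1)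
        * ∏ i ∈ Finset.range (m - 1), (q ^ (2 * (i + 1)) - 1))
      = m * padicValNat 2 (q ^ 2 - 1) + padicValNat 2 m.factorial :=
  Cfsg.Agent.Lib.Helper68.OmegaArith.val_plus_A hq1 hodd m hm h

theorem val_plus_B {q : ℕ} (hq1 : 1 < q) (m : ℕ) (hm : Odd m) (h : q % 4 = 3) :
    padicValNat 2 (2 * q ^ (m * (m - 1)) * (q ^ m - 1)
        * ∏ i ∈ Finset.range (m - 1), (q ^ (2 * (i + 1)) - 1))
      = (m - 1) * padicValNat 2 (q ^ 2 - 1) + padicValNat 2 (m - 1).factorial + 2 :=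
  Cfsg.Agent.Lib.Helper68.OmegaArith.val_plus_B hq1 m hm h

theorem val_minus_A {q : ℕ} (hq1 : 1 < q) (n : ℕ) (hn : Even n) (h : q % 4 = 3) :
    padicValNat 2 (2 * q ^ ((n + 1) * n) * (q ^ (n + 1) + 1)
        * ∏ i ∈ Finset.range n, (q ^ (2 * (i + 1)) - 1))
      = (n + 1) * padicValNat 2 (q ^ 2 - 1) + padicValNat 2 (n + 1).factorial :=
  Cfsg.Agent.Lib.Helper68.OmegaArith.val_minus_A hq1 n hn h

theorem val_minus_B {q : ℕ} (hq1 : 1 < q) (hodd : Odd q) (n : ℕ) (h : Odd n ∨ q % 4 = 1) :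
    padicValNat 2 (2 * q ^ ((n + 1) * n) * (q ^ (n + 1) + 1)
        * ∏ i ∈ Finset.range n, (q ^ (2 * (i + 1)) - 1))
      = n * padicValNat 2 (q ^ 2 - 1) + padicValNat 2 n.factorial + 2 :=
  Cfsg.Agent.Lib.Helper68.OmegaArith.val_minus_B hq1 hodd n h

end ARITH

end Cfsg.Agent.Lib.Helper81.OPieces
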