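import Mathlib
import Cfsg.Agent.Lib.Helper81.DeltaGrp

/-!
# Homomorphisms to `ℤˣ × ℤˣ`: involution pairs and products (helper81)

`P3c δ`: two commuting involutions with `δ`-values `(-1, 1)` and `(1, -1)`; `P3w δ`: the same
without commutation; `J2 T`: every square of `T` is a commutator with its own root.  The strong
property `SD` passes to products with a `J2` factor and to products of two `P3c` factors.
-/

set_option autoImplicit false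

namespace Cfsg.Agent.Lib.Helper81.ORecA

open Cfsg.Agent.Lib.Helper81.SqD Cfsg.Agent.Lib.Helper81.DeltaGrp RegularWreathProduct

open scoped commutatorElement

section Defs

variable {T : Type*} [Group T]

/-- Two commuting involutions with values `(-1, 1)` and `(1, -1)`. -/
def P3c (δ : T →* ℤˣ × ℤˣ) : Prop :=
  ∃ a b : T, a ^ 2 = 1 ∧ b ^ 2 = 1 ∧ Commute a b ∧ δ a = (-1, 1) ∧ δ b = (1, -1)

/-- Two involutions with values `(-1, 1)` and `(1, -1)`. -/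
def P3w (δ : T →* ℤˣ × ℤˣ) : Prop :=
  ∃ a b : T, a ^ 2 = 1 ∧ b ^ 2 = 1 ∧ δ a = (-1, 1) ∧ δ b = (1, -1)

/-- Every square is a commutator with its own root. -/
def J2 (T : Type*) [Group T] : Prop := ∀ y : T, ∃ s : T, y ^ 2 = ⁅y, s⁆

theorem P3c.p3w {δ : T →* ℤˣ × ℤˣ} (h : P3c δ) : P3w δ := by
  obtain ⟨a, b, ha, hb, -, hδa, hδb⟩ := h
  exact ⟨a, b, ha, hb, hδa, hδb⟩

theorem units_sq (v : ℤˣ × ℤˣ) : v * v = 1 := by
  obtain ⟨x, y⟩ := v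
  rcases Int.units_eq_one_or x with rfl | rfl <;> rcases Int.units_eq_one_or y with rfl | rfl <;>
    rfl

theorem units_inv (v : ℤˣ × ℤˣ) : v⁻¹ = v := inv_eq_of_mul_eq_one_left (units_sq v)

/-- From a commuting pair: commuting involutions with any two prescribed values. -/
theorem P3c.pick {δ : T →* ℤˣ × ℤˣ} (h : P3c δ) (v w : ℤˣ × ℤˣ) :
    ∃ x y : T, x ^ 2 = 1 ∧ y ^ 2 = 1 ∧ Commute x y ∧ δ x = v ∧ δ y = w := by
  obtain ⟨a, b, ha, hb, hab, hδa, hδb⟩ := h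
  have hab2 : (a * b) ^ 2 = 1 := by rw [hab.mul_pow, ha, hb, one_mul]
  have hδab : δ (a * b) = (-1, -1) := by rw [map_mul, hδa, hδb]; rfl
  have key : ∀ v : ℤˣ × ℤˣ, ∃ x : T, x ^ 2 = 1 ∧ δ x = v ∧ Commute x a ∧ Commute x b := by
    rintro ⟨x, y⟩
    rcases Int.units_eq_one_or x with rfl | rfl <;> rcases Int.units_eq_one_or y with rfl | rfl
    · exact ⟨1, one_pow 2, map_one δ, Commute.one_left a, Commute.one_left b⟩
    · exact ⟨b, hb, hδb, hab.symm, Commute.refl b⟩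
    · exact ⟨a, ha, hδa, Commute.refl a, hab⟩
    · exact ⟨a * b, hab2, hδab, (Commute.refl a).mul_left hab.symm,
        hab.mul_left (Commute.refl b)⟩
  obtain ⟨x, hx, hδx, hxa, hxb⟩ := key v
  rcases w with ⟨w1, w2⟩
  rcases Int.units_eq_one_or w1 with rfl | rfl <;> rcases Int.units_eq_one_or w2 with rfl | rfl
  · exact ⟨x, 1, hx, one_pow 2, Commute.one_right x, hδx, map_one δ⟩
  · exact ⟨x, b, hx, hb, hxb, hδx, hδb⟩
  · exact ⟨x, a, hx, ha, hxa, hδx, hδa⟩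
  · exact ⟨x, a * b, hx, hab2, hxa.mul_right hxb, hδx, hδab⟩

theorem J2.prod {T₁ T₂ : Type*} [Group T₁] [Group T₂] (h₁ : J2 T₁) (h₂ : J2 T₂) :
    J2 (T₁ × T₂) := by
  rintro ⟨y₁, y₂⟩
  obtain ⟨s₁, hs₁⟩ := h₁ y₁
  obtain ⟨s₂, hs₂⟩ := h₂ y₂
  refine ⟨(s₁, s₂), ?_⟩
  rw [Prod.pow_mk, hs₁, hs₂]
  rfl

end Defs

section Prod

variable {T₁ T₂ : Type*} [Group T₁] [Group T₂]

theorem P3c.coprod {δ₁ : T₁ →* ℤˣ × ℤˣ} (h : P3c δ₁) (δ₂ : T₂ →* ℤˣ × ℤˣ) :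
    P3c (δ₁.coprod δ₂) := by
  obtain ⟨a, b, ha, hb, hab, hδa, hδb⟩ := h
  refine ⟨(a, 1), (b, 1), ?_, ?_, ?_, ?_, ?_⟩
  · rw [Prod.pow_mk, ha, one_pow]; rfl
  · rw [Prod.pow_mk, hb, one_pow]; rfl
  · show (a, (1 : T₂)) * (b, 1) = (b, 1) * (a, 1)
    rw [Prod.mk_mul_mk, Prod.mk_mul_mk, hab.eq]
  · rw [MonoidHom.coprod_apply]
    show δ₁ a * δ₂ 1 = _
    rw [map_one, mul_one, hδa]
  · rw [MonoidHom.coprod_apply]
    show δ₁ b * δ₂ 1 = _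
    rw [map_one, mul_one, hδb]

/-- The strong property for a product of two factors with commuting involution pairs. -/
theorem coprod_SD_of_P3c (δ₁ : T₁ →* ℤˣ × ℤˣ) (δ₂ : T₂ →* ℤˣ × ℤˣ) (h₁ : SD δ₁) (h₂ : SD δ₂)
    (p₁ : P3c δ₁) (p₂ : P3c δ₂) : SD (δ₁.coprod δ₂) := by
  apply coprod_SD δ₁ δ₂ h₁ h₂
  intro x y _
  obtain ⟨x₀, -, hx₀, -, -, hδx₀, -⟩ := p₁.pick (δ₁ x) 1
  obtain ⟨y₀, -, hy₀, -, -, hδy₀, -⟩ := p₂.pick (δ₂ y) 1
  exact ⟨x₀, y₀, hx₀, hy₀, hδx₀, hδy₀⟩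

/-- The strong property for a product with a factor in which every square is a commutator with
its own root. -/
theorem coprod_SD_of_J2 (δ₁ : T₁ →* ℤˣ × ℤˣ) (δ₂ : T₂ →* ℤˣ × ℤˣ) (h₁ : SD δ₁)
    (p₁ : P3c δ₁) (j₂ : J2 T₂) : SD (δ₁.coprod δ₂) := by
  have hin1 : δ₁.ker.map (MonoidHom.inl T₁ T₂) ≤ (δ₁.coprod δ₂).ker := by
    rintro _ ⟨u, hu, rfl⟩
    rw [MonoidHom.mem_ker, MonoidHom.coprod_apply]
    simp only [MonoidHom.inl_apply, map_one, mul_one]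
    exact hu
  rintro ⟨x, y⟩ hxy
  have hxy' : δ₁ x * δ₂ y = 1 := hxy
  obtain ⟨s, hs⟩ := j₂ y
  obtain ⟨x₀, xs, hx₀, -, hcomm, hδx₀, hδxs⟩ := p₁.pick (δ₂ y) (δ₂ s)
  have hδx : δ₁ x = δ₂ y := by
    have h1 : δ₁ x = (δ₂ y)⁻¹ := eq_inv_of_mul_eq_one_left hxy'
    rw [h1, units_inv]
  -- the two factors
  have hA : MonoidHom.inl T₁ T₂ (x * x₀) ∈ sqSubOf (δ₁.coprod δ₂).ker := by
    have hk : x * x₀ ∈ δ₁.ker := by
      rw [MonoidHom.mem_ker, map_mul, hδx, hδx₀, units_sq]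
    refine ⟨hin1 (Subgroup.mem_map_of_mem _ hk), ?_⟩
    rw [← map_pow]
    have h3 : (⁅δ₁.ker, δ₁.ker⁆).map (MonoidHom.inl T₁ T₂) ≤
        ⁅(δ₁.coprod δ₂).ker, (δ₁.coprod δ₂).ker⁆ := by
      rw [Subgroup.map_commutator]
      exact Subgroup.commutator_mono hin1 hin1
    exact h3 (Subgroup.mem_map_of_mem _ (h₁ _ hk))
  have hk1 : ((x₀, y) : T₁ × T₂) ∈ (δ₁.coprod δ₂).ker := by
    rw [MonoidHom.mem_ker, MonoidHom.coprod_apply]
    show δ₁ x₀ * δ₂ y = 1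
    rw [hδx₀, units_sq]
  have hk2 : ((xs, s) : T₁ × T₂) ∈ (δ₁.coprod δ₂).ker := by
    rw [MonoidHom.mem_ker, MonoidHom.coprod_apply]
    show δ₁ xs * δ₂ s = 1
    rw [hδxs, units_sq]
  have hB : ((x₀, y) : T₁ × T₂) ∈ sqSubOf (δ₁.coprod δ₂).ker := by
    refine ⟨hk1, ?_⟩
    have h4 : ((x₀, y) : T₁ × T₂) ^ 2 = ⁅((x₀, y) : T₁ × T₂), (xs, s)⁆ := by
      have h5 : ⁅x₀, xs⁆ = 1 := commutatorElement_eq_one_iff_commute.mpr hcomm
      rw [Prod.pow_mk, hx₀, hs, ← h5]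
      rfl
    rw [h4]
    exact Subgroup.commutator_mem_commutator hk1 hk2
  have h6 : ((x, y) : T₁ × T₂) = MonoidHom.inl T₁ T₂ (x * x₀) * (x₀, y) := by
    have hx₀' : x₀ * x₀ = 1 := by rw [← pow_two, hx₀]
    show ((x, y) : T₁ × T₂) = (x * x₀, 1) * (x₀, y)
    rw [Prod.mk_mul_mk, mul_assoc, hx₀', mul_one, one_mul]
  have h7 : ((x, y) : T₁ × T₂) ∈ sqSubOf (δ₁.coprod δ₂).ker := by
    rw [h6]
    exact Subgroup.mul_mem _ hA hB
  exact h7.2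

end Prod

section Wreath

variable {T : Type*} [Group T]

local notation "C₂" => Multiplicative (ZMod 2)

/-- A pair of involutions for `δ` gives a commuting pair for the wreath product with `C₂`. -/
theorem P3w.wreath {δ : T →* ℤˣ × ℤˣ} (h : P3w δ) : P3c (wrDelta δ C₂) := by
  obtain ⟨a, b, ha, hb, hδa, hδb⟩ := h
  refine ⟨coordHom T (1 : C₂) a, coordHom T (Multiplicative.ofAdd 1 : C₂) b, ?_, ?_, ?_, ?_, ?_⟩
  · rw [← map_pow, ha, map_one]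
  · rw [← map_pow, hb, map_one]
  · exact coordHom_commute c2_ne.symm a b
  · rw [wrDelta_coordHom, hδa]
  · rw [wrDelta_coordHom, hδb]

end Wreath

end Cfsg.Agent.Lib.Helper81.ORecA
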