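import Mathlib
import Cfsg.Agent.Lib.Helper81.OPieces
import Cfsg.Agent.Lib.Helper81.ORecA
import Cfsg.Agent.Lib.Helper81.SpSyl

/-!
# Sylow `2`-subgroups of orthogonal groups in odd characteristic, abstractly (helper81)

Existence predicates for finite `2`-groups of isometries of orthogonal sums of copies of
`x² + y²`, with the spinor pair restricted to them satisfying the square properties of
`DeltaGrp`; they propagate through wreath products with a group of order two and direct products.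
-/

set_option autoImplicit false
set_option linter.unusedSectionVars false
set_option linter.unusedVariables false

namespace Cfsg.Agent.Lib.Helper81.ORecB

open Cfsg Cfsg.Agent.Lib.Helper51 Cfsg.Agent.Lib.Helper81.OSum Cfsg.Agent.Lib.Helper81.OPieces
open Cfsg.Agent.Lib.Helper81.DeltaGrp Cfsg.Agent.Lib.Helper81.ORecA Cfsg.Agent.Lib.Helper81.SqD
open Cfsg.Agent.Lib.Helper81.SpSyl RegularWreathProduct

universe u

section Preds

/-- Doubled form, weak properties. -/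
def HasOW (F : Type u) [Field F] [Fintype F] (δ₀ : F) (c k : ℕ) : Prop :=
  ∃ (κ : Type) (_ : Fintype κ) (_ : DecidableEq κ) (_ : Nonempty κ)
    (Q : QuadraticForm F (κ → F)) (T : Type u) (_ : Group T) (_ : Finite T)
    (ρ : T →* isometryGroup F ⇑(osum Q Q)),
    Fintype.card κ = k ∧ (QuadraticMap.polarBilin Q).Nondegenerate ∧ IsPGroup 2 T ∧
      2 ^ (k * c + padicValNat 2 k.factorial) ∣ Nat.card T ∧ Function.Injective ρ ∧
      JD ((spinPair (osum Q Q) δ₀).comp ρ) ∧ P3w ((spinPair (osum Q Q) δ₀).comp ρ)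

/-- Doubled form, strong properties. -/
def HasOD (F : Type u) [Field F] [Fintype F] (δ₀ : F) (c k : ℕ) : Prop :=
  ∃ (κ : Type) (_ : Fintype κ) (_ : DecidableEq κ) (_ : Nonempty κ)
    (Q : QuadraticForm F (κ → F)) (T : Type u) (_ : Group T) (_ : Finite T)
    (ρ : T →* isometryGroup F ⇑(osum Q Q)),
    Fintype.card κ = k ∧ (QuadraticMap.polarBilin Q).Nondegenerate ∧ IsPGroup 2 T ∧
      2 ^ (k * c + padicValNat 2 k.factorial) ∣ Nat.card T ∧ Function.Injective ρ ∧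
      SD ((spinPair (osum Q Q) δ₀).comp ρ) ∧ P3c ((spinPair (osum Q Q) δ₀).comp ρ)

/-- General form of dimension `2k` and square discriminant, strong properties. -/
def HasOS (F : Type u) [Field F] [Fintype F] (δ₀ : F) (c k : ℕ) : Prop :=
  ∃ (ι : Type) (_ : Fintype ι) (_ : DecidableEq ι)
    (Q : QuadraticForm F (ι → F)) (T : Type u) (_ : Group T) (_ : Finite T)
    (ρ : T →* isometryGroup F ⇑Q),
    Fintype.card ι = 2 * k ∧ (QuadraticMap.polarBilin Q).Nondegenerate ∧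
      IsSquare (gram Q).det ∧ IsPGroup 2 T ∧
      2 ^ (k * c + padicValNat 2 k.factorial) ∣ Nat.card T ∧ Function.Injective ρ ∧
      SD ((spinPair Q δ₀).comp ρ) ∧ P3c ((spinPair Q δ₀).comp ρ)

/-- A `2`-group of isometries in which every square is a commutator with its own root. -/
def HasOJ (F : Type u) [Field F] [Fintype F] (n e : ℕ) (d : F) : Prop :=
  ∃ (ι : Type) (_ : Fintype ι) (_ : DecidableEq ι)
    (Q : QuadraticForm F (ι → F)) (T : Type u) (_ : Group T) (_ : Finite T)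
    (ρ : T →* isometryGroup F ⇑Q),
    Fintype.card ι = n ∧ (QuadraticMap.polarBilin Q).Nondegenerate ∧ (gram Q).det = d ∧
      IsPGroup 2 T ∧ 2 ^ e ∣ Nat.card T ∧ Function.Injective ρ ∧ J2 T

/-- A `2`-group with all squares in its derived subgroup inside `Ω` of a form of dimension `N`
and discriminant `d`. -/
def HasFin (F : Type u) [Field F] [Fintype F] (N e : ℕ) (d : F) : Prop :=
  ∃ (ι : Type) (_ : Fintype ι) (_ : DecidableEq ι)
    (W : QuadraticForm F (ι → F)) (K : Type u) (_ : Group K) (_ : Finite K)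
    (φ : K →* Omega F ⇑W),
    Fintype.card ι = N ∧ (QuadraticMap.polarBilin W).Nondegenerate ∧
      (∃ r : F, (gram W).det = d * (r * r)) ∧ IsPGroup 2 K ∧ 2 ^ e ∣ 4 * Nat.card K ∧
      SqDer K ∧ Function.Injective φ

end Preds

section Steps

variable {F : Type u} [Field F] [Fintype F]

theorem HasOD.toW {δ₀ : F} {c k : ℕ} (h : HasOD F δ₀ c k) : HasOW F δ₀ c k := by
  obtain ⟨κ, _, _, _, Q, T, _, _, ρ, hcard, hQ, hT, hdvd, hinj, hsd, hp⟩ := h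
  exact ⟨κ, inferInstance, inferInstance, inferInstance, Q, T, inferInstance, inferInstance, ρ,
    hcard, hQ, hT, hdvd, hinj, hsd.jd, hp.p3w⟩

theorem HasOD.toS {δ₀ : F} {c k : ℕ} (h : HasOD F δ₀ c k) : HasOS F δ₀ c k := by
  obtain ⟨κ, _, _, _, Q, T, _, _, ρ, hcard, hQ, hT, hdvd, hinj, hsd, hp⟩ := h
  refine ⟨κ ⊕ κ, inferInstance, inferInstance, osum Q Q, T, inferInstance, inferInstance, ρ, ?_,
    osum_nondeg Q Q hQ hQ, ?_, hT, hdvd, hinj, hsd, hp⟩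
  · rw [Fintype.card_sum, hcard]; ring
  · rw [det_gram_osum]
    exact ⟨_, rfl⟩

theorem HasOW.step (h2 : (2 : F) ≠ 0) {δ₀ : F} (hδ : ¬ IsSquare δ₀) {c k : ℕ}
    (h : HasOW F δ₀ c k)
    (hν : padicValNat 2 (2 * k).factorial ≤ 2 * padicValNat 2 k.factorial + 1) :
    HasOD F δ₀ c (2 * k) := by
  have hfact : Fact (Nat.Prime 2) := ⟨Nat.prime_two⟩
  obtain ⟨κ, _, _, _, Q, T, _, _, ρ, hcard, hQ, hT, hdvd, hinj, hjd, hp⟩ := h
  have hQ₂ : (QuadraticMap.polarBilin (osum Q Q)).Nondegenerate := osum_nondeg Q Q hQ hQ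
  obtain ⟨ρ', hinj', hform⟩ := wr_step δ₀ (osum Q Q) ρ hinj
    (fun g₁ g₂ => spinPair_blk h2 δ₀ hδ (osum Q Q) (osum Q Q) hQ₂ hQ₂ g₁ g₂)
    (spinPair_swap_double δ₀ Q)
  have heq : (spinPair (osum (osum Q Q) (osum Q Q)) δ₀).comp ρ'
      = wrDelta ((spinPair (osum Q Q) δ₀).comp ρ) (Multiplicative (ZMod 2)) :=
    MonoidHom.ext hform
  have hcQ : Nat.card (Multiplicative (ZMod 2)) = 2 := by
    rw [Nat.card_eq_fintype_card, Fintype.card_multiplicative, ZMod.card]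
  have hc : Nat.card (T ≀ᵣ Multiplicative (ZMod 2)) = Nat.card T ^ 2 * 2 := by
    rw [RegularWreathProduct.card, hcQ]
  refine ⟨κ ⊕ κ, inferInstance, inferInstance, inferInstance, osum Q Q,
    T ≀ᵣ Multiplicative (ZMod 2), inferInstance, inferInstance, ρ', ?_, hQ₂, ?_, ?_, hinj', ?_, ?_⟩
  · rw [Fintype.card_sum, hcard]; ring
  · obtain ⟨a, ha⟩ := IsPGroup.iff_card.1 hT
    have hc' : Nat.card (T ≀ᵣ Multiplicative (ZMod 2)) = 2 ^ (a * 2 + 1) := by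
      rw [hc, ha, ← pow_mul, pow_succ]
    exact IsPGroup.of_card hc'
  · rw [hc]
    have h1 : (2 ^ (k * c + padicValNat 2 k.factorial)) ^ 2 * 2 ∣ Nat.card T ^ 2 * 2 :=
      mul_dvd_mul (pow_dvd_pow_of_dvd hdvd 2) (dvd_refl 2)
    refine dvd_trans ?_ h1
    rw [← pow_mul, ← pow_succ]
    apply pow_dvd_pow
    have h3 : 2 * k * c = k * c * 2 := by ring
    rw [h3]
    omega
  · rw [heq]
    exact wrDelta_SD _ hjd
  · rw [heq]
    exact hp.wreath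

theorem HasOS.prod (h2 : (2 : F) ≠ 0) {δ₀ : F} (hδ : ¬ IsSquare δ₀) {c a b : ℕ}
    (h₁ : HasOS F δ₀ c a) (h₂ : HasOS F δ₀ c b)
    (hν : padicValNat 2 (a + b).factorial ≤
      padicValNat 2 a.factorial + padicValNat 2 b.factorial) :
    HasOS F δ₀ c (a + b) := by
  have hfact : Fact (Nat.Prime 2) := ⟨Nat.prime_two⟩
  obtain ⟨ι₁, _, _, Q₁, T₁, _, _, ρ₁, hcard₁, hQ₁, hsq₁, hT₁, hdvd₁, hinj₁, hsd₁, hp₁⟩ := h₁
  obtain ⟨ι₂, _, _, Q₂, T₂, _, _, ρ₂, hcard₂, hQ₂, hsq₂, hT₂, hdvd₂, hinj₂, hsd₂, hp₂⟩ := h₂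
  have heq : (spinPair (osum Q₁ Q₂) δ₀).comp ((blk Q₁ Q₂).comp (ρ₁.prodMap ρ₂))
      = ((spinPair Q₁ δ₀).comp ρ₁).coprod ((spinPair Q₂ δ₀).comp ρ₂) := by
    apply MonoidHom.ext
    rintro ⟨x, y⟩
    rw [MonoidHom.coprod_apply]
    exact spinPair_blk h2 δ₀ hδ Q₁ Q₂ hQ₁ hQ₂ (ρ₁ x) (ρ₂ y)
  obtain ⟨j₁, hj₁⟩ := IsPGroup.iff_card.1 hT₁
  obtain ⟨j₂, hj₂⟩ := IsPGroup.iff_card.1 hT₂
  refine ⟨ι₁ ⊕ ι₂, inferInstance, inferInstance, osum Q₁ Q₂, T₁ × T₂, inferInstance,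
    inferInstance, (blk Q₁ Q₂).comp (ρ₁.prodMap ρ₂), ?_, osum_nondeg Q₁ Q₂ hQ₁ hQ₂, ?_, ?_, ?_,
    ?_, ?_, ?_⟩
  · rw [Fintype.card_sum, hcard₁, hcard₂]; ring
  · rw [det_gram_osum]
    exact hsq₁.mul hsq₂
  · have hc : Nat.card (T₁ × T₂) = 2 ^ (j₁ + j₂) := by
      rw [Nat.card_prod, hj₁, hj₂, pow_add]
    exact IsPGroup.of_card hc
  · rw [Nat.card_prod]
    refine dvd_trans ?_ (mul_dvd_mul hdvd₁ hdvd₂)
    rw [← pow_add]
    apply pow_dvd_pow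
    have h3 : (a + b) * c = a * c + b * c := by ring
    rw [h3]
    omega
  · intro x y hxy
    have h3 := blk_injective Q₁ Q₂ hxy
    have h4 : ρ₁ x.1 = ρ₁ y.1 := congrArg Prod.fst h3
    have h5 : ρ₂ x.2 = ρ₂ y.2 := congrArg Prod.snd h3
    exact Prod.ext (hinj₁ h4) (hinj₂ h5)
  · rw [heq]
    exact coprod_SD_of_P3c _ _ hsd₁ hsd₂ hp₁ hp₂
  · rw [heq]
    exact hp₁.coprod _

/-- Powers of two. -/
theorem hasOD_pow (h2 : (2 : F) ≠ 0) {δ₀ : F} (hδ : ¬ IsSquare δ₀) {c : ℕ}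
    (h1 : HasOW F δ₀ c 1) : ∀ j : ℕ, HasOD F δ₀ c (2 ^ (j + 1)) := by
  have hfact : Fact (Nat.Prime 2) := ⟨Nat.prime_two⟩
  intro j
  induction j with
  | zero =>
    have h3 := h1.step h2 hδ (by
      rw [mul_one]
      have e1 : padicValNat 2 (Nat.factorial 2) = 1 := by
        rw [show Nat.factorial 2 = 2 from rfl, padicValNat_self]
      rw [e1]
      omega)
    simpa using h3
  | succ j ih =>
    have h3 := ih.toW.step h2 hδ (by
      rw [mul_comm 2, ← pow_succ, val_two_pow_factorial, val_two_pow_factorial, pow_succ]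
      have : 1 ≤ 2 ^ (j + 1) := Nat.one_le_two_pow
      omega)
    rw [pow_succ, mul_comm]
    exact h3

/-- Every even degree. -/
theorem hasOS_even (h2 : (2 : F) ≠ 0) {δ₀ : F} (hδ : ¬ IsSquare δ₀) {c : ℕ}
    (h1 : HasOW F δ₀ c 1) : ∀ n, 1 ≤ n → HasOS F δ₀ c (2 * n) := by
  intro n
  induction n using Nat.strong_induction_on with
  | _ n ih =>
    intro hn
    obtain ⟨k, hk⟩ : ∃ k, k = Nat.log 2 n := ⟨_, rfl⟩
    have hlo : 2 ^ k ≤ n := by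
      rw [hk]
      exact Nat.pow_log_le_self 2 (by omega)
    have hhi : n < 2 ^ (k + 1) := by
      rw [hk]
      exact Nat.lt_pow_succ_log_self (by norm_num) n
    rcases Nat.eq_or_lt_of_le hlo with heq | hlt
    · have h3 := (hasOD_pow h2 hδ h1 k).toS
      rw [pow_succ, mul_comm, heq] at h3
      exact h3
    · obtain ⟨r, hr⟩ : ∃ r, n = 2 ^ k + r := ⟨n - 2 ^ k, by omega⟩
      have hr0 : 0 < r := by omega
      have hrk : r < 2 ^ k := by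
        rw [pow_succ] at hhi
        omega
      have hk0 : 1 ≤ 2 ^ k := Nat.one_le_two_pow
      have h3 := (hasOD_pow h2 hδ h1 k).toS
      rw [pow_succ, mul_comm] at h3
      have h4 := ih r (by omega) (by omega)
      have h5 : 2 * n = 2 * 2 ^ k + 2 * r := by rw [hr]; ring
      rw [h5]
      apply h3.prod h2 hδ h4
      have e1 : 2 * 2 ^ k = 2 ^ (k + 1) := by rw [pow_succ]; ring
      rw [e1, val_factorial_add_two_pow (k + 1) (2 * r) (by rw [pow_succ]; omega)]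

theorem HasOJ.prod {n₁ n₂ e₁ e₂ : ℕ} {d₁ d₂ : F} (h₁ : HasOJ F n₁ e₁ d₁)
    (h₂ : HasOJ F n₂ e₂ d₂) : HasOJ F (n₁ + n₂) (e₁ + e₂) (d₁ * d₂) := by
  have hfact : Fact (Nat.Prime 2) := ⟨Nat.prime_two⟩
  obtain ⟨ι₁, _, _, Q₁, T₁, _, _, ρ₁, hcard₁, hQ₁, hdet₁, hT₁, hdvd₁, hinj₁, hj₁⟩ := h₁
  obtain ⟨ι₂, _, _, Q₂, T₂, _, _, ρ₂, hcard₂, hQ₂, hdet₂, hT₂, hdvd₂, hinj₂, hj₂⟩ := h₂
  obtain ⟨j₁, hj₁'⟩ := IsPGroup.iff_card.1 hT₁
  obtain ⟨j₂, hj₂'⟩ := IsPGroup.iff_card.1 hT₂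
  refine ⟨ι₁ ⊕ ι₂, inferInstance, inferInstance, osum Q₁ Q₂, T₁ × T₂, inferInstance,
    inferInstance, (blk Q₁ Q₂).comp (ρ₁.prodMap ρ₂), ?_, osum_nondeg Q₁ Q₂ hQ₁ hQ₂, ?_, ?_, ?_,
    ?_, hj₁.prod hj₂⟩
  · rw [Fintype.card_sum, hcard₁, hcard₂]
  · rw [det_gram_osum, hdet₁, hdet₂]
  · have hc : Nat.card (T₁ × T₂) = 2 ^ (j₁ + j₂) := by
      rw [Nat.card_prod, hj₁', hj₂', pow_add]
    exact IsPGroup.of_card hc
  · rw [Nat.card_prod, pow_add]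
    exact mul_dvd_mul hdvd₁ hdvd₂
  · intro x y hxy
    have h3 := blk_injective Q₁ Q₂ hxy
    have h4 : ρ₁ x.1 = ρ₁ y.1 := congrArg Prod.fst h3
    have h5 : ρ₂ x.2 = ρ₂ y.2 := congrArg Prod.snd h3
    exact Prod.ext (hinj₁ h4) (hinj₂ h5)

end Steps

section Final

variable {F : Type u} [Field F] [Fintype F]

theorem card_ne_two_of (h2 : (2 : F) ≠ 0) : Fintype.card F ≠ 2 := by
  intro h
  apply h2
  have h3 : ((Fintype.card F : ℕ) : F) = 0 := Nat.cast_card_eq_zero F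
  rw [h] at h3
  exact_mod_cast h3

/-- The kernel of the spinor pair on a `2`-group of isometries with the strong property. -/
theorem fin_of_SD (h2 : (2 : F) ≠ 0) {δ₀ : F} (hδ : ¬ IsSquare δ₀)
    {ι : Type} [Fintype ι] [DecidableEq ι] (W : QuadraticForm F (ι → F))
    (hW : (QuadraticMap.polarBilin W).Nondegenerate)
    {T : Type u} [Group T] [Finite T] (ρ : T →* isometryGroup F ⇑W)
    (hT : IsPGroup 2 T) (hinj : Function.Injective ρ) (hsd : SD ((spinPair W δ₀).comp ρ))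
    {e : ℕ} (hdvd : 2 ^ e ∣ Nat.card T) :
    ∃ (K : Type u) (_ : Group K) (_ : Finite K) (φ : K →* Omega F ⇑W),
      IsPGroup 2 K ∧ 2 ^ e ∣ 4 * Nat.card K ∧ SqDer K ∧ Function.Injective φ := by
  have hall := hall_of_finite W hW (Or.inl (card_ne_two_of h2))
  obtain ⟨δ, hδdef⟩ : ∃ δ : T →* ℤˣ × ℤˣ, δ = (spinPair W δ₀).comp ρ := ⟨_, rfl⟩
  rw [← hδdef] at hsd
  have hfun : ∀ t : T, δ t = spinPair W δ₀ (ρ t) := by
    intro t
    rw [hδdef]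
    rfl
  have hmem : ∀ x : δ.ker, ρ (x : T) ∈ Omega F ⇑W := by
    intro x
    rw [mem_commutator_iff_spinPair W h2 δ₀ hδ hall]
    have h3 : δ (x : T) = 1 := x.2
    rw [← hfun]
    exact h3
  refine ⟨δ.ker, inferInstance, inferInstance,
    (ρ.comp δ.ker.subtype).codRestrict (Omega F ⇑W) hmem, ?_, ?_, hsd.sqDer, ?_⟩
  · exact hT.to_subgroup δ.ker
  · have h3 : Nat.card δ.ker * δ.ker.index = Nat.card T := Subgroup.card_mul_index δ.ker
    have h4 : δ.ker.index ∣ 4 := by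
      rw [Subgroup.index_ker]
      have h5 : Nat.card δ.range ∣ Nat.card (ℤˣ × ℤˣ) := Subgroup.card_subgroup_dvd_card _
      have h6 : Nat.card (ℤˣ × ℤˣ) = 4 := by
        rw [Nat.card_eq_fintype_card]
        rfl
      rwa [h6] at h5
    refine dvd_trans hdvd ?_
    rw [← h3, mul_comm 4]
    exact mul_dvd_mul_left _ h4
  · intro x y hxy
    have h3 : ρ (x : T) = ρ (y : T) := congrArg Subtype.val hxy
    exact Subtype.ext (hinj h3)

theorem HasOS.fin (h2 : (2 : F) ≠ 0) {δ₀ : F} (hδ : ¬ IsSquare δ₀) {c k : ℕ}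
    (h : HasOS F δ₀ c k) : HasFin F (2 * k) (k * c + padicValNat 2 k.factorial) 1 := by
  obtain ⟨ι, _, _, Q, T, _, _, ρ, hcard, hQ, hsq, hT, hdvd, hinj, hsd, hp⟩ := h
  obtain ⟨K, _, _, φ, hK, hdvdK, hsqK, hφ⟩ := fin_of_SD h2 hδ Q hQ ρ hT hinj hsd hdvd
  obtain ⟨r, hr⟩ := hsq
  exact ⟨ι, inferInstance, inferInstance, Q, K, inferInstance, inferInstance, φ, hcard, hQ,
    ⟨r, by rw [hr, one_mul]⟩, hK, hdvdK, hsqK, hφ⟩

theorem HasOS.finJ (h2 : (2 : F) ≠ 0) {δ₀ : F} (hδ : ¬ IsSquare δ₀) {c k n e : ℕ} {d : F}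
    (h : HasOS F δ₀ c k) (hJ : HasOJ F n e d) :
    HasFin F (2 * k + n) (k * c + padicValNat 2 k.factorial + e) d := by
  have hfact : Fact (Nat.Prime 2) := ⟨Nat.prime_two⟩
  obtain ⟨ι₁, _, _, Q₁, T₁, _, _, ρ₁, hcard₁, hQ₁, hsq₁, hT₁, hdvd₁, hinj₁, hsd₁, hp₁⟩ := h
  obtain ⟨ι₂, _, _, Q₂, T₂, _, _, ρ₂, hcard₂, hQ₂, hdet₂, hT₂, hdvd₂, hinj₂, hj₂⟩ := hJ
  have heq : (spinPair (osum Q₁ Q₂) δ₀).comp ((blk Q₁ Q₂).comp (ρ₁.prodMap ρ₂))
      = ((spinPair Q₁ δ₀).comp ρ₁).coprod ((spinPair Q₂ δ₀).comp ρ₂) := by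
    apply MonoidHom.ext
    rintro ⟨x, y⟩
    rw [MonoidHom.coprod_apply]
    exact spinPair_blk h2 δ₀ hδ Q₁ Q₂ hQ₁ hQ₂ (ρ₁ x) (ρ₂ y)
  obtain ⟨j₁, hj₁'⟩ := IsPGroup.iff_card.1 hT₁
  obtain ⟨j₂, hj₂'⟩ := IsPGroup.iff_card.1 hT₂
  have hT : IsPGroup 2 (T₁ × T₂) := by
    have hc : Nat.card (T₁ × T₂) = 2 ^ (j₁ + j₂) := by
      rw [Nat.card_prod, hj₁', hj₂', pow_add]
    exact IsPGroup.of_card hc
  have hinj : Function.Injective ((blk Q₁ Q₂).comp (ρ₁.prodMap ρ₂)) := by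
    intro x y hxy
    have h3 := blk_injective Q₁ Q₂ hxy
    have h4 : ρ₁ x.1 = ρ₁ y.1 := congrArg Prod.fst h3
    have h5 : ρ₂ x.2 = ρ₂ y.2 := congrArg Prod.snd h3
    exact Prod.ext (hinj₁ h4) (hinj₂ h5)
  have hsd : SD ((spinPair (osum Q₁ Q₂) δ₀).comp ((blk Q₁ Q₂).comp (ρ₁.prodMap ρ₂))) := by
    rw [heq]
    exact coprod_SD_of_J2 _ _ hsd₁ hp₁ hj₂
  have hdvd : 2 ^ (k * c + padicValNat 2 k.factorial + e) ∣ Nat.card (T₁ × T₂) := by
    rw [Nat.card_prod, pow_add]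
    exact mul_dvd_mul hdvd₁ hdvd₂
  obtain ⟨K, _, _, φ, hK, hdvdK, hsqK, hφ⟩ :=
    fin_of_SD h2 hδ (osum Q₁ Q₂) (osum_nondeg Q₁ Q₂ hQ₁ hQ₂) _ hT hinj hsd hdvd
  obtain ⟨r, hr⟩ := hsq₁
  refine ⟨ι₁ ⊕ ι₂, inferInstance, inferInstance, osum Q₁ Q₂, K, inferInstance, inferInstance, φ, ?_,
    osum_nondeg Q₁ Q₂ hQ₁ hQ₂, ⟨r, ?_⟩, hK, hdvdK, hsqK, hφ⟩
  · rw [Fintype.card_sum, hcard₁, hcard₂]
  · rw [det_gram_osum, hr, hdet₂, mul_comm]

end Final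

end Cfsg.Agent.Lib.Helper81.ORecB
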