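import Mathlib
import Cfsg.Agent.Lib.Helper81.ORecB

/-!
# Base cases for the orthogonal Sylow recursion (helper81)

A Sylow `2`-subgroup of the isometry group of `x² + y²` over a finite field of odd order, and
the isometry group of `d x²`.
-/

set_option autoImplicit false
set_option linter.unusedSectionVars false
set_option linter.unusedVariables false

namespace Cfsg.Agent.Lib.Helper81.OBase

open Cfsg Cfsg.Agent.Lib.Helper51 Cfsg.Agent.Lib.Helper81.OSum Cfsg.Agent.Lib.Helper81.OPieces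
open Cfsg.Agent.Lib.Helper81.DeltaGrp Cfsg.Agent.Lib.Helper81.ORecA Cfsg.Agent.Lib.Helper81.SqD
open Cfsg.Agent.Lib.Helper81.ORecB RegularWreathProduct

open scoped commutatorElement

universe u

section Unit

variable {F : Type u} [Field F] [Fintype F]

theorem isPGroup_two_of_sq {G : Type*} [Group G] (h : ∀ g : G, g * g = 1) : IsPGroup 2 G := by
  intro g
  exact ⟨1, by rw [pow_one, pow_two, h]⟩

theorem two_dvd_card_of_sq {G : Type*} [Group G] [Finite G] (g : G) (hg : g ≠ 1)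
    (hsq : g * g = 1) : 2 ∣ Nat.card G := by
  have hfact : Fact (Nat.Prime 2) := ⟨Nat.prime_two⟩
  have h1 : orderOf g = 2 := orderOf_eq_prime (by rw [pow_two, hsq]) hg
  rw [← h1]
  exact orderOf_dvd_natCard g

theorem J2_of_sq {G : Type*} [Group G] (h : ∀ g : G, g * g = 1) : J2 G := by
  intro y
  refine ⟨1, ?_⟩
  rw [pow_two, h, commutatorElement_def]
  group

/-- The isometry group of `d x²`. -/
theorem hasOJ_unit (h2 : (2 : F) ≠ 0) (d : F) (hd : d ≠ 0) : HasOJ F 1 1 (2 * d) := by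
  obtain ⟨g, hg⟩ := unit_exists_ne_one h2 d
  refine ⟨Unit, inferInstance, inferInstance, uf d, isometryGroup F ⇑(uf d), inferInstance,
    inferInstance, MonoidHom.id _, ?_, uf_nondeg h2 d hd, det_gram_uf d, ?_, ?_, ?_, ?_⟩
  · rfl
  · exact isPGroup_two_of_sq (unit_sq d hd)
  · rw [pow_one]
    exact two_dvd_card_of_sq g hg (unit_sq d hd g)
  · exact fun x y h => h
  · exact J2_of_sq (unit_sq d hd)

end Unit

section Plane

variable {F : Type u} [Field F] [Fintype F]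

local notation "Epl" => (osum (uf (1 : F)) (uf (1 : F)))

theorem plane_nondeg (h2 : (2 : F) ≠ 0) : (QuadraticMap.polarBilin Epl).Nondegenerate :=
  osum_nondeg _ _ (uf_nondeg h2 1 one_ne_zero) (uf_nondeg h2 1 one_ne_zero)

theorem plane_eight (h2 : (2 : F) ≠ 0) : 8 ∣ Nat.card (isometryGroup F ⇑Epl) := by
  obtain ⟨g, hg⟩ := unit_exists_ne_one h2 (1 : F)
  have h1 : 2 ∣ Nat.card (isometryGroup F ⇑(uf (1 : F))) :=
    two_dvd_card_of_sq g hg (unit_sq 1 one_ne_zero g)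
  obtain ⟨ρ', hinj⟩ := wr_hom (uf (1 : F)) (MonoidHom.id (isometryGroup F ⇑(uf (1 : F))))
    (fun x y h => h)
  have hcQ : Nat.card (Multiplicative (ZMod 2)) = 2 := by
    rw [Nat.card_eq_fintype_card, Fintype.card_multiplicative, ZMod.card]
  have hc : Nat.card (isometryGroup F ⇑(uf (1 : F)) ≀ᵣ Multiplicative (ZMod 2))
      = Nat.card (isometryGroup F ⇑(uf (1 : F))) ^ 2 * 2 := by
    rw [RegularWreathProduct.card, hcQ]
  have h3 : Nat.card ρ'.range
      = Nat.card (isometryGroup F ⇑(uf (1 : F)) ≀ᵣ Multiplicative (ZMod 2)) :=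
    Nat.card_congr (MonoidHom.ofInjective hinj).toEquiv.symm
  have h4 : Nat.card ρ'.range ∣ Nat.card (isometryGroup F ⇑Epl) :=
    Subgroup.card_subgroup_dvd_card _
  rw [h3, hc] at h4
  refine dvd_trans ?_ h4
  obtain ⟨t, ht⟩ := h1
  rw [ht]
  exact ⟨t ^ 2, by ring⟩

/-- A Sylow `2`-subgroup of the isometry group of the plane, with the facts needed. -/
theorem plane_sylow (h2 : (2 : F) ≠ 0) (δ₀ : F) (hδ : ¬ IsSquare δ₀) :
    ∃ (T : Type u) (_ : Group T) (_ : Finite T) (ρ : T →* isometryGroup F ⇑Epl),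
      IsPGroup 2 T ∧ 2 ^ padicValNat 2 (Fintype.card F ^ 2 - 1) ∣ Nat.card T ∧
      Function.Injective ρ ∧ JD ((spinPair Epl δ₀).comp ρ) ∧ P3w ((spinPair Epl δ₀).comp ρ) ∧
      J2 T := by
  have hfact : Fact (Nat.Prime 2) := ⟨Nat.prime_two⟩
  have hE := plane_nondeg (F := F) h2
  have hδ0 : δ₀ ≠ 0 := by
    rintro rfl
    exact hδ ⟨0, by simp⟩
  have hcard : 2 ≤ Fintype.card (Unit ⊕ Unit) := by
    rw [Fintype.card_sum, Fintype.card_unit]
  obtain ⟨v, hv⟩ := exists_Q_eq Epl h2 hE hcard 1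
  obtain ⟨w, hw⟩ := exists_Q_eq Epl h2 hE hcard δ₀
  have hsurj := spinPair_surjective Epl h2 δ₀ hδ v w (by rw [hv]; exact one_ne_zero)
    (by rw [hv]; exact ⟨1, by ring⟩) (by rw [hw]; exact hδ0) (by rw [hw]; exact hδ)
  obtain ⟨P⟩ : Nonempty (Sylow 2 (isometryGroup F ⇑Epl)) := inferInstance
  -- the two reflections
  obtain ⟨a₀, ha₀⟩ := hsurj (-1, 1)
  obtain ⟨a, haP, haδ⟩ := sylow_surj P (spinPair Epl δ₀) a₀
  rw [ha₀] at haδ
  obtain ⟨b₀, hb₀⟩ := hsurj (1, -1)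
  obtain ⟨b, hbP, hbδ⟩ := sylow_surj P (spinPair Epl δ₀) b₀
  rw [hb₀] at hbδ
  have hdeta := det_of_spinPair_refl h2 δ₀ hδ Epl hE a (Or.inl haδ)
  have hdetb := det_of_spinPair_refl h2 δ₀ hδ Epl hE b (Or.inr hbδ)
  have ha2 : a * a = 1 := plane_refl_sq h2 a hdeta
  have hb2 : b * b = 1 := plane_refl_sq h2 b hdetb
  -- squares of rotations
  have hrot : ∀ y : isometryGroup F ⇑Epl,
      ((y : Matrix.GeneralLinearGroup (Unit ⊕ Unit) F) :
        Matrix (Unit ⊕ Unit) (Unit ⊕ Unit) F).det = 1 → y ^ 2 = ⁅y, a⁆ := by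
    intro y hy
    have h3 : y * a * y = a := plane_rot_refl h2 y a hy hdeta
    have h4 : y * a = a * y⁻¹ := eq_mul_inv_of_mul_eq h3
    rw [commutatorElement_def, mul_assoc y a y⁻¹, ← h4, pow_two]
    group
  have hcard8 := plane_card h2 hE (plane_eight h2)
  refine ⟨(P : Subgroup (isometryGroup F ⇑Epl)), inferInstance, inferInstance,
    (P : Subgroup (isometryGroup F ⇑Epl)).subtype, P.isPGroup', ?_,
    Subgroup.subtype_injective _, ?_, ?_, ?_⟩
  · rw [Sylow.card_eq_multiplicity]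
    apply pow_dvd_pow
    exact (Nat.Prime.pow_dvd_iff_le_factorization Nat.prime_two Nat.card_pos.ne').1 hcard8
  · intro u hu
    have hu' : spinPair Epl δ₀ (u : isometryGroup F ⇑Epl) = 1 := hu
    have h3 := hrot (u : isometryGroup F ⇑Epl) (det_of_spinPair_one h2 δ₀ hδ Epl hE _ hu')
    have h4 : u ^ 2 = ⁅u, (⟨a, haP⟩ : (P : Subgroup (isometryGroup F ⇑Epl)))⁆ :=
      Subtype.ext h3
    rw [h4]
    exact Subgroup.commutator_mem_commutator hu (Subgroup.mem_top _)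
  · refine ⟨⟨a, haP⟩, ⟨b, hbP⟩, ?_, ?_, haδ, hbδ⟩
    · exact Subtype.ext (by rw [Subgroup.coe_pow, pow_two]; exact ha2)
    · exact Subtype.ext (by rw [Subgroup.coe_pow, pow_two]; exact hb2)
  · intro y
    rcases plane_det h2 (y : isometryGroup F ⇑Epl) with hy | hy
    · exact ⟨⟨a, haP⟩, Subtype.ext (hrot _ hy)⟩
    · refine ⟨1, Subtype.ext ?_⟩
      have h3 := plane_refl_sq h2 (y : isometryGroup F ⇑Epl) hy
      rw [Subgroup.coe_pow, pow_two, h3, commutatorElement_def]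
      simp

theorem hasOW_base (h2 : (2 : F) ≠ 0) (δ₀ : F) (hδ : ¬ IsSquare δ₀) :
    HasOW F δ₀ (padicValNat 2 (Fintype.card F ^ 2 - 1)) 1 := by
  obtain ⟨T, _, _, ρ, hT, hdvd, hinj, hjd, hp, -⟩ := plane_sylow h2 δ₀ hδ
  refine ⟨Unit, inferInstance, inferInstance, inferInstance, uf (1 : F), T, inferInstance,
    inferInstance, ρ, rfl, uf_nondeg h2 1 one_ne_zero, hT, ?_, hinj, hjd, hp⟩
  rw [one_mul, Nat.factorial_one, padicValNat_one_right, add_zero]
  exact hdvd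

theorem hasOJ_plane (h2 : (2 : F) ≠ 0) :
    HasOJ F 2 (padicValNat 2 (Fintype.card F ^ 2 - 1)) 4 := by
  have hchar : ringChar F ≠ 2 := by
    intro hc2
    apply h2
    have : ((ringChar F : ℕ) : F) = 0 := ringChar.Nat.cast_ringChar
    rw [hc2] at this
    exact_mod_cast this
  obtain ⟨δ₀, hδ⟩ := FiniteField.exists_nonsquare hchar
  obtain ⟨T, _, _, ρ, hT, hdvd, hinj, -, -, hj⟩ := plane_sylow h2 δ₀ hδ
  refine ⟨Unit ⊕ Unit, inferInstance, inferInstance, Epl, T, inferInstance, inferInstance, ρ,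
    ?_, plane_nondeg h2, ?_, hT, hdvd, hinj, hj⟩
  · rw [Fintype.card_sum, Fintype.card_unit]
  · rw [det_gram_osum, det_gram_uf]
    ring

end Plane

end Cfsg.Agent.Lib.Helper81.OBase
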