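import Mathlib
import Cfsg.Agent.Lib.Helper81.OBase

/-!
# From a model to the standard form: the final step of the orthogonal Sylow argument (helper81)
-/

set_option autoImplicit false
set_option linter.unusedSectionVars false
set_option linter.unusedVariables false

namespace Cfsg.Agent.Lib.Helper81.OFinA

open Cfsg Cfsg.Agent.Lib.Helper51 Cfsg.Agent.Lib.Helper81.OSum Cfsg.Agent.Lib.Helper81.OPieces
open Cfsg.Agent.Lib.Helper81.DeltaGrp Cfsg.Agent.Lib.Helper81.ORecA Cfsg.Agent.Lib.Helper81.SqD
open Cfsg.Agent.Lib.Helper81.ORecB Cfsg.Agent.Lib.Helper81.SpSyl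

universe u

section Comm

/-- An isomorphism of groups restricts to the derived subgroups. -/
theorem commEquiv {G H : Type*} [Group G] [Group H] (e : G ≃* H) :
    Nonempty (commutator G ≃* commutator H) := by
  have h1 : (commutator G).map e.toMonoidHom = commutator H := by
    rw [commutator_def, commutator_def, Subgroup.map_commutator,
      Subgroup.map_top_of_surjective _ e.surjective]
  exact ⟨(e.subgroupMap (commutator G)).trans (MulEquiv.subgroupCongr h1)⟩

theorem val_factorial_succ_of_even {k : ℕ} (hk : Even k) :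
    padicValNat 2 (k + 1).factorial = padicValNat 2 k.factorial := by
  have hfact : Fact (Nat.Prime 2) := ⟨Nat.prime_two⟩
  rw [Nat.factorial_succ, padicValNat.mul (by omega) (Nat.factorial_ne_zero k)]
  have h1 : padicValNat 2 (k + 1) = 0 := by
    apply padicValNat.eq_zero_of_not_dvd
    obtain ⟨t, ht⟩ := hk
    omega
  rw [h1, zero_add]

end Comm

section Final

variable {F : Type u} [Field F] [Fintype F]

/-- The final step: a model with the right dimension, discriminant and order gives the statement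
for every Sylow `2`-subgroup of `Ω` of the standard form. -/
theorem final_step (h2 : (2 : F) ≠ 0) {ιV : Type} [Fintype ιV] [DecidableEq ιV]
    (QV : QuadraticForm F (ιV → F)) (V : (ιV → F) → F) (hcoe : ⇑QV = V)
    (hQV : (QuadraticMap.polarBilin QV).Nondegenerate) (hcardV : 2 ≤ Fintype.card ιV)
    {N e : ℕ} {d : F} (hfin : HasFin F N e d)
    (hiso : ∀ (ι : Type) [Fintype ι] [DecidableEq ι] (W : QuadraticForm F (ι → F)),
      (QuadraticMap.polarBilin W).Nondegenerate → Fintype.card ι = N →
      (∃ r : F, (gram W).det = d * (r * r)) →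
      ∃ L : (ι → F) ≃ₗ[F] (ιV → F), ∀ v, V (L v) = W v)
    (hval : padicValNat 2 (Nat.card (isometryGroup F V)) ≤ e)
    (P : Sylow 2 (Omega F V)) : SqDer P := by
  have hfact : Fact (Nat.Prime 2) := ⟨Nat.prime_two⟩
  subst hcoe
  obtain ⟨ι, _, _, W, K, _, _, φ, hcard, hW, hdet, hK, hdvd, hsq, hφ⟩ := hfin
  obtain ⟨L, hL⟩ := hiso ι W hW hcard hdet
  obtain ⟨e₀⟩ := iso_transport (⇑W) (⇑QV) L hL
  obtain ⟨e₁⟩ := commEquiv e₀
  have hall := hall_of_finite QV hQV (Or.inl (card_ne_two_of h2))
  have hidx := index_commutator_eq_four QV h2 hQV hcardV hall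
  have hmul : Nat.card (Omega F ⇑QV) * 4 = Nat.card (isometryGroup F ⇑QV) := by
    have h3 := Subgroup.card_mul_index (commutator (isometryGroup F ⇑QV))
    rw [hidx] at h3
    exact h3
  have hpos : Nat.card (Omega F ⇑QV) ≠ 0 := Nat.card_pos.ne'
  have hv : padicValNat 2 (Nat.card (isometryGroup F ⇑QV))
      = padicValNat 2 (Nat.card (Omega F ⇑QV)) + 2 := by
    rw [← hmul, padicValNat.mul hpos (by norm_num)]
    have h4 : padicValNat 2 4 = 2 := by
      have h5 : (4 : ℕ) = 2 ^ 2 := by norm_num
      rw [h5, padicValNat.prime_pow]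
    rw [h4]
  have hdvd' : 2 ^ (Nat.card (Omega F ⇑QV)).factorization 2 ∣ Nat.card K := by
    rw [Nat.factorization_def _ Nat.prime_two]
    have h6 : 2 ^ (padicValNat 2 (Nat.card (Omega F ⇑QV)) + 2) ∣ 4 * Nat.card K :=
      dvd_trans (pow_dvd_pow 2 (by omega)) hdvd
    rw [pow_add, mul_comm] at h6
    exact Nat.dvd_of_mul_dvd_mul_left (by norm_num) h6
  exact sqDer_sylow_of_hom (e₁.toMonoidHom.comp φ) (e₁.injective.comp hφ) hK hdvd' hsq P

end Final

end Cfsg.Agent.Lib.Helper81.OFinA
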