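import Mathlib
import Cfsg.Agent.Lib.Helper81.OFinA
import Cfsg.Agent.Lib.Helper7.POmegaOrder

/-!
# Sylow `2`-subgroups of `Ω` of the three standard quadratic forms in odd characteristic (helper81)
-/

set_option autoImplicit false
set_option linter.unusedSectionVars false
set_option linter.unusedVariables false

namespace Cfsg.Agent.Lib.Helper81.OFinB

open Cfsg Cfsg.Agent.Lib.Helper51 Cfsg.Agent.Lib.Helper81.OSum Cfsg.Agent.Lib.Helper81.OPieces
open Cfsg.Agent.Lib.Helper81.DeltaGrp Cfsg.Agent.Lib.Helper81.ORecA Cfsg.Agent.Lib.Helper81.SqD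
open Cfsg.Agent.Lib.Helper81.ORecB Cfsg.Agent.Lib.Helper81.OBase Cfsg.Agent.Lib.Helper81.OFinA
open Cfsg.Agent.Lib.Helper7 (card_GOPlus card_GOOdd card_GOMinus QPlus_nondeg QOdd_nondeg
  QMinus_nondeg polarBilin_nondegenerate_of)

universe u

variable {F : Type u} [Field F] [Fintype F]

theorem two_ne_zero_of_odd (hF : Odd (Fintype.card F)) : (2 : F) ≠ 0 :=
  Cfsg.Agent.Lib.Helper7.two_ne_zero_of_odd_card rfl hF

theorem exists_nonsquare_of (h2 : (2 : F) ≠ 0) : ∃ δ₀ : F, ¬ IsSquare δ₀ := by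
  have hchar : ringChar F ≠ 2 := by
    intro hc2
    apply h2
    have : ((ringChar F : ℕ) : F) = 0 := ringChar.Nat.cast_ringChar
    rw [hc2] at this
    exact_mod_cast this
  exact FiniteField.exists_nonsquare hchar

theorem mod_four_of_odd {q : ℕ} (h : Odd q) : q % 4 = 1 ∨ q % 4 = 3 := by
  obtain ⟨t, ht⟩ := h
  omega

/-- Odd dimension. -/
theorem omega_odd (hF : Odd (Fintype.card F)) (m : ℕ) (hm : 2 ≤ m)
    (P : Sylow 2 (Omega F (quadFormOdd m F))) : SqDer P := by
  have h2 := two_ne_zero_of_odd hF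
  obtain ⟨δ₀, hδ⟩ := exists_nonsquare_of h2
  have hq1 : 1 < Fintype.card F := Fintype.one_lt_card
  have h1 := hasOW_base h2 δ₀ hδ
  obtain ⟨c, hc⟩ : ∃ c, c = padicValNat 2 (Fintype.card F ^ 2 - 1) := ⟨_, rfl⟩
  rw [← hc] at h1
  have hQV := polarBilin_nondegenerate_of (QOdd m F) (QOdd_nondeg h2 m)
  have hcardV : Fintype.card (Unit ⊕ (Fin m ⊕ Fin m)) = 1 + (m + m) := by
    rw [Fintype.card_sum, Fintype.card_sum, Fintype.card_fin, Fintype.card_unit]
  have hd : ((-1 : F)) ^ m ≠ 0 := pow_ne_zero _ (neg_ne_zero.mpr one_ne_zero)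
  have hord := card_GOOdd (F := F) rfl hF m
  have hvalV := val_odd hq1 hF m
  rw [← hc] at hvalV
  rcases Nat.even_or_odd m with hev | hod
  · obtain ⟨k, hk⟩ := hev
    have hS := hasOS_even h2 hδ h1 k (by omega)
    have hm2 : 2 * k = m := by omega
    rw [hm2] at hS
    have hfin := hS.finJ h2 hδ (hasOJ_unit h2 ((-1) ^ m) hd)
    refine final_step h2 (QOdd m F) (quadFormOdd m F) (coe_QOdd m F) hQV
      (by rw [hcardV]; omega) hfin ?_ ?_ P
    · rintro ι _ _ W hW hcard ⟨r, hr⟩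
      exact iso_odd h2 W hW m hcard ⟨2 * (-1) ^ m * r, by rw [hr]; ring⟩
    · rw [hord, hvalV]
  · obtain ⟨j, rfl⟩ : ∃ j, m = j + 1 := ⟨m - 1, by omega⟩
    have hj : Even j := by
      rcases Nat.even_or_odd j with h | h
      · exact h
      · exfalso
        obtain ⟨t, ht⟩ := h
        obtain ⟨s, hs⟩ := hod
        omega
    obtain ⟨k, hk⟩ := hj
    have hS := hasOS_even h2 hδ h1 k (by omega)
    have hm2 : 2 * k = j := by omega
    rw [hm2] at hS
    have hfin := hS.finJ h2 hδ ((hasOJ_plane h2).prod (hasOJ_unit h2 ((-1) ^ (j + 1)) hd))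
    rw [← hc] at hfin
    refine final_step h2 (QOdd (j + 1) F) (quadFormOdd (j + 1) F) (coe_QOdd (j + 1) F) hQV
      (by rw [hcardV]; omega) hfin ?_ ?_ P
    · rintro ι _ _ W hW hcard ⟨r, hr⟩
      exact iso_odd h2 W hW (j + 1) (by rw [hcard]; ring)
        ⟨4 * (-1) ^ (j + 1) * r, by rw [hr]; ring⟩
    · rw [hord, hvalV, val_factorial_succ_of_even ⟨k, hk⟩, Nat.succ_mul]
      omega

/-- Plus type. -/
theorem omega_plus (hF : Odd (Fintype.card F)) (m : ℕ) (hm : 1 ≤ m) (hm' : Even m ∨ 3 ≤ m)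
    (P : Sylow 2 (Omega F (quadFormPlus m F))) : SqDer P := by
  have h2 := two_ne_zero_of_odd hF
  obtain ⟨δ₀, hδ⟩ := exists_nonsquare_of h2
  have hq1 : 1 < Fintype.card F := Fintype.one_lt_card
  have h1 := hasOW_base h2 δ₀ hδ
  obtain ⟨c, hc⟩ : ∃ c, c = padicValNat 2 (Fintype.card F ^ 2 - 1) := ⟨_, rfl⟩
  rw [← hc] at h1
  have hQV := polarBilin_nondegenerate_of (QPlus m F) (QPlus_nondeg m)
  have hcardV : Fintype.card (Fin m ⊕ Fin m) = m + m := by
    rw [Fintype.card_sum, Fintype.card_fin]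
  have hord := card_GOPlus (F := F) rfl m hm
  rcases Nat.even_or_odd m with hev | hod
  · obtain ⟨k, hk⟩ := hev
    have hS := hasOS_even h2 hδ h1 k (by omega)
    have hm2 : 2 * k = m := by omega
    rw [hm2] at hS
    have hfin := hS.fin h2 hδ
    have hvalV := val_plus_A hq1 hF m hm (Or.inl ⟨k, hk⟩)
    rw [← hc] at hvalV
    refine final_step h2 (QPlus m F) (quadFormPlus m F) (coe_QPlus m F) hQV
      (by rw [hcardV]; omega) hfin ?_ ?_ P
    · rintro ι _ _ W hW hcard ⟨r, hr⟩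
      exact iso_plus h2 W hW m hm hcard
        ⟨r, by rw [hr, Even.neg_one_pow ⟨k, hk⟩]; ring⟩
    · rw [hord, hvalV]
  · have hm3 : 3 ≤ m := by
      rcases hm' with h | h
      · exfalso
        obtain ⟨t, ht⟩ := h
        obtain ⟨s, hs⟩ := hod
        omega
      · exact h
    obtain ⟨j, rfl⟩ : ∃ j, m = j + 1 := ⟨m - 1, by omega⟩
    have hj : Even j := by
      rcases Nat.even_or_odd j with h | h
      · exact h
      · exfalso
        obtain ⟨t, ht⟩ := h
        obtain ⟨s, hs⟩ := hod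
        omega
    obtain ⟨k, hk⟩ := hj
    have hS := hasOS_even h2 hδ h1 k (by omega)
    have hm2 : 2 * k = j := by omega
    rw [hm2] at hS
    rcases mod_four_of_odd hF with hq4 | hq4
    · have hfin := hS.finJ h2 hδ (hasOJ_plane h2)
      rw [← hc] at hfin
      have hvalV := val_plus_A hq1 hF (j + 1) hm (Or.inr hq4)
      rw [← hc] at hvalV
      obtain ⟨i, hi⟩ : IsSquare (-1 : F) := by
        rw [FiniteField.isSquare_neg_one_iff]
        omega
      refine final_step h2 (QPlus (j + 1) F) (quadFormPlus (j + 1) F) (coe_QPlus (j + 1) F) hQV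
        (by rw [hcardV]; omega) hfin ?_ ?_ P
      · rintro ι _ _ W hW hcard ⟨r, hr⟩
        exact iso_plus h2 W hW (j + 1) hm (by rw [hcard]; ring)
          ⟨i ^ (j + 1) * 2 * r, by rw [hr, hi]; ring⟩
      · rw [hord, hvalV, val_factorial_succ_of_even ⟨k, hk⟩, Nat.succ_mul]
        omega
    · have hfin := hS.finJ h2 hδ ((hasOJ_unit h2 (1 : F) one_ne_zero).prod
        (hasOJ_unit h2 (-1 : F) (neg_ne_zero.mpr one_ne_zero)))
      have hvalV := val_plus_B hq1 (j + 1) hod hq4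
      rw [← hc, Nat.add_sub_cancel] at hvalV
      rw [Nat.add_sub_cancel] at hord
      refine final_step h2 (QPlus (j + 1) F) (quadFormPlus (j + 1) F) (coe_QPlus (j + 1) F) hQV
        (by rw [hcardV]; omega) hfin ?_ ?_ P
      · rintro ι _ _ W hW hcard ⟨r, hr⟩
        exact iso_plus h2 W hW (j + 1) hm (by rw [hcard]; ring)
          ⟨2 * r, by rw [hr, pow_succ, Even.neg_one_pow ⟨k, hk⟩]; ring⟩
      · rw [hord, hvalV]

/-- Minus type. -/
theorem omega_minus (hF : Odd (Fintype.card F)) (n : ℕ) (hn : 2 ≤ n) (a b : F)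
    (hab : ∀ z₁ z₂ : F, z₁ ^ 2 + a * z₁ * z₂ + b * z₂ ^ 2 = 0 → z₁ = 0 ∧ z₂ = 0)
    (P : Sylow 2 (Omega F (quadFormMinus n F a b))) : SqDer P := by
  have h2 := two_ne_zero_of_odd hF
  obtain ⟨δ₀, hδ⟩ := exists_nonsquare_of h2
  have hq1 : 1 < Fintype.card F := Fintype.one_lt_card
  have h1 := hasOW_base h2 δ₀ hδ
  obtain ⟨c, hc⟩ : ∃ c, c = padicValNat 2 (Fintype.card F ^ 2 - 1) := ⟨_, rfl⟩
  rw [← hc] at h1
  have hQV := polarBilin_nondegenerate_of (QMinus n F a b) (QMinus_nondeg n a b hab)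
  have hcardV : Fintype.card ((Fin n ⊕ Fin n) ⊕ Fin 2) = n + n + 2 := by
    rw [Fintype.card_sum, Fintype.card_sum, Fintype.card_fin, Fintype.card_fin]
  have hord := card_GOMinus (F := F) rfl n a b hab
  -- the discriminant of the binary part
  have hDns : ¬ IsSquare (a ^ 2 - 4 * b) := by
    rintro ⟨s, hs⟩
    have h3 := hab (s - a) 2 (by linear_combination (-1 : F) * hs)
    exact h2 h3.2
  have hD0 : 4 * b - a ^ 2 ≠ 0 := by
    intro h
    apply hDns
    exact ⟨0, by linear_combination (-1 : F) * h⟩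
  have hD0' : a ^ 2 - 4 * b ≠ 0 := by
    intro h
    apply hD0
    linear_combination (-1 : F) * h
  rcases Nat.even_or_odd n with hev | hod
  · obtain ⟨k, hk⟩ := hev
    have hS := hasOS_even h2 hδ h1 k (by omega)
    have hm2 : 2 * k = n := by omega
    rw [hm2] at hS
    rcases mod_four_of_odd hF with hq4 | hq4
    · have hfin := hS.finJ h2 hδ ((hasOJ_unit h2 (1 : F) one_ne_zero).prod
        (hasOJ_unit h2 (4 * b - a ^ 2) hD0))
      have hvalV := val_minus_B hq1 hF n (Or.inr hq4)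
      rw [← hc] at hvalV
      refine final_step h2 (QMinus n F a b) (quadFormMinus n F a b) (coe_QMinus n F a b) hQV
        (by rw [hcardV]; omega) hfin ?_ ?_ P
      · rintro ι _ _ W hW hcard ⟨r, hr⟩
        exact iso_minus h2 W hW n a b hab (by rw [hcard])
          ⟨2 * (4 * b - a ^ 2) * r, by rw [hr, Even.neg_one_pow ⟨k, hk⟩]; ring⟩
      · rw [hord, hvalV]
    · have hfin := hS.finJ h2 hδ (hasOJ_plane h2)
      rw [← hc] at hfin
      have hvalV := val_minus_A hq1 n ⟨k, hk⟩ hq4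
      rw [← hc] at hvalV
      have hneg : ¬ IsSquare (-1 : F) := by
        rw [FiniteField.isSquare_neg_one_iff]
        omega
      obtain ⟨t, ht⟩ : IsSquare ((-1 : F) * (a ^ 2 - 4 * b)) := by
        rw [isSquare_mul_iff (neg_ne_zero.mpr one_ne_zero) hD0']
        exact ⟨fun h => absurd h hneg, fun h => absurd h hDns⟩
      refine final_step h2 (QMinus n F a b) (quadFormMinus n F a b) (coe_QMinus n F a b) hQV
        (by rw [hcardV]; omega) hfin ?_ ?_ P
      · rintro ι _ _ W hW hcard ⟨r, hr⟩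
        exact iso_minus h2 W hW n a b hab (by rw [hcard])
          ⟨2 * t * r, by
            rw [hr, Even.neg_one_pow ⟨k, hk⟩]
            linear_combination (4 * r * r) * ht⟩
      · rw [hord, hvalV, val_factorial_succ_of_even ⟨k, hk⟩, Nat.succ_mul]
        omega
  · obtain ⟨j, rfl⟩ : ∃ j, n = j + 1 := ⟨n - 1, by omega⟩
    have hj : Even j := by
      rcases Nat.even_or_odd j with h | h
      · exact h
      · exfalso
        obtain ⟨t, ht⟩ := h
        obtain ⟨s, hs⟩ := hod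
        omega
    obtain ⟨k, hk⟩ := hj
    have hS := hasOS_even h2 hδ h1 k (by omega)
    have hm2 : 2 * k = j := by omega
    rw [hm2] at hS
    have hfin := hS.finJ h2 hδ ((hasOJ_plane h2).prod
      ((hasOJ_unit h2 (1 : F) one_ne_zero).prod
        (hasOJ_unit h2 (-(4 * b - a ^ 2)) (neg_ne_zero.mpr hD0))))
    rw [← hc] at hfin
    have hvalV := val_minus_B hq1 hF (j + 1) (Or.inl hod)
    rw [← hc] at hvalV
    refine final_step h2 (QMinus (j + 1) F a b) (quadFormMinus (j + 1) F a b)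
      (coe_QMinus (j + 1) F a b) hQV (by rw [hcardV]; omega) hfin ?_ ?_ P
    · rintro ι _ _ W hW hcard ⟨r, hr⟩
      exact iso_minus h2 W hW (j + 1) a b hab (by rw [hcard]; ring)
        ⟨4 * (4 * b - a ^ 2) * r, by
          rw [hr, pow_succ, Even.neg_one_pow ⟨k, hk⟩]; ring⟩
    · rw [hord, hvalV, val_factorial_succ_of_even ⟨k, hk⟩, Nat.succ_mul]
      omega

end Cfsg.Agent.Lib.Helper81.OFinB
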