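import Cfsg.Agent.Lib.Helper81.SimsODefs

/-!
# Sims, Part III: piece BaseCore

A subgroup of `H` normalised by `H` and by some `t ∉ H` is trivial (`H` is a coatom, so `N_G(X) = ⊤`, so `X ≤ H.normalCore = ⊥`).
-/

namespace Cfsg.Agent.Lib.Helper81.Sims

open Subgroup

universe u

variable {G : Type u} [Group G] [Finite G] {H K : Subgroup G}

theorem base_core (hB : Base H K) {X : Subgroup G} (hX : X ≤ H) (hH : ∀ h ∈ H, cj h X = X)
    {t : G} (ht : t ∉ H) (hXt : cj t X = X) : X = ⊥ := by
  have hmem : ∀ g : G, cj g X = X → g ∈ normalizer (X : Set G) := by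
    intro g hg
    rw [mem_normalizer_iff]
    intro x
    have h1 : g * x * g⁻¹ ∈ cj g X ↔ x ∈ X := by
      rw [mem_cj]
      have e : g⁻¹ * (g * x * g⁻¹) * g = x := by group
      rw [e]
    rw [hg] at h1
    exact h1.symm
  have hle : H ≤ normalizer (X : Set G) := fun h hh => hmem h (hH h hh)
  have hlt : H < normalizer (X : Set G) := by
    refine lt_of_le_of_ne hle ?_
    intro heq
    apply ht
    rw [heq]
    exact hmem t hXt
  have htop : normalizer (X : Set G) = ⊤ := hB.co.2 _ hlt
  have hnorm : X.Normal := by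
    refine ⟨fun x hx g => ?_⟩
    have hg : g ∈ normalizer (X : Set G) := by
      rw [htop]
      exact Subgroup.mem_top g
    exact (mem_normalizer_iff.1 hg x).1 hx
  have h2 : X ≤ H.normalCore := Subgroup.normal_le_normalCore.2 hX
  rw [hB.core] at h2
  exact le_bot_iff.1 h2

end Cfsg.Agent.Lib.Helper81.Sims
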