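import Cfsg.Agent.Lib.Helper81.SimsODefs

/-!
# Sims, Part III: piece OmZProps (filled in by helper11)

`Z = Ω₁(Z(K))`: `Z ≤ Q` by `hb` (elements of `Z` lie in `K ≤ H` and centralise `Q ≤ K`); `Z ≠ ⊥` since `K ≠ ⊥` (`K` is not normal in `H`) is a 2-group (non-trivial centre, take an element of order 2 in it); `Z` is invariant under every `n` normalising `K`.
-/

namespace Cfsg.Agent.Lib.Helper81.Sims

open Subgroup

universe u

variable {G : Type u} [Group G] [Finite G] {H K : Subgroup G}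

theorem soomzprops_QQ_le (H K : Subgroup G) : QQ H K ≤ K := by
  intro x hx
  have h := mem_QQ.1 hx 1 H.one_mem
  rw [cj_one] at h
  exact h

theorem soomzprops_cj_le {K : Subgroup G} {n : G} (hn : n ∈ normalizer (K : Set G)) :
    cj n (OmZ K) ≤ OmZ K := by
  intro x hx
  rw [mem_cj, mem_OmZ] at hx
  obtain ⟨h1, h2, h3⟩ := hx
  have hK : ∀ y : G, n⁻¹ * y * n ∈ K ↔ y ∈ K := by
    intro y
    have h := mem_normalizer_iff.mp hn (n⁻¹ * y * n)
    have e : n * (n⁻¹ * y * n) * n⁻¹ = y := by group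
    rw [e] at h
    exact h
  refine mem_OmZ.2 ⟨(hK x).1 h1, ?_, ?_⟩
  · intro y hy
    have h4 := h2 (n⁻¹ * y * n) ((hK y).2 hy)
    calc x * y = n * ((n⁻¹ * x * n) * (n⁻¹ * y * n)) * n⁻¹ := by group
      _ = n * ((n⁻¹ * y * n) * (n⁻¹ * x * n)) * n⁻¹ := by rw [h4]
      _ = y * x := by group
  · calc x * x = n * ((n⁻¹ * x * n) * (n⁻¹ * x * n)) * n⁻¹ := by group
      _ = 1 := by rw [h3]; group

theorem soomzprops_ne_bot {K : Subgroup G} (hK : K ≠ ⊥) (h2 : IsPGroup 2 K) : OmZ K ≠ ⊥ := by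
  haveI : Nontrivial ↥K := (Subgroup.nontrivial_iff_ne_bot K).2 hK
  haveI : Fact (Nat.Prime 2) := ⟨Nat.prime_two⟩
  have hc : ⊥ < Subgroup.center ↥K := h2.bot_lt_center
  have hcp : IsPGroup 2 (Subgroup.center ↥K) := h2.to_subgroup _
  have hdvd : 2 ∣ Nat.card (Subgroup.center ↥K) := by
    rcases hcp.card_eq_or_dvd with h | h
    · exact absurd (Subgroup.eq_bot_of_card_eq _ h) hc.ne'
    · exact h
  obtain ⟨z, hz⟩ := exists_prime_orderOf_dvd_card' 2 hdvd
  have hz2 : z * z = 1 := by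
    have h := pow_orderOf_eq_one z
    rw [hz, pow_two] at h
    exact h
  have hz1 : z ≠ 1 := by
    intro h
    rw [h, orderOf_one] at hz
    exact absurd hz (by norm_num)
  intro hbot
  have hmem : ((z : ↥K) : G) ∈ OmZ K := by
    refine mem_OmZ.2 ⟨(z : ↥K).2, ?_, ?_⟩
    · intro y hy
      have h := Subgroup.mem_center_iff.1 z.2 ⟨y, hy⟩
      exact (congrArg Subtype.val h).symm
    · have h := congrArg (fun w : ↥(Subgroup.center ↥K) => ((w : ↥K) : G)) hz2
      exact h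
  rw [hbot, Subgroup.mem_bot] at hmem
  apply hz1
  apply Subtype.ext
  apply Subtype.ext
  exact hmem

theorem OmZ_props (hB : Base H K) (hb : HB H K) :
    OmZ K ≤ QQ H K ∧ OmZ K ≠ ⊥ ∧ ∀ n ∈ normalizer (K : Set G), cj n (OmZ K) = OmZ K := by
  refine ⟨?_, ?_, ?_⟩
  · intro x hx
    obtain ⟨h1, h2, h3⟩ := mem_OmZ.1 hx
    exact hb x (hB.le h1) (fun q hq => h2 q (soomzprops_QQ_le H K hq))
  · apply soomzprops_ne_bot _ hB.two
    intro hK
    apply hB.nn
    intro h hh
    rw [mem_normalizer_iff]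
    intro x
    rw [hK]
    simp
  · intro n hn
    apply le_antisymm (soomzprops_cj_le hn)
    have hn' : n⁻¹ ∈ normalizer (K : Set G) := inv_mem hn
    have h1 := cj_mono (c := n) (soomzprops_cj_le hn')
    rw [cj_cj_inv] at h1
    exact h1

end Cfsg.Agent.Lib.Helper81.Sims
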