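import Cfsg.Agent.Lib.Helper81.SimsODefs

/-!
# Sims, Part III: piece QQCard

`|K : core_H(K)| = 2`: `H` acts on the 3 cosets `H/K` (or on the 3 conjugates of `K`), the image is a transitive subgroup of `S₃` in which the image of the 2-group `K` is a point stabiliser and is not normal, so the image is `S₃`, the kernel `QQ H K` has index 6 in `H`, index 2 in `K`.
-/

namespace Cfsg.Agent.Lib.Helper81.Sims

open Subgroup

universe u

variable {G : Type u} [Group G] [Finite G] {H K : Subgroup G}

theorem QQ_card (hB : Base H K) : Nat.card K = 2 * Nat.card (QQ H K) := by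
  classical
  have hcK' : Nat.card (K.subgroupOf H) = Nat.card K :=
    Nat.card_congr (Subgroup.subgroupOfEquivOfLe hB.le).toEquiv
  have hQK : QQ H K ≤ K := by
    intro x hx
    have h1 := mem_QQ.mp hx 1 H.one_mem
    rw [cj_one] at h1
    exact h1
  have hQle : QQ H K ≤ H := hQK.trans hB.le
  have hcore : (QQ H K).subgroupOf H = (K.subgroupOf H).normalCore := by
    ext x
    rw [Subgroup.mem_subgroupOf]
    constructor
    · intro h b
      have h1 := mem_QQ.mp h ((b⁻¹ : H) : G) (H.inv_mem b.2)
      rw [mem_cj] at h1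
      rw [Subgroup.mem_subgroupOf]
      simpa using h1
    · intro h
      rw [mem_QQ]
      intro a ha
      rw [mem_cj]
      have h1 := h ⟨a⁻¹, H.inv_mem ha⟩
      rw [Subgroup.mem_subgroupOf] at h1
      simpa using h1
  have hcQ : Nat.card ((K.subgroupOf H).normalCore) = Nat.card (QQ H K) := by
    rw [← hcore]
    exact Nat.card_congr (Subgroup.subgroupOfEquivOfLe hQle).toEquiv
  have hKpos : 0 < Nat.card K := Nat.card_pos
  -- the index of `K` in `H` is `3`
  have hidx : (K.subgroupOf H).index = 3 := by
    have h1 := (K.subgroupOf H).card_mul_index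
    rw [hcK', hB.card] at h1
    have h2 : Nat.card K * (K.subgroupOf H).index = Nat.card K * 3 := by rw [h1, mul_comm]
    exact Nat.eq_of_mul_eq_mul_left hKpos h2
  -- the index of the core divides `6`
  have hdvd : (K.subgroupOf H).normalCore.index ∣ 6 := by
    rw [Subgroup.normalCore_eq_ker, Subgroup.index_ker]
    have h1 : Nat.card (MulAction.toPermHom H (H ⧸ K.subgroupOf H)).range ∣
        Nat.card (Equiv.Perm (H ⧸ K.subgroupOf H)) := Subgroup.card_subgroup_dvd_card _
    have h2 : Nat.card (Equiv.Perm (H ⧸ K.subgroupOf H)) = 6 := by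
      rw [Nat.card_perm, ← Subgroup.index_eq_card, hidx]
      rfl
    rwa [h2] at h1
  have h3dvd : 3 ∣ (K.subgroupOf H).normalCore.index := by
    rw [← hidx]
    exact Subgroup.index_dvd_of_le (Subgroup.normalCore_le _)
  have hci := (K.subgroupOf H).normalCore.card_mul_index
  rw [hcQ, hB.card] at hci
  have hcases : (K.subgroupOf H).normalCore.index = 3 ∨ (K.subgroupOf H).normalCore.index = 6 := by
    have h1 := Nat.le_of_dvd (by norm_num) hdvd
    obtain ⟨c, hc⟩ := h3dvd
    obtain ⟨d, hd⟩ := hdvd
    have h2 : c = 1 ∨ c = 2 := by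
      rw [hc] at h1 hd
      have h4 : c ≤ 2 := by omega
      have h5 : c ≠ 0 := by
        rintro rfl
        omega
      omega
    rcases h2 with h2 | h2
    · left; rw [hc, h2]
    · right; rw [hc, h2]
  rcases hcases with h3 | h6
  · exfalso
    rw [h3] at hci
    have h1 : Nat.card (QQ H K) = Nat.card K := by omega
    have h2 : (K.subgroupOf H).normalCore = K.subgroupOf H := by
      apply Subgroup.eq_of_le_of_card_ge (Subgroup.normalCore_le _)
      rw [hcQ, hcK', h1]
    have hnorm : (K.subgroupOf H).Normal := by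
      rw [← h2]
      infer_instance
    apply hB.nn
    intro h hh
    rw [Subgroup.mem_normalizer_iff]
    intro k
    constructor
    · intro hk
      have h4 := hnorm.conj_mem ⟨k, hB.le hk⟩ (by rw [Subgroup.mem_subgroupOf]; exact hk) ⟨h, hh⟩
      rw [Subgroup.mem_subgroupOf] at h4
      simpa using h4
    · intro hk
      have h4 := hnorm.conj_mem ⟨h * k * h⁻¹, hB.le hk⟩
        (by rw [Subgroup.mem_subgroupOf]; exact hk) ⟨h⁻¹, H.inv_mem hh⟩
      rw [Subgroup.mem_subgroupOf] at h4
      have h5 : h⁻¹ * (h * k * h⁻¹) * h = k := by group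
      have h6 : h⁻¹ * (h * k * h⁻¹) * h ∈ K := by simpa using h4
      rw [h5] at h6
      exact h6
  · rw [h6] at hci
    omega

end Cfsg.Agent.Lib.Helper81.Sims
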