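import Cfsg.Agent.Lib.Helper81.SimsODefs
import Cfsg.Agent.Lib.Helper81.SimsOBaseCore

/-!
# Sims, Part III: piece Thompson

Thompson subgroup argument. Let `m` be the maximal order of an elementary abelian subgroup of `K` (`m ≥ 2` since `K ≠ ⊥` is a 2-group) and `J` the join of all elementary abelian subgroups of `K` of order `m`. If all of them lay in `Q = QQ H K`, then `J ≤ Q ≤ H` would be invariant under `H` (`cj h A ≤ cj h Q = Q ≤ K`, same order) and under `n ∈ N_G(K) ∖ H` (`cj n A ≤ cj n K = K`), so `J = ⊥` by `base_core`: contradiction.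
-/

namespace Cfsg.Agent.Lib.Helper81.Sims

open Subgroup

universe u

section sothompson_aux

variable {G : Type u} [Group G]

/-- The subgroups of `K` that are abelian of exponent at most two. -/
def sothompson_E (K A : Subgroup G) : Prop :=
  A ≤ K ∧ (∀ x ∈ A, ∀ y ∈ A, x * y = y * x) ∧ (∀ x ∈ A, x * x = 1)

/-- Those of largest order. -/
def sothompson_M (K A : Subgroup G) : Prop :=
  sothompson_E K A ∧ ∀ B : Subgroup G, sothompson_E K B → Nat.card B ≤ Nat.card A

theorem sothompson_E_cj {K A : Subgroup G} {g : G} (hA : sothompson_E K A)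
    (hle : cj g A ≤ K) : sothompson_E K (cj g A) := by
  refine ⟨hle, ?_, ?_⟩
  · intro x hx y hy
    rw [mem_cj] at hx hy
    have h := hA.2.1 _ hx _ hy
    have e1 : x * y = g * ((g⁻¹ * x * g) * (g⁻¹ * y * g)) * g⁻¹ := by group
    have e2 : y * x = g * ((g⁻¹ * y * g) * (g⁻¹ * x * g)) * g⁻¹ := by group
    rw [e1, e2, h]
  · intro x hx
    rw [mem_cj] at hx
    have h := hA.2.2 _ hx
    have e1 : x * x = g * ((g⁻¹ * x * g) * (g⁻¹ * x * g)) * g⁻¹ := by group
    rw [e1, h]
    group

theorem sothompson_M_cj {K A : Subgroup G} {g : G} (hA : sothompson_M K A)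
    (hle : cj g A ≤ K) : sothompson_M K (cj g A) :=
  ⟨sothompson_E_cj hA.1 hle, fun B hB => by rw [card_cj]; exact hA.2 B hB⟩

/-- The join of the abelian subgroups of exponent two of `K` of largest order. -/
def sothompson_J (K : Subgroup G) : Subgroup G :=
  ⨆ A : {A : Subgroup G // sothompson_M K A}, A.1

theorem sothompson_le_J {K A : Subgroup G} (hA : sothompson_M K A) : A ≤ sothompson_J K :=
  le_iSup (fun A : {A : Subgroup G // sothompson_M K A} => A.1) ⟨A, hA⟩

theorem sothompson_cj_J [Finite G] {K : Subgroup G} {g : G}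
    (hg : ∀ A, sothompson_M K A → cj g A ≤ K) :
    cj g (sothompson_J K) = sothompson_J K := by
  have hle : cj g (sothompson_J K) ≤ sothompson_J K := by
    show (sothompson_J K).map (MulAut.conj g).toMonoidHom ≤ sothompson_J K
    unfold sothompson_J
    rw [Subgroup.map_iSup]
    refine iSup_le fun A => ?_
    exact sothompson_le_J (sothompson_M_cj A.2 (hg A.1 A.2))
  exact Subgroup.eq_of_le_of_card_ge hle (by rw [card_cj])

end sothompson_aux

variable {G : Type u} [Group G] [Finite G] {H K : Subgroup G}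

theorem thompson (hB : Base H K) :
    ∃ A : Subgroup G, A ≤ K ∧ (∀ x ∈ A, ∀ y ∈ A, x * y = y * x) ∧ (∀ x ∈ A, x * x = 1) ∧
      ¬ A ≤ QQ H K ∧
      ∀ B : Subgroup G, B ≤ K → (∀ x ∈ B, ∀ y ∈ B, x * y = y * x) → (∀ x ∈ B, x * x = 1) →
        Nat.card B ≤ Nat.card A := by
  classical
  by_contra hcon
  have hQ : ∀ A, sothompson_M K A → A ≤ QQ H K := by
    intro A hA
    by_contra hAQ
    exact hcon ⟨A, hA.1.1, hA.1.2.1, hA.1.2.2, hAQ, fun B h1 h2 h3 => hA.2 B ⟨h1, h2, h3⟩⟩
  have hne : Nonempty {A : Subgroup G // sothompson_E K A} :=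
    ⟨⟨⊥, bot_le, by
      intro x hx y hy
      rw [Subgroup.mem_bot] at hx hy
      rw [hx, hy], by
      intro x hx
      rw [Subgroup.mem_bot] at hx
      rw [hx, one_mul]⟩⟩
  obtain ⟨A0, hA0⟩ :=
    Finite.exists_max (fun A : {A : Subgroup G // sothompson_E K A} => Nat.card A.1)
  have hM0 : sothompson_M K A0.1 := ⟨A0.2, fun B hB => hA0 ⟨B, hB⟩⟩
  have hQK : QQ H K ≤ K := by
    intro x hx
    have := mem_QQ.mp hx 1 H.one_mem
    rw [cj_one] at this
    exact this
  have hQn : ∀ h ∈ H, cj h (QQ H K) ≤ QQ H K := by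
    intro h hh x hx
    rw [mem_cj] at hx
    rw [mem_QQ] at hx ⊢
    intro h' hh'
    have := hx (h⁻¹ * h') (H.mul_mem (H.inv_mem hh) hh')
    rw [mem_cj] at this ⊢
    have e : (h⁻¹ * h')⁻¹ * (h⁻¹ * x * h) * (h⁻¹ * h') = h'⁻¹ * x * h' := by group
    rw [e] at this
    exact this
  have hJQ : sothompson_J K ≤ QQ H K := iSup_le fun A => hQ A.1 A.2
  have hJH : sothompson_J K ≤ H := hJQ.trans (hQK.trans hB.le)
  have hH : ∀ h ∈ H, cj h (sothompson_J K) = sothompson_J K := fun h hh =>
    sothompson_cj_J fun A hA => (cj_mono (hQ A hA)).trans ((hQn h hh).trans hQK)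
  obtain ⟨n, hn, hnH⟩ := hB.ex
  have hn' : cj n (sothompson_J K) = sothompson_J K :=
    sothompson_cj_J fun A hA => by
      have := cj_mono (c := n) hA.1.1
      rwa [cj_eq_of_mem_normalizer hn] at this
  have hJ : sothompson_J K = ⊥ := base_core hB hJH hH hnH hn'
  have hA0bot : A0.1 = ⊥ := by
    have : A0.1 ≤ sothompson_J K := sothompson_le_J hM0
    rw [hJ] at this
    exact le_bot_iff.mp this
  have hKne : K ≠ ⊥ := by
    intro hK
    apply hB.nn
    intro h _
    rw [mem_normalizer_iff]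
    intro x
    rw [hK]
    show x ∈ (⊥ : Subgroup G) ↔ h * x * h⁻¹ ∈ (⊥ : Subgroup G)
    rw [Subgroup.mem_bot, Subgroup.mem_bot]
    constructor
    · intro hx
      rw [hx]
      group
    · intro hx
      have e : x = h⁻¹ * (h * x * h⁻¹) * h := by group
      rw [e, hx]
      group
  obtain ⟨k, hk⟩ := IsPGroup.iff_card.mp hB.two
  have h2 : 2 ∣ Nat.card K := by
    rcases k with _ | k
    · exfalso
      apply hKne
      rw [pow_zero] at hk
      exact Subgroup.card_eq_one.mp hk
    · rw [hk, pow_succ]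
      exact dvd_mul_left 2 _
  have : Fact (Nat.Prime 2) := ⟨Nat.prime_two⟩
  obtain ⟨y, hy⟩ := exists_prime_orderOf_dvd_card' 2 h2
  have hy2 : (y : G) * (y : G) = 1 := by
    have h1 : y ^ 2 = 1 := by
      rw [← hy]
      exact pow_orderOf_eq_one y
    have h3 := congrArg Subtype.val h1
    rw [pow_two] at h3
    exact h3
  have hBE : sothompson_E K (Subgroup.zpowers (y : G)) := by
    refine ⟨?_, ?_, ?_⟩
    · rw [Subgroup.zpowers_le]
      exact y.2
    · rintro a ⟨i, rfl⟩ b ⟨j, rfl⟩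
      show (y : G) ^ i * (y : G) ^ j = (y : G) ^ j * (y : G) ^ i
      rw [← zpow_add, ← zpow_add, add_comm]
    · rintro a ⟨i, rfl⟩
      show (y : G) ^ i * (y : G) ^ i = 1
      rw [← (Commute.refl (y : G)).mul_zpow, hy2, one_zpow]
  have hcard : Nat.card (Subgroup.zpowers (y : G)) ≤ Nat.card A0.1 := hA0 ⟨_, hBE⟩
  rw [hA0bot, Subgroup.card_bot] at hcard
  have hBbot : Subgroup.zpowers (y : G) = ⊥ := Subgroup.eq_bot_of_card_le _ hcard
  have hy1 : (y : G) = 1 := by
    have : (y : G) ∈ Subgroup.zpowers (y : G) := Subgroup.mem_zpowers _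
    rw [hBbot] at this
    exact Subgroup.mem_bot.mp this
  have h1 : orderOf y = 1 := by
    rw [orderOf_eq_one_iff]
    exact Subtype.ext hy1
  omega

end Cfsg.Agent.Lib.Helper81.Sims
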