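import Cfsg.Agent.Lib.Helper81.SimsODefs
import Cfsg.Agent.Lib.Helper81.SimsOOmZProps

/-!
# Sims, Part III: piece VVProps

`V = ⟨h Z h⁻¹ : h ∈ H⟩`: each `cj h Z ≤ cj h Q = Q` and is central in `cj h K ≥ Q`, so `V ≤ Z(Q)`; `V` is `H`-invariant; `V` is abelian generated by elements of square 1, so has exponent 2.
-/

namespace Cfsg.Agent.Lib.Helper81.Sims

open Subgroup

universe u

variable {G : Type u} [Group G] [Finite G] {H K : Subgroup G}

omit [Finite G] in
/-- the core `QQ H K` is invariant under `H` -/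
theorem sovvprops_cj_QQ {h : G} (hh : h ∈ H) : cj h (QQ H K) = QQ H K := by
  ext x
  rw [mem_cj, mem_QQ, mem_QQ]
  constructor
  · intro hx a ha
    have h1 := hx (h⁻¹ * a) (H.mul_mem (H.inv_mem hh) ha)
    rw [mem_cj] at h1 ⊢
    have e : (h⁻¹ * a)⁻¹ * (h⁻¹ * x * h) * (h⁻¹ * a) = a⁻¹ * x * a := by group
    rw [e] at h1
    exact h1
  · intro hx a ha
    have h1 := hx (h * a) (H.mul_mem hh ha)
    rw [mem_cj] at h1 ⊢
    have e : (h * a)⁻¹ * x * (h * a) = a⁻¹ * (h⁻¹ * x * h) * a := by group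
    rw [e] at h1
    exact h1

theorem VV_props (hB : Base H K) (hb : HB H K) :
    VV H K ≤ QQ H K ∧ (∀ h ∈ H, cj h (VV H K) = VV H K) ∧
      (∀ x ∈ VV H K, ∀ q ∈ QQ H K, x * q = q * x) ∧ (∀ x ∈ VV H K, x * x = 1) := by
  obtain ⟨hZQ, -, -⟩ := OmZ_props hB hb
  have h1 : VV H K ≤ QQ H K := by
    unfold VV
    refine iSup_le fun h => ?_
    calc cj (h : G) (OmZ K) ≤ cj (h : G) (QQ H K) := cj_mono hZQ
      _ = QQ H K := sovvprops_cj_QQ h.2
  have hle : ∀ h ∈ H, cj h (VV H K) ≤ VV H K := by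
    intro h hh
    have e : cj h (VV H K) = ⨆ a : H, cj h (cj (a : G) (OmZ K)) := by
      unfold VV
      exact Subgroup.map_iSup _ _
    rw [e]
    refine iSup_le fun a => ?_
    rw [← cj_mul]
    exact cj_le_VV (H.mul_mem hh a.2)
  have h2 : ∀ h ∈ H, cj h (VV H K) = VV H K := by
    intro h hh
    refine le_antisymm (hle h hh) ?_
    have h5 := cj_mono (c := h) (hle h⁻¹ (H.inv_mem hh))
    rwa [cj_cj_inv] at h5
  have h3 : ∀ x ∈ VV H K, ∀ q ∈ QQ H K, x * q = q * x := by
    have hc : VV H K ≤ Subgroup.centralizer (QQ H K : Set G) := by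
      unfold VV
      refine iSup_le fun h => ?_
      intro x hx
      rw [Subgroup.mem_centralizer_iff]
      intro q hq
      rw [mem_cj] at hx
      have hq' := (mem_QQ.1 hq) h h.2
      rw [mem_cj] at hq'
      have h5 := hx.2.1 _ hq'
      have e1 : (h : G)⁻¹ * x * h * ((h : G)⁻¹ * q * h) = (h : G)⁻¹ * (x * q) * h := by group
      have e2 : (h : G)⁻¹ * q * h * ((h : G)⁻¹ * x * h) = (h : G)⁻¹ * (q * x) * h := by group
      rw [e1, e2] at h5
      exact (mul_left_cancel (mul_right_cancel h5)).symm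
    intro x hx q hq
    exact ((Subgroup.mem_centralizer_iff.1 (hc hx)) q hq).symm
  refine ⟨h1, h2, h3, ?_⟩
  intro x hx
  have key : x ∈ VV H K ∧ x * x = 1 := by
    have hx' := hx
    unfold VV at hx'
    refine Subgroup.iSup_induction (C := fun y => y ∈ VV H K ∧ y * y = 1) _ hx' ?_ ?_ ?_
    · intro h y hy
      refine ⟨cj_le_VV h.2 hy, ?_⟩
      rw [mem_cj] at hy
      have h5 := hy.2.2
      have e : (h : G)⁻¹ * y * h * ((h : G)⁻¹ * y * h) = (h : G)⁻¹ * (y * y) * h := by group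
      rw [e] at h5
      have e2 : y * y = (h : G) * ((h : G)⁻¹ * (y * y) * h) * (h : G)⁻¹ := by group
      rw [e2, h5]
      group
    · exact ⟨one_mem _, one_mul 1⟩
    · rintro a c ⟨ha, ha2⟩ ⟨hc, hc2⟩
      refine ⟨mul_mem ha hc, ?_⟩
      have hcomm : a * c = c * a := h3 a ha c (h1 hc)
      calc a * c * (a * c) = a * (c * a) * c := by group
        _ = a * (a * c) * c := by rw [hcomm]
        _ = (a * a) * (c * c) := by group
        _ = 1 := by rw [ha2, hc2, one_mul]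
  exact key.2

end Cfsg.Agent.Lib.Helper81.Sims
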