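import Cfsg.Agent.Lib.Helper81.SimsODefs
import Cfsg.Agent.Lib.Helper81.SimsOBaseCore
import Cfsg.Agent.Lib.Helper81.SimsOQQCard
import Cfsg.Agent.Lib.Helper81.SimsOOmZProps
import Cfsg.Agent.Lib.Helper81.SimsOVVProps
import Cfsg.Agent.Lib.Helper81.SimsOThompson

/-!
# Sims, Part III: piece CardVV

`|V : Z| = 2`. Take `A` from `thompson`. `A ⊓ Q` has index 2 in `A` (`A ≰ Q`, `|K : Q| = 2`), `B = (A ⊓ Q) ⊔ V` is elementary abelian in `K` (`V` central in `Q`, exponent 2), so `|B| ≤ |A|`, i.e. `|V : A ⊓ V| ≤ 2`. `A ⊓ V ≤ Z`: such `v` commutes with `A` and `Q`, and `A ⊔ Q = K`, `v * v = 1`. So `|V| ≤ 2|Z|`. And `Z ≤ V`, `Z ≠ V` (else `V = Z` is normalised by `H` and `n`, so trivial by `base_core`), so `|V| ≥ 2|Z|` (Lagrange).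
-/

namespace Cfsg.Agent.Lib.Helper81.Sims

open Subgroup

universe u

variable {G : Type u} [Group G] [Finite G] {H K : Subgroup G}

theorem socardvv_card_relIndex {X Y : Subgroup G} (h : X ≤ Y) :
    Nat.card X * X.relIndex Y = Nat.card Y := by
  have h1 := Subgroup.relIndex_mul_relIndex ⊥ X Y bot_le h
  rw [Subgroup.relIndex_bot_left, Subgroup.relIndex_bot_left] at h1
  exact h1

theorem socardvv_relIndex_ne_zero {X Y : Subgroup G} (h : X ≤ Y) : X.relIndex Y ≠ 0 := by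
  intro h0
  have h1 := socardvv_card_relIndex h
  rw [h0, mul_zero] at h1
  exact (Nat.card_pos (α := ↥Y)).ne h1

/-- the product `(A ⊓ Q) V` of two subgroups commuting elementwise -/
def socardvv_B (A Q V : Subgroup G) (hc : ∀ x ∈ V, ∀ q ∈ Q, x * q = q * x) : Subgroup G where
  carrier := {x | ∃ a ∈ A ⊓ Q, ∃ v ∈ V, x = a * v}
  mul_mem' := by
    rintro _ _ ⟨a, ha, v, hv, rfl⟩ ⟨a', ha', v', hv', rfl⟩
    refine ⟨a * a', mul_mem ha ha', v * v', mul_mem hv hv', ?_⟩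
    have e := hc v hv a' (Subgroup.mem_inf.mp ha').2
    calc a * v * (a' * v') = a * (v * a') * v' := by group
      _ = a * (a' * v) * v' := by rw [e]
      _ = a * a' * (v * v') := by group
  one_mem' := ⟨1, one_mem _, 1, one_mem _, (one_mul 1).symm⟩
  inv_mem' := by
    rintro _ ⟨a, ha, v, hv, rfl⟩
    refine ⟨a⁻¹, inv_mem ha, v⁻¹, inv_mem hv, ?_⟩
    have e := hc v⁻¹ (inv_mem hv) a⁻¹ (Subgroup.mem_inf.mp (inv_mem ha)).2
    rw [mul_inv_rev, e]

theorem socardvv_mem_B (A Q V : Subgroup G) (hc : ∀ x ∈ V, ∀ q ∈ Q, x * q = q * x) (x : G) :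
    x ∈ socardvv_B A Q V hc ↔ ∃ a ∈ A ⊓ Q, ∃ v ∈ V, x = a * v := Iff.rfl

theorem card_VV (hB : Base H K) (hb : HB H K) : Nat.card (VV H K) = 2 * Nat.card (OmZ K) := by
  obtain ⟨hZQ, hZne, hZn⟩ := OmZ_props hB hb
  obtain ⟨hVQ, hVH, hVc, hV2⟩ := VV_props hB hb
  obtain ⟨A, hAK, hAc, hA2, hAQ, hAmax⟩ := thompson hB
  have hQK : QQ H K ≤ K := by
    intro x hx
    have h1 := mem_QQ.mp hx 1 H.one_mem
    rwa [cj_one] at h1
  have hZV : OmZ K ≤ VV H K := by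
    have h1 := cj_le_VV (H := H) (K := K) H.one_mem
    rwa [cj_one] at h1
  -- `Z ≠ V`
  have hne : OmZ K ≠ VV H K := by
    intro e
    obtain ⟨n, hn, hnH⟩ := hB.ex
    apply hZne
    refine base_core hB (hZQ.trans (hQK.trans hB.le)) (fun h hh => ?_) hnH (hZn n hn)
    rw [e]
    exact hVH h hh
  -- lower bound
  have hlow : 2 * Nat.card (OmZ K) ≤ Nat.card (VV H K) := by
    obtain ⟨m, hm⟩ := Subgroup.card_dvd_of_le hZV
    have hm0 : m ≠ 0 := by
      rintro rfl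
      rw [mul_zero] at hm
      exact (Nat.card_pos (α := ↥(VV H K))).ne' hm
    have hm1 : m ≠ 1 := by
      rintro rfl
      rw [mul_one] at hm
      exact hne (Subgroup.eq_of_le_of_card_ge hZV hm.le)
    have hm2 : 2 ≤ m := by omega
    rw [hm]
    calc 2 * Nat.card (OmZ K) = Nat.card (OmZ K) * 2 := by ring
      _ ≤ Nat.card (OmZ K) * m := Nat.mul_le_mul_left _ hm2
  -- `Q` has index two in `K`
  have hKQ := QQ_card hB
  have hQrel : (QQ H K).relIndex K = 2 := by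
    have h1 := socardvv_card_relIndex hQK
    rw [hKQ, mul_comm 2] at h1
    exact Nat.eq_of_mul_eq_mul_left Nat.card_pos h1
  obtain ⟨a0, ha0A, ha0Q⟩ : ∃ a0 ∈ A, a0 ∉ QQ H K := by
    by_contra hcon
    push Not at hcon
    exact hAQ hcon
  have hcos : ∀ y ∈ K, y ∉ QQ H K → a0⁻¹ * y ∈ QQ H K := by
    intro y hy hyQ
    have hidx : ((QQ H K).subgroupOf K).index = 2 := hQrel
    have h1 := Subgroup.mul_mem_iff_of_index_two hidx
      (a := (⟨a0⁻¹, K.inv_mem (hAK ha0A)⟩ : K)) (b := ⟨y, hy⟩)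
    rw [Subgroup.mem_subgroupOf, Subgroup.mem_subgroupOf, Subgroup.mem_subgroupOf] at h1
    have h3 : ((⟨a0⁻¹, K.inv_mem (hAK ha0A)⟩ * ⟨y, hy⟩ : K) : G) ∈ QQ H K :=
      h1.mpr ⟨fun h2 => absurd ((QQ H K).inv_mem_iff.mp h2) ha0Q, fun h2 => absurd h2 hyQ⟩
    exact h3
  -- `A ⊓ V ≤ Z`
  have hAVZ : ∀ x ∈ A, x ∈ VV H K → x ∈ OmZ K := by
    intro x hxA hxV
    refine mem_OmZ.mpr ⟨hAK hxA, fun y hy => ?_, hA2 x hxA⟩
    by_cases hyQ : y ∈ QQ H K
    · exact hVc x hxV y hyQ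
    · have hq := hcos y hy hyQ
      have e1 := hVc x hxV _ hq
      have e2 := hAc x hxA a0 ha0A
      calc x * y = x * a0 * (a0⁻¹ * y) := by group
        _ = a0 * x * (a0⁻¹ * y) := by rw [e2]
        _ = a0 * (x * (a0⁻¹ * y)) := by group
        _ = a0 * ((a0⁻¹ * y) * x) := by rw [e1]
        _ = y * x := by group
  -- the elementary abelian subgroup `B = (A ⊓ Q) V`
  obtain ⟨Bs, hBs⟩ : ∃ Bs : Subgroup G, ∀ x, x ∈ Bs ↔ ∃ a ∈ A ⊓ QQ H K, ∃ v ∈ VV H K, x = a * v :=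
    ⟨socardvv_B A (QQ H K) (VV H K) hVc, fun x => socardvv_mem_B A (QQ H K) (VV H K) hVc x⟩
  have hBK : Bs ≤ K := by
    intro x hx
    obtain ⟨a, ha, v, hv, rfl⟩ := (hBs x).mp hx
    exact K.mul_mem (hAK (Subgroup.mem_inf.mp ha).1) (hQK (hVQ hv))
  have hBc : ∀ x ∈ Bs, ∀ y ∈ Bs, x * y = y * x := by
    intro x hx y hy
    obtain ⟨a, ha, v, hv, rfl⟩ := (hBs x).mp hx
    obtain ⟨a', ha', v', hv', rfl⟩ := (hBs y).mp hy
    have e1 := hAc a (Subgroup.mem_inf.mp ha).1 a' (Subgroup.mem_inf.mp ha').1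
    have e2 := hVc v hv a' (Subgroup.mem_inf.mp ha').2
    have e3 := hVc v' hv' a (Subgroup.mem_inf.mp ha).2
    have e4 := hVc v hv v' (hVQ hv')
    calc a * v * (a' * v') = a * (v * a') * v' := by group
      _ = a * (a' * v) * v' := by rw [e2]
      _ = (a * a') * (v * v') := by group
      _ = (a' * a) * (v' * v) := by rw [e1, e4]
      _ = a' * (a * v') * v := by group
      _ = a' * (v' * a) * v := by rw [e3]
      _ = a' * v' * (a * v) := by group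
  have hB2 : ∀ x ∈ Bs, x * x = 1 := by
    intro x hx
    obtain ⟨a, ha, v, hv, rfl⟩ := (hBs x).mp hx
    have e2 := hVc v hv a (Subgroup.mem_inf.mp ha).2
    calc a * v * (a * v) = a * (v * a) * v := by group
      _ = a * (a * v) * v := by rw [e2]
      _ = (a * a) * (v * v) := by group
      _ = 1 := by rw [hA2 a (Subgroup.mem_inf.mp ha).1, hV2 v hv, one_mul]
  have hBA : Nat.card Bs ≤ Nat.card A := hAmax Bs hBK hBc hB2
  have hA0B : A ⊓ QQ H K ≤ Bs := fun a ha => (hBs a).mpr ⟨a, ha, 1, one_mem _, (mul_one a).symm⟩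
  have hVB : VV H K ≤ Bs := fun v hv => (hBs v).mpr ⟨1, one_mem _, v, hv, (one_mul v).symm⟩
  -- counting
  have c1 := socardvv_card_relIndex hA0B
  have c2 := socardvv_card_relIndex (inf_le_left : A ⊓ QQ H K ≤ A)
  have c3 : (A ⊓ QQ H K).relIndex A ≤ 2 := by
    rw [Subgroup.inf_relIndex_left, ← hQrel]
    exact Subgroup.relIndex_le_of_le_right hAK (socardvv_relIndex_ne_zero hQK)
  have c4 : (A ⊓ QQ H K).relIndex (VV H K) ≤ (A ⊓ QQ H K).relIndex Bs :=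
    Subgroup.relIndex_le_of_le_right hVB (socardvv_relIndex_ne_zero hA0B)
  have c5 : (A ⊓ QQ H K).relIndex Bs ≤ 2 := by
    have hpos : 0 < Nat.card ↥(A ⊓ QQ H K) := Nat.card_pos
    have h1 : Nat.card ↥(A ⊓ QQ H K) * (A ⊓ QQ H K).relIndex Bs ≤
        Nat.card ↥(A ⊓ QQ H K) * 2 := by
      rw [c1]
      calc Nat.card Bs ≤ Nat.card A := hBA
        _ = Nat.card ↥(A ⊓ QQ H K) * (A ⊓ QQ H K).relIndex A := c2.symm
        _ ≤ Nat.card ↥(A ⊓ QQ H K) * 2 := Nat.mul_le_mul_left _ c3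
    exact Nat.le_of_mul_le_mul_left h1 hpos
  have c6 := socardvv_card_relIndex (inf_le_right : (A ⊓ QQ H K) ⊓ VV H K ≤ VV H K)
  rw [Subgroup.inf_relIndex_right] at c6
  have c7 : Nat.card ↥((A ⊓ QQ H K) ⊓ VV H K) ≤ Nat.card (OmZ K) :=
    Subgroup.card_le_of_le (fun x hx =>
      hAVZ x (Subgroup.mem_inf.mp (Subgroup.mem_inf.mp hx).1).1 (Subgroup.mem_inf.mp hx).2)
  have hup : Nat.card (VV H K) ≤ 2 * Nat.card (OmZ K) := by
    rw [← c6]
    calc Nat.card ↥((A ⊓ QQ H K) ⊓ VV H K) * (A ⊓ QQ H K).relIndex (VV H K)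
        ≤ Nat.card (OmZ K) * 2 := Nat.mul_le_mul c7 (c4.trans c5)
      _ = 2 * Nat.card (OmZ K) := by ring
  exact le_antisymm hup hlow

end Cfsg.Agent.Lib.Helper81.Sims
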