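import Cfsg.Agent.Lib.Helper81.SimsODefs

/-!
# Sims, Part III: piece GenNotMem

`K` is maximal in `H` since `|H : K| = 3` is prime (`eq_or_eq_of_le_of_le` from SimsMid).
-/

namespace Cfsg.Agent.Lib.Helper81.Sims

open Subgroup

universe u

variable {G : Type u} [Group G] [Finite G] {H K : Subgroup G}

theorem gen_of_notMem (hB : Base H K) {x : G} (hx : x ∈ H) (hxK : x ∉ K) :
    K ⊔ zpowers x = H := by
  have h1 : K ≤ K ⊔ zpowers x := le_sup_left
  have h2 : K ⊔ zpowers x ≤ H := sup_le hB.le ((zpowers_le).2 hx)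
  rcases eq_or_eq_of_le_of_le h1 h2 hB.card with h | h
  · exfalso
    apply hxK
    rw [← h]
    exact (le_sup_right : zpowers x ≤ K ⊔ zpowers x) (mem_zpowers x)
  · exact h

end Cfsg.Agent.Lib.Helper81.Sims
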