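import Cfsg.Agent.Lib.Helper81.SimsODefs

/-!
# Sims, Part III: piece NormInf

`N_H(K) = K`: `K ≤ N_H(K) ≤ H`, `|H : K| = 3` is prime, and `K` is not normal in `H` (`hB.nn`). Use `eq_or_eq_of_le_of_le` from SimsMid.
-/

namespace Cfsg.Agent.Lib.Helper81.Sims

open Subgroup

universe u

variable {G : Type u} [Group G] [Finite G] {H K : Subgroup G}

theorem norm_inf (hB : Base H K) {n : G} (hn : n ∈ normalizer (K : Set G)) (hH : n ∈ H) : n ∈ K := by
  have hKL : K ≤ H ⊓ normalizer (K : Set G) := le_inf hB.le le_normalizer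
  have hLH : H ⊓ normalizer (K : Set G) ≤ H := inf_le_left
  rcases eq_or_eq_of_le_of_le (K := K) (L := H ⊓ normalizer (K : Set G)) (H := H) hKL hLH hB.card
    with h1 | h1
  · rw [← h1]
    exact ⟨hH, hn⟩
  · exact absurd (inf_eq_left.mp h1) hB.nn

end Cfsg.Agent.Lib.Helper81.Sims
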