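import Cfsg.Agent.Lib.Helper81.SimsODefs
import Cfsg.Agent.Lib.Helper81.SimsOQQCard
import Cfsg.Agent.Lib.Helper81.SimsOOmZProps
import Cfsg.Agent.Lib.Helper81.SimsOVVProps
import Cfsg.Agent.Lib.Helper81.SimsOCardVV

/-!
# Sims, Part III: piece TTProps (proved by helper35)

`T = [V, K]` (`TT H K = ⁅VV H K, K⁆`). Fix `y₀ ∈ K ∖ Q`; `K = Q ∪ Q y₀`. For `v ∈ V`: `C_V(y₀) = V ∩ Z(K) = Z` (exponent 2), `v ↦ ⁅v, y₀⁆` is a homomorphism `V → V` with kernel `Z` of index 2 (`card_VV`), and `⁅v, q y₀⁆ = ⁅v, y₀⁆` for `q ∈ Q`; so the set of commutators is `{1, t₀}`, `|T| = 2`; `t₀` is fixed by `K` (`k v k⁻¹ ∈ v Z`, `k y₀ k⁻¹ ∈ y₀ Q`), so `T ≤ Z`. The last clause is the conjugate by `a ∈ H` (`cj a V = V`, `cj a Q = Q`).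
-/

namespace Cfsg.Agent.Lib.Helper81.Sims

open Subgroup

universe u

variable {G : Type u} [Group G] [Finite G] {H K : Subgroup G}

theorem sottprops_QQ_le (H K : Subgroup G) : QQ H K ≤ K := by
  intro x hx
  have h1 := mem_QQ.1 hx 1 H.one_mem
  rwa [cj_one] at h1

theorem sottprops_QQ_conj {a x : G} (ha : a ∈ H) (hx : a⁻¹ * x * a ∈ QQ H K) :
    x ∈ QQ H K := by
  rw [mem_QQ] at hx ⊢
  intro h hh
  have h1 := hx (a⁻¹ * h) (H.mul_mem (H.inv_mem ha) hh)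
  rw [mem_cj] at h1 ⊢
  have e : (a⁻¹ * h)⁻¹ * (a⁻¹ * x * a) * (a⁻¹ * h) = h⁻¹ * x * h := by group
  rw [e] at h1
  exact h1

/-- `Q` has index two in `K`. -/
theorem sottprops_index (hB : Base H K) {x y : G} (hx : x ∈ K) (hy : y ∈ K) :
    x * y ∈ QQ H K ↔ (x ∈ QQ H K ↔ y ∈ QQ H K) := by
  have hle : QQ H K ≤ K := sottprops_QQ_le H K
  have hidx : ((QQ H K).subgroupOf K).index = 2 := by
    have h1 := Subgroup.card_mul_index ((QQ H K).subgroupOf K)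
    have h2 : Nat.card ((QQ H K).subgroupOf K) = Nat.card (QQ H K) :=
      Nat.card_congr (Subgroup.subgroupOfEquivOfLe hle).toEquiv
    rw [h2, QQ_card hB] at h1
    have hpos : 0 < Nat.card (QQ H K) := Nat.card_pos
    exact Nat.eq_of_mul_eq_mul_left hpos (by rw [h1]; ring)
  have h3 := Subgroup.mul_mem_iff_of_index_two hidx (a := (⟨x, hx⟩ : K)) (b := ⟨y, hy⟩)
  simpa [Subgroup.mem_subgroupOf] using h3

theorem TT_props (hB : Base H K) (hb : HB H K) :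
    Nat.card (TT H K) = 2 ∧ TT H K ≤ OmZ K ∧
      ∀ a ∈ H, ∀ y ∈ cj a K, y ∉ QQ H K → ∀ v ∈ VV H K,
        v * y * v⁻¹ * y⁻¹ ∈ cj a (TT H K) ∧ (v * y = y * v → v ∈ cj a (OmZ K)) := by
  obtain ⟨hVQ, hVinv, hVcomm, hVsq⟩ := VV_props hB hb
  have hQK : QQ H K ≤ K := sottprops_QQ_le H K
  have hVK : VV H K ≤ K := hVQ.trans hQK
  have hZV : OmZ K ≤ VV H K := by
    have h1 := cj_le_VV (H := H) (K := K) H.one_mem
    rwa [cj_one] at h1
  have hVinv' : ∀ v ∈ VV H K, v⁻¹ = v := fun v hv => inv_eq_of_mul_eq_one_left (hVsq v hv)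
  have hVab : ∀ v ∈ VV H K, ∀ w ∈ VV H K, v * w = w * v :=
    fun v hv w hw => hVcomm v hv w (hVQ hw)
  have hVconj : ∀ a ∈ H, ∀ v ∈ VV H K, a * v * a⁻¹ ∈ VV H K := by
    intro a ha v hv
    have h1 := conj_mem_cj (c := a) hv
    rwa [hVinv a ha] at h1
  have hVconj' : ∀ a ∈ H, ∀ v ∈ VV H K, a⁻¹ * v * a ∈ VV H K := by
    intro a ha v hv
    have h1 : v ∈ cj a (VV H K) := by rw [hVinv a ha]; exact hv
    exact mem_cj.1 h1
  -- two elements of `K` outside `Q` differ by an element of `Q`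
  have hdiff : ∀ k ∈ K, k ∉ QQ H K → ∀ y ∈ K, y ∉ QQ H K → k * y⁻¹ ∈ QQ H K := by
    intro k hk hkQ y hy hyQ
    rw [sottprops_index hB hk (K.inv_mem hy)]
    constructor
    · intro h; exact absurd h hkQ
    · intro h
      have h2 := (QQ H K).inv_mem h
      rw [inv_inv] at h2
      exact absurd h2 hyQ
  -- the centraliser in `V` of an element of `K ∖ Q` is `Z`
  have hL1 : ∀ y ∈ K, y ∉ QQ H K → ∀ v ∈ VV H K, v * y = y * v → v ∈ OmZ K := by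
    intro y hy hyQ v hv hvy
    rw [mem_OmZ]
    refine ⟨hVK hv, fun k hk => ?_, hVsq v hv⟩
    by_cases hkQ : k ∈ QQ H K
    · exact hVcomm v hv k hkQ
    · have h1 : k * y⁻¹ ∈ QQ H K := hdiff k hk hkQ y hy hyQ
      have h2 := hVcomm v hv _ h1
      calc v * k = (v * (k * y⁻¹)) * y := by group
        _ = ((k * y⁻¹) * v) * y := by rw [h2]
        _ = (k * y⁻¹) * (v * y) := by group
        _ = (k * y⁻¹) * (y * v) := by rw [hvy]
        _ = k * v := by group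
  have hy₀ : ∃ y₀ ∈ K, y₀ ∉ QQ H K := by
    by_contra hcon
    push_neg at hcon
    have heq : K = QQ H K := le_antisymm hcon hQK
    have h1 := QQ_card hB
    rw [← heq] at h1
    have hpos : 0 < Nat.card K := Nat.card_pos
    omega
  obtain ⟨y₀, hy₀K, hy₀Q⟩ := hy₀
  have hcV : ∀ v ∈ VV H K, ∀ k ∈ K, v * k * v⁻¹ * k⁻¹ ∈ VV H K := by
    intro v hv k hk
    have h1 := hVconj k (hB.le hk) v⁻¹ ((VV H K).inv_mem hv)
    have e : v * k * v⁻¹ * k⁻¹ = v * (k * v⁻¹ * k⁻¹) := by group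
    rw [e]
    exact (VV H K).mul_mem hv h1
  -- the homomorphism `v ↦ ⁅v, y₀⁆`
  let φ : ↥(VV H K) →* G :=
    { toFun := fun v => (v : G) * y₀ * (v : G)⁻¹ * y₀⁻¹
      map_one' := by simp
      map_mul' := by
        intro v w
        have h1 := hcV w w.2 y₀ hy₀K
        show ((v * w : ↥(VV H K)) : G) * y₀ * ((v * w : ↥(VV H K)) : G)⁻¹ * y₀⁻¹ =
          ((v : G) * y₀ * (v : G)⁻¹ * y₀⁻¹) * ((w : G) * y₀ * (w : G)⁻¹ * y₀⁻¹)
        rw [Subgroup.coe_mul]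
        have e1 : (v : G) * w * y₀ * ((v : G) * w)⁻¹ * y₀⁻¹ =
            (v : G) * ((w : G) * y₀ * (w : G)⁻¹ * y₀⁻¹) * (v : G)⁻¹ *
              ((v : G) * y₀ * (v : G)⁻¹ * y₀⁻¹) := by group
        rw [e1]
        have h3 : (v : G) * ((w : G) * y₀ * (w : G)⁻¹ * y₀⁻¹) =
            ((w : G) * y₀ * (w : G)⁻¹ * y₀⁻¹) * (v : G) := hVab _ v.2 _ h1
        rw [h3, mul_inv_cancel_right]
        exact hVab _ h1 _ (hcV v v.2 y₀ hy₀K) }
  have hφ : ∀ v : ↥(VV H K), φ v = (v : G) * y₀ * (v : G)⁻¹ * y₀⁻¹ := fun v => rfl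
  have hker : φ.ker = (OmZ K).subgroupOf (VV H K) := by
    ext v
    rw [MonoidHom.mem_ker, Subgroup.mem_subgroupOf, hφ]
    constructor
    · intro h
      apply hL1 y₀ hy₀K hy₀Q v v.2
      have e : (v : G) * y₀ = ((v : G) * y₀ * (v : G)⁻¹ * y₀⁻¹) * (y₀ * v) := by group
      rw [e, h, one_mul]
    · intro h
      have h1 := (mem_OmZ.1 h).2.1 y₀ hy₀K
      rw [h1]
      group
  have hcard : Nat.card φ.range = 2 := by
    have h1 := Subgroup.card_mul_index φ.ker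
    rw [Subgroup.index_ker, hker, Nat.card_congr (Subgroup.subgroupOfEquivOfLe hZV).toEquiv,
      card_VV hB hb] at h1
    have hpos : 0 < Nat.card (OmZ K) := Nat.card_pos
    exact Nat.eq_of_mul_eq_mul_left hpos (by rw [h1]; ring)
  have hT : TT H K = φ.range := by
    apply le_antisymm
    · unfold TT
      rw [Subgroup.commutator_le]
      intro v hv k hk
      rw [commutatorElement_def]
      by_cases hkQ : k ∈ QQ H K
      · have h1 := hVcomm v hv k hkQ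
        have e : v * k * v⁻¹ * k⁻¹ = 1 := by rw [h1]; group
        rw [e]
        exact φ.range.one_mem
      · have h1 : k * y₀⁻¹ ∈ QQ H K := hdiff k hk hkQ y₀ hy₀K hy₀Q
        refine ⟨⟨v, hv⟩, ?_⟩
        rw [hφ]
        show v * y₀ * v⁻¹ * y₀⁻¹ = v * k * v⁻¹ * k⁻¹
        have h2 := hVcomm v hv _ h1
        have h3 := hVcomm _ (hcV v hv y₀ hy₀K) _ h1
        calc v * y₀ * v⁻¹ * y₀⁻¹
            = (v * y₀ * v⁻¹ * y₀⁻¹) * (k * y₀⁻¹) * (k * y₀⁻¹)⁻¹ := by group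
          _ = (k * y₀⁻¹) * (v * y₀ * v⁻¹ * y₀⁻¹) * (k * y₀⁻¹)⁻¹ := by rw [h3]
          _ = ((k * y₀⁻¹) * v) * y₀ * v⁻¹ * y₀⁻¹ * (k * y₀⁻¹)⁻¹ := by group
          _ = (v * (k * y₀⁻¹)) * y₀ * v⁻¹ * y₀⁻¹ * (k * y₀⁻¹)⁻¹ := by rw [h2]
          _ = v * k * v⁻¹ * k⁻¹ := by group
    · rintro _ ⟨v, rfl⟩
      rw [hφ, ← commutatorElement_def]
      unfold TT
      exact Subgroup.commutator_mem_commutator v.2 hy₀K
  have hTZ : TT H K ≤ OmZ K := by
    rw [hT]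
    rintro _ ⟨v, rfl⟩
    rw [hφ]
    have hc := hcV v v.2 y₀ hy₀K
    apply hL1 y₀ hy₀K hy₀Q _ hc
    obtain ⟨w, hw⟩ : ∃ w : G, w = y₀ * (v : G) * y₀⁻¹ := ⟨_, rfl⟩
    have hwV : w ∈ VV H K := by
      rw [hw]
      exact hVconj y₀ (hB.le hy₀K) v v.2
    have hyy : y₀ * y₀ ∈ QQ H K := by
      rw [sottprops_index hB hy₀K hy₀K]
    have h1 := hVcomm v v.2 _ hyy
    have h2 := hVab v v.2 w hwV
    have hwi := hVinv' w hwV
    have ec : (v : G) * y₀ * (v : G)⁻¹ * y₀⁻¹ = (v : G) * w := by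
      have e0 : (v : G) * y₀ * (v : G)⁻¹ * y₀⁻¹ = (v : G) * w⁻¹ := by rw [hw]; group
      rw [e0, hwi]
    rw [ec]
    have e1 : y₀ * (v : G) = w * y₀ := by rw [hw]; group
    have e2 : y₀ * w = (v : G) * y₀ := by
      rw [hw]
      calc y₀ * (y₀ * (v : G) * y₀⁻¹) = ((v : G) * (y₀ * y₀)) * y₀⁻¹ := by rw [h1]; group
        _ = (v : G) * y₀ := by group
    calc (v : G) * w * y₀ = w * (v : G) * y₀ := by rw [h2]
      _ = w * ((v : G) * y₀) := by group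
      _ = w * (y₀ * w) := by rw [e2]
      _ = (w * y₀) * w := by group
      _ = (y₀ * (v : G)) * w := by rw [e1]
      _ = y₀ * ((v : G) * w) := by group
  refine ⟨by rw [hT]; exact hcard, hTZ, ?_⟩
  intro a ha y hy hyQ v hv
  have hy' : a⁻¹ * y * a ∈ K := mem_cj.1 hy
  have hyQ' : a⁻¹ * y * a ∉ QQ H K := fun h => hyQ (sottprops_QQ_conj ha h)
  have hv' : a⁻¹ * v * a ∈ VV H K := hVconj' a ha v hv
  constructor
  · rw [mem_cj]
    have e : a⁻¹ * (v * y * v⁻¹ * y⁻¹) * a =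
        (a⁻¹ * v * a) * (a⁻¹ * y * a) * (a⁻¹ * v * a)⁻¹ * (a⁻¹ * y * a)⁻¹ := by group
    rw [e, ← commutatorElement_def]
    unfold TT
    exact Subgroup.commutator_mem_commutator hv' hy'
  · intro hvy
    rw [mem_cj]
    apply hL1 _ hy' hyQ' _ hv'
    calc a⁻¹ * v * a * (a⁻¹ * y * a) = a⁻¹ * (v * y) * a := by group
      _ = a⁻¹ * (y * v) * a := by rw [hvy]
      _ = a⁻¹ * y * a * (a⁻¹ * v * a) := by group

end Cfsg.Agent.Lib.Helper81.Sims
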