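import Cfsg.Agent.Lib.Helper81.SimsODefs
import Cfsg.Agent.Lib.Helper81.SimsOBaseCore
import Cfsg.Agent.Lib.Helper81.SimsONormInf
import Cfsg.Agent.Lib.Helper81.SimsOGenNotMem
import Cfsg.Agent.Lib.Helper81.SimsOOmZProps
import Cfsg.Agent.Lib.Helper81.SimsOVVProps
import Cfsg.Agent.Lib.Helper81.SimsOCardVV
import Cfsg.Agent.Lib.Helper81.SimsOTTProps

/-!
# Sims, Part III: piece CCProps (proved by helper92)

`C = ⋂ cj h Z`. For distinct conjugates `S = cj a K ≠ S' = cj a' K`: `cj a Z ⊓ cj a' Z` is centralised by `S ⊔ S' = H`, hence central in `H`, hence inside every `cj h Z`; so it equals `C`, and `C` is central in `H`. `cj a Z ≠ cj a' Z` (else `Z` would be central in `H`, normalised by `n`, trivial by `base_core`), both have index 2 in `V` (`card_VV`), so `C` has index 2 in `Z`. `T ⊓ C = ⊥`: if `T ≤ C` then `K`, hence every conjugate, hence `H` acts trivially on `V/C`, so `Z` is `H`-invariant, contradiction as before.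
-/

namespace Cfsg.Agent.Lib.Helper81.Sims

open Subgroup

universe u

variable {G : Type u} [Group G] [Finite G] {H K : Subgroup G}

theorem soccprops_card_mul_relIndex {A B : Subgroup G} (h : A ≤ B) :
    Nat.card A * A.relIndex B = Nat.card B := by
  have := Subgroup.relIndex_mul_relIndex (⊥ : Subgroup G) A B bot_le h
  rwa [Subgroup.relIndex_bot_left, Subgroup.relIndex_bot_left] at this

/-- conjugates of `K` by elements of `H` lie in `H` -/
theorem soccprops_cj_le (hB : Base H K) {a : G} (ha : a ∈ H) : cj a K ≤ H := by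
  intro x hx
  rw [mem_cj] at hx
  have h1 := hB.le hx
  have h2 := H.mul_mem (H.mul_mem ha h1) (H.inv_mem ha)
  have e : a * (a⁻¹ * x * a) * a⁻¹ = x := by group
  rwa [e] at h2

/-- two distinct conjugates of `K` generate `H` -/
theorem soccprops_gen (hB : Base H K) {a a' : G} (ha : a ∈ H) (ha' : a' ∈ H)
    (hne : cj a K ≠ cj a' K) : cj a K ⊔ cj a' K = H := by
  have hcard : Nat.card H = 3 * Nat.card (cj a K) := by
    rw [card_cj]
    exact hB.card
  rcases eq_or_eq_of_le_of_le (le_sup_left : cj a K ≤ cj a K ⊔ cj a' K)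
      (sup_le (soccprops_cj_le hB ha) (soccprops_cj_le hB ha')) hcard with h1 | h1
  · exfalso
    apply hne
    have hle : cj a' K ≤ cj a K := by
      rw [← h1]
      exact le_sup_right
    exact (Subgroup.eq_of_le_of_card_ge hle (by rw [card_cj, card_cj])).symm
  · exact h1

/-- elements of `cj a Z` commute with the elements of `cj a K` -/
theorem soccprops_comm {a x y : G} (hx : x ∈ cj a (OmZ K)) (hy : y ∈ cj a K) :
    x * y = y * x := by
  rw [mem_cj] at hx hy
  have h1 := (mem_OmZ.mp hx).2.1 _ hy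
  have e1 : a⁻¹ * x * a * (a⁻¹ * y * a) = a⁻¹ * (x * y) * a := by group
  have e2 : a⁻¹ * y * a * (a⁻¹ * x * a) = a⁻¹ * (y * x) * a := by group
  rw [e1, e2] at h1
  exact mul_left_cancel (mul_right_cancel h1)

/-- an element of two distinct conjugates of `Z` is central in `H` -/
theorem soccprops_central (hB : Base H K) {a a' : G} (ha : a ∈ H) (ha' : a' ∈ H)
    (hne : cj a K ≠ cj a' K) {x : G} (hx : x ∈ cj a (OmZ K)) (hx' : x ∈ cj a' (OmZ K)) :
    ∀ h ∈ H, x * h = h * x := by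
  have hle : H ≤ Subgroup.centralizer ({x} : Set G) := by
    rw [← soccprops_gen hB ha ha' hne]
    refine sup_le ?_ ?_
    · intro y hy
      rw [Subgroup.mem_centralizer_singleton_iff]
      exact (soccprops_comm hx hy).symm
    · intro y hy
      rw [Subgroup.mem_centralizer_singleton_iff]
      exact (soccprops_comm hx' hy).symm
  intro h hh
  have h1 := hle hh
  rw [Subgroup.mem_centralizer_singleton_iff] at h1
  exact h1.symm

/-- an element of a conjugate of `Z` which is central in `H` lies in `C` -/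
theorem soccprops_mem_CC {a x : G} (ha : a ∈ H) (hx : x ∈ cj a (OmZ K))
    (hc : ∀ h ∈ H, x * h = h * x) : x ∈ CC H K := by
  rw [mem_CC]
  intro h hh
  rw [mem_cj] at hx ⊢
  have e1 : a⁻¹ * x * a = x := by
    rw [mul_assoc, hc a ha, ← mul_assoc, inv_mul_cancel, one_mul]
  have e2 : h⁻¹ * x * h = x := by
    rw [mul_assoc, hc h hh, ← mul_assoc, inv_mul_cancel, one_mul]
  rw [e1] at hx
  rw [e2]
  exact hx

theorem soccprops_mem_normalizer {a : G} (h : cj a K = K) : a ∈ normalizer (K : Set G) := by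
  rw [mem_normalizer_iff]
  intro x
  constructor
  · intro hx
    have h1 := conj_mem_cj (c := a) hx
    rwa [h] at h1
  · intro hx
    have h1 : a * x * a⁻¹ ∈ cj a K := by
      rw [h]
      exact hx
    rw [mem_cj] at h1
    have e : a⁻¹ * (a * x * a⁻¹) * a = x := by group
    rwa [e] at h1

theorem soccprops_exists (hB : Base H K) : ∃ a ∈ H, cj a K ≠ K := by
  by_contra hcon
  push Not at hcon
  apply hB.nn
  intro a ha
  exact soccprops_mem_normalizer (hcon a ha)

/-- `Z` is not `H`-invariant -/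
theorem soccprops_not_inv (hB : Base H K) (hb : HB H K) :
    ¬ ∀ h ∈ H, cj h (OmZ K) = OmZ K := by
  intro hall
  obtain ⟨hZQ, hZne, hZn⟩ := OmZ_props hB hb
  obtain ⟨n, hn, hnH⟩ := hB.ex
  have hZH : OmZ K ≤ H := fun x hx => hB.le (mem_OmZ.mp hx).1
  exact hZne (base_core hB hZH hall hnH (hZn n hn))

/-- the elements of `H` acting trivially on `V` modulo a subgroup `C` central in `H` -/
def soccprops_W (H V C : Subgroup G) (hC : ∀ c ∈ C, ∀ h ∈ H, c * h = h * c) : Subgroup G where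
  carrier := {h | h ∈ H ∧ ∀ v ∈ V, v * h * v⁻¹ * h⁻¹ ∈ C}
  one_mem' := ⟨H.one_mem, fun v _ => by simp [C.one_mem]⟩
  mul_mem' := by
    rintro h h' ⟨hh, h1⟩ ⟨hh', h1'⟩
    refine ⟨H.mul_mem hh hh', fun v hv => ?_⟩
    have e : v * (h * h') * v⁻¹ * (h * h')⁻¹ =
        (v * h * v⁻¹ * h⁻¹) * (h * (v * h' * v⁻¹ * h'⁻¹) * h⁻¹) := by group
    rw [e]
    have e2 : h * (v * h' * v⁻¹ * h'⁻¹) * h⁻¹ = v * h' * v⁻¹ * h'⁻¹ := by
      rw [← hC _ (h1' v hv) h hh, mul_inv_cancel_right]
    rw [e2]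
    exact C.mul_mem (h1 v hv) (h1' v hv)
  inv_mem' := by
    rintro h ⟨hh, h1⟩
    refine ⟨H.inv_mem hh, fun v hv => ?_⟩
    have e : v * h⁻¹ * v⁻¹ * h⁻¹⁻¹ = h⁻¹ * (v * h * v⁻¹ * h⁻¹)⁻¹ * h := by group
    rw [e]
    have hc := C.inv_mem (h1 v hv)
    have e2 : h⁻¹ * (v * h * v⁻¹ * h⁻¹)⁻¹ * h = (v * h * v⁻¹ * h⁻¹)⁻¹ := by
      rw [mul_assoc, hC _ hc h hh, ← mul_assoc, inv_mul_cancel, one_mul]
    rw [e2]
    exact hc

theorem soccprops_mem_W (H V C : Subgroup G) (hC : ∀ c ∈ C, ∀ h ∈ H, c * h = h * c) (h : G) :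
    h ∈ soccprops_W H V C hC ↔ h ∈ H ∧ ∀ v ∈ V, v * h * v⁻¹ * h⁻¹ ∈ C := Iff.rfl

theorem soccprops_cjT_le (hC3 : ∀ c ∈ CC H K, ∀ h ∈ H, c * h = h * c)
    (hTC : TT H K ≤ CC H K) {a : G} (ha : a ∈ H) : cj a (TT H K) ≤ CC H K := by
  intro x hx
  rw [mem_cj] at hx
  have hc := hTC hx
  have e : x = a⁻¹ * x * a := by
    have h1 := hC3 _ hc a⁻¹ (H.inv_mem ha)
    rw [mul_inv_cancel_right] at h1
    exact mul_left_cancel h1
  rw [e]
  exact hc

theorem CC_props (hB : Base H K) (hb : HB H K) :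
    2 * Nat.card (CC H K) = Nat.card (OmZ K) ∧
      (∀ a ∈ H, ∀ a' ∈ H, cj a K ≠ cj a' K → cj a (OmZ K) ⊓ cj a' (OmZ K) = CC H K) ∧
      (∀ c ∈ CC H K, ∀ h ∈ H, c * h = h * c) ∧ TT H K ⊓ CC H K = ⊥ := by
  obtain ⟨hZQ, hZne, hZn⟩ := OmZ_props hB hb
  obtain ⟨hVQ, hVinv, hVc, hV2⟩ := VV_props hB hb
  have hcardV := card_VV hB hb
  obtain ⟨hT2, hTZ, hTtr⟩ := TT_props hB hb
  have h2 : ∀ a ∈ H, ∀ a' ∈ H, cj a K ≠ cj a' K →
      cj a (OmZ K) ⊓ cj a' (OmZ K) = CC H K := by
    intro a ha a' ha' hne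
    apply le_antisymm
    · intro x hx
      exact soccprops_mem_CC ha hx.1 (soccprops_central hB ha ha' hne hx.1 hx.2)
    · intro x hx
      rw [mem_CC] at hx
      exact ⟨hx a ha, hx a' ha'⟩
  obtain ⟨a₁, ha₁, hne₁⟩ := soccprops_exists hB
  have hne₁' : cj 1 K ≠ cj a₁ K := by
    rw [cj_one]
    exact fun h => hne₁ h.symm
  have hC : OmZ K ⊓ cj a₁ (OmZ K) = CC H K := by
    have h1 := h2 1 H.one_mem a₁ ha₁ hne₁'
    rwa [cj_one] at h1
  have hCZ : CC H K ≤ OmZ K := by
    rw [← hC]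
    exact inf_le_left
  have h3 : ∀ c ∈ CC H K, ∀ h ∈ H, c * h = h * c := by
    intro c hc
    rw [mem_CC] at hc
    exact soccprops_central hB H.one_mem ha₁ hne₁' (hc 1 H.one_mem) (hc a₁ ha₁)
  have hZV : OmZ K ≤ VV H K := by
    have h1 := cj_le_VV (K := K) H.one_mem
    rwa [cj_one] at h1
  refine ⟨?_, h2, h3, ?_⟩
  · -- the index of `C` in `Z`
    have hZ1V : cj a₁ (OmZ K) ≤ VV H K := cj_le_VV ha₁
    have hcard1 : Nat.card (cj a₁ (OmZ K)) = Nat.card (OmZ K) := card_cj _ _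
    have hpos : 0 < Nat.card (OmZ K) := Nat.card_pos
    have hr2 : (cj a₁ (OmZ K)).relIndex (VV H K) = 2 := by
      have h1 := soccprops_card_mul_relIndex hZ1V
      rw [hcard1, hcardV] at h1
      have h' : Nat.card (OmZ K) * (cj a₁ (OmZ K)).relIndex (VV H K) =
          Nat.card (OmZ K) * 2 := by
        rw [h1, mul_comm]
      exact Nat.eq_of_mul_eq_mul_left hpos h'
    have hnle : ¬ OmZ K ≤ cj a₁ (OmZ K) := by
      intro hle
      have heq : OmZ K = cj a₁ (OmZ K) := Subgroup.eq_of_le_of_card_ge hle (le_of_eq hcard1)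
      have hcen : ∀ z ∈ OmZ K, ∀ h ∈ H, z * h = h * z := by
        intro z hz
        have hz1 : z ∈ cj 1 (OmZ K) := by
          rw [cj_one]
          exact hz
        have hz2 : z ∈ cj a₁ (OmZ K) := by
          rw [← heq]
          exact hz
        exact soccprops_central hB H.one_mem ha₁ hne₁' hz1 hz2
      apply soccprops_not_inv hB hb
      intro h hh
      symm
      apply Subgroup.eq_of_le_of_card_ge
      · intro z hz
        rw [mem_cj]
        have e : h⁻¹ * z * h = z := by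
          rw [mul_assoc, hcen z hz h hh, ← mul_assoc, inv_mul_cancel, one_mul]
        rw [e]
        exact hz
      · rw [card_cj]
    have hr : (cj a₁ (OmZ K)).relIndex (OmZ K) = 2 := by
      have hle := Subgroup.relIndex_le_of_le_right (H := cj a₁ (OmZ K)) hZV
        (by rw [hr2]; norm_num)
      rw [hr2] at hle
      have hne1 : (cj a₁ (OmZ K)).relIndex (OmZ K) ≠ 1 :=
        fun h => hnle (Subgroup.relIndex_eq_one.mp h)
      have hne0 : (cj a₁ (OmZ K)).relIndex (OmZ K) ≠ 0 := by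
        intro h0
        have h1 := Subgroup.relIndex_dvd_card (cj a₁ (OmZ K)) (OmZ K)
        rw [h0] at h1
        have h4 := Nat.eq_zero_of_zero_dvd h1
        omega
      omega
    have hfin := soccprops_card_mul_relIndex (inf_le_left : OmZ K ⊓ cj a₁ (OmZ K) ≤ OmZ K)
    rw [Subgroup.inf_relIndex_left, hr, hC] at hfin
    omega
  · -- `T ⊓ C = ⊥`
    by_contra hne
    have hTC : TT H K ≤ CC H K := by
      have hdvd := Subgroup.card_dvd_of_le (inf_le_left : TT H K ⊓ CC H K ≤ TT H K)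
      rw [hT2] at hdvd
      rcases (Nat.dvd_prime Nat.prime_two).mp hdvd with h1 | h1
      · exact absurd (Subgroup.card_eq_one.mp h1) hne
      · have h4 := Subgroup.eq_of_le_of_card_ge (inf_le_left : TT H K ⊓ CC H K ≤ TT H K)
          (by rw [h1, hT2])
        rw [← h4]
        exact inf_le_right
    have hconj : ∀ a ∈ H, cj a K ≤ soccprops_W H (VV H K) (CC H K) h3 := by
      intro a ha y hy
      rw [soccprops_mem_W]
      refine ⟨soccprops_cj_le hB ha hy, fun v hv => ?_⟩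
      by_cases hyQ : y ∈ QQ H K
      · rw [hVc v hv y hyQ, mul_inv_cancel_right, mul_inv_cancel]
        exact (CC H K).one_mem
      · exact soccprops_cjT_le h3 hTC ha (hTtr a ha y hy hyQ v hv).1
    have hW : H ≤ soccprops_W H (VV H K) (CC H K) h3 := by
      intro x hx
      have hx' : x ∈ cj 1 K ⊔ cj a₁ K := by
        rw [soccprops_gen hB H.one_mem ha₁ hne₁']
        exact hx
      exact (sup_le (hconj 1 H.one_mem) (hconj a₁ ha₁)) hx'
    apply soccprops_not_inv hB hb
    intro h hh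
    symm
    apply Subgroup.eq_of_le_of_card_ge
    · intro z hz
      rw [mem_cj]
      have hc := ((soccprops_mem_W _ _ _ h3 _).mp (hW (H.inv_mem hh))).2 z (hZV hz)
      have hcZ : z * h⁻¹ * z⁻¹ * h⁻¹⁻¹ ∈ OmZ K := hCZ hc
      have e : h⁻¹ * z * h = (z * h⁻¹ * z⁻¹ * h⁻¹⁻¹)⁻¹ * z := by group
      rw [e]
      exact (OmZ K).mul_mem ((OmZ K).inv_mem hcZ) hz
    · rw [card_cj]

end Cfsg.Agent.Lib.Helper81.Sims
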