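import Cfsg.Agent.Lib.Helper81.SimsODefs
import Cfsg.Agent.Lib.Helper81.SimsOBaseCore
import Cfsg.Agent.Lib.Helper81.SimsOGenNotMem
import Cfsg.Agent.Lib.Helper81.SimsOOmZProps
import Cfsg.Agent.Lib.Helper81.SimsOVVProps

/-!
# Sims, Part III: piece CentVV

`C_H(V) ≤ Q`: `M = C_H(V)` is normal in `H`. If `M ≤ K` then `M ≤ Q` (`mem_QQ`). Otherwise take `x ∈ M`, `x ∉ K`: `x` and `K` centralise `Z = OmZ K ≤ V`, so `H = K ⊔ zpowers x` centralises `Z`, `Z` is normalised by `H` and by `n ∈ N_G(K) ∖ H`, so `Z = ⊥` by `base_core`, contradicting `OmZ_props`.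
-/

namespace Cfsg.Agent.Lib.Helper81.Sims

open Subgroup

universe u

variable {G : Type u} [Group G] [Finite G] {H K : Subgroup G}

theorem cent_VV (hB : Base H K) (hb : HB H K) {x : G} (hx : x ∈ H)
    (hc : ∀ v ∈ VV H K, x * v = v * x) : x ∈ QQ H K := by
  obtain ⟨hZQ, hZne, hZn⟩ := OmZ_props hB hb
  obtain ⟨hVQ, hVinv, hVc, hV2⟩ := VV_props hB hb
  have hconj : ∀ y ∈ H, (∀ v ∈ VV H K, y * v = v * y) → ∀ h ∈ H, ∀ v ∈ VV H K,
      (h⁻¹ * y * h) * v = v * (h⁻¹ * y * h) := by
    intro y hy hyc h hh v hv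
    have h1 : h * v * h⁻¹ ∈ VV H K := by
      have h0 := conj_mem_cj (c := h) hv
      rwa [hVinv h hh] at h0
    have h2 := hyc _ h1
    calc (h⁻¹ * y * h) * v = h⁻¹ * (y * (h * v * h⁻¹)) * h := by group
      _ = h⁻¹ * ((h * v * h⁻¹) * y) * h := by rw [h2]
      _ = v * (h⁻¹ * y * h) := by group
  by_cases hcase : ∀ y ∈ H, (∀ v ∈ VV H K, y * v = v * y) → y ∈ K
  · rw [mem_QQ]
    intro h hh
    rw [mem_cj]
    exact hcase _ (H.mul_mem (H.mul_mem (H.inv_mem hh) hx) hh) (hconj x hx hc h hh)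
  · exfalso
    push Not at hcase
    obtain ⟨y, hyH, hyc, hyK⟩ := hcase
    have hZV : OmZ K ≤ VV H K := by
      have h0 := cj_le_VV (H := H) (K := K) (h := 1) H.one_mem
      rwa [cj_one] at h0
    have hgen : K ⊔ zpowers y = H := gen_of_notMem hB hyH hyK
    have hcen : H ≤ Subgroup.centralizer (OmZ K : Set G) := by
      rw [← hgen, sup_le_iff]
      constructor
      · intro k hk
        rw [Subgroup.mem_centralizer_iff]
        intro z hz
        exact (mem_OmZ.mp hz).2.1 k hk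
      · rw [Subgroup.zpowers_le, Subgroup.mem_centralizer_iff]
        intro z hz
        exact (hyc z (hZV hz)).symm
    have hH : ∀ h ∈ H, cj h (OmZ K) = OmZ K := by
      intro h hh
      have hh' := Subgroup.mem_centralizer_iff.mp (hcen hh)
      ext z
      rw [mem_cj]
      constructor
      · intro hz
        have e := hh' _ hz
        have e2 : h⁻¹ * z * h * h = z * h := by rw [e]; group
        have e3 : z = h⁻¹ * z * h := (mul_right_cancel e2).symm
        rw [e3]; exact hz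
      · intro hz
        have e := hh' z hz
        have e3 : h⁻¹ * z * h = z := by rw [mul_assoc, e, ← mul_assoc, inv_mul_cancel, one_mul]
        rw [e3]; exact hz
    obtain ⟨n, hn, hnH⟩ := hB.ex
    have hZle : OmZ K ≤ H := fun z hz => hB.le (mem_OmZ.mp hz).1
    exact hZne (base_core hB hZle hH hnH (hZn n hn))

end Cfsg.Agent.Lib.Helper81.Sims
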