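import Cfsg.Agent.Lib.Helper81.SimsODefs
import Cfsg.Agent.Lib.Helper81.SimsONormInf

/-!
# Sims, Part III: piece SylInf

Two distinct `H`-conjugates of `K` meet in the core `QQ H K`: `K` has exactly 3 conjugates in `H` (`N_H(K) = K`, index 3); an element of two of them normalises both, so it permutes the 3 conjugates fixing two, hence all three, hence lies in the third as well (`N_H` of a conjugate is that conjugate).
-/

namespace Cfsg.Agent.Lib.Helper81.Sims

open Subgroup

universe u

variable {G : Type u} [Group G] [Finite G] {H K : Subgroup G}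

/-- A permutation of a 3-element type with two distinct fixed points is trivial. -/
theorem sosylinf_perm {X : Type*} (h3 : Nat.card X = 3) (σ : Equiv.Perm X) (p p' : X)
    (hpp : p ≠ p') (hp : σ p = p) (hp' : σ p' = p') (q : X) : σ q = q := by
  by_contra hne
  have hfin : Finite X := Nat.finite_of_card_ne_zero (by rw [h3]; norm_num)
  classical
  have : Fintype X := Fintype.ofFinite X
  have hqp : q ≠ p := by
    intro h
    rw [h] at hne
    exact hne hp
  have hqp' : q ≠ p' := by
    intro h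
    rw [h] at hne
    exact hne hp'
  have hrp : σ q ≠ p := fun h => hqp (σ.injective (h.trans hp.symm))
  have hrp' : σ q ≠ p' := fun h => hqp' (σ.injective (h.trans hp'.symm))
  have hcard : ({p, p', q, σ q} : Finset X).card = 4 := by
    rw [Finset.card_insert_of_notMem, Finset.card_insert_of_notMem,
      Finset.card_insert_of_notMem, Finset.card_singleton]
    · simp only [Finset.mem_singleton]
      exact fun h => hne h.symm
    · simp only [Finset.mem_insert, Finset.mem_singleton, not_or]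
      exact ⟨fun h => hqp' h.symm, fun h => hrp' h.symm⟩
    · simp only [Finset.mem_insert, Finset.mem_singleton, not_or]
      exact ⟨hpp, fun h => hqp h.symm, fun h => hrp h.symm⟩
  have h4 := Finset.card_le_univ ({p, p', q, σ q} : Finset X)
  rw [hcard, ← Nat.card_eq_fintype_card, h3] at h4
  omega

/-- An element of `H` fixing two distinct cosets of `K` (index 3) fixes all of them. -/
theorem sosylinf_fix (hKH : K ≤ H) (hcard : Nat.card H = 3 * Nat.card K) {a a' x : G}
    (ha : a ∈ H) (ha' : a' ∈ H) (hx : x ∈ H) (hne : a⁻¹ * a' ∉ K) (h1 : a⁻¹ * x * a ∈ K)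
    (h2 : a'⁻¹ * x * a' ∈ K) {h : G} (hh : h ∈ H) : h⁻¹ * x * h ∈ K := by
  classical
  set K' : Subgroup ↥H := K.subgroupOf H with hK'
  have hK'card : Nat.card K' = Nat.card K :=
    Nat.card_congr (Subgroup.subgroupOfEquivOfLe hKH).toEquiv
  have hpos : 0 < Nat.card K := Nat.card_pos
  have hidx : K'.index = 3 := by
    have := Subgroup.card_mul_index K'
    rw [hK'card, hcard, mul_comm] at this
    exact Nat.eq_of_mul_eq_mul_right hpos this
  have h3 : Nat.card (↥H ⧸ K') = 3 := hidx
  let x' : ↥H := ⟨x, hx⟩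
  let σ : Equiv.Perm (↥H ⧸ K') := MulAction.toPerm x'
  have key : ∀ (b : G) (hb : b ∈ H),
      σ (QuotientGroup.mk (⟨b, hb⟩ : ↥H)) = QuotientGroup.mk (⟨b, hb⟩ : ↥H) ↔
        b⁻¹ * x * b ∈ K := by
    intro b hb
    change x' • (QuotientGroup.mk (⟨b, hb⟩ : ↥H) : ↥H ⧸ K') = _ ↔ _
    rw [MulAction.Quotient.smul_mk, QuotientGroup.eq, hK', Subgroup.mem_subgroupOf]
    have e : (((x' • (⟨b, hb⟩ : ↥H))⁻¹ * (⟨b, hb⟩ : ↥H) : ↥H) : G) = (b⁻¹ * x * b)⁻¹ := by
      simp [x', smul_eq_mul, mul_assoc]
    rw [e, inv_mem_iff]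
  have hne' : (QuotientGroup.mk (⟨a, ha⟩ : ↥H) : ↥H ⧸ K') ≠ QuotientGroup.mk (⟨a', ha'⟩ : ↥H) := by
    intro h
    rw [QuotientGroup.eq, hK', Subgroup.mem_subgroupOf] at h
    exact hne h
  exact (key h hh).mp
    (sosylinf_perm h3 σ _ _ hne' ((key a ha).mpr h1) ((key a' ha').mpr h2) _)

theorem syl_inf (hB : Base H K) {a a' : G} (ha : a ∈ H) (ha' : a' ∈ H)
    (hne : cj a K ≠ cj a' K) : cj a K ⊓ cj a' K = QQ H K := by
  apply le_antisymm
  · intro x hx
    obtain ⟨hx1, hx2⟩ := Subgroup.mem_inf.mp hx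
    rw [mem_cj] at hx1 hx2
    have hxH : x ∈ H := by
      have k1 := hB.le hx1
      have k2 := H.mul_mem (H.mul_mem ha k1) (H.inv_mem ha)
      have e : a * (a⁻¹ * x * a) * a⁻¹ = x := by group
      rw [e] at k2
      exact k2
    have hne' : a⁻¹ * a' ∉ K := by
      intro h
      apply hne
      have e : cj a' K = cj a (cj (a⁻¹ * a') K) := by
        rw [← cj_mul]
        congr 1
        group
      rw [e, cj_eq_self_of_mem h]
    rw [mem_QQ]
    intro h hh
    rw [mem_cj]
    exact sosylinf_fix hB.le hB.card ha ha' hxH hne' hx1 hx2 hh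
  · intro x hx
    rw [mem_QQ] at hx
    exact Subgroup.mem_inf.mpr ⟨hx a ha, hx a' ha'⟩

end Cfsg.Agent.Lib.Helper81.Sims
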