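import Cfsg.Agent.Lib.Helper81.SimsODefs
import Cfsg.Agent.Lib.Helper81.SimsONormInf
import Cfsg.Agent.Lib.Helper81.SimsOQQCard
import Cfsg.Agent.Lib.Helper81.SimsOSylInf
import Cfsg.Agent.Lib.Helper81.SimsOGenNotMem
import Cfsg.Agent.Lib.Helper81.SimsOOmZProps
import Cfsg.Agent.Lib.Helper81.SimsOVVProps
import Cfsg.Agent.Lib.Helper81.SimsOCentVV
import Cfsg.Agent.Lib.Helper81.SimsOTTProps
import Cfsg.Agent.Lib.Helper81.SimsOCCProps
import Cfsg.Agent.Lib.Helper81.SimsOCardVV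

/-!
# Sims, Part III: piece Case1K

Case 1, `|Z| = 2` (so `C = ⊥`). Take `v ∈ V`, `y ∈ cj n V` not commuting (`y ∈ K ∖ Q`, `v ∉ cj n Q`). For `q ∈ Q`: `⁅q,y⁆ ∈ Q ⊓ cj n V ≤ Z` (an element of `cj n V` commuting with `v` lies in `cj n Z = Z`). So `q ↦ ⁅q,y⁆` is a homomorphism `Q → Z` (Z central in `K`), `|Q : C_Q(y)| ≤ 2`, `C_Q(y) ⊴ Q`. Take `d ∈ H ∖ K`, `y' = d y d⁻¹ ∉ K`; `X = C_Q(y) ⊓ C_Q(y')` has index ≤ 4 in `Q`, is normal in `Q` and centralised by `y, y'`, and `Q ⊔ ⟨y, y'⟩ = H`; so `X ⊴ H`, `X ≤ K`. If `X ≠ ⊥` it contains a non-trivial element of `Z(K)` of order 2, which is central in `H`, hence in `C = ⊥`. So `X = ⊥`, `|Q| ≤ 4`, `|K| ≤ 8` (`QQ_card`).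
-/

namespace Cfsg.Agent.Lib.Helper81.Sims

open Subgroup

universe u

variable {G : Type u} [Group G] [Finite G] {H K : Subgroup G}

/-- `Q` is normalised by `H`. -/
theorem socase1k_QQ_conj {h q : G} (hh : h ∈ H) (hq : q ∈ QQ H K) : h * q * h⁻¹ ∈ QQ H K := by
  rw [mem_QQ] at hq ⊢
  intro a ha
  rw [mem_cj]
  have h1 := hq (h⁻¹ * a) (H.mul_mem (H.inv_mem hh) ha)
  rw [mem_cj] at h1
  have e : (h⁻¹ * a)⁻¹ * q * (h⁻¹ * a) = a⁻¹ * (h * q * h⁻¹) * a := by group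
  rw [e] at h1
  exact h1

theorem socase1k_QQ_le (H K : Subgroup G) : QQ H K ≤ K := by
  intro q hq
  have h1 := (mem_QQ.1 hq) 1 H.one_mem
  rw [cj_one] at h1
  exact h1

theorem case1_K (hB : Base H K) (hb : HB H K) {n : G} (hn : n ∈ normalizer (K : Set G))
    (hnH : n ∉ H) (hV : ¬ VV H K ≤ cj n (QQ H K)) (hZ : Nat.card (OmZ K) = 2) :
    Nat.card K ≤ 8 := by
  classical
  obtain ⟨hZQ, -, hZn⟩ := OmZ_props hB hb
  obtain ⟨hVQ, hVH, hVcen, hVsq⟩ := VV_props hB hb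
  obtain ⟨-, -, hTT⟩ := TT_props hB hb
  obtain ⟨hCcard, -, -, -⟩ := CC_props hB hb
  have hQK : QQ H K ≤ K := socase1k_QQ_le H K
  have hKH : K ≤ H := hB.le
  have hnK : ∀ x : G, x ∈ K ↔ n * x * n⁻¹ ∈ K := fun x => mem_normalizer_iff.mp hn x
  obtain ⟨v, hvV, hvnQ⟩ := SetLike.not_le_iff_exists.1 hV
  have hvK : v ∈ K := hQK (hVQ hvV)
  -- an element of `cj n V` commuting with `v` lies in `Z`
  have hA : ∀ y ∈ cj n (VV H K), y * v = v * y → y ∈ OmZ K := by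
    intro y hy hcomm
    have h1 : n⁻¹ * v * n ∈ cj 1 K := by
      rw [cj_one, hnK]
      have e : n * (n⁻¹ * v * n) * n⁻¹ = v := by group
      rw [e]
      exact hvK
    have h2 : n⁻¹ * v * n ∉ QQ H K := fun h => hvnQ (mem_cj.2 h)
    have h3 : n⁻¹ * y * n ∈ VV H K := mem_cj.1 hy
    have h4 := (hTT 1 H.one_mem (n⁻¹ * v * n) h1 h2 (n⁻¹ * y * n) h3).2 (by
      calc n⁻¹ * y * n * (n⁻¹ * v * n) = n⁻¹ * (y * v) * n := by group
        _ = n⁻¹ * (v * y) * n := by rw [hcomm]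
        _ = n⁻¹ * v * n * (n⁻¹ * y * n) := by group)
    rw [cj_one] at h4
    have h5 : y ∈ cj n (OmZ K) := mem_cj.2 h4
    rw [hZn n hn] at h5
    exact h5
  have hcardV : Nat.card (cj n (VV H K)) = 4 := by
    rw [card_cj, card_VV hB hb, hZ]
  have hnotle : ¬ cj n (VV H K) ≤ OmZ K := by
    intro h
    have h1 := Subgroup.card_le_of_le h
    rw [hcardV, hZ] at h1
    omega
  obtain ⟨y, hyV, hyZ⟩ := SetLike.not_le_iff_exists.1 hnotle
  have hyv : y * v ≠ v * y := fun h => hyZ (hA y hyV h)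
  have hyK : y ∈ K := by
    have h1 : cj n (VV H K) ≤ cj n K := cj_mono (hVQ.trans hQK)
    rw [cj_eq_of_mem_normalizer hn] at h1
    exact h1 hyV
  have hyQ : y ∉ QQ H K := fun h => hyv (hVcen v hvV y h).symm
  have hyH : y ∈ H := hKH hyK
  -- `K` normalises `cj n V`
  have hKnV : ∀ k ∈ K, ∀ w ∈ cj n (VV H K), k * w * k⁻¹ ∈ cj n (VV H K) := by
    intro k hk w hw
    rw [mem_cj] at hw ⊢
    have hk' : n⁻¹ * k * n ∈ K := by
      rw [hnK]
      have e : n * (n⁻¹ * k * n) * n⁻¹ = k := by group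
      rw [e]
      exact hk
    have h1 : (n⁻¹ * k * n) * (n⁻¹ * w * n) * (n⁻¹ * k * n)⁻¹ ∈ cj (n⁻¹ * k * n) (VV H K) :=
      conj_mem_cj hw
    rw [hVH _ (hKH hk')] at h1
    have e : n⁻¹ * (k * w * k⁻¹) * n = (n⁻¹ * k * n) * (n⁻¹ * w * n) * (n⁻¹ * k * n)⁻¹ := by
      group
    rw [e]
    exact h1
  -- the commutators `[q, y]`, `q ∈ Q`, lie in `Z`
  have hc : ∀ q ∈ QQ H K, q * y * q⁻¹ * y⁻¹ ∈ OmZ K := by
    intro q hq
    apply hA
    · exact (cj n (VV H K)).mul_mem (hKnV q (hQK hq) y hyV) ((cj n (VV H K)).inv_mem hyV)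
    · have h1 : q * y * q⁻¹ * y⁻¹ ∈ QQ H K := by
        have h2 : y * q⁻¹ * y⁻¹ ∈ QQ H K := socase1k_QQ_conj hyH ((QQ H K).inv_mem hq)
        have e : q * y * q⁻¹ * y⁻¹ = q * (y * q⁻¹ * y⁻¹) := by group
        rw [e]
        exact (QQ H K).mul_mem hq h2
      exact (hVcen v hvV _ h1).symm
  have hcen : ∀ z ∈ OmZ K, ∀ k ∈ K, z * k = k * z := fun z hz k hk =>
    (mem_OmZ.1 hz).2.1 k hk
  -- `C_Q(y)` is normalised by `Q`
  have hL7 : ∀ r ∈ QQ H K, ∀ x ∈ QQ H K, x * y = y * x →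
      (r * x * r⁻¹) * y = y * (r * x * r⁻¹) := by
    intro r hr x hx hxy
    have hz := hc r⁻¹ ((QQ H K).inv_mem hr)
    rw [inv_inv] at hz
    have h1 : x * (r⁻¹ * y * r * y⁻¹) = (r⁻¹ * y * r * y⁻¹) * x :=
      (hcen _ hz x (hQK hx)).symm
    have h2 : x * (r⁻¹ * y * r) = (r⁻¹ * y * r) * x := by
      calc x * (r⁻¹ * y * r) = x * (r⁻¹ * y * r * y⁻¹) * y := by group
        _ = (r⁻¹ * y * r * y⁻¹) * x * y := by rw [h1]
        _ = (r⁻¹ * y * r * y⁻¹) * (x * y) := by group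
        _ = (r⁻¹ * y * r * y⁻¹) * (y * x) := by rw [hxy]
        _ = (r⁻¹ * y * r) * x := by group
    calc r * x * r⁻¹ * y = r * (x * (r⁻¹ * y * r)) * r⁻¹ := by group
      _ = r * ((r⁻¹ * y * r) * x) * r⁻¹ := by rw [h2]
      _ = y * (r * x * r⁻¹) := by group
  -- an element `d ∈ H ∖ K`
  have hex : ∃ d ∈ H, d ∉ K := by
    by_contra hcon
    have hHK : H ≤ K := fun x hx => by
      by_contra hxK
      exact hcon ⟨x, hx, hxK⟩
    have h1 := Subgroup.card_le_of_le hHK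
    have h2 : 0 < Nat.card K := Nat.card_pos
    rw [hB.card] at h1
    omega
  obtain ⟨d, hdH, hdK⟩ := hex
  have hdconj : ∀ q ∈ QQ H K, d⁻¹ * q * d ∈ QQ H K := by
    intro q hq
    have h1 := socase1k_QQ_conj (H.inv_mem hdH) hq
    rwa [inv_inv] at h1
  -- the subgroup `X = C_Q(y) ⊓ C_Q(d y d⁻¹)`
  obtain ⟨X, hXdef⟩ : ∃ X : Subgroup G, X = QQ H K ⊓ centralizer ({y} : Set G) ⊓
      centralizer ({d * y * d⁻¹} : Set G) := ⟨_, rfl⟩
  have hXmem : ∀ x, x ∈ X ↔ x ∈ QQ H K ∧ x * y = y * x ∧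
      x * (d * y * d⁻¹) = (d * y * d⁻¹) * x := by
    intro x
    rw [hXdef, Subgroup.mem_inf, Subgroup.mem_inf, Subgroup.mem_centralizer_iff,
      Subgroup.mem_centralizer_iff]
    constructor
    · rintro ⟨⟨h1, h2⟩, h3⟩
      exact ⟨h1, (h2 y rfl).symm, (h3 _ rfl).symm⟩
    · rintro ⟨h1, h2, h3⟩
      refine ⟨⟨h1, fun g hg => ?_⟩, fun g hg => ?_⟩
      · rw [Set.mem_singleton_iff.1 hg]
        exact h2.symm
      · rw [Set.mem_singleton_iff.1 hg]
        exact h3.symm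
  have hXQ : ∀ r ∈ QQ H K, ∀ x ∈ X, r * x * r⁻¹ ∈ X := by
    intro r hr x hx
    obtain ⟨hx1, hx2, hx3⟩ := (hXmem x).1 hx
    refine (hXmem _).2 ⟨socase1k_QQ_conj (hKH (hQK hr)) hx1, hL7 r hr x hx1 hx2, ?_⟩
    have hr' : d⁻¹ * r * d ∈ QQ H K := hdconj r hr
    have hx' : d⁻¹ * x * d ∈ QQ H K := hdconj x hx1
    have hxy' : (d⁻¹ * x * d) * y = y * (d⁻¹ * x * d) := by
      calc d⁻¹ * x * d * y = d⁻¹ * (x * (d * y * d⁻¹)) * d := by group
        _ = d⁻¹ * ((d * y * d⁻¹) * x) * d := by rw [hx3]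
        _ = y * (d⁻¹ * x * d) := by group
    have h1 := hL7 (d⁻¹ * r * d) hr' (d⁻¹ * x * d) hx' hxy'
    calc r * x * r⁻¹ * (d * y * d⁻¹)
        = d * (((d⁻¹ * r * d) * (d⁻¹ * x * d) * (d⁻¹ * r * d)⁻¹) * y) * d⁻¹ := by group
      _ = d * (y * ((d⁻¹ * r * d) * (d⁻¹ * x * d) * (d⁻¹ * r * d)⁻¹)) * d⁻¹ := by rw [h1]
      _ = (d * y * d⁻¹) * (r * x * r⁻¹) := by group
  have hQN : QQ H K ≤ normalizer (X : Set G) := by
    intro r hr
    rw [mem_normalizer_iff]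
    intro x
    constructor
    · exact hXQ r hr x
    · intro h
      have h1 := hXQ r⁻¹ ((QQ H K).inv_mem hr) _ h
      have e : r⁻¹ * (r * x * r⁻¹) * r⁻¹⁻¹ = x := by group
      rw [e] at h1
      exact h1
  have hcomN : ∀ g : G, (∀ x ∈ X, x * g = g * x) → g ∈ normalizer (X : Set G) := by
    intro g hg
    rw [mem_normalizer_iff]
    intro x
    constructor
    · intro hx
      have e : g * x * g⁻¹ = x := by
        rw [← hg x hx]
        group
      rw [e]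
      exact hx
    · intro hx
      have h1 : g * x * g⁻¹ * g = g * (g * x * g⁻¹) := hg _ hx
      have h2 : g * x = g * (g * x * g⁻¹) := by
        rw [← h1]
        group
      have e : x = g * x * g⁻¹ := mul_left_cancel h2
      rw [e]
      exact hx
  have hyN : y ∈ normalizer (X : Set G) := hcomN y (fun x hx => ((hXmem x).1 hx).2.1)
  have hy'N : d * y * d⁻¹ ∈ normalizer (X : Set G) :=
    hcomN _ (fun x hx => ((hXmem x).1 hx).2.2)
  have hQcard := QQ_card hB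
  -- `K = Q ⟨y⟩`
  have hKgen : QQ H K ⊔ zpowers y = K := by
    have hle : QQ H K ⊔ zpowers y ≤ K := sup_le hQK (zpowers_le.2 hyK)
    obtain ⟨m, hm⟩ := Subgroup.card_dvd_of_le (le_sup_left : QQ H K ≤ QQ H K ⊔ zpowers y)
    have hpos : 0 < Nat.card (QQ H K) := Nat.card_pos
    have hm1 : m ≠ 1 := by
      intro h
      rw [h, mul_one] at hm
      have h1 := Subgroup.eq_of_le_of_card_ge
        (le_sup_left : QQ H K ≤ QQ H K ⊔ zpowers y) (le_of_eq hm)
      apply hyQ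
      rw [h1]
      exact (le_sup_right : zpowers y ≤ QQ H K ⊔ zpowers y) (mem_zpowers y)
    have hm0 : m ≠ 0 := by
      intro h
      rw [h, mul_zero] at hm
      have h1 : 0 < Nat.card (QQ H K ⊔ zpowers y : Subgroup G) := Nat.card_pos
      omega
    have hm2 : 2 ≤ m := by omega
    apply Subgroup.eq_of_le_of_card_ge hle
    rw [hQcard, hm]
    exact Nat.mul_le_mul_left _ hm2 |>.trans_eq' (by ring)
  have hKN : K ≤ normalizer (X : Set G) := by
    rw [← hKgen]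
    exact sup_le hQN (zpowers_le.2 hyN)
  -- `d y d⁻¹ ∉ K`
  have hcjd : cj d K ≠ cj 1 K := by
    intro h
    rw [cj_one] at h
    apply hdK
    refine norm_inf hB ?_ hdH
    rw [mem_normalizer_iff]
    intro x
    constructor
    · intro hx
      have h1 : d * x * d⁻¹ ∈ cj d K := conj_mem_cj hx
      rw [h] at h1
      exact h1
    · intro hx
      rw [← h, mem_cj] at hx
      have e : d⁻¹ * (d * x * d⁻¹) * d = x := by group
      rw [e] at hx
      exact hx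
  have hy'K : d * y * d⁻¹ ∉ K := by
    intro h
    have h1 : d * y * d⁻¹ ∈ cj d K ⊓ cj 1 K := ⟨conj_mem_cj hyK, by rw [cj_one]; exact h⟩
    rw [syl_inf hB hdH H.one_mem hcjd] at h1
    have h2 := hdconj _ h1
    have e : d⁻¹ * (d * y * d⁻¹) * d = y := by group
    rw [e] at h2
    exact hyQ h2
  have hy'H : d * y * d⁻¹ ∈ H := H.mul_mem (H.mul_mem hdH hyH) (H.inv_mem hdH)
  have hHgen : K ⊔ zpowers (d * y * d⁻¹) = H := gen_of_notMem hB hy'H hy'K
  have hXK : X ≤ K := fun x hx => hQK ((hXmem x).1 hx).1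
  -- `X` is trivial
  have hXbot : X = ⊥ := by
    by_contra hXne
    have hnorm : ∀ k ∈ K, ∀ x ∈ X, k * x * k⁻¹ ∈ X := fun k hk x hx =>
      (mem_normalizer_iff.mp (hKN hk) x).1 hx
    letI act : MulAction ↥K ↥X :=
      { smul := fun k x => ⟨(k : G) * (x : G) * (k : G)⁻¹, hnorm k.1 k.2 x.1 x.2⟩
        one_smul := fun x => Subtype.ext (by
          show ((1 : ↥K) : G) * (x : G) * ((1 : ↥K) : G)⁻¹ = x
          simp)
        mul_smul := fun a b x => Subtype.ext (by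
          show ((a * b : ↥K) : G) * (x : G) * ((a * b : ↥K) : G)⁻¹ =
            (a : G) * ((b : G) * (x : G) * (b : G)⁻¹) * (a : G)⁻¹
          simp [mul_assoc]) }
    have hsmul : ∀ (k : ↥K) (x : ↥X), ((k • x : ↥X) : G) = (k : G) * (x : G) * (k : G)⁻¹ :=
      fun k x => rfl
    have hfix1 : (1 : ↥X) ∈ MulAction.fixedPoints ↥K ↥X := by
      intro k
      apply Subtype.ext
      rw [hsmul]
      simp
    have hXp : IsPGroup 2 ↥X := hB.two.to_le hXK
    haveI : Fact (Nat.Prime 2) := ⟨Nat.prime_two⟩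
    have h2dvd : 2 ∣ Nat.card ↥X := by
      obtain ⟨j, hj⟩ := IsPGroup.iff_card.1 hXp
      have hj0 : j ≠ 0 := by
        intro h
        rw [h, pow_zero] at hj
        exact hXne (Subgroup.eq_bot_of_card_eq X hj)
      rw [hj]
      exact dvd_pow_self 2 hj0
    obtain ⟨b, hbfix, hbne⟩ :=
      hB.two.exists_fixed_point_of_prime_dvd_card_of_fixed_point ↥X h2dvd hfix1
    have hb1 : (b : G) ≠ 1 := fun h => hbne (Subtype.ext h.symm)
    have hbK : ∀ k ∈ K, k * (b : G) = (b : G) * k := by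
      intro k hk
      have h1 := hbfix ⟨k, hk⟩
      have h2 : k * (b : G) * k⁻¹ = (b : G) := by
        have h3 := congrArg Subtype.val h1
        rw [hsmul] at h3
        exact h3
      calc k * (b : G) = k * (b : G) * k⁻¹ * k := by group
        _ = (b : G) * k := by rw [h2]
    have hbpow : ∃ j : ℕ, (b : G) ^ (2 ^ j) = 1 := by
      obtain ⟨j, hj⟩ := hB.two ⟨(b : G), hXK b.2⟩
      refine ⟨j, ?_⟩
      have h1 := congrArg Subtype.val hj
      simpa using h1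
    have hj : (b : G) ^ (2 ^ Nat.find hbpow) = 1 := Nat.find_spec hbpow
    have hj0 : Nat.find hbpow ≠ 0 := by
      intro h
      rw [h, pow_zero, pow_one] at hj
      exact hb1 hj
    obtain ⟨i, hi⟩ : ∃ i, Nat.find hbpow = i + 1 := Nat.exists_eq_succ_of_ne_zero hj0
    have hi1 : (b : G) ^ (2 ^ i) ≠ 1 := fun h =>
      Nat.find_min hbpow (by omega : i < Nat.find hbpow) h
    obtain ⟨z, hz⟩ : ∃ z : G, z = (b : G) ^ (2 ^ i) := ⟨_, rfl⟩
    have hzz : z * z = 1 := by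
      rw [hz, ← pow_add, ← two_mul, ← pow_succ', ← hi]
      exact hj
    have hzX : z ∈ X := by
      rw [hz]
      exact X.pow_mem b.2 _
    have hzK : ∀ k ∈ K, z * k = k * z := by
      intro k hk
      have hcm : Commute k ((b : G) ^ (2 ^ i)) := Commute.pow_right (hbK k hk) _
      rw [hz]
      exact hcm.eq.symm
    have hzZ : z ∈ OmZ K := mem_OmZ.2 ⟨hXK hzX, hzK, hzz⟩
    have hzH : ∀ h ∈ H, h * z = z * h := by
      have hle : H ≤ centralizer ({z} : Set G) := by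
        rw [← hHgen]
        refine sup_le ?_ (zpowers_le.2 ?_)
        · intro k hk
          rw [Subgroup.mem_centralizer_iff]
          intro g hg
          rw [Set.mem_singleton_iff.1 hg]
          exact hzK k hk
        · rw [Subgroup.mem_centralizer_iff]
          intro g hg
          rw [Set.mem_singleton_iff.1 hg]
          exact ((hXmem z).1 hzX).2.2
      intro h hh
      exact ((Subgroup.mem_centralizer_iff.1 (hle hh)) z rfl).symm
    have hzC : z ∈ CC H K := by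
      rw [mem_CC]
      intro h hh
      rw [mem_cj]
      have e : h⁻¹ * z * h = z := by
        rw [mul_assoc, ← hzH h hh]
        group
      rw [e]
      exact hzZ
    have hCbot : CC H K = ⊥ := by
      apply Subgroup.eq_bot_of_card_eq
      rw [hZ] at hCcard
      omega
    rw [hCbot, Subgroup.mem_bot] at hzC
    rw [hz] at hzC
    exact hi1 hzC
  -- counting
  let ψ : ↥(QQ H K) → ↥(OmZ K) × ↥(OmZ K) := fun q =>
    (⟨(q : G) * y * (q : G)⁻¹ * y⁻¹, hc q.1 q.2⟩,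
     ⟨(d⁻¹ * (q : G) * d) * y * (d⁻¹ * (q : G) * d)⁻¹ * y⁻¹, hc _ (hdconj q.1 q.2)⟩)
  have hψ : Function.Injective ψ := by
    intro q q' h
    have h1 : (q : G) * y * (q : G)⁻¹ * y⁻¹ = (q' : G) * y * (q' : G)⁻¹ * y⁻¹ :=
      congrArg (fun p : ↥(OmZ K) × ↥(OmZ K) => (p.1 : G)) h
    have h2 : (d⁻¹ * (q : G) * d) * y * (d⁻¹ * (q : G) * d)⁻¹ * y⁻¹ =
        (d⁻¹ * (q' : G) * d) * y * (d⁻¹ * (q' : G) * d)⁻¹ * y⁻¹ :=
      congrArg (fun p : ↥(OmZ K) × ↥(OmZ K) => (p.2 : G)) h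
    have hx : (q' : G)⁻¹ * (q : G) ∈ X := by
      refine (hXmem _).2 ⟨(QQ H K).mul_mem ((QQ H K).inv_mem q'.2) q.2, ?_, ?_⟩
      · have h3 : (q : G) * y * (q : G)⁻¹ = (q' : G) * y * (q' : G)⁻¹ := mul_right_cancel h1
        calc (q' : G)⁻¹ * (q : G) * y
            = (q' : G)⁻¹ * ((q : G) * y * (q : G)⁻¹) * (q : G) := by group
          _ = (q' : G)⁻¹ * ((q' : G) * y * (q' : G)⁻¹) * (q : G) := by rw [h3]
          _ = y * ((q' : G)⁻¹ * (q : G)) := by group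
      · have h3 : (d⁻¹ * (q : G) * d) * y * (d⁻¹ * (q : G) * d)⁻¹ =
            (d⁻¹ * (q' : G) * d) * y * (d⁻¹ * (q' : G) * d)⁻¹ := mul_right_cancel h2
        calc (q' : G)⁻¹ * (q : G) * (d * y * d⁻¹)
            = d * ((d⁻¹ * (q' : G) * d)⁻¹ *
                ((d⁻¹ * (q : G) * d) * y * (d⁻¹ * (q : G) * d)⁻¹) * (d⁻¹ * (q : G) * d)) *
                d⁻¹ := by group
          _ = d * ((d⁻¹ * (q' : G) * d)⁻¹ *
                ((d⁻¹ * (q' : G) * d) * y * (d⁻¹ * (q' : G) * d)⁻¹) * (d⁻¹ * (q : G) * d)) *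
                d⁻¹ := by rw [h3]
          _ = (d * y * d⁻¹) * ((q' : G)⁻¹ * (q : G)) := by group
    rw [hXbot, Subgroup.mem_bot] at hx
    apply Subtype.ext
    exact (inv_mul_eq_one.1 hx).symm
  have hcardQ : Nat.card (QQ H K) ≤ 4 := by
    have h1 := Nat.card_le_card_of_injective ψ hψ
    rw [Nat.card_prod, hZ] at h1
    exact h1
  rw [hQcard]
  omega

end Cfsg.Agent.Lib.Helper81.Sims
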