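import Cfsg.Agent.Lib.Helper81.SimsODefs
import Cfsg.Agent.Lib.Helper81.SimsOBaseCore
import Cfsg.Agent.Lib.Helper81.SimsONormInf
import Cfsg.Agent.Lib.Helper81.SimsOOmZProps
import Cfsg.Agent.Lib.Helper81.SimsOVVProps
import Cfsg.Agent.Lib.Helper81.SimsOCentVV
import Cfsg.Agent.Lib.Helper81.SimsOTTProps
import Cfsg.Agent.Lib.Helper81.SimsOCCProps

/-!
# Sims, Part III: piece Case1Z

Case 1. `V ≤ K ≤ cj n H`, `V ≰ cj n Q`, so (`cent_VV` conjugated by `n`) there are `v ∈ V`, `y ∈ cj n V` with `v y ≠ y v`; `y ∈ K`, `y ∉ Q`. By `TT_props` (with `a = 1`) `⁅v,y⁆ ∈ T`, and by its `n`-conjugate `⁅y,v⁆ ∈ cj n T`; both groups have order 2, so `cj n T = T`. Now `C`, `cj n C`, `cj (n*n) C` and `T` are subgroups of `Z` that meet pairwise trivially (`C ⊓ cj m C = ⊥` for `m ∈ N_G(K) ∖ H` as both are central in groups generating `G`; `T ⊓ C = ⊥`; `n*n ∉ H`), the first three have index 2 in `Z`, `|T| = 2`: this forces `|Z|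 = 2`.
-/

namespace Cfsg.Agent.Lib.Helper81.Sims

open Subgroup

universe u

variable {G : Type u} [Group G] [Finite G] {H K : Subgroup G}

omit [Finite G] in
theorem socase1z_cj_eq_of_comm {X : Subgroup G} {t : G} (h : ∀ x ∈ X, x * t = t * x) :
    cj t X = X := by
  ext x
  rw [mem_cj]
  constructor
  · intro hx
    have h1 := h _ hx
    have e1 : t * (t⁻¹ * x * t) = x * t := by group
    rw [← h1] at e1
    have e : t⁻¹ * x * t = x := mul_right_cancel e1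
    rwa [e] at hx
  · intro hx
    have h1 := h x hx
    have e : t⁻¹ * x * t = x := by
      rw [mul_assoc, h1, ← mul_assoc, inv_mul_cancel, one_mul]
    rw [e]
    exact hx

theorem socase1z_mul_mem (A Z : Subgroup G) (hAZ : A ≤ Z)
    (hcard : 2 * Nat.card A = Nat.card Z) {a b : G} (ha : a ∈ Z) (hb : b ∈ Z)
    (haA : a ∉ A) (hbA : b ∉ A) : a * b ∈ A := by
  have hidx : (A.subgroupOf Z).index = 2 := by
    have h1 := Subgroup.card_mul_index (A.subgroupOf Z)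
    have h2 : Nat.card (A.subgroupOf Z) = Nat.card A :=
      Nat.card_congr (Subgroup.subgroupOfEquivOfLe hAZ).toEquiv
    rw [h2] at h1
    have hpos : 0 < Nat.card A := Nat.card_pos
    exact Nat.eq_of_mul_eq_mul_left hpos (h1.trans (hcard.symm.trans (mul_comm 2 _)))
  have h := Subgroup.mul_mem_iff_of_index_two hidx (a := (⟨a, ha⟩ : Z)) (b := ⟨b, hb⟩)
  rw [Subgroup.mem_subgroupOf, Subgroup.mem_subgroupOf, Subgroup.mem_subgroupOf] at h
  exact h.2 ⟨fun h' => absurd h' haA, fun h' => absurd h' hbA⟩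

theorem case1_Z (hB : Base H K) (hb : HB H K) {n : G} (hn : n ∈ normalizer (K : Set G))
    (hnH : n ∉ H) (hV : ¬ VV H K ≤ cj n (QQ H K)) : Nat.card (OmZ K) = 2 := by
  obtain ⟨hZQ, hZne, hZn⟩ := OmZ_props hB hb
  obtain ⟨hVQ, hVH, hVc, hV2⟩ := VV_props hB hb
  obtain ⟨hT2, hTZ, hTT⟩ := TT_props hB hb
  obtain ⟨hCcard, hCinf, hCc, hTC⟩ := CC_props hB hb
  have hQK : QQ H K ≤ K := by
    intro x hx
    have h1 := mem_QQ.1 hx 1 H.one_mem
    rwa [cj_one] at h1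
  have hZK : OmZ K ≤ K := fun x hx => (mem_OmZ.1 hx).1
  have hCZ : CC H K ≤ OmZ K := by
    intro x hx
    have h1 := mem_CC.1 hx 1 H.one_mem
    rwa [cj_one] at h1
  have hKH : K ≤ H := hB.le
  have hnK : ∀ x, x ∈ K → n * x * n⁻¹ ∈ K := fun x hx => (mem_normalizer_iff.1 hn x).1 hx
  have hnK' : ∀ x, x ∈ K → n⁻¹ * x * n ∈ K := by
    intro x hx
    apply (mem_normalizer_iff.1 hn (n⁻¹ * x * n)).2
    have e : n * (n⁻¹ * x * n) * n⁻¹ = x := by group
    rw [e]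
    exact hx
  -- Step 1: non-commuting `v ∈ V`, `y = n w n⁻¹ ∈ cj n V`
  obtain ⟨v, hvV, hvn⟩ := SetLike.not_le_iff_exists.1 hV
  have hvK : v ∈ K := hQK (hVQ hvV)
  have hxK : n⁻¹ * v * n ∈ K := hnK' v hvK
  have hxQ : n⁻¹ * v * n ∉ QQ H K := fun h => hvn (mem_cj.2 h)
  have hex : ∃ w ∈ VV H K, (n⁻¹ * v * n) * w ≠ w * (n⁻¹ * v * n) := by
    by_contra hcon
    push Not at hcon
    exact hxQ (cent_VV hB hb (hKH hxK) hcon)
  obtain ⟨w, hwV, hwx⟩ := hex
  have hwK : w ∈ K := hQK (hVQ hwV)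
  have h1K : n⁻¹ * v * n ∈ cj 1 K := by
    rw [cj_one]
    exact hxK
  have ht1 := (hTT 1 H.one_mem (n⁻¹ * v * n) h1K hxQ w hwV).1
  rw [cj_one] at ht1
  have hyK : n * w * n⁻¹ ∈ K := hnK w hwK
  have hvy : v * (n * w * n⁻¹) ≠ (n * w * n⁻¹) * v := by
    intro h
    apply hwx
    have e1 : n⁻¹ * v * n * w = n⁻¹ * (v * (n * w * n⁻¹)) * n := by group
    have e2 : w * (n⁻¹ * v * n) = n⁻¹ * ((n * w * n⁻¹) * v) * n := by group
    rw [e1, e2, h]
  have hyQ : n * w * n⁻¹ ∉ QQ H K := by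
    intro h
    exact hvy (hVc v hvV _ h)
  have hy1K : n * w * n⁻¹ ∈ cj 1 K := by
    rw [cj_one]
    exact hyK
  have ht2 := (hTT 1 H.one_mem (n * w * n⁻¹) hy1K hyQ v hvV).1
  rw [cj_one] at ht2
  -- the commutator `s`
  obtain ⟨s, hs⟩ : ∃ s : G, s = v * (n * w * n⁻¹) * v⁻¹ * (n * w * n⁻¹)⁻¹ := ⟨_, rfl⟩
  rw [← hs] at ht2
  have hs1 : s ≠ 1 := by
    intro h
    apply hvy
    have e : v * (n * w * n⁻¹) = s * ((n * w * n⁻¹) * v) := by
      rw [hs]
      group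
    rw [e, h, one_mul]
  have hsn : s⁻¹ ∈ cj n (TT H K) := by
    rw [mem_cj]
    have e : n⁻¹ * s⁻¹ * n = w * (n⁻¹ * v * n) * w⁻¹ * (n⁻¹ * v * n)⁻¹ := by
      rw [hs]
      group
    rw [e]
    exact ht1
  have hsT : s⁻¹ ∈ TT H K := inv_mem ht2
  have ht0 : s⁻¹ ≠ 1 := fun h => hs1 (inv_eq_one.1 h)
  -- `cj n T = T`
  have hnT : cj n (TT H K) = TT H K := by
    have hcardn : Nat.card (cj n (TT H K)) = 2 := by
      rw [card_cj]
      exact hT2
    have hI : TT H K ⊓ cj n (TT H K) ≠ ⊥ := by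
      intro h
      have h0 : s⁻¹ ∈ TT H K ⊓ cj n (TT H K) := ⟨hsT, hsn⟩
      rw [h, Subgroup.mem_bot] at h0
      exact ht0 h0
    have hIcard : Nat.card ↥(TT H K ⊓ cj n (TT H K)) = 2 := by
      have hdvd : Nat.card ↥(TT H K ⊓ cj n (TT H K)) ∣ 2 := by
        rw [← hT2]
        exact Subgroup.card_dvd_of_le inf_le_left
      have hne1 : Nat.card ↥(TT H K ⊓ cj n (TT H K)) ≠ 1 := by
        intro h
        exact hI (Subgroup.eq_bot_of_card_eq _ h)
      rcases (Nat.dvd_prime Nat.prime_two).1 hdvd with h | h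
      · exact absurd h hne1
      · exact h
    have e1 : TT H K ⊓ cj n (TT H K) = TT H K :=
      Subgroup.eq_of_le_of_card_ge inf_le_left (by rw [hIcard, hT2])
    have e2 : TT H K ⊓ cj n (TT H K) = cj n (TT H K) :=
      Subgroup.eq_of_le_of_card_ge inf_le_right (by rw [hIcard, hcardn])
    exact e2.symm.trans e1
  -- the three conjugates of `C`
  have hnn : n * n ∈ normalizer (K : Set G) := mul_mem hn hn
  have hnnH : n * n ∉ H := by
    intro h
    exact hnH (hKH (hB.odd n hn (norm_inf hB hnn h)))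
  have hA : ∀ m : G, m ∈ normalizer (K : Set G) → m ∉ H → CC H K ⊓ cj m (CC H K) = ⊥ := by
    intro m hm hmH
    have hcard3 : Nat.card H = 3 * Nat.card ↥(H ⊓ cj n H) := by
      rw [hB.inf n hn hnH]
      exact hB.card
    have hne : cj m H ≠ H := cj_ne_of_notMem hB.co hB.core hcard3 hmH
    have hnle : ¬ cj m H ≤ H := fun hle =>
      hne (Subgroup.eq_of_le_of_card_ge hle (by rw [card_cj]))
    obtain ⟨t, htm, htH⟩ := SetLike.not_le_iff_exists.1 hnle
    apply base_core hB (X := CC H K ⊓ cj m (CC H K)) (t := t)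
    · exact fun x hx => hKH (hZK (hCZ hx.1))
    · intro h hh
      exact socase1z_cj_eq_of_comm (fun x hx => hCc x hx.1 h hh)
    · exact htH
    · apply socase1z_cj_eq_of_comm
      intro x hx
      have hx2 : m⁻¹ * x * m ∈ CC H K := mem_cj.1 hx.2
      have ht2' : m⁻¹ * t * m ∈ H := mem_cj.1 htm
      have h3 := hCc _ hx2 _ ht2'
      have e1 : x * t = m * ((m⁻¹ * x * m) * (m⁻¹ * t * m)) * m⁻¹ := by group
      have e2 : t * x = m * ((m⁻¹ * t * m) * (m⁻¹ * x * m)) * m⁻¹ := by group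
      rw [e1, e2, h3]
  have hcjbot : ∀ g : G, cj g (⊥ : Subgroup G) = ⊥ := fun g => Subgroup.map_bot _
  have hC1 : CC H K ⊓ cj n (CC H K) = ⊥ := hA n hn hnH
  have hC2 : CC H K ⊓ cj (n * n) (CC H K) = ⊥ := hA (n * n) hnn hnnH
  have hC3 : cj n (CC H K) ⊓ cj (n * n) (CC H K) = ⊥ := by
    rw [cj_mul, ← cj_inf, hC1, hcjbot]
  have hT1 : TT H K ⊓ cj n (CC H K) = ⊥ := by
    have e : TT H K ⊓ cj n (CC H K) = cj n (TT H K ⊓ CC H K) := by
      rw [cj_inf, hnT]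
    rw [e, hTC, hcjbot]
  have hnnT : cj (n * n) (TT H K) = TT H K := by
    rw [cj_mul, hnT, hnT]
  have hT3 : TT H K ⊓ cj (n * n) (CC H K) = ⊥ := by
    have e : TT H K ⊓ cj (n * n) (CC H K) = cj (n * n) (TT H K ⊓ CC H K) := by
      rw [cj_inf, hnnT]
    rw [e, hTC, hcjbot]
  have hC'Z : cj n (CC H K) ≤ OmZ K := by
    have h1 := cj_mono (c := n) hCZ
    rwa [hZn n hn] at h1
  have hC''Z : cj (n * n) (CC H K) ≤ OmZ K := by
    have h1 := cj_mono (c := n * n) hCZ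
    rwa [hZn (n * n) hnn] at h1
  have hC'card : 2 * Nat.card (cj n (CC H K)) = Nat.card (OmZ K) := by
    rw [card_cj]
    exact hCcard
  have hC''card : 2 * Nat.card (cj (n * n) (CC H K)) = Nat.card (OmZ K) := by
    rw [card_cj]
    exact hCcard
  have htZ : s⁻¹ ∈ OmZ K := hTZ hsT
  have htC' : s⁻¹ ∉ cj n (CC H K) := by
    intro h
    have h0 : s⁻¹ ∈ TT H K ⊓ cj n (CC H K) := ⟨hsT, h⟩
    rw [hT1, Subgroup.mem_bot] at h0
    exact ht0 h0
  have htC'' : s⁻¹ ∉ cj (n * n) (CC H K) := by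
    intro h
    have h0 : s⁻¹ ∈ TT H K ⊓ cj (n * n) (CC H K) := ⟨hsT, h⟩
    rw [hT3, Subgroup.mem_bot] at h0
    exact ht0 h0
  -- `C = ⊥`
  have hCbot : CC H K = ⊥ := by
    rw [Subgroup.eq_bot_iff_forall]
    intro c hc
    by_contra hc1
    have hcZ : c ∈ OmZ K := hCZ hc
    have hcC' : c ∉ cj n (CC H K) := by
      intro h
      have h0 : c ∈ CC H K ⊓ cj n (CC H K) := ⟨hc, h⟩
      rw [hC1, Subgroup.mem_bot] at h0
      exact hc1 h0
    have hcC'' : c ∉ cj (n * n) (CC H K) := by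
      intro h
      have h0 : c ∈ CC H K ⊓ cj (n * n) (CC H K) := ⟨hc, h⟩
      rw [hC2, Subgroup.mem_bot] at h0
      exact hc1 h0
    have h1 := socase1z_mul_mem _ _ hC'Z hC'card htZ hcZ htC' hcC'
    have h2 := socase1z_mul_mem _ _ hC''Z hC''card htZ hcZ htC'' hcC''
    have h3 : s⁻¹ * c ∈ cj n (CC H K) ⊓ cj (n * n) (CC H K) := ⟨h1, h2⟩
    rw [hC3, Subgroup.mem_bot] at h3
    have hcs : c = s := by
      have e : s * (s⁻¹ * c) = s * 1 := by rw [h3]
      rw [mul_inv_cancel_left, mul_one] at e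
      exact e
    have h4 : c ∈ TT H K ⊓ CC H K := ⟨by rw [hcs]; exact ht2, hc⟩
    rw [hTC, Subgroup.mem_bot] at h4
    exact hc1 h4
  rw [← hCcard, hCbot, Subgroup.card_bot]

end Cfsg.Agent.Lib.Helper81.Sims
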