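import Cfsg.Agent.Lib.Helper81.SimsODefs

/-!
# Sims, Part III: piece NbProps

`u = a n b`: `u⁻¹ = b⁻¹ n⁻¹ a⁻¹`; `H ⊓ cj u H = cj a (H ⊓ cj n H) = cj a K` by `hB.inf`.
-/

namespace Cfsg.Agent.Lib.Helper81.Sims

open Subgroup

universe u

variable {G : Type u} [Group G] [Finite G] {H K : Subgroup G}

theorem nb_props (hB : Base H K) {u : G} (hu : u ∈ Nb H K) :
    u⁻¹ ∈ Nb H K ∧ (∀ a ∈ H, a * u ∈ Nb H K) ∧ (∀ b ∈ H, u * b ∈ Nb H K) ∧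
      ∃ a ∈ H, H ⊓ cj u H = cj a K := by
  obtain ⟨a, ha, n, hn, hnH, b, hb, rfl⟩ := hu
  refine ⟨?_, ?_, ?_, ?_⟩
  · refine ⟨b⁻¹, H.inv_mem hb, n⁻¹, Subgroup.inv_mem _ hn, ?_, a⁻¹, H.inv_mem ha, ?_⟩
    · intro h
      apply hnH
      have h2 := H.inv_mem h
      rw [inv_inv] at h2
      exact h2
    · group
  · intro a' ha'
    refine ⟨a' * a, H.mul_mem ha' ha, n, hn, hnH, b, hb, ?_⟩
    group
  · intro b' hb'
    refine ⟨a, ha, n, hn, hnH, b * b', H.mul_mem hb hb', ?_⟩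
    group
  · refine ⟨a, ha, ?_⟩
    have h1 : cj (a * n * b) H = cj a (cj n H) := by
      rw [cj_mul, cj_mul, cj_eq_self_of_mem hb]
    have h2 : cj a H = H := cj_eq_self_of_mem ha
    rw [h1]
    nth_rewrite 1 [← h2]
    rw [← cj_inf, hB.inf n hn hnH]

end Cfsg.Agent.Lib.Helper81.Sims
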