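import Cfsg.Agent.Lib.Helper81.SimsODefs
import Cfsg.Agent.Lib.Helper81.SimsOBaseCore
import Cfsg.Agent.Lib.Helper81.SimsONormInf
import Cfsg.Agent.Lib.Helper81.SimsOTTProps
import Cfsg.Agent.Lib.Helper81.SimsOCCProps

/-!
# Sims, Part III: piece ExistsN0

Take `n` from `hB.ex`. If `cj n T ⊓ C ≠ ⊥` then `cj n T ≤ C` (`|T| = 2`). Then `n * n` normalises `K`, `n * n ∉ H` (`norm_inf` + `hB.odd`), and `cj (n*n) T ≤ cj n C`, while `cj n C ⊓ C = ⊥` (central in `cj n H` and in `H`; `base_core`-type argument: it is normalised by `H` and `cj n H`, which generate `G`).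
-/

namespace Cfsg.Agent.Lib.Helper81.Sims

open Subgroup

universe u

variable {G : Type u} [Group G] [Finite G] {H K : Subgroup G}

/-- `C ≤ Ω₁(Z(K))`. -/
theorem soexistsn0_CC_le_OmZ : CC H K ≤ OmZ K := by
  intro x hx
  have h1 := (mem_CC.mp hx) 1 H.one_mem
  rwa [cj_one] at h1

/-- `C ≤ H`. -/
theorem soexistsn0_CC_le_H (hB : Base H K) : CC H K ≤ H := fun _ hx =>
  hB.le (mem_OmZ.mp (soexistsn0_CC_le_OmZ hx)).1

/-- `cj n H` is not contained in `H` for `n ∈ N(K) ∖ H`. -/
theorem soexistsn0_exists_t (hB : Base H K) {n : G} (hn : n ∈ normalizer (K : Set G))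
    (hnH : n ∉ H) : ∃ t : G, t ∈ cj n H ∧ t ∉ H := by
  by_contra hcon
  push Not at hcon
  have hle : cj n H ≤ H := fun t ht => hcon t ht
  have hinf : H ⊓ cj n H = K := hB.inf n hn hnH
  have hEq : cj n H = K := by rw [← hinf]; exact (inf_eq_right.mpr hle).symm
  have hc : Nat.card (cj n H) = Nat.card H := card_cj n H
  rw [hEq, hB.card] at hc
  have hpos : 0 < Nat.card K := Nat.card_pos
  omega

/-- An element commuting with all of `X` normalises `X`. -/
theorem soexistsn0_cj_eq_of_comm {X : Subgroup G} {t : G} (ht : ∀ x ∈ X, x * t = t * x) :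
    cj t X = X := by
  ext x
  rw [mem_cj]
  constructor
  · intro hx
    have h1 := ht _ hx
    have h2 : t⁻¹ * x * t = x := by
      have h3 : t⁻¹ * x * t * t = x * t := by rw [h1]; group
      exact mul_right_cancel h3
    rw [h2] at hx; exact hx
  · intro hx
    have h1 := ht _ hx
    have h2 : t⁻¹ * x * t = x := by rw [mul_assoc, h1]; group
    rw [h2]; exact hx

/-- `cj n C ⊓ C = ⊥` for `n ∈ N(K) ∖ H`. -/
theorem soexistsn0_inf_bot (hB : Base H K) (hb : HB H K) {n : G}
    (hn : n ∈ normalizer (K : Set G)) (hnH : n ∉ H) :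
    cj n (CC H K) ⊓ CC H K = ⊥ := by
  obtain ⟨-, -, hcen, -⟩ := CC_props hB hb
  obtain ⟨t, htn, htH⟩ := soexistsn0_exists_t hB hn hnH
  have hXH : cj n (CC H K) ⊓ CC H K ≤ H := fun x hx => soexistsn0_CC_le_H hB hx.2
  refine base_core hB hXH ?_ htH ?_
  · intro h hh
    exact soexistsn0_cj_eq_of_comm (fun x hx => hcen x hx.2 h hh)
  · refine soexistsn0_cj_eq_of_comm (fun y hy => ?_)
    have hy' := mem_cj.mp hy.1
    have ht' := mem_cj.mp htn
    have h1 := hcen _ hy' _ ht'
    have h2 : n⁻¹ * (y * t) * n = n⁻¹ * (t * y) * n := by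
      calc n⁻¹ * (y * t) * n = (n⁻¹ * y * n) * (n⁻¹ * t * n) := by group
        _ = (n⁻¹ * t * n) * (n⁻¹ * y * n) := h1
        _ = n⁻¹ * (t * y) * n := by group
    exact mul_left_cancel (mul_right_cancel h2)

theorem exists_n0 (hB : Base H K) (hb : HB H K) :
    ∃ n : G, n ∈ normalizer (K : Set G) ∧ n ∉ H ∧ cj n (TT H K) ⊓ CC H K = ⊥ := by
  obtain ⟨n, hn, hnH⟩ := hB.ex
  by_cases hc : cj n (TT H K) ⊓ CC H K = ⊥
  · exact ⟨n, hn, hnH, hc⟩
  · obtain ⟨hT2, -, -⟩ := TT_props hB hb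
    have hle : cj n (TT H K) ≤ CC H K := by
      rw [Subgroup.eq_bot_iff_forall] at hc
      push Not at hc
      obtain ⟨x, hx, hx1⟩ := hc
      have hxT : n⁻¹ * x * n ∈ TT H K := mem_cj.mp hx.1
      have hxne : n⁻¹ * x * n ≠ 1 := by
        intro h
        apply hx1
        have h3 : x = n * (n⁻¹ * x * n) * n⁻¹ := by group
        rw [h3, h]; group
      obtain ⟨z, -, huniq⟩ := (Nat.card_eq_two_iff' (1 : TT H K)).mp hT2
      have hxz : (⟨n⁻¹ * x * n, hxT⟩ : TT H K) = z :=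
        huniq _ (fun h => hxne (congrArg Subtype.val h))
      intro y hy
      have hyT : n⁻¹ * y * n ∈ TT H K := mem_cj.mp hy
      by_cases hy1 : n⁻¹ * y * n = 1
      · have h3 : y = n * (n⁻¹ * y * n) * n⁻¹ := by group
        rw [h3, hy1]
        have h4 : n * 1 * n⁻¹ = 1 := by group
        rw [h4]; exact (CC H K).one_mem
      · have hyz : (⟨n⁻¹ * y * n, hyT⟩ : TT H K) = z :=
          huniq _ (fun h => hy1 (congrArg Subtype.val h))
        have h5 : n⁻¹ * y * n = n⁻¹ * x * n := congrArg Subtype.val (hyz.trans hxz.symm)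
        have h6 : y = x := mul_left_cancel (mul_right_cancel h5)
        rw [h6]; exact hx.2
    have hnn : n * n ∈ normalizer (K : Set G) := (normalizer (K : Set G)).mul_mem hn hn
    have hnnH : n * n ∉ H := by
      intro h
      have h1 : n * n ∈ K := norm_inf hB hnn h
      exact hnH (hB.le (hB.odd n hn h1))
    refine ⟨n * n, hnn, hnnH, ?_⟩
    have h1 : cj (n * n) (TT H K) ≤ cj n (CC H K) := by
      rw [cj_mul]; exact cj_mono hle
    have h2 := soexistsn0_inf_bot hB hb hn hnH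
    exact le_bot_iff.mp (h2 ▸ inf_le_inf_right _ h1)

end Cfsg.Agent.Lib.Helper81.Sims
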