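import Cfsg.Agent.Lib.Helper81.SimsODefs
import Cfsg.Agent.Lib.Helper81.SimsOBaseCore
import Cfsg.Agent.Lib.Helper81.SimsOOmZProps
import Cfsg.Agent.Lib.Helper81.SimsOVVProps
import Cfsg.Agent.Lib.Helper81.SimsOCardVV

/-!
# Sims, Part III: piece InfVV

`Z = cj n Z ≤ cj n V ⊓ V`; `|V| = 2|Z|`, so otherwise `V ≤ cj n V`, `V = cj n V` is normalised by `H` and `n`, trivial by `base_core`, contradiction.
-/

namespace Cfsg.Agent.Lib.Helper81.Sims

open Subgroup

universe u

variable {G : Type u} [Group G] [Finite G] {H K : Subgroup G}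

theorem inf_VV (hB : Base H K) (hb : HB H K) {n : G} (hn : n ∈ normalizer (K : Set G))
    (hnH : n ∉ H) : cj n (VV H K) ⊓ VV H K = OmZ K := by
  obtain ⟨hZQ, hZne, hZn⟩ := OmZ_props hB hb
  obtain ⟨hVQ, hVH, -, -⟩ := VV_props hB hb
  have hcard := card_VV hB hb
  have hZV : OmZ K ≤ VV H K := by
    have h1 := cj_le_VV (H := H) (K := K) (h := 1) H.one_mem
    rwa [cj_one] at h1
  have hZnV : OmZ K ≤ cj n (VV H K) := by
    have h1 := cj_mono (c := n) hZV
    rwa [hZn n hn] at h1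
  have hZI : OmZ K ≤ cj n (VV H K) ⊓ VV H K := le_inf hZnV hZV
  have hIV : cj n (VV H K) ⊓ VV H K ≤ VV H K := inf_le_right
  have hd1 : Nat.card (OmZ K) ∣ Nat.card ↥(cj n (VV H K) ⊓ VV H K) :=
    Subgroup.card_dvd_of_le hZI
  have hd2 : Nat.card ↥(cj n (VV H K) ⊓ VV H K) ∣ Nat.card (VV H K) :=
    Subgroup.card_dvd_of_le hIV
  obtain ⟨k, hk⟩ := hd1
  have hZpos : 0 < Nat.card (OmZ K) := Nat.card_pos
  rw [hk, hcard] at hd2
  have hk2 : k ∣ 2 := by
    have h1 : Nat.card (OmZ K) * k ∣ Nat.card (OmZ K) * 2 := by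
      rwa [mul_comm 2] at hd2
    exact (Nat.mul_dvd_mul_iff_left hZpos).mp h1
  have hk12 : k = 1 ∨ k = 2 := by
    have h1 := Nat.le_of_dvd (by norm_num) hk2
    have h0 : k ≠ 0 := by
      rintro rfl
      simp at hk2
    omega
  rcases hk12 with h1 | h2
  · rw [h1, mul_one] at hk
    exact (Subgroup.eq_of_le_of_card_ge hZI (le_of_eq hk)).symm
  · exfalso
    rw [h2] at hk
    have hIeq : cj n (VV H K) ⊓ VV H K = VV H K :=
      Subgroup.eq_of_le_of_card_ge hIV (by rw [hk, hcard, mul_comm])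
    have hle : VV H K ≤ cj n (VV H K) := by
      intro x hx
      have hx' : x ∈ cj n (VV H K) ⊓ VV H K := by
        rw [hIeq]
        exact hx
      exact hx'.1
    have heq : VV H K = cj n (VV H K) :=
      Subgroup.eq_of_le_of_card_ge hle (by rw [card_cj])
    have hVle : VV H K ≤ H := by
      intro x hx
      have h3 := mem_QQ.mp (hVQ hx) 1 H.one_mem
      rw [cj_one] at h3
      exact hB.le h3
    have hbot : VV H K = ⊥ := base_core hB hVle hVH hnH heq.symm
    apply hZne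
    rw [eq_bot_iff, ← hbot]
    exact hZV

end Cfsg.Agent.Lib.Helper81.Sims
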