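import Cfsg.Agent.Lib.Helper81.SimsODefs
import Cfsg.Agent.Lib.Helper81.SimsOBaseCore
import Cfsg.Agent.Lib.Helper81.SimsOOmZProps
import Cfsg.Agent.Lib.Helper81.SimsOVVProps
import Cfsg.Agent.Lib.Helper81.SimsOCentVV
import Cfsg.Agent.Lib.Helper81.SimsOCardVV
import Cfsg.Agent.Lib.Helper81.SimsOTTProps
import Cfsg.Agent.Lib.Helper81.SimsOCCProps
import Cfsg.Agent.Lib.Helper81.SimsOInfVV

/-!
# Sims, Part III: piece StepEnd

See the note (end of step (h)). For `q ∈ Q`: `q ∈ cj h K`, and conjugating by `(h n₀)⁻¹` and using `TT_props` (with `a = 1`) gives `⁅u,q⁆ ∈ cj (h n₀) T`; likewise `⁅u,q⁆ ∈ cj (h' n₀) T`. These lie in `cj h Z` resp. `cj h' Z`, whose intersection is `C` (`CC_props`), and `cj (h n₀) T ⊓ C = cj h (cj n₀ T ⊓ C) = ⊥`. So `Q` centralises `u`, and it centralises `cj h Z ≤ V`; `A = cj (h n₀) V = cj h Z ∪ u · cj h Z` (`inf_VV`, `card_VV`, `u ∉ V`). So `Q ≤ cj (h n₀)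 H` centralises `cj (h n₀) V`, hence `Q ≤ cj (h n₀) Q` (`cent_VV` conjugated), so `Q = cj (h n₀) Q`, and `Q = ⊥` by `base_core` (`h n₀ ∉ H`); then `V ≤ Q` is trivial, contradicting `card_VV`/`OmZ_props`.
-/

namespace Cfsg.Agent.Lib.Helper81.Sims

open Subgroup

universe u

variable {G : Type u} [Group G] [Finite G] {H K : Subgroup G}

/-- `Q` is normalised by `H` -/
theorem sostepend_cj_QQ {a : G} (ha : a ∈ H) : cj a (QQ H K) = QQ H K := by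
  ext x
  rw [mem_cj, mem_QQ, mem_QQ]
  constructor
  · intro hx b hb
    have h1 := hx (a⁻¹ * b) (H.mul_mem (H.inv_mem ha) hb)
    rw [mem_cj] at h1 ⊢
    have e : (a⁻¹ * b)⁻¹ * (a⁻¹ * x * a) * (a⁻¹ * b) = b⁻¹ * x * b := by group
    rwa [e] at h1
  · intro hx b hb
    have h1 := hx (a * b) (H.mul_mem ha hb)
    rw [mem_cj] at h1 ⊢
    have e : (a * b)⁻¹ * x * (a * b) = b⁻¹ * (a⁻¹ * x * a) * b := by group
    rwa [e] at h1

/-- commutators of `cj (a n) V` with `Q` lie in `cj (a n) T` -/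
theorem sostepend_comm_mem (hB : Base H K) (hb : HB H K) {a n u q : G} (ha : a ∈ H)
    (hn : n ∈ normalizer (K : Set G)) (hu : u ∈ cj (a * n) (VV H K)) (hq : q ∈ QQ H K) :
    u * q * u⁻¹ * q⁻¹ ∈ cj (a * n) (TT H K) := by
  rw [mem_cj] at hu ⊢
  have hq1 : a⁻¹ * q * a ∈ K := mem_cj.mp (mem_QQ.mp hq a ha)
  have hq2 : (a * n)⁻¹ * q * (a * n) ∈ K := by
    have h1 := (mem_normalizer_iff.mp (inv_mem hn) (a⁻¹ * q * a)).mp hq1
    have e : n⁻¹ * (a⁻¹ * q * a) * n⁻¹⁻¹ = (a * n)⁻¹ * q * (a * n) := by group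
    rwa [e] at h1
  obtain ⟨u₀, hu₀⟩ : ∃ u₀ : G, u₀ = (a * n)⁻¹ * u * (a * n) := ⟨_, rfl⟩
  obtain ⟨q₀, hq₀⟩ : ∃ q₀ : G, q₀ = (a * n)⁻¹ * q * (a * n) := ⟨_, rfl⟩
  have e : (a * n)⁻¹ * (u * q * u⁻¹ * q⁻¹) * (a * n) = u₀ * q₀ * u₀⁻¹ * q₀⁻¹ := by
    rw [hu₀, hq₀]
    group
  rw [e]
  rw [← hu₀] at hu
  rw [← hq₀] at hq2
  by_cases hqQ : q₀ ∈ QQ H K
  · have h1 := (VV_props hB hb).2.2.1 u₀ hu q₀ hqQ
    have e2 : u₀ * q₀ * u₀⁻¹ * q₀⁻¹ = 1 := by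
      rw [h1]
      group
    rw [e2]
    exact one_mem _
  · have h1 := ((TT_props hB hb).2.2 1 H.one_mem q₀ (by rw [cj_one]; exact hq2) hqQ u₀ hu).1
    rwa [cj_one] at h1

/-- `cj (a n) T ≤ cj a Z` -/
theorem sostepend_TT_le (hB : Base H K) (hb : HB H K) (a : G) {n : G}
    (hn : n ∈ normalizer (K : Set G)) : cj (a * n) (TT H K) ≤ cj a (OmZ K) := by
  rw [cj_mul]
  apply cj_mono
  have h1 := (OmZ_props hB hb).2.2 n hn
  rw [← h1]
  exact cj_mono (TT_props hB hb).2.1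

/-- a subgroup between a subgroup of index two and the whole group, not equal to the former -/
theorem sostepend_count {Z' D A : Subgroup G} (h1 : Z' ≤ D) (h2 : D ≤ A)
    (hc : Nat.card A = 2 * Nat.card Z') {u : G} (hu : u ∈ D) (hu' : u ∉ Z') : D = A := by
  obtain ⟨k, hk⟩ := Subgroup.card_dvd_of_le h1
  obtain ⟨m, hm⟩ := Subgroup.card_dvd_of_le h2
  have hpos : 0 < Nat.card Z' := Nat.card_pos
  have hkm : k * m = 2 := by
    have h3 : Nat.card Z' * (k * m) = Nat.card Z' * 2 := by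
      rw [← mul_assoc, ← hk, ← hm, hc, mul_comm]
    exact Nat.eq_of_mul_eq_mul_left hpos h3
  have hk1 : k ≠ 1 := by
    rintro rfl
    rw [mul_one] at hk
    have h3 := Subgroup.eq_of_le_of_card_ge h1 (le_of_eq hk)
    exact hu' (h3 ▸ hu)
  have hm1 : m = 1 := by
    have hk2 : k ∣ 2 := ⟨m, hkm.symm⟩
    have h3 : k = 1 ∨ k = 2 := (Nat.dvd_prime Nat.prime_two).mp hk2
    rcases h3 with h | h
    · exact absurd h hk1
    · rw [h] at hkm
      omega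
  rw [hm1, mul_one] at hm
  exact Subgroup.eq_of_le_of_card_ge h2 (le_of_eq hm)

theorem step_end (hB : Base H K) (hb : HB H K) {h h' n₀ u : G} (hh : h ∈ H) (hh' : h' ∈ H)
    (hne : cj h' K ≠ cj h K) (hn₀ : n₀ ∈ normalizer (K : Set G)) (hn₀H : n₀ ∉ H)
    (hT : cj n₀ (TT H K) ⊓ CC H K = ⊥)
    (hu : u ∈ cj (h * n₀) (VV H K)) (hu' : u ∈ cj (h' * n₀) (VV H K)) (huV : u ∉ VV H K) :
    False := by
  -- `Q` centralises `u`
  have hcomm : ∀ q ∈ QQ H K, q * u = u * q := by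
    intro q hq
    have hx1 := sostepend_comm_mem hB hb hh hn₀ hu hq
    have hx2 := sostepend_comm_mem hB hb hh' hn₀ hu' hq
    have hx3 := sostepend_TT_le hB hb h hn₀ hx1
    have hx4 := sostepend_TT_le hB hb h' hn₀ hx2
    have hxC : u * q * u⁻¹ * q⁻¹ ∈ CC H K := by
      rw [← (CC_props hB hb).2.1 h hh h' hh' (Ne.symm hne)]
      exact ⟨hx3, hx4⟩
    have hxh := (CC_props hB hb).2.2.1 _ hxC h hh
    have hx5 : u * q * u⁻¹ * q⁻¹ ∈ cj n₀ (TT H K) := by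
      rw [mem_cj] at hx1 ⊢
      have e : (h * n₀)⁻¹ * (u * q * u⁻¹ * q⁻¹) * (h * n₀)
          = n₀⁻¹ * (h⁻¹ * ((u * q * u⁻¹ * q⁻¹) * h)) * n₀ := by group
      rw [e, hxh] at hx1
      have e2 : n₀⁻¹ * (h⁻¹ * (h * (u * q * u⁻¹ * q⁻¹))) * n₀
          = n₀⁻¹ * (u * q * u⁻¹ * q⁻¹) * n₀ := by group
      rwa [e2] at hx1
    have hx6 : u * q * u⁻¹ * q⁻¹ ∈ cj n₀ (TT H K) ⊓ CC H K := ⟨hx5, hxC⟩
    rw [hT, Subgroup.mem_bot] at hx6
    have h7 : u * q * u⁻¹ = q := mul_inv_eq_one.mp hx6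
    have h8 : u * q = q * u := mul_inv_eq_iff_eq_mul.mp h7
    exact h8.symm
  -- `Q` centralises `A = cj (h n₀) V`
  obtain ⟨A, hA⟩ : ∃ A : Subgroup G, A = cj (h * n₀) (VV H K) := ⟨_, rfl⟩
  obtain ⟨Z', hZ'⟩ : ∃ Z' : Subgroup G, Z' = cj h (OmZ K) := ⟨_, rfl⟩
  have hZ'A : Z' ≤ A := by
    rw [hZ', hA, ← inf_VV hB hb hn₀ hn₀H, cj_inf, cj_mul]
    exact inf_le_left
  have hZ'V : Z' ≤ VV H K := by rw [hZ']; exact cj_le_VV hh
  have hcardA : Nat.card A = 2 * Nat.card Z' := by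
    rw [hA, hZ', card_cj, card_cj, card_VV hB hb]
  have hD : A ⊓ centralizer (QQ H K : Set G) = A := by
    have huD : u ∈ A ⊓ centralizer (QQ H K : Set G) :=
      Subgroup.mem_inf.mpr ⟨by rw [hA]; exact hu, mem_centralizer_iff.mpr hcomm⟩
    refine sostepend_count (Z' := Z') (u := u) (le_inf hZ'A ?_) inf_le_left hcardA
      huD (fun hc => huV (hZ'V hc))
    intro z hz
    rw [mem_centralizer_iff]
    intro q hq
    exact ((VV_props hB hb).2.2.1 z (hZ'V hz) q hq).symm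
  have hAcent : ∀ x ∈ A, ∀ q ∈ QQ H K, q * x = x * q := by
    intro x hx q hq
    rw [← hD] at hx
    exact mem_centralizer_iff.mp hx.2 q hq
  -- `Q ≤ cj (h n₀) Q`
  have hQle : QQ H K ≤ cj (h * n₀) (QQ H K) := by
    intro q hq
    rw [mem_cj]
    apply cent_VV hB hb
    · have h1 : h⁻¹ * q * h ∈ K := mem_cj.mp (mem_QQ.mp hq h hh)
      rw [← hB.inf n₀ hn₀ hn₀H] at h1
      have h2 := mem_cj.mp h1.2
      have e : n₀⁻¹ * (h⁻¹ * q * h) * n₀ = (h * n₀)⁻¹ * q * (h * n₀) := by group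
      rwa [e] at h2
    · intro v hv
      have h1 : (h * n₀) * v * (h * n₀)⁻¹ ∈ A := by rw [hA]; exact conj_mem_cj hv
      have h2 := hAcent _ h1 q hq
      calc (h * n₀)⁻¹ * q * (h * n₀) * v
          = (h * n₀)⁻¹ * (q * ((h * n₀) * v * (h * n₀)⁻¹)) * (h * n₀) := by group
        _ = (h * n₀)⁻¹ * (((h * n₀) * v * (h * n₀)⁻¹) * q) * (h * n₀) := by rw [h2]
        _ = v * ((h * n₀)⁻¹ * q * (h * n₀)) := by group
  have hQeq : cj (h * n₀) (QQ H K) = QQ H K :=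
    (Subgroup.eq_of_le_of_card_ge hQle (by rw [card_cj])).symm
  have hQH : QQ H K ≤ H := by
    intro q hq
    have h1 := mem_QQ.mp hq 1 H.one_mem
    rw [cj_one] at h1
    exact hB.le h1
  have hy₀ : h * n₀ ∉ H := by
    intro hc
    apply hn₀H
    have h1 := H.mul_mem (H.inv_mem hh) hc
    rwa [inv_mul_cancel_left] at h1
  have hQbot : QQ H K = ⊥ := base_core hB hQH (fun a ha => sostepend_cj_QQ ha) hy₀ hQeq
  have hZ := (OmZ_props hB hb).1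
  rw [hQbot] at hZ
  exact (OmZ_props hB hb).2.1 (le_bot_iff.mp hZ)

end Cfsg.Agent.Lib.Helper81.Sims
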