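import Cfsg.Agent.Lib.Helper81.SimsODefs
import Cfsg.Agent.Lib.Helper81.SimsOVVProps
import Cfsg.Agent.Lib.Helper81.SimsOCentVV
import Cfsg.Agent.Lib.Helper81.SimsOTTProps

/-!
# Sims, Part III: piece Crit

Critical pair lemma. `V ≤ cj p H`, `V ≰ cj p Q`, so by `cent_VV` (conjugated by `p`) there are `v ∈ V`, `y ∈ cj p V` with `v y ≠ y v`. `y ∈ cj a K`, `y ∉ Q`, so `⁅v,y⁆ ∈ cj a T` (`TT_props`). `p⁻¹ v p ∈ cj a' K ∖ Q` and `p⁻¹ y p ∈ V`, so `⁅p⁻¹yp, p⁻¹vp⁆ ∈ cj a' T`, i.e. `⁅y,v⁆ ∈ cj p (cj a' T)`. Both groups have order 2 and contain the non-trivial element `⁅v,y⁆` (its inverse), so they are equal.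
-/

namespace Cfsg.Agent.Lib.Helper81.Sims

open Subgroup

universe u

variable {G : Type u} [Group G] [Finite G] {H K : Subgroup G}

/-- two non-identity elements of a group of order 2 are equal -/
theorem socrit_two {G : Type*} [Group G] (F : Subgroup G) (hF : Nat.card ↥F = 2) (x y : G)
    (hx : x ∈ F) (hy : y ∈ F) (hx1 : x ≠ 1) (hy1 : y ≠ 1) : x = y := by
  obtain ⟨z, -, hz⟩ := (Nat.card_eq_two_iff' (1 : ↥F)).1 hF
  have h1 := hz ⟨x, hx⟩ (fun h => hx1 (congrArg Subtype.val h))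
  have h2 := hz ⟨y, hy⟩ (fun h => hy1 (congrArg Subtype.val h))
  exact congrArg Subtype.val (h1.trans h2.symm)

theorem crit (hB : Base H K) (hb : HB H K) {p a a' : G} (ha : a ∈ H) (ha' : a' ∈ H)
    (h1 : VV H K ≤ cj p (cj a' K)) (h2 : ¬ VV H K ≤ cj p (QQ H K))
    (h3 : cj p (VV H K) ≤ cj a K) : cj a (TT H K) = cj p (cj a' (TT H K)) := by
  obtain ⟨-, -, hVcent, -⟩ := VV_props hB hb
  obtain ⟨hT2, -, hTT⟩ := TT_props hB hb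
  obtain ⟨v₀, hv₀V, hv₀⟩ := SetLike.not_le_iff_exists.1 h2
  have hw₀Q : p⁻¹ * v₀ * p ∉ QQ H K := fun h => hv₀ (mem_cj.2 h)
  have hw₀K : p⁻¹ * v₀ * p ∈ cj a' K := mem_cj.1 (h1 hv₀V)
  have hw₀H : p⁻¹ * v₀ * p ∈ H := by
    have h4 := mem_cj.1 hw₀K
    have h5 := hB.le h4
    have h6 := H.mul_mem (H.mul_mem ha' h5) (H.inv_mem ha')
    have e : a' * (a'⁻¹ * (p⁻¹ * v₀ * p) * a') * a'⁻¹ = p⁻¹ * v₀ * p := by group
    rwa [e] at h6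
  have hex : ∃ u ∈ VV H K, (p⁻¹ * v₀ * p) * u ≠ u * (p⁻¹ * v₀ * p) := by
    by_contra hcon
    push Not at hcon
    exact hw₀Q (cent_VV hB hb hw₀H hcon)
  obtain ⟨u, huV, hune⟩ := hex
  have hyV : p * u * p⁻¹ ∈ cj p (VV H K) := conj_mem_cj huV
  have hyK : p * u * p⁻¹ ∈ cj a K := h3 hyV
  have hne : v₀ * (p * u * p⁻¹) ≠ (p * u * p⁻¹) * v₀ := by
    intro h
    apply hune
    calc p⁻¹ * v₀ * p * u = p⁻¹ * (v₀ * (p * u * p⁻¹)) * p := by group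
      _ = p⁻¹ * ((p * u * p⁻¹) * v₀) * p := by rw [h]
      _ = u * (p⁻¹ * v₀ * p) := by group
  have hyQ : p * u * p⁻¹ ∉ QQ H K := fun h => hne (hVcent v₀ hv₀V _ h)
  have hc1 := (hTT a ha (p * u * p⁻¹) hyK hyQ v₀ hv₀V).1
  have hc2 := (hTT a' ha' (p⁻¹ * v₀ * p) hw₀K hw₀Q u huV).1
  have hc3 : (v₀ * (p * u * p⁻¹) * v₀⁻¹ * (p * u * p⁻¹)⁻¹)⁻¹ ∈ cj p (cj a' (TT H K)) := by
    rw [mem_cj]
    have e : p⁻¹ * (v₀ * (p * u * p⁻¹) * v₀⁻¹ * (p * u * p⁻¹)⁻¹)⁻¹ * p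
        = u * (p⁻¹ * v₀ * p) * u⁻¹ * (p⁻¹ * v₀ * p)⁻¹ := by group
    rw [e]
    exact hc2
  have hc4 : v₀ * (p * u * p⁻¹) * v₀⁻¹ * (p * u * p⁻¹)⁻¹ ∈ cj p (cj a' (TT H K)) := by
    have h7 := Subgroup.inv_mem _ hc3
    rwa [inv_inv] at h7
  have hcne : v₀ * (p * u * p⁻¹) * v₀⁻¹ * (p * u * p⁻¹)⁻¹ ≠ 1 := by
    intro h
    apply hne
    have h8 := mul_inv_eq_one.1 h
    calc v₀ * (p * u * p⁻¹) = (v₀ * (p * u * p⁻¹) * v₀⁻¹) * v₀ := by group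
      _ = (p * u * p⁻¹) * v₀ := by rw [h8]
  have hA : Nat.card ↥(cj a (TT H K)) = 2 := by rw [card_cj, hT2]
  have hB' : Nat.card ↥(cj p (cj a' (TT H K))) = 2 := by rw [card_cj, card_cj, hT2]
  have hle : cj a (TT H K) ≤ cj p (cj a' (TT H K)) := by
    intro x hx
    by_cases hx1 : x = 1
    · rw [hx1]
      exact Subgroup.one_mem _
    · rw [socrit_two _ hA x _ hx hc1 hx1 hcne]
      exact hc4
  exact Subgroup.eq_of_le_of_card_ge hle (by rw [hA, hB'])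

end Cfsg.Agent.Lib.Helper81.Sims
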