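import Cfsg.Agent.Lib.Helper81.SimsODefs
import Cfsg.Agent.Lib.Helper81.SimsOVVProps

/-!
# Sims, Part III: piece WalkOne (filled by helper88)

`u = a n b`: `cj u Q = cj a (cj n Q)` and `V = cj a V ≤ cj a (cj n Q)` by `hc`.
-/

namespace Cfsg.Agent.Lib.Helper81.Sims

open Subgroup

universe u

variable {G : Type u} [Group G] [Finite G] {H K : Subgroup G}

theorem walk_one (hB : Base H K) (hb : HB H K) (hc : HC2 H K) {u : G} (hu : u ∈ Nb H K) :
    VV H K ≤ cj u (QQ H K) := by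
  obtain ⟨a, ha, n, hn, hnH, b, hbH, rfl⟩ := hu
  obtain ⟨-, hV, -, -⟩ := VV_props hB hb
  rw [cj_mul, cj_mul, sovvprops_cj_QQ hbH]
  have h1 := cj_mono (c := a) (hc n hn hnH)
  rw [hV a ha] at h1
  exact h1

end Cfsg.Agent.Lib.Helper81.Sims
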