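import Cfsg.Agent.Lib.Helper81.SimsODefs
import Cfsg.Agent.Lib.Helper81.SimsOOmZProps
import Cfsg.Agent.Lib.Helper81.SimsOVVProps
import Cfsg.Agent.Lib.Helper81.SimsOCentVV
import Cfsg.Agent.Lib.Helper81.SimsOTTProps
import Cfsg.Agent.Lib.Helper81.SimsOCCProps
import Cfsg.Agent.Lib.Helper81.SimsONbProps
import Cfsg.Agent.Lib.Helper81.SimsOWalkOne
import Cfsg.Agent.Lib.Helper81.SimsOCrit

/-!
# Sims, Part III: piece StepLam

See the note (step (e)). Put `y₀ = h n₀ ∈ Nb`, `p' = y₀⁻¹ s`, and suppose `V ≰ cj p' Q`. Apply `crit` with `p'`, `a = 1`, `a''` where `H ⊓ cj w⁻¹ H = cj a'' K` (`nb_props`): h1 from `hi y₀` and `Q ≤ H ⊓ cj w H`; h3 from `hii` (`cj y₀⁻¹ Q ≤ K`). Get `T = cj p' (cj a'' T)`, so `cj y₀ T = cj s (cj a'' T) ≤ cj s V ≤ cj p Q` (`walk_one` for `um`). Also `cj y₀ T ≤ cj h Z ≤ V`. Elements of `V ⊓ cj p Q` commute with a `y ∈ cj p V`, `y ∈ cj a K ∖ Q` (exists by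 `h2`, `cent_VV`), so lie in `cj a Z` (`TT_props`). Hence `cj y₀ T ≤ cj h Z ⊓ cj a Z = C` (`CC_props`), contradicting `hT` (`cj h C = C`, `|T| = 2`).
-/

namespace Cfsg.Agent.Lib.Helper81.Sims

open Subgroup

universe u

variable {G : Type u} [Group G] [Finite G] {H K : Subgroup G}

theorem sosteplam_QQ_le_cj {a : G} (ha : a ∈ H) : QQ H K ≤ cj a K :=
  fun _ hx => mem_QQ.mp hx a ha

theorem sosteplam_QQ_le (H K : Subgroup G) : QQ H K ≤ K := by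
  intro x hx
  have h1 := mem_QQ.mp hx 1 H.one_mem
  rwa [cj_one] at h1

theorem sosteplam_cj_QQ {g : G} (hg : g ∈ H) : cj g (QQ H K) = QQ H K := by
  ext x
  rw [mem_cj, mem_QQ, mem_QQ]
  constructor
  · intro hx k hk
    have h1 := hx (g⁻¹ * k) (H.mul_mem (H.inv_mem hg) hk)
    rw [cj_mul g⁻¹ k K, mem_cj, inv_inv] at h1
    have e : g * (g⁻¹ * x * g) * g⁻¹ = x := by group
    rwa [e] at h1
  · intro hx k hk
    have h1 := hx (g * k) (H.mul_mem hg hk)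
    rw [cj_mul g k K, mem_cj] at h1
    exact h1

theorem step_lam (hB : Base H K) (hb : HB H K) (hc : HC2 H K)
    {s₂ s p w um a h n₀ : G}
    (hw : w ∈ Nb H K) (hum : um ∈ Nb H K) (hs : s = s₂ * w) (hp : p = s * um)
    (ha : a ∈ H) (h3 : cj p (VV H K) ≤ cj a K)
    (h1 : VV H K ≤ cj s (QQ H K)) (h2 : ¬ VV H K ≤ cj p (QQ H K))
    (hi : ∀ y ∈ Nb H K, cj y (VV H K) ≤ cj s₂ (QQ H K))
    (hii : cj s (VV H K) ≤ QQ H K)
    (hh : h ∈ H) (hne : cj h K ≠ cj a K)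
    (hn₀ : n₀ ∈ normalizer (K : Set G)) (hn₀H : n₀ ∉ H)
    (hT : cj n₀ (TT H K) ⊓ CC H K = ⊥) :
    cj (h * n₀) (VV H K) ≤ cj s (QQ H K) := by
  by_contra hcon
  obtain ⟨-, -, hZn⟩ := OmZ_props hB hb
  obtain ⟨-, hVinv, hVcomm, -⟩ := VV_props hB hb
  obtain ⟨hT2, hTZ, hTtr⟩ := TT_props hB hb
  obtain ⟨-, hCinf, hCcen, -⟩ := CC_props hB hb
  -- `y₀ = h n₀` is a neighbour element
  have hy₀N : h * n₀ ∈ Nb H K := ⟨h, hh, n₀, hn₀, hn₀H, 1, H.one_mem, by rw [mul_one]⟩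
  obtain ⟨y₀, hy₀def⟩ : ∃ y₀ : G, y₀ = h * n₀ := ⟨_, rfl⟩
  rw [← hy₀def] at hcon hy₀N
  -- `Q ≤ H ⊓ cj u H` for a neighbour element `u`
  have hQu : ∀ u ∈ Nb H K, QQ H K ≤ H ⊓ cj u H := by
    intro u hu
    obtain ⟨b, hb', hEq⟩ := (nb_props hB hu).2.2.2
    rw [hEq]
    exact sosteplam_QQ_le_cj hb'
  obtain ⟨p', hp'def⟩ : ∃ p' : G, p' = y₀⁻¹ * s := ⟨_, rfl⟩
  have hyp' : y₀ * p' = s := by rw [hp'def, mul_inv_cancel_left]
  -- Step A
  have h2' : ¬ VV H K ≤ cj p' (QQ H K) := by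
    intro hle
    apply hcon
    have h4 : cj y₀ (VV H K) ≤ cj y₀ (cj p' (QQ H K)) := cj_mono hle
    rw [← cj_mul y₀ p' (QQ H K), hyp'] at h4
    exact h4
  -- Step B
  obtain ⟨a'', ha'', hEq''⟩ := (nb_props hB (nb_props hB hw).1).2.2.2
  have hs₂ : s * w⁻¹ = s₂ := by rw [hs, mul_inv_cancel_right]
  have h1a : cj y₀ (VV H K) ≤ cj s (cj a'' K) := by
    have h5 : cj y₀ (VV H K) ≤ cj s₂ (QQ H K) := hi _ hy₀N
    have h6 : cj s₂ (QQ H K) ≤ cj s₂ (H ⊓ cj w H) := cj_mono (hQu w hw)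
    have h7 : cj s₂ (H ⊓ cj w H) = cj s (cj a'' K) := by
      rw [← hEq'', cj_inf s₂ H (cj w H), cj_inf s H (cj w⁻¹ H), ← cj_mul s₂ w H,
        ← cj_mul s w⁻¹ H, hs₂, ← hs, inf_comm]
    rw [← h7]
    exact h5.trans h6
  have h1' : VV H K ≤ cj p' (cj a'' K) := by
    have h4 : cj y₀⁻¹ (cj y₀ (VV H K)) ≤ cj y₀⁻¹ (cj s (cj a'' K)) := cj_mono h1a
    rw [cj_inv_cj y₀ (VV H K), ← cj_mul y₀⁻¹ s (cj a'' K), ← hp'def] at h4
    exact h4
  -- Step C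
  have h3' : cj p' (VV H K) ≤ cj 1 K := by
    rw [cj_one, hp'def, cj_mul y₀⁻¹ s (VV H K)]
    have h4 : cj y₀⁻¹ (cj s (VV H K)) ≤ cj y₀⁻¹ (QQ H K) := cj_mono hii
    refine h4.trans ?_
    rw [hy₀def, mul_inv_rev, cj_mul n₀⁻¹ h⁻¹ (QQ H K), sosteplam_cj_QQ (H.inv_mem hh)]
    have h5 : cj n₀⁻¹ (QQ H K) ≤ cj n₀⁻¹ K := cj_mono (sosteplam_QQ_le H K)
    rw [cj_eq_of_mem_normalizer (Subgroup.inv_mem _ hn₀)] at h5
    exact h5
  -- Step D
  have hcrit := crit hB hb H.one_mem ha'' h1' h2' h3'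
  rw [cj_one] at hcrit
  have hD : cj y₀ (TT H K) = cj s (cj a'' (TT H K)) := by
    calc cj y₀ (TT H K) = cj y₀ (cj p' (cj a'' (TT H K))) := congrArg (cj y₀) hcrit
      _ = cj s (cj a'' (TT H K)) := by rw [← cj_mul y₀ p' (cj a'' (TT H K)), hyp']
  -- Step E
  have hTV : TT H K ≤ VV H K := by
    refine hTZ.trans ?_
    have h4 := cj_le_VV (K := K) H.one_mem
    rwa [cj_one] at h4
  have hE : cj y₀ (TT H K) ≤ cj p (QQ H K) := by
    rw [hD]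
    have h4 : cj a'' (TT H K) ≤ VV H K := by
      have h5 : cj a'' (TT H K) ≤ cj a'' (VV H K) := cj_mono hTV
      rwa [hVinv a'' ha''] at h5
    have h5 : cj s (cj a'' (TT H K)) ≤ cj s (VV H K) := cj_mono h4
    have h6 : cj s (VV H K) ≤ cj s (cj um (QQ H K)) := cj_mono (walk_one hB hb hc hum)
    rw [← cj_mul s um (QQ H K), ← hp] at h6
    exact h5.trans h6
  -- Step F
  have hF : cj y₀ (TT H K) ≤ cj h (OmZ K) := by
    rw [hy₀def, cj_mul h n₀ (TT H K)]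
    have h4 : cj n₀ (TT H K) ≤ cj n₀ (OmZ K) := cj_mono hTZ
    rw [hZn n₀ hn₀] at h4
    exact cj_mono h4
  -- Step G
  have hVpH : VV H K ≤ cj p H := by
    refine h1.trans ?_
    have h4 : cj s (QQ H K) ≤ cj s (cj um H) := cj_mono ((hQu um hum).trans inf_le_right)
    rw [← cj_mul s um H, ← hp] at h4
    exact h4
  obtain ⟨y, hy, v, hv, hvy⟩ : ∃ y ∈ cj p (VV H K), ∃ v ∈ VV H K, v * y ≠ y * v := by
    by_contra hall
    push Not at hall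
    apply h2
    intro v hv
    rw [mem_cj]
    apply cent_VV hB hb (mem_cj.mp (hVpH hv))
    intro v' hv'
    have h4 := hall (p * v' * p⁻¹) (conj_mem_cj hv') v hv
    calc p⁻¹ * v * p * v' = p⁻¹ * (v * (p * v' * p⁻¹)) * p := by group
      _ = p⁻¹ * (p * v' * p⁻¹ * v) * p := by rw [h4]
      _ = v' * (p⁻¹ * v * p) := by group
  have hyK : y ∈ cj a K := h3 hy
  have hyQ : y ∉ QQ H K := fun hyQ => hvy (hVcomm v hv y hyQ)
  -- Step H
  have hH : cj y₀ (TT H K) ≤ CC H K := by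
    intro z hz
    have hzV : z ∈ VV H K := cj_le_VV hh (hF hz)
    have hzQ : z ∈ cj p (QQ H K) := hE hz
    have hzy : z * y = y * z := by
      have h4 := hVcomm (p⁻¹ * y * p) (mem_cj.mp hy) (p⁻¹ * z * p) (mem_cj.mp hzQ)
      calc z * y = p * (p⁻¹ * z * p * (p⁻¹ * y * p)) * p⁻¹ := by group
        _ = p * (p⁻¹ * y * p * (p⁻¹ * z * p)) * p⁻¹ := by rw [h4]
        _ = y * z := by group
    have hza : z ∈ cj a (OmZ K) := (hTtr a ha y hyK hyQ z hzV).2 hzy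
    rw [← hCinf h hh a ha hne]
    exact ⟨hF hz, hza⟩
  -- Step I
  have hI : cj n₀ (TT H K) ≤ CC H K := by
    intro t ht
    have h4 : h * t * h⁻¹ ∈ cj y₀ (TT H K) := by
      rw [hy₀def, cj_mul h n₀ (TT H K)]
      exact conj_mem_cj ht
    have h5 := hH h4
    have h6 := hCcen _ h5 h hh
    have h7 : t = h * t * h⁻¹ := by
      have h8 : h * t = h * (h * t * h⁻¹) := by
        calc h * t = h * t * h⁻¹ * h := by group
          _ = h * (h * t * h⁻¹) := h6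
      exact mul_left_cancel h8
    rw [h7]
    exact h5
  have hbot : cj n₀ (TT H K) = ⊥ := by
    rw [← hT]
    exact (inf_eq_left.mpr hI).symm
  have hcard := card_cj n₀ (TT H K)
  rw [hbot, Subgroup.card_bot, hT2] at hcard
  norm_num at hcard

end Cfsg.Agent.Lib.Helper81.Sims
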