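import Cfsg.Agent.Lib.Helper81.SimsODefs
import Cfsg.Agent.Lib.Helper81.SimsONormInf
import Cfsg.Agent.Lib.Helper81.SimsOSylInf

/-!
# Sims, Part III: piece SylSwap

If `cj (y*h) K = cj h K` then `y` normalises `cj h K`, `y ∈ H`, so `y ∈ cj h K` (conjugate of `norm_inf`), so `y ∈ cj a K ⊓ cj h K = QQ H K` (`syl_inf`), contradiction.
-/

namespace Cfsg.Agent.Lib.Helper81.Sims

open Subgroup

universe u

variable {G : Type u} [Group G] [Finite G] {H K : Subgroup G}

theorem syl_swap (hB : Base H K) {a y h : G} (ha : a ∈ H) (hy : y ∈ cj a K)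
    (hyQ : y ∉ QQ H K) (hh : h ∈ H) (hne : cj h K ≠ cj a K) : cj (y * h) K ≠ cj h K := by
  intro heq
  apply hyQ
  have hyH : y ∈ H := by
    have h1 : a⁻¹ * y * a ∈ H := hB.le (mem_cj.mp hy)
    have h2 := H.mul_mem (H.mul_mem ha h1) (H.inv_mem ha)
    have e : a * (a⁻¹ * y * a) * a⁻¹ = y := by group
    rw [e] at h2
    exact h2
  have hnH : h⁻¹ * y * h ∈ H := H.mul_mem (H.mul_mem (H.inv_mem hh) hyH) hh
  have hnN : h⁻¹ * y * h ∈ normalizer (K : Set G) := by
    apply Subgroup.mem_normalizer_fintype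
    intro x hx
    have h1 : (y * h) * x * (y * h)⁻¹ ∈ cj (y * h) K := by
      rw [mem_cj]
      have e : (y * h)⁻¹ * ((y * h) * x * (y * h)⁻¹) * (y * h) = x := by group
      rw [e]
      exact hx
    rw [heq, mem_cj] at h1
    have e : h⁻¹ * ((y * h) * x * (y * h)⁻¹) * h = h⁻¹ * y * h * x * (h⁻¹ * y * h)⁻¹ := by group
    rw [e] at h1
    exact h1
  have hyh : y ∈ cj h K := mem_cj.mpr (norm_inf hB hnN hnH)
  have hinf := syl_inf hB ha hh (Ne.symm hne)
  rw [← hinf]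
  exact ⟨hy, hyh⟩

end Cfsg.Agent.Lib.Helper81.Sims
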