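import Cfsg.Agent.Lib.Helper81.SimsODefs
import Cfsg.Agent.Lib.Helper81.SimsOOmZProps
import Cfsg.Agent.Lib.Helper81.SimsOVVProps
import Cfsg.Agent.Lib.Helper81.SimsOCentVV
import Cfsg.Agent.Lib.Helper81.SimsOCardVV
import Cfsg.Agent.Lib.Helper81.SimsOTTProps
import Cfsg.Agent.Lib.Helper81.SimsOCCProps
import Cfsg.Agent.Lib.Helper81.SimsOInfVV
import Cfsg.Agent.Lib.Helper81.SimsOSylSwap
import Cfsg.Agent.Lib.Helper81.SimsONbProps
import Cfsg.Agent.Lib.Helper81.SimsOWalkOne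
import Cfsg.Agent.Lib.Helper81.SimsOCrit

/-!
# Sims, Part III: piece StepMid

See the note (steps (f),(g) and the counting in (h)). `cj s Q ≤ cj p (cj a' K)` where `H ⊓ cj um⁻¹ H = cj a' K`; so `V` and `A = cj (h n₀) V` lie in `cj p (cj a' K)`; `crit` gives `cj a T = cj p (cj a' T)`. Pick `v ∈ V`, `y ∈ cj p V` non-commuting: `y ∈ cj a K ∖ Q`. For `u ∈ A`: `⁅y,u⁆ ∈ cj p (cj a' T) = cj a T ≤ V`, so `cj y A ≤ A ⊔ V`. Put `h' = y h`: `cj h' K ≠ cj h K` (`syl_swap`), `A' = cj (h' n₀) V = cj y A ≤ A ⊔ V`. `A ⊓ V = cj h Z` (`inf_VV`), `A` and `V` commute (`walk_one`), so `|A ⊔ V| = |V|²/|Z|` and `|A ⊓ A'| ≥ |Z|`, while `A ⊓ A' ⊓ V = cj h Z ⊓ cj h' Z = C` has order `|Z|/2` (`CC_props`). So some `u ∈ A ⊓ A'` is not in `V`.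
-/

namespace Cfsg.Agent.Lib.Helper81.Sims

open Subgroup

universe u

variable {G : Type u} [Group G] [Finite G] {H K : Subgroup G}

theorem sostepmid_card_eq {G : Type*} [Group G] {A L : Subgroup G} (h : A ≤ L) :
    Nat.card L = Nat.card A * A.relIndex L := by
  rw [Subgroup.relIndex, ← Subgroup.card_mul_index (A.subgroupOf L)]
  congr 1
  exact Nat.card_congr (Subgroup.subgroupOfEquivOfLe h).toEquiv

theorem sostepmid_card_sup {G : Type*} [Group G] (Y T : Subgroup G)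
    (hTY : T ≤ Subgroup.normalizer (Y : Set G)) :
    Nat.card ↥(Y ⊔ T) = Nat.card Y * Y.relIndex T := by
  have h2 : Y.relIndex (Y ⊔ T) = Y.relIndex T := by
    have hYM : Y ≤ Subgroup.normalizer (Y : Set G) := Subgroup.le_normalizer
    have hS : Y ⊔ T ≤ Subgroup.normalizer (Y : Set G) := sup_le hYM hTY
    rw [← Subgroup.relIndex_subgroupOf hS, ← Subgroup.relIndex_subgroupOf hTY,
      Subgroup.subgroupOf_sup hYM hTY]
    exact Subgroup.relIndex_sup_left _ _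
  rw [sostepmid_card_eq (le_sup_left : Y ≤ Y ⊔ T), h2]

theorem sostepmid_sup_inf {G : Type*} [Group G] (Y T : Subgroup G)
    (hTY : T ≤ Subgroup.normalizer (Y : Set G)) :
    Nat.card ↥(Y ⊔ T) * Nat.card ↥(Y ⊓ T) = Nat.card Y * Nat.card T := by
  rw [sostepmid_card_sup Y T hTY, sostepmid_card_eq (inf_le_right : Y ⊓ T ≤ T),
    Subgroup.inf_relIndex_right]
  ring

theorem sostepmid_inf_ge {G : Type*} [Group G] [Finite G] {A A' W : Subgroup G} (hA : A ≤ W)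
    (hA' : A' ≤ W) : Nat.card A * Nat.card A' ≤ Nat.card ↥(A ⊓ A') * Nat.card W := by
  have hi := Subgroup.relIndex_inf_le (H := A) (K := A') (L := W)
  have e1 := sostepmid_card_eq hA
  have e2 := sostepmid_card_eq hA'
  have e3 := sostepmid_card_eq ((inf_le_left : A ⊓ A' ≤ A).trans hA)
  have hW : 0 < Nat.card W := Nat.card_pos
  have hi0 : 0 < (A ⊓ A').relIndex W := by
    rcases Nat.eq_zero_or_pos ((A ⊓ A').relIndex W) with h | h
    · rw [h, mul_zero] at e3; omega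
    · exact h
  have key : Nat.card A * Nat.card A' * (A ⊓ A').relIndex W ≤
      Nat.card ↥(A ⊓ A') * Nat.card W * (A ⊓ A').relIndex W := by
    calc Nat.card A * Nat.card A' * (A ⊓ A').relIndex W
        ≤ Nat.card A * Nat.card A' * (A.relIndex W * A'.relIndex W) := Nat.mul_le_mul_left _ hi
      _ = (Nat.card A * A.relIndex W) * (Nat.card A' * A'.relIndex W) := by ring
      _ = Nat.card W * Nat.card W := by rw [← e1, ← e2]
      _ = (Nat.card ↥(A ⊓ A') * (A ⊓ A').relIndex W) * Nat.card W := by rw [← e3]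
      _ = Nat.card ↥(A ⊓ A') * Nat.card W * (A ⊓ A').relIndex W := by ring
  exact Nat.le_of_mul_le_mul_right key hi0

theorem sostepmid_cj_le {G : Type*} [Group G] {H K : Subgroup G} {a : G} (ha : a ∈ H)
    (hK : K ≤ H) : cj a K ≤ H := by
  have h1 : cj a K ≤ cj a H := cj_mono hK
  rwa [cj_eq_self_of_mem ha] at h1

theorem step_mid (hB : Base H K) (hb : HB H K) (hc : HC2 H K)
    {s p um a h n₀ : G}
    (hum : um ∈ Nb H K) (hp : p = s * um)
    (ha : a ∈ H) (h3 : cj p (VV H K) ≤ cj a K)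
    (h1 : VV H K ≤ cj s (QQ H K)) (h2 : ¬ VV H K ≤ cj p (QQ H K))
    (hh : h ∈ H) (hne : cj h K ≠ cj a K)
    (hn₀ : n₀ ∈ normalizer (K : Set G)) (hn₀H : n₀ ∉ H)
    (hlam : cj (h * n₀) (VV H K) ≤ cj s (QQ H K)) :
    ∃ h' ∈ H, cj h' K ≠ cj h K ∧ ∃ u : G,
      u ∈ cj (h * n₀) (VV H K) ∧ u ∈ cj (h' * n₀) (VV H K) ∧ u ∉ VV H K := by
  subst hp
  have hOm := OmZ_props hB hb
  have hVV := VV_props hB hb
  have hTT := TT_props hB hb
  have hCC := CC_props hB hb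
  -- (f)
  obtain ⟨hum', -, -, a₂, ha₂, hinf₂⟩ := nb_props hB hum
  obtain ⟨-, -, -, a', ha', hinf'⟩ := nb_props hB hum'
  have hQa₂ : QQ H K ≤ cj a₂ K := fun x hx => mem_QQ.mp hx a₂ ha₂
  have hsQ : cj s (QQ H K) ≤ cj (s * um) (cj a' K) := by
    rw [← hinf', cj_inf, ← cj_mul (s * um) um⁻¹]
    have e : s * um * um⁻¹ = s := by group
    rw [e]
    have h5 : cj s (QQ H K) ≤ cj s (H ⊓ cj um H) := by
      rw [hinf₂]; exact cj_mono hQa₂
    rw [cj_inf, ← cj_mul] at h5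
    exact h5.trans (le_of_eq (inf_comm _ _))
  have hVp : VV H K ≤ cj (s * um) (cj a' K) := h1.trans hsQ
  have hAp : cj (h * n₀) (VV H K) ≤ cj (s * um) (cj a' K) := hlam.trans hsQ
  have hcrit := crit hB hb ha ha' hVp h2 h3
  -- a non-commuting pair
  obtain ⟨v, hvV, hvQ⟩ := SetLike.not_le_iff_exists.mp h2
  have hx1 : (s * um)⁻¹ * v * (s * um) ∈ cj a' K := mem_cj.mp (hVp hvV)
  have hx2 : (s * um)⁻¹ * v * (s * um) ∉ QQ H K := fun h => hvQ (mem_cj.mpr h)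
  have hxH : (s * um)⁻¹ * v * (s * um) ∈ H := sostepmid_cj_le ha' hB.le hx1
  have hex : ∃ w ∈ VV H K, (s * um)⁻¹ * v * (s * um) * w ≠ w * ((s * um)⁻¹ * v * (s * um)) := by
    by_contra hcon
    apply hx2
    apply cent_VV hB hb hxH
    intro w hw
    by_contra hne'
    exact hcon ⟨w, hw, hne'⟩
  obtain ⟨w, hwV, hw⟩ := hex
  obtain ⟨y, hydef⟩ : ∃ y, y = (s * um) * w * (s * um)⁻¹ := ⟨_, rfl⟩
  have hy_pV : y ∈ cj (s * um) (VV H K) := by rw [hydef]; exact conj_mem_cj hwV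
  have hvy : v * y ≠ y * v := by
    intro h
    apply hw
    rw [hydef] at h
    calc (s * um)⁻¹ * v * (s * um) * w
        = (s * um)⁻¹ * (v * ((s * um) * w * (s * um)⁻¹)) * (s * um) := by group
      _ = (s * um)⁻¹ * (((s * um) * w * (s * um)⁻¹) * v) * (s * um) := by rw [h]
      _ = w * ((s * um)⁻¹ * v * (s * um)) := by group
  have hyaK : y ∈ cj a K := h3 hy_pV
  have hyQ : y ∉ QQ H K := fun h => hvy (hVV.2.2.1 v hvV y h)
  have hyH : y ∈ H := sostepmid_cj_le ha hB.le hyaK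
  have hh' : y * h ∈ H := H.mul_mem hyH hh
  have hsw : cj (y * h) K ≠ cj h K := syl_swap hB ha hyaK hyQ hh hne
  refine ⟨y * h, hh', hsw, ?_⟩
  -- commutators with `y` lie in `V`
  have hcomm : ∀ u ∈ cj (h * n₀) (VV H K), y * u * y⁻¹ * u⁻¹ ∈ VV H K := by
    intro u hu
    have hu' : (s * um)⁻¹ * u * (s * um) ∈ cj a' K := mem_cj.mp (hAp hu)
    have key : w * ((s * um)⁻¹ * u * (s * um)) * w⁻¹ * ((s * um)⁻¹ * u * (s * um))⁻¹ ∈
        cj a' (TT H K) := by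
      by_cases hq : (s * um)⁻¹ * u * (s * um) ∈ QQ H K
      · have h4 := hVV.2.2.1 w hwV _ hq
        have e : w * ((s * um)⁻¹ * u * (s * um)) * w⁻¹ * ((s * um)⁻¹ * u * (s * um))⁻¹ = 1 := by
          rw [h4]; group
        rw [e]; exact Subgroup.one_mem _
      · exact (hTT.2.2 a' ha' _ hu' hq w hwV).1
    have h6 : y * u * y⁻¹ * u⁻¹ ∈ cj (s * um) (cj a' (TT H K)) := by
      rw [mem_cj]
      have e : (s * um)⁻¹ * (y * u * y⁻¹ * u⁻¹) * (s * um) =
          w * ((s * um)⁻¹ * u * (s * um)) * w⁻¹ * ((s * um)⁻¹ * u * (s * um))⁻¹ := by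
        rw [hydef]; group
      rw [e]; exact key
    rw [← hcrit] at h6
    exact (cj_le_VV ha) ((cj_mono hTT.2.1) h6)
  have hA'eq : cj (y * h * n₀) (VV H K) = cj y (cj (h * n₀) (VV H K)) := by
    rw [mul_assoc, cj_mul]
  have hA'le : cj (y * h * n₀) (VV H K) ≤ VV H K ⊔ cj (h * n₀) (VV H K) := by
    rw [hA'eq]
    intro x hx
    have hu : y⁻¹ * x * y ∈ cj (h * n₀) (VV H K) := mem_cj.mp hx
    have h7 := hcomm _ hu
    have e : x = (y * (y⁻¹ * x * y) * y⁻¹ * (y⁻¹ * x * y)⁻¹) * (y⁻¹ * x * y) := by group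
    rw [e]
    exact Subgroup.mul_mem _ (Subgroup.mem_sup_left h7) (Subgroup.mem_sup_right hu)
  -- intersections with `V`
  have hinfV := inf_VV hB hb hn₀ hn₀H
  have hAV : cj (h * n₀) (VV H K) ⊓ VV H K = cj h (OmZ K) := by
    calc cj (h * n₀) (VV H K) ⊓ VV H K = cj h (cj n₀ (VV H K)) ⊓ cj h (VV H K) := by
          rw [← cj_mul, hVV.2.1 h hh]
      _ = cj h (cj n₀ (VV H K) ⊓ VV H K) := (cj_inf _ _ _).symm
      _ = cj h (OmZ K) := by rw [hinfV]
  have hA'V : cj (y * h * n₀) (VV H K) ⊓ VV H K = cj (y * h) (OmZ K) := by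
    calc cj (y * h * n₀) (VV H K) ⊓ VV H K
        = cj (y * h) (cj n₀ (VV H K)) ⊓ cj (y * h) (VV H K) := by
          rw [← cj_mul, hVV.2.1 (y * h) hh']
      _ = cj (y * h) (cj n₀ (VV H K) ⊓ VV H K) := (cj_inf _ _ _).symm
      _ = cj (y * h) (OmZ K) := by rw [hinfV]
  have hC : cj h (OmZ K) ⊓ cj (y * h) (OmZ K) = CC H K := hCC.2.1 h hh (y * h) hh' (Ne.symm hsw)
  -- `A` centralizes `V`
  have hNb : h * n₀ ∈ Nb H K := ⟨h, hh, n₀, hn₀, hn₀H, 1, H.one_mem, by rw [mul_one]⟩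
  have hVle : VV H K ≤ cj (h * n₀) (QQ H K) := walk_one hB hb hc hNb
  have hAcent : ∀ x ∈ cj (h * n₀) (VV H K), ∀ v ∈ VV H K, x * v = v * x := by
    intro x hx v hv
    have h8 := hVV.2.2.1 _ (mem_cj.mp hx) _ (mem_cj.mp (hVle hv))
    have e1 : x * v = (h * n₀) * (((h * n₀)⁻¹ * x * (h * n₀)) * ((h * n₀)⁻¹ * v * (h * n₀))) *
        (h * n₀)⁻¹ := by group
    rw [e1, h8]; group
  have hAnorm : cj (h * n₀) (VV H K) ≤ normalizer ((VV H K : Subgroup G) : Set G) := by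
    intro x hx
    rw [mem_normalizer_iff]
    intro v
    constructor
    · intro hv
      rw [hAcent x hx v hv, mul_assoc, mul_inv_cancel, mul_one]
      exact hv
    · intro hv
      have h9 := hAcent x hx _ hv
      have h10 : x * (x * v * x⁻¹) = x * v := by rw [h9]; group
      have h11 : x * v * x⁻¹ = v := mul_left_cancel h10
      rw [← h11]; exact hv
  -- counting
  have e_sup := sostepmid_sup_inf (VV H K) (cj (h * n₀) (VV H K)) hAnorm
  rw [inf_comm, hAV, card_cj, card_cj] at e_sup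
  have hineq := sostepmid_inf_ge (A := cj (h * n₀) (VV H K)) (A' := cj (y * h * n₀) (VV H K))
    (W := VV H K ⊔ cj (h * n₀) (VV H K)) le_sup_right hA'le
  rw [card_cj, card_cj] at hineq
  by_contra hcon
  have hall : ∀ u, u ∈ cj (h * n₀) (VV H K) → u ∈ cj (y * h * n₀) (VV H K) → u ∈ VV H K := by
    intro u hu1 hu2
    by_contra hu3
    exact hcon ⟨u, hu1, hu2, hu3⟩
  have hle : cj (h * n₀) (VV H K) ⊓ cj (y * h * n₀) (VV H K) ≤ CC H K := by
    rw [← hC, ← hAV, ← hA'V]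
    intro u hu
    exact ⟨⟨hu.1, hall u hu.1 hu.2⟩, ⟨hu.2, hall u hu.1 hu.2⟩⟩
  have hcard := Subgroup.card_le_of_le hle
  have hWpos : 0 < Nat.card ↥(VV H K ⊔ cj (h * n₀) (VV H K)) := Nat.card_pos
  have hCpos : 0 < Nat.card ↥(CC H K) := Nat.card_pos
  have hZ2 := hCC.1
  have h12 : Nat.card ↥(VV H K ⊔ cj (h * n₀) (VV H K)) * Nat.card ↥(OmZ K) ≤
      Nat.card ↥(VV H K ⊔ cj (h * n₀) (VV H K)) *
        Nat.card ↥(cj (h * n₀) (VV H K) ⊓ cj (y * h * n₀) (VV H K)) := by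
    rw [e_sup]
    calc Nat.card ↥(VV H K) * Nat.card ↥(VV H K)
        ≤ Nat.card ↥(cj (h * n₀) (VV H K) ⊓ cj (y * h * n₀) (VV H K)) *
          Nat.card ↥(VV H K ⊔ cj (h * n₀) (VV H K)) := hineq
      _ = _ := by ring
  have h13 := Nat.le_of_mul_le_mul_left h12 hWpos
  omega

end Cfsg.Agent.Lib.Helper81.Sims
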