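import Cfsg.Agent.Lib.Helper81.SimsODefs

/-!
# Sims, Part III: piece SylExists

`K` is not normal in `H` (`hB.nn`): some `x ∈ H` has `cj x K ≠ K`; take `h = a * x`.
-/

namespace Cfsg.Agent.Lib.Helper81.Sims

open Subgroup

universe u

variable {G : Type u} [Group G] [Finite G] {H K : Subgroup G}

theorem syl_exists (hB : Base H K) {a : G} (ha : a ∈ H) : ∃ h ∈ H, cj h K ≠ cj a K := by
  have hnn := hB.nn
  rw [SetLike.not_le_iff_exists] at hnn
  obtain ⟨x, hxH, hxN⟩ := hnn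
  have hx : cj x K ≠ K := by
    intro h
    apply hxN
    rw [mem_normalizer_iff]
    intro y
    have h1 : x * y * x⁻¹ ∈ cj x K ↔ x * y * x⁻¹ ∈ K := by rw [h]
    rw [mem_cj] at h1
    have e : x⁻¹ * (x * y * x⁻¹) * x = y := by group
    rw [e] at h1
    exact h1
  refine ⟨a * x, H.mul_mem ha hxH, ?_⟩
  intro h
  apply hx
  rw [cj_mul] at h
  have h2 := congrArg (cj a⁻¹) h
  rw [cj_inv_cj, cj_inv_cj] at h2
  exact h2

end Cfsg.Agent.Lib.Helper81.Sims
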