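import Cfsg.Agent.Lib.Helper81.SimsODefs
import Cfsg.Agent.Lib.Helper81.SimsOSylExists
import Cfsg.Agent.Lib.Helper81.SimsOExistsN0
import Cfsg.Agent.Lib.Helper81.SimsOStepLam
import Cfsg.Agent.Lib.Helper81.SimsOStepMid
import Cfsg.Agent.Lib.Helper81.SimsOStepEnd

/-!
# Sims, Part III: piece Step

Glue: the induction step (no sorry here).
-/

namespace Cfsg.Agent.Lib.Helper81.Sims

open Subgroup

universe u

variable {G : Type u} [Group G] [Finite G] {H K : Subgroup G}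


/-- The induction step of the walk induction (glue of `step_lam`, `step_mid`, `step_end`). -/
theorem step (hB : Base H K) (hb : HB H K) (hc : HC2 H K)
    {s₂ s p w um a : G}
    (hw : w ∈ Nb H K) (hum : um ∈ Nb H K) (hs : s = s₂ * w) (hp : p = s * um)
    (ha : a ∈ H) (h3 : cj p (VV H K) ≤ cj a K)
    (h1 : VV H K ≤ cj s (QQ H K)) (h2 : ¬ VV H K ≤ cj p (QQ H K))
    (hi : ∀ y ∈ Nb H K, cj y (VV H K) ≤ cj s₂ (QQ H K))
    (hii : cj s (VV H K) ≤ QQ H K) : False := by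
  obtain ⟨n₀, hn₀, hn₀H, hT⟩ := exists_n0 hB hb
  obtain ⟨h, hh, hne⟩ := syl_exists hB ha
  have hlam := step_lam hB hb hc hw hum hs hp ha h3 h1 h2 hi hii hh hne hn₀ hn₀H hT
  obtain ⟨h', hh', hne', u, hu, hu', huV⟩ :=
    step_mid hB hb hc hum hp ha h3 h1 h2 hh hne hn₀ hn₀H hlam
  exact step_end hB hb hh hh' hne' hn₀ hn₀H hT hu hu' huV

end Cfsg.Agent.Lib.Helper81.Sims
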