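import Cfsg.Agent.Lib.Helper81.SimsODefs
import Cfsg.Agent.Lib.Helper81.SimsOVVProps
import Cfsg.Agent.Lib.Helper81.SimsONbProps
import Cfsg.Agent.Lib.Helper81.SimsOWalkOne
import Cfsg.Agent.Lib.Helper81.SimsOStep

/-!
# Sims, Part III: piece WalkAll

Walk induction: strong induction on `l.length`. Length 0: `V ≤ Q` (`VV_props`, `cj_one`). Length 1: `walk_one`. Length `m ≥ 2`: write `l = l₂ ++ [w, um]`, `s₂ = l₂.prod`, `s = s₂ * w`, `p = s * um = l.prod`; if `V ≰ cj p Q` apply `step`: `h1` = IH for `l₂ ++ [w]`; `hi y` = IH for `y⁻¹ :: l₂` (then conjugate by `y`); `hii` = IH for the reversed inverse walk of `l₂ ++ [w]` (product `s⁻¹`), conjugated by `s`; `h3`: IH for the reversed inverse walk of `l.tail` gives `cj p V ≤ cj u₁ Q` (`u₁ = l.head`), and `cj u₁ Q ≤ cj a K` with `u₁ = a n b` (`cj u₁ Q = cj a (cj n Q) ≤ cj a (cj n K) = cj a K`). Uses `nb_props` (inverses stay in `Nb`).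
-/

namespace Cfsg.Agent.Lib.Helper81.Sims

open Subgroup

universe u

variable {G : Type u} [Group G] [Finite G] {H K : Subgroup G}


theorem sowalkall_inv_walk (hB : Base H K) (l : List G) (hl : ∀ u ∈ l, u ∈ Nb H K) :
    ∀ u ∈ (l.map fun x => x⁻¹).reverse, u ∈ Nb H K := by
  intro u hu
  rw [List.mem_reverse, List.mem_map] at hu
  obtain ⟨x, hx, rfl⟩ := hu
  exact (nb_props hB (hl x hx)).1

theorem sowalkall_aux (hB : Base H K) (hb : HB H K) (hc : HC2 H K) :
    ∀ (n : ℕ) (l : List G), l.length = n → (∀ u ∈ l, u ∈ Nb H K) →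
      VV H K ≤ cj l.prod (QQ H K) := by
  intro n
  induction n using Nat.strong_induction_on with
  | h n ih =>
    intro l hn hl
    rcases List.eq_nil_or_concat' l with rfl | ⟨l1, um, rfl⟩
    · rw [List.prod_nil, cj_one]; exact (VV_props hB hb).1
    rcases List.eq_nil_or_concat' l1 with rfl | ⟨l₂, w, rfl⟩
    · rw [List.nil_append, List.prod_singleton]
      exact walk_one hB hb hc (hl um (by simp))
    have hprod : (l₂ ++ [w] ++ [um]).prod = l₂.prod * w * um := by
      rw [List.prod_append, List.prod_append, List.prod_singleton, List.prod_singleton]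
    rw [hprod]
    by_contra h2
    have hw : w ∈ Nb H K := hl w (by simp)
    have hum : um ∈ Nb H K := hl um (by simp)
    have hl2 : ∀ u ∈ l₂, u ∈ Nb H K := fun u hu => hl u (by simp [hu])
    have hlen : l₂.length + 2 = n := by rw [← hn]; simp
    have hlw : ∀ u ∈ l₂ ++ [w], u ∈ Nb H K := fun u hu => hl u (by
      rw [List.mem_append]; exact Or.inl hu)
    have h1 : VV H K ≤ cj (l₂.prod * w) (QQ H K) := by
      have h := ih (l₂.length + 1) (by omega) (l₂ ++ [w]) (by simp) hlw
      rwa [List.prod_append, List.prod_singleton] at h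
    have hi : ∀ y ∈ Nb H K, cj y (VV H K) ≤ cj l₂.prod (QQ H K) := by
      intro y hy
      have h := ih (l₂.length + 1) (by omega) (y⁻¹ :: l₂) (by simp) (by
        intro u hu
        rcases List.mem_cons.mp hu with rfl | hu
        · exact (nb_props hB hy).1
        · exact hl2 u hu)
      rw [List.prod_cons] at h
      have h' := cj_mono (c := y) h
      rwa [← cj_mul, mul_inv_cancel_left] at h'
    have hii : cj (l₂.prod * w) (VV H K) ≤ QQ H K := by
      have h := ih (l₂.length + 1) (by omega) ((l₂ ++ [w]).map fun x => x⁻¹).reverse (by simp)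
        (sowalkall_inv_walk hB _ hlw)
      rw [← List.prod_inv_reverse, List.prod_append, List.prod_singleton] at h
      have h' := cj_mono (c := l₂.prod * w) h
      rwa [cj_cj_inv] at h'
    obtain ⟨u₁, tl, hL⟩ : ∃ u₁ tl, l₂ ++ [w] ++ [um] = u₁ :: tl := by
      cases l₂ with
      | nil => exact ⟨w, [um], rfl⟩
      | cons x t => exact ⟨x, t ++ [w] ++ [um], rfl⟩
    have hu₁ : u₁ ∈ Nb H K := hl u₁ (by rw [hL]; exact List.mem_cons_self)
    have htl : ∀ u ∈ tl, u ∈ Nb H K := fun u hu =>
      hl u (by rw [hL]; exact List.mem_cons_of_mem _ hu)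
    have htlen : tl.length = l₂.length + 1 := by
      have h := congrArg List.length hL
      simp at h
      omega
    have hp' : l₂.prod * w * um = u₁ * tl.prod := by
      rw [← hprod, hL, List.prod_cons]
    obtain ⟨a, ha, n₁, hn₁, hn₁H, b, hbH, hu₁eq⟩ := hu₁
    have h3 : cj (l₂.prod * w * um) (VV H K) ≤ cj a K := by
      have h := ih tl.length (by omega) (tl.map fun x => x⁻¹).reverse (by simp)
        (sowalkall_inv_walk hB _ htl)
      rw [← List.prod_inv_reverse] at h
      have h' := cj_mono (c := l₂.prod * w * um) h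
      have he : l₂.prod * w * um * tl.prod⁻¹ = u₁ := by rw [hp', mul_inv_cancel_right]
      rw [← cj_mul, he] at h'
      refine h'.trans ?_
      have hQ : QQ H K ≤ cj b⁻¹ K := fun x hx => mem_QQ.mp hx b⁻¹ (H.inv_mem hbH)
      have h'' := cj_mono (c := u₁) hQ
      have he2 : u₁ * b⁻¹ = a * n₁ := by rw [hu₁eq, mul_inv_cancel_right]
      rw [← cj_mul, he2, cj_mul, cj_eq_of_mem_normalizer hn₁] at h''
      exact h''
    exact step hB hb hc hw hum rfl rfl ha h3 h1 h2 hi hii

theorem walk_all (hB : Base H K) (hb : HB H K) (hc : HC2 H K) (l : List G)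
    (hl : ∀ u ∈ l, u ∈ Nb H K) : VV H K ≤ cj l.prod (QQ H K) := by
  exact sowalkall_aux hB hb hc l.length l rfl hl

end Cfsg.Agent.Lib.Helper81.Sims
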