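import Cfsg.Agent.Lib.Helper81.SimsODefs
import Cfsg.Agent.Lib.Helper81.SimsOBaseCore
import Cfsg.Agent.Lib.Helper81.SimsOOmZProps
import Cfsg.Agent.Lib.Helper81.SimsOVVProps
import Cfsg.Agent.Lib.Helper81.SimsONbProps
import Cfsg.Agent.Lib.Helper81.SimsOWalkAll

/-!
# Sims, Part III: piece Case2

Case 2 is impossible. Every `g : G` is `l.prod` for a list `l` of elements of `Nb H K`: `Nb H K` is closed under inverses and contains `n` and `h * n` (`h ∈ H`, `n ∈ N_G(K) ∖ H`), so the subgroup (= submonoid, `G` finite; or use inverses) generated by `Nb H K` contains `H` and `n`, hence is `⊤` (`H` coatom). By `walk_all`, `V ≤ cj g Q ≤ cj g H` for all `g`, so `V ≤ H.normalCore = ⊥`; but `OmZ K ≤ V` and `OmZ K ≠ ⊥` (`OmZ_props`).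
-/

namespace Cfsg.Agent.Lib.Helper81.Sims

open Subgroup

universe u

variable {G : Type u} [Group G] [Finite G] {H K : Subgroup G}


theorem socase2_list (hB : Base H K) (g : G) (hg : g ∈ Subgroup.closure (Nb H K)) :
    ∃ l : List G, (∀ u ∈ l, u ∈ Nb H K) ∧ l.prod = g := by
  induction hg using Subgroup.closure_induction with
  | mem x hx => exact ⟨[x], by simpa using hx, by simp⟩
  | one => exact ⟨[], by simp, by simp⟩
  | mul x y _ _ ihx ihy =>
    obtain ⟨l1, h1, rfl⟩ := ihx
    obtain ⟨l2, h2, rfl⟩ := ihy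
    refine ⟨l1 ++ l2, ?_, List.prod_append⟩
    intro u hu
    rcases List.mem_append.mp hu with h | h
    · exact h1 u h
    · exact h2 u h
  | inv x _ ih =>
    obtain ⟨l, h1, rfl⟩ := ih
    refine ⟨(l.map (fun x => x⁻¹)).reverse, ?_, (List.prod_inv_reverse l).symm⟩
    intro u hu
    rw [List.mem_reverse, List.mem_map] at hu
    obtain ⟨v, hv, rfl⟩ := hu
    exact (nb_props hB (h1 v hv)).1

theorem case2 (hB : Base H K) (hb : HB H K) (hc : HC2 H K) : False := by
  obtain ⟨n, hn, hnH⟩ := hB.ex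
  have hnNb : n ∈ Nb H K := ⟨1, H.one_mem, n, hn, hnH, 1, H.one_mem, by simp⟩
  have hHS : H ≤ Subgroup.closure (Nb H K) := by
    intro h hh
    have h1 : h * n ∈ Nb H K := ⟨h, hh, n, hn, hnH, 1, H.one_mem, by simp⟩
    have h2 : h * n * n⁻¹ ∈ Subgroup.closure (Nb H K) :=
      Subgroup.mul_mem _ (Subgroup.subset_closure h1)
        (Subgroup.inv_mem _ (Subgroup.subset_closure hnNb))
    simpa using h2
  have htop : Subgroup.closure (Nb H K) = ⊤ := by
    apply hB.co.2
    refine lt_of_le_of_ne hHS ?_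
    intro h
    apply hnH
    rw [h]
    exact Subgroup.subset_closure hnNb
  have hall : ∀ g : G, VV H K ≤ cj g (QQ H K) := by
    intro g
    obtain ⟨l, hl, rfl⟩ := socase2_list hB g (by rw [htop]; exact Subgroup.mem_top g)
    exact walk_all hB hb hc l hl
  have hQH : QQ H K ≤ H := by
    intro x hx
    have h1 := mem_QQ.mp hx 1 H.one_mem
    rw [cj_one] at h1
    exact hB.le h1
  have hV : VV H K ≤ H.normalCore := by
    intro x hx b
    have h1 := cj_mono hQH (hall b⁻¹ hx)
    rw [mem_cj] at h1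
    simpa using h1
  rw [hB.core] at hV
  obtain ⟨_, hne, _⟩ := OmZ_props hB hb
  apply hne
  have h2 : OmZ K ≤ VV H K := by
    have h3 := cj_le_VV (H := H) (K := K) (h := 1) H.one_mem
    rwa [cj_one] at h3
  exact le_bot_iff.mp (h2.trans hV)

end Cfsg.Agent.Lib.Helper81.Sims
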