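import Cfsg.Agent.Lib.Helper81.SimsODefs
import Cfsg.Agent.Lib.Helper81.SimsOBaseCore
import Cfsg.Agent.Lib.Helper81.SimsOQQCard
import Cfsg.Agent.Lib.Helper81.SimsOGenNotMem

/-!
# Sims, Part III: piece CaseA

Case (3a). `M = C_H(Q)` (`Q = QQ H K`) is normal in `H` and `M ≰ Q`; a normal subgroup of `H` inside `K` lies in `Q` (`mem_QQ`), so there is `x ∈ M`, `x ∉ K`, and `K ⊔ zpowers x = H`. Take `n ∈ N_G(K)`, `n ∉ H` (`hB.ex`), `D = Q ⊓ cj n Q`. `D` is normal in `K` (`Q ⊴ H ≥ K`, `cj n Q ⊴ cj n H ≥ cj n K = K`), centralised by `x` and by `n x n⁻¹`, hence normalised by `H` and `cj n H`, so by `n`-conjugation trick / `base_core`-style argument `D = ⊥` (`H ⊔ cj n H = ⊤`, `D ≤ H`, core-free). Then `|Q|² = |Q · cj n Q| ≤ |K| = 2|Q|` (`QQ_card`), so `|Q| ≤ 2`, `|K| ≤ 4`.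
-/

namespace Cfsg.Agent.Lib.Helper81.Sims

open Subgroup

universe u

variable {G : Type u} [Group G] [Finite G] {H K : Subgroup G}

omit [Finite G] in
theorem socasea_mem_normalizer_of_cj_eq {X : Subgroup G} {g : G} (h : cj g X = X) :
    g ∈ normalizer (X : Set G) := by
  rw [mem_normalizer_iff]
  intro y
  constructor
  · intro hy
    have h1 := conj_mem_cj (c := g) hy
    rw [h] at h1
    exact h1
  · intro hy
    have h1 : g * y * g⁻¹ ∈ cj g X := by rw [h]; exact hy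
    rw [mem_cj] at h1
    have e : g⁻¹ * (g * y * g⁻¹) * g = y := by group
    rw [e] at h1
    exact h1

omit [Finite G] in
theorem socasea_cj_eq_of_comm {X : Subgroup G} {g : G} (h : ∀ y ∈ X, g * y = y * g) :
    cj g X = X := by
  ext y
  rw [mem_cj]
  constructor
  · intro hy
    have h1 := h _ hy
    have h3 : y * g = g⁻¹ * y * g * g := by
      rw [← h1]; group
    have h2 : g⁻¹ * y * g = y := (mul_right_cancel h3).symm
    rw [h2] at hy
    exact hy
  · intro hy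
    have h1 := h y hy
    have h2 : g⁻¹ * y * g = y := by
      rw [mul_assoc, ← h1, ← mul_assoc, inv_mul_cancel, one_mul]
    rw [h2]
    exact hy

omit [Finite G] in
theorem socasea_cj_QQ {h : G} (hh : h ∈ H) : cj h (QQ H K) = QQ H K := by
  ext y
  rw [mem_cj, mem_QQ, mem_QQ]
  constructor
  · intro hy a ha
    have h1 := hy (h⁻¹ * a) (H.mul_mem (H.inv_mem hh) ha)
    rw [mem_cj] at h1 ⊢
    have e : (h⁻¹ * a)⁻¹ * (h⁻¹ * y * h) * (h⁻¹ * a) = a⁻¹ * y * a := by group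
    rw [e] at h1
    exact h1
  · intro hy a ha
    have h1 := hy (h * a) (H.mul_mem hh ha)
    rw [mem_cj] at h1 ⊢
    have e : (h * a)⁻¹ * y * (h * a) = a⁻¹ * (h⁻¹ * y * h) * a := by group
    rw [e] at h1
    exact h1

theorem caseA (hB : Base H K) (hb : ¬ HB H K) : Nat.card K ≤ 4 := by
  -- an element of `H` centralising `Q`, not in `K`
  obtain ⟨x, hxH, hxc, hxK⟩ : ∃ x ∈ H, (∀ q ∈ QQ H K, x * q = q * x) ∧ x ∉ K := by
    unfold HB at hb
    push Not at hb
    obtain ⟨x, hxH, hxc, hxQ⟩ := hb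
    rw [mem_QQ] at hxQ
    push Not at hxQ
    obtain ⟨h, hh, hxh⟩ := hxQ
    rw [mem_cj] at hxh
    refine ⟨h⁻¹ * x * h, H.mul_mem (H.mul_mem (H.inv_mem hh) hxH) hh, ?_, hxh⟩
    intro q hq
    have hq' : h * q * h⁻¹ ∈ QQ H K := by
      have h0 := conj_mem_cj (c := h) hq
      rw [socasea_cj_QQ hh] at h0
      exact h0
    have h1 := hxc _ hq'
    calc h⁻¹ * x * h * q = h⁻¹ * (x * (h * q * h⁻¹)) * h := by group
      _ = h⁻¹ * ((h * q * h⁻¹) * x) * h := by rw [h1]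
      _ = q * (h⁻¹ * x * h) := by group
  obtain ⟨n, hn, hnH⟩ := hB.ex
  have hKn : cj n K = K := cj_eq_of_mem_normalizer hn
  have hQK : QQ H K ≤ K := by
    intro y hy
    have h0 := mem_QQ.1 hy 1 H.one_mem
    rw [cj_one] at h0
    exact h0
  have hnQK : cj n (QQ H K) ≤ K := (cj_mono hQK).trans hKn.le
  obtain ⟨D, hD⟩ : ∃ D : Subgroup G, D = QQ H K ⊓ cj n (QQ H K) := ⟨_, rfl⟩
  have hDQ : D ≤ QQ H K := by rw [hD]; exact inf_le_left
  have hDnQ : D ≤ cj n (QQ H K) := by rw [hD]; exact inf_le_right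
  have hDH : D ≤ H := hDQ.trans (hQK.trans hB.le)
  -- `K` normalises `D`
  have hKD : ∀ k ∈ K, cj k D = D := by
    intro k hk
    have h1 : cj k (QQ H K) = QQ H K := socasea_cj_QQ (hB.le hk)
    have h2 : cj k (cj n (QQ H K)) = cj n (QQ H K) := by
      have hk' : n⁻¹ * k * n ∈ K := by
        have h0 : k ∈ cj n K := by rw [hKn]; exact hk
        exact mem_cj.1 h0
      have e : k * n = n * (n⁻¹ * k * n) := by group
      rw [← cj_mul, e, cj_mul, socasea_cj_QQ (hB.le hk')]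
    rw [hD, cj_inf, h1, h2]
  -- `x` normalises `D`
  have hxD : cj x D = D := socasea_cj_eq_of_comm (fun y hy => hxc y (hDQ hy))
  -- `H` normalises `D`
  have hHD : ∀ h ∈ H, cj h D = D := by
    have hle : K ⊔ zpowers x ≤ normalizer (D : Set G) := by
      apply sup_le
      · intro k hk
        exact socasea_mem_normalizer_of_cj_eq (hKD k hk)
      · rw [zpowers_le]
        exact socasea_mem_normalizer_of_cj_eq hxD
    rw [gen_of_notMem hB hxH hxK] at hle
    intro h hh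
    exact cj_eq_of_mem_normalizer (hle hh)
  -- `t = n x n⁻¹` is not in `H` and normalises `D`
  have htH : n * x * n⁻¹ ∉ H := by
    intro ht
    have h1 : n * x * n⁻¹ ∈ H ⊓ cj n H := ⟨ht, conj_mem_cj hxH⟩
    rw [hB.inf n hn hnH] at h1
    have h2 : n * x * n⁻¹ ∈ cj n K := by rw [hKn]; exact h1
    rw [mem_cj] at h2
    have e : n⁻¹ * (n * x * n⁻¹) * n = x := by group
    rw [e] at h2
    exact hxK h2
  have htD : cj (n * x * n⁻¹) D = D := by
    apply socasea_cj_eq_of_comm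
    intro y hy
    have hy' : n⁻¹ * y * n ∈ QQ H K := mem_cj.1 (hDnQ hy)
    have h1 := hxc _ hy'
    calc n * x * n⁻¹ * y = n * (x * (n⁻¹ * y * n)) * n⁻¹ := by group
      _ = n * ((n⁻¹ * y * n) * x) * n⁻¹ := by rw [h1]
      _ = y * (n * x * n⁻¹) := by group
  have hDbot : D = ⊥ := base_core hB hDH hHD htH htD
  -- counting: `Q × n Q n⁻¹` embeds into `K`
  have hinj : Function.Injective (fun p : ↥(QQ H K) × ↥(cj n (QQ H K)) =>
      (⟨p.1.1 * p.2.1, K.mul_mem (hQK p.1.2) (hnQK p.2.2)⟩ : ↥K)) := by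
    rintro ⟨a, b⟩ ⟨a', b'⟩ hab
    have h1 : a.1 * b.1 = a'.1 * b'.1 := congrArg Subtype.val hab
    have h2 : a'.1⁻¹ * a.1 = b'.1 * b.1⁻¹ := by
      calc a'.1⁻¹ * a.1 = a'.1⁻¹ * (a.1 * b.1) * b.1⁻¹ := by group
        _ = a'.1⁻¹ * (a'.1 * b'.1) * b.1⁻¹ := by rw [h1]
        _ = b'.1 * b.1⁻¹ := by group
    have h3 : a'.1⁻¹ * a.1 ∈ D := by
      rw [hD]
      refine Subgroup.mem_inf.2 ⟨(QQ H K).mul_mem ((QQ H K).inv_mem a'.2) a.2, ?_⟩
      rw [h2]
      exact (cj n (QQ H K)).mul_mem b'.2 ((cj n (QQ H K)).inv_mem b.2)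
    rw [hDbot, Subgroup.mem_bot] at h3
    have h4 : a.1 = a'.1 := (inv_mul_eq_one.1 h3).symm
    have h5 : b.1 = b'.1 := by
      rw [h4] at h1
      exact mul_left_cancel h1
    exact Prod.ext (Subtype.ext h4) (Subtype.ext h5)
  have hle := Nat.card_le_card_of_injective _ hinj
  rw [Nat.card_prod, card_cj] at hle
  have hQc := QQ_card hB
  have hpos : 0 < Nat.card (QQ H K) := Nat.card_pos
  have hq2 : Nat.card (QQ H K) ≤ 2 := by
    rw [hQc] at hle
    exact Nat.le_of_mul_le_mul_right hle hpos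
  rw [hQc]
  omega

end Cfsg.Agent.Lib.Helper81.Sims
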