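import Cfsg.Agent.Lib.Helper81.SimsMid

/-!
# Sims' theorem, Part III (the odd case): definitions

`H` is a maximal core-free subgroup of `G`, `K ≤ H` a `2`-subgroup of index `3`, not normal in
`H`, and `N_G(K)/K` has odd order.  We fix the following subgroups of `G`:

* `OmZ K = Ω₁(Z(K))`;
* `QQ H K = ⋂ h K h⁻¹` (`h ∈ H`), the core of `K` in `H` (`= O₂(H)`);
* `VV H K = ⟨h Ω₁(Z(K)) h⁻¹ : h ∈ H⟩`;
* `CC H K = ⋂ h Ω₁(Z(K)) h⁻¹` (`h ∈ H`);
* `TT H K = [VV H K, K]`;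
* `Nb H K = H (N_G(K) ∖ H) H`, the elements `u` with `uH` "collinear" with `H`.
-/

namespace Cfsg.Agent.Lib.Helper81.Sims

open Subgroup

universe u

variable {G : Type u} [Group G]

/-- `Ω₁(Z(K))` as a subgroup of `G`: the central elements of `K` of order at most `2`. -/
def OmZ (K : Subgroup G) : Subgroup G where
  carrier := {x | x ∈ K ∧ (∀ y ∈ K, x * y = y * x) ∧ x * x = 1}
  one_mem' := ⟨K.one_mem, by simp, by simp⟩
  mul_mem' := by
    rintro a b ⟨ha, hac, ha2⟩ ⟨hb, hbc, hb2⟩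
    refine ⟨K.mul_mem ha hb, fun y hy => ?_, ?_⟩
    · rw [mul_assoc, hbc y hy, ← mul_assoc, hac y hy, mul_assoc]
    · have h1 : a * b = b * a := hac b hb
      calc a * b * (a * b) = a * (b * a) * b := by group
        _ = a * (a * b) * b := by rw [h1]
        _ = (a * a) * (b * b) := by group
        _ = 1 := by rw [ha2, hb2, one_mul]
  inv_mem' := by
    rintro a ⟨ha, hac, ha2⟩
    have hinv : a⁻¹ = a := inv_eq_of_mul_eq_one_left ha2
    rw [hinv]; exact ⟨ha, hac, ha2⟩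

theorem mem_OmZ {K : Subgroup G} {x : G} :
    x ∈ OmZ K ↔ x ∈ K ∧ (∀ y ∈ K, x * y = y * x) ∧ x * x = 1 := Iff.rfl

/-- The core of `K` in `H`. -/
def QQ (H K : Subgroup G) : Subgroup G := ⨅ h : H, cj (h : G) K

/-- The normal closure of `Ω₁(Z(K))` in `H`. -/
def VV (H K : Subgroup G) : Subgroup G := ⨆ h : H, cj (h : G) (OmZ K)

/-- The intersection of the `H`-conjugates of `Ω₁(Z(K))`. -/
def CC (H K : Subgroup G) : Subgroup G := ⨅ h : H, cj (h : G) (OmZ K)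

/-- The commutator `[V, K]`. -/
def TT (H K : Subgroup G) : Subgroup G := ⁅VV H K, K⁆

/-- The "neighbour elements": `u = a n b` with `a, b ∈ H`, `n ∈ N_G(K) ∖ H`. -/
def Nb (H K : Subgroup G) : Set G :=
  {u | ∃ a ∈ H, ∃ n ∈ normalizer (K : Set G), n ∉ H ∧ ∃ b ∈ H, u = a * n * b}

/-- The standing hypotheses of the odd case. -/
structure Base (H K : Subgroup G) : Prop where
  co : IsCoatom H
  core : H.normalCore = ⊥
  le : K ≤ H
  card : Nat.card H = 3 * Nat.card K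
  two : IsPGroup 2 K
  nn : ¬ H ≤ normalizer (K : Set G)
  inf : ∀ t : G, t ∈ normalizer (K : Set G) → t ∉ H → H ⊓ cj t H = K
  ex : ∃ n : G, n ∈ normalizer (K : Set G) ∧ n ∉ H
  odd : ∀ t : G, t ∈ normalizer (K : Set G) → t * t ∈ K → t ∈ K

/-- Hypothesis (3b): `C_H(Q) ≤ Q`. -/
def HB (H K : Subgroup G) : Prop :=
  ∀ x ∈ H, (∀ q ∈ QQ H K, x * q = q * x) → x ∈ QQ H K

/-- Hypothesis of Case 2: `V ≤ n Q n⁻¹` for all `n ∈ N_G(K) ∖ H`. -/
def HC2 (H K : Subgroup G) : Prop :=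
  ∀ n : G, n ∈ normalizer (K : Set G) → n ∉ H → VV H K ≤ cj n (QQ H K)

theorem mem_QQ {H K : Subgroup G} {x : G} : x ∈ QQ H K ↔ ∀ h ∈ H, x ∈ cj h K := by
  unfold QQ
  rw [Subgroup.mem_iInf]
  exact ⟨fun h a ha => h ⟨a, ha⟩, fun h a => h a a.2⟩

theorem mem_CC {H K : Subgroup G} {x : G} : x ∈ CC H K ↔ ∀ h ∈ H, x ∈ cj h (OmZ K) := by
  unfold CC
  rw [Subgroup.mem_iInf]
  exact ⟨fun h a ha => h ⟨a, ha⟩, fun h a => h a a.2⟩

theorem cj_le_VV {H K : Subgroup G} {h : G} (hh : h ∈ H) : cj h (OmZ K) ≤ VV H K :=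
  le_iSup (fun h : H => cj (h : G) (OmZ K)) ⟨h, hh⟩

theorem cj_one (K : Subgroup G) : cj 1 K = K := by
  ext x; rw [mem_cj]; simp

theorem cj_mul (a b : G) (K : Subgroup G) : cj (a * b) K = cj a (cj b K) := by
  ext x
  rw [mem_cj, mem_cj, mem_cj]
  have e : b⁻¹ * (a⁻¹ * x * a) * b = (a * b)⁻¹ * x * (a * b) := by group
  rw [e]

theorem cj_inv_cj (a : G) (K : Subgroup G) : cj a⁻¹ (cj a K) = K := by
  rw [← cj_mul, inv_mul_cancel, cj_one]

theorem cj_cj_inv (a : G) (K : Subgroup G) : cj a (cj a⁻¹ K) = K := by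
  rw [← cj_mul, mul_inv_cancel, cj_one]

theorem cj_inf (a : G) (K L : Subgroup G) : cj a (K ⊓ L) = cj a K ⊓ cj a L := by
  ext x
  simp only [mem_cj, Subgroup.mem_inf]

theorem cj_eq_self_of_mem {K : Subgroup G} {a : G} (ha : a ∈ K) : cj a K = K := by
  ext x
  rw [mem_cj]
  constructor
  · intro h
    have := K.mul_mem (K.mul_mem ha h) (K.inv_mem ha)
    have e : a * (a⁻¹ * x * a) * a⁻¹ = x := by group
    rw [e] at this; exact this
  · intro h
    exact K.mul_mem (K.mul_mem (K.inv_mem ha) h) ha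

theorem cj_eq_of_mem_normalizer {K : Subgroup G} {n : G} (hn : n ∈ normalizer (K : Set G)) :
    cj n K = K := by
  ext x
  rw [mem_cj]
  have h1 := mem_normalizer_iff.mp hn (n⁻¹ * x * n)
  have e : n * (n⁻¹ * x * n) * n⁻¹ = x := by group
  rw [e] at h1
  exact h1

end Cfsg.Agent.Lib.Helper81.Sims
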