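import Cfsg.Agent.Lib.Helper81.SimsODefs
import Cfsg.Agent.Lib.Helper81.SimsOCaseA
import Cfsg.Agent.Lib.Helper81.SimsOCase1Z
import Cfsg.Agent.Lib.Helper81.SimsOCase1K
import Cfsg.Agent.Lib.Helper81.SimsOCase2

/-!
# Sims, Part III: piece dd

Assembly of Part III (no sorry here).
-/

namespace Cfsg.Agent.Lib.Helper81.Sims

open Subgroup

universe u

variable {G : Type u} [Group G] [Finite G] {H K : Subgroup G}


theorem card_pow_of_le {K : Subgroup G} (h2 : IsPGroup 2 K) {m : ℕ} (hm : Nat.card K ≤ 2 ^ m) :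
    ∃ k : ℕ, k ≤ m ∧ Nat.card K = 2 ^ k := by
  obtain ⟨k, hk⟩ := IsPGroup.iff_card.mp h2
  refine ⟨k, ?_, hk⟩
  by_contra hlt
  push_neg at hlt
  have : 2 ^ m < 2 ^ k := Nat.pow_lt_pow_right (by norm_num) hlt
  omega

/-- The odd case, from the standing hypotheses `Base H K`. -/
theorem odd_of_base (hB : Base H K) : ∃ k : ℕ, k ≤ 4 ∧ Nat.card K = 2 ^ k := by
  by_cases hb : HB H K
  · by_cases hc : HC2 H K
    · exact (case2 hB hb hc).elim
    · unfold HC2 at hc
      push_neg at hc
      obtain ⟨n, hn, hnH, hV⟩ := hc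
      have h8 := case1_K hB hb hn hnH hV (case1_Z hB hb hn hnH hV)
      obtain ⟨k, hk, hk'⟩ := card_pow_of_le hB.two (m := 3) (by norm_num; exact h8)
      exact ⟨k, by omega, hk'⟩
  · have h4 := caseA hB hb
    obtain ⟨k, hk, hk'⟩ := card_pow_of_le hB.two (m := 2) (by norm_num; exact h4)
    exact ⟨k, by omega, hk'⟩

/-- Part III of Sims' theorem. -/
theorem odd_main : OddStmt.{u} := by
  intro G _ _ H c hco hcore hc hcard hN hodd
  have hB : Base H (H ⊓ cj c H) :=
    { co := hco
      core := hcore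
      le := inf_le_left
      card := hcard
      two := isPGroup_K hco hcore hc hcard
      nn := hN
      inf := fun t ht htH => inf_cj_eq hco hcore hcard ht htH
      ex := exists_mem_normalizer_notMem hco hcore hc hcard
      odd := hodd }
  exact odd_of_base hB

end Cfsg.Agent.Lib.Helper81.Sims
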